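import Mathlib
import Cfsg.Agent.Lib.KS71.UniTri

/-!
# The Bruhat decomposition of `SL_n(2)`

Every element of `SL_n(F₂)` is `u * P σ * u'` with `u, u'` upper unitriangular and `P σ` a
permutation matrix. We take `u'` minimizing the sum of the positions of the lowest nonzero
entries of the columns of `g * u'`.
-/

set_option autoImplicit false

namespace Cfsg.Agent.Lib.Classical.BruhatF2

open Matrix Cfsg.Agent.Lib.KS71.UniTri
open scoped Pointwise

variable {n : ℕ}

/-- The group `SL_n(2)`. -/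
abbrev S (n : ℕ) := Matrix.SpecialLinearGroup (Fin n) (ZMod 2)

/-- The unitriangular subgroup. -/
abbrev UU (n : ℕ) : Subgroup (S n) := U n (ZMod 2)

theorem zmod2_ne_zero {a : ZMod 2} (h : a ≠ 0) : a = 1 := by
  revert a
  decide

theorem zmod2_add_self (a : ZMod 2) : a + a = 0 := by
  revert a
  decide

/-- The permutation matrix of `σ`: column `c` has its `1` in row `σ c`. -/
def P (σ : Equiv.Perm (Fin n)) : S n :=
  ⟨(1 : Matrix (Fin n) (Fin n) (ZMod 2)).submatrix σ.symm id, by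
    rw [Matrix.det_permute]
    simp only [det_one, mul_one]
    rcases Int.units_eq_one_or (Equiv.Perm.sign σ.symm) with h | h
    · rw [h]
      simp
    · rw [h]
      decide⟩

theorem P_apply (σ : Equiv.Perm (Fin n)) (r c : Fin n) :
    (P σ : Matrix (Fin n) (Fin n) (ZMod 2)) r c = if σ.symm r = c then 1 else 0 := by
  show (1 : Matrix (Fin n) (Fin n) (ZMod 2)) (σ.symm r) c = _
  rw [Matrix.one_apply]

theorem mul_P_apply (A : Matrix (Fin n) (Fin n) (ZMod 2)) (σ : Equiv.Perm (Fin n)) (r j : Fin n) :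
    (A * (P σ : Matrix (Fin n) (Fin n) (ZMod 2))) r j = A r (σ j) := by
  rw [Matrix.mul_apply, Finset.sum_eq_single (σ j)]
  · rw [P_apply]
    simp
  · intro c _ hc
    rw [P_apply, if_neg, mul_zero]
    intro h
    apply hc
    rw [← h]
    simp
  · intro h
    exact absurd (Finset.mem_univ _) h

theorem P_mul_apply (A : Matrix (Fin n) (Fin n) (ZMod 2)) (σ : Equiv.Perm (Fin n)) (r c : Fin n) :
    ((P σ : Matrix (Fin n) (Fin n) (ZMod 2)) * A) r c = A (σ.symm r) c := by
  rw [Matrix.mul_apply, Finset.sum_eq_single (σ.symm r)]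
  · rw [P_apply]
    simp
  · intro k _ hk
    rw [P_apply, if_neg (Ne.symm hk), zero_mul]
  · intro h
    exact absurd (Finset.mem_univ _) h

theorem P_mul (σ τ : Equiv.Perm (Fin n)) : P σ * P τ = P (σ * τ) := by
  apply Subtype.ext
  refine Matrix.ext fun r c => ?_
  show ((P σ : Matrix (Fin n) (Fin n) (ZMod 2)) * (P τ : Matrix (Fin n) (Fin n) (ZMod 2))) r c = _
  rw [mul_P_apply, P_apply, P_apply]
  have : (σ * τ).symm r = τ.symm (σ.symm r) := rfl
  rw [this]
  by_cases h : σ.symm r = τ c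
  · rw [if_pos h, if_pos]
    rw [h]
    simp
  · rw [if_neg h, if_neg]
    intro h2
    apply h
    rw [← h2]
    simp

theorem P_one : P (1 : Equiv.Perm (Fin n)) = 1 := by
  apply Subtype.ext
  refine Matrix.ext fun r c => ?_
  rw [P_apply]
  show (if r = c then (1 : ZMod 2) else 0) = (1 : Matrix (Fin n) (Fin n) (ZMod 2)) r c
  rw [Matrix.one_apply]

theorem P_inv (σ : Equiv.Perm (Fin n)) : (P σ)⁻¹ = P σ⁻¹ := by
  apply inv_eq_of_mul_eq_one_right
  rw [P_mul, mul_inv_cancel, P_one]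

/-- Entries of a conjugate by a permutation matrix. -/
theorem conj_apply (y : S n) (σ : Equiv.Perm (Fin n)) (r c : Fin n) :
    ((P σ * y * (P σ)⁻¹ : S n) : Matrix (Fin n) (Fin n) (ZMod 2)) r c = (y : Matrix (Fin n) (Fin n) (ZMod 2)) (σ.symm r) (σ.symm c) := by
  rw [P_inv]
  show (((P σ : Matrix (Fin n) (Fin n) (ZMod 2)) * (y : Matrix (Fin n) (Fin n) (ZMod 2))) * (P σ⁻¹ : Matrix (Fin n) (Fin n) (ZMod 2))) r c = _
  rw [mul_P_apply, P_mul_apply]
  rfl

/-- The height of a column: one more than the position of the lowest nonzero entry. -/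
def piv (A : Matrix (Fin n) (Fin n) (ZMod 2)) (j : Fin n) : ℕ :=
  (Finset.univ.filter fun i => A i j ≠ 0).sup fun i => (i : ℕ) + 1

theorem piv_zero_of_lt {A : Matrix (Fin n) (Fin n) (ZMod 2)} {j i : Fin n} (h : piv A j ≤ i) :
    A i j = 0 := by
  by_contra h0
  have h1 : (i : ℕ) + 1 ≤ piv A j :=
    Finset.le_sup (f := fun i : Fin n => (i : ℕ) + 1) (Finset.mem_filter.mpr ⟨Finset.mem_univ _, h0⟩)
  omega

theorem piv_le {A : Matrix (Fin n) (Fin n) (ZMod 2)} {j : Fin n} {m : ℕ}
    (h : ∀ i : Fin n, A i j ≠ 0 → (i : ℕ) + 1 ≤ m) : piv A j ≤ m :=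
  Finset.sup_le fun i hi => h i (Finset.mem_filter.mp hi).2

/-- A nonzero column has a lowest entry. -/
theorem exists_piv {A : Matrix (Fin n) (Fin n) (ZMod 2)} {j : Fin n} (h : ∃ i, A i j ≠ 0) :
    ∃ i : Fin n, piv A j = (i : ℕ) + 1 ∧ A i j ≠ 0 := by
  have hne : (Finset.univ.filter fun i => A i j ≠ 0).Nonempty := by
    obtain ⟨i, hi⟩ := h
    exact ⟨i, Finset.mem_filter.mpr ⟨Finset.mem_univ _, hi⟩⟩
  obtain ⟨i, hi, hs⟩ := Finset.exists_mem_eq_sup _ hne (fun i : Fin n => (i : ℕ) + 1)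
  exact ⟨i, hs, (Finset.mem_filter.mp hi).2⟩

/-- The columns of an invertible matrix are nonzero. -/
theorem col_ne_zero (g : S n) (j : Fin n) : ∃ i, (g : Matrix (Fin n) (Fin n) (ZMod 2)) i j ≠ 0 := by
  by_contra h
  push Not at h
  have h1 : (g : Matrix (Fin n) (Fin n) (ZMod 2)).det = 0 :=
    Matrix.det_eq_zero_of_column_eq_zero j h
  have h2 := g.2
  rw [h1] at h2
  exact zero_ne_one h2

/-- The sum of heights. -/
def Phi (A : Matrix (Fin n) (Fin n) (ZMod 2)) : ℕ := ∑ j, piv A j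

theorem elem_mem {i j : Fin n} (hij : i < j) : elem (F := ZMod 2) hij ∈ UU n :=
  elem_ut hij

theorem mul_elem_apply (A : Matrix (Fin n) (Fin n) (ZMod 2)) {i j : Fin n} (hij : i < j) (r c : Fin n) :
    (A * (elem (F := ZMod 2) hij : Matrix (Fin n) (Fin n) (ZMod 2))) r c =
      A r c + (if c = j then A r i else 0) := by
  show (A * (1 + vecMulVec (Pi.single i 1) (Pi.single j 1) : Matrix (Fin n) (Fin n) (ZMod 2))) r c = _
  rw [Matrix.mul_add, Matrix.mul_one, Matrix.add_apply, Matrix.mul_vecMulVec, vecMulVec_apply,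
    Matrix.mulVec_single_one]
  by_cases h : c = j
  · subst h
    simp
  · simp [h]

/-- Minimal heights are distinct. -/
theorem piv_inj_of_min {h : S n} (hmin : ∀ u ∈ UU n, Phi (h : Matrix (Fin n) (Fin n) (ZMod 2)) ≤
    Phi ((h * u : S n) : Matrix (Fin n) (Fin n) (ZMod 2))) :
    Function.Injective (piv (h : Matrix (Fin n) (Fin n) (ZMod 2))) := by
  have key : ∀ j j' : Fin n, j < j' → piv (h : Matrix (Fin n) (Fin n) (ZMod 2)) j ≠ piv (h : Matrix (Fin n) (Fin n) (ZMod 2)) j' := by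
    intro j j' hjj' he
    have hm := hmin _ (elem_mem hjj')
    obtain ⟨i, hi, hi0⟩ := exists_piv (col_ne_zero h j)
    obtain ⟨i', hi', hi0'⟩ := exists_piv (col_ne_zero h j')
    have hii : i = i' := Fin.ext (by omega)
    subst hii
    have h1 : ∀ c, c ≠ j' → piv ((h * elem (F := ZMod 2) hjj' : S n) : Matrix (Fin n) (Fin n) (ZMod 2)) c = piv (h : Matrix (Fin n) (Fin n) (ZMod 2)) c := by
      intro c hc
      unfold piv
      congr 1
      ext r
      have : ((h * elem (F := ZMod 2) hjj' : S n) : Matrix (Fin n) (Fin n) (ZMod 2)) r c = (h : Matrix (Fin n) (Fin n) (ZMod 2)) r c := by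
        rw [Matrix.SpecialLinearGroup.coe_mul, mul_elem_apply, if_neg hc, add_zero]
      simp only [Finset.mem_filter, Finset.mem_univ, true_and, this]
    have h2 : piv ((h * elem (F := ZMod 2) hjj' : S n) : Matrix (Fin n) (Fin n) (ZMod 2)) j' ≤ i := by
      apply piv_le
      intro r hr
      rw [Matrix.SpecialLinearGroup.coe_mul, mul_elem_apply, if_pos rfl] at hr
      by_contra hlt
      have hr' : (i : ℕ) ≤ r := by omega
      rcases Nat.lt_or_ge (i : ℕ) r with h3 | h3
      · have h4 : (h : Matrix (Fin n) (Fin n) (ZMod 2)) r j' = 0 := piv_zero_of_lt (by omega)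
        have h5 : (h : Matrix (Fin n) (Fin n) (ZMod 2)) r j = 0 := piv_zero_of_lt (by omega)
        rw [h4, h5, add_zero] at hr
        exact hr rfl
      · have h6 : r = i := Fin.ext (by omega)
        subst h6
        rw [zmod2_ne_zero hi0, zmod2_ne_zero hi0'] at hr
        exact hr (by decide)
    have h3 : Phi ((h * elem (F := ZMod 2) hjj' : S n) : Matrix (Fin n) (Fin n) (ZMod 2)) <
        Phi (h : Matrix (Fin n) (Fin n) (ZMod 2)) := by
      apply Finset.sum_lt_sum
      · intro c _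
        by_cases hc : c = j'
        · subst hc
          rw [hi']
          omega
        · rw [h1 c hc]
      · exact ⟨j', Finset.mem_univ _, by rw [hi']; omega⟩
    omega
  intro j j' he
  rcases lt_trichotomy j j' with h1 | h1 | h1
  · exact absurd he (key _ _ h1)
  · exact h1
  · exact absurd he.symm (key _ _ h1)

/-- The Bruhat decomposition. -/
theorem bruhat (g : S n) : ∃ σ : Equiv.Perm (Fin n), ∃ u ∈ UU n, ∃ u' ∈ UU n, g = u * P σ * u' := by
  -- choose `u'` minimizing the heights of `g * u'`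
  obtain ⟨⟨u₀, hu₀⟩, hmin⟩ := Finite.exists_min (fun u : UU n =>
    Phi ((g * u : S n) : Matrix (Fin n) (Fin n) (ZMod 2)))
  set h := g * u₀ with hh
  have hmin' : ∀ u ∈ UU n, Phi (h : Matrix (Fin n) (Fin n) (ZMod 2)) ≤
      Phi ((h * u : S n) : Matrix (Fin n) (Fin n) (ZMod 2)) := by
    intro u hu
    have := hmin ⟨u₀ * u, mul_mem hu₀ hu⟩
    simpa [hh, mul_assoc] using this
  have hinj := piv_inj_of_min hmin'
  have hex : ∀ j, ∃ i : Fin n, piv (h : Matrix (Fin n) (Fin n) (ZMod 2)) j = (i : ℕ) + 1 ∧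
      (h : Matrix (Fin n) (Fin n) (ZMod 2)) i j ≠ 0 := fun j => exists_piv (col_ne_zero h j)
  choose τ hτ hτ' using hex
  have hτinj : Function.Injective τ := by
    intro j j' he
    apply hinj
    rw [hτ, hτ, he]
  let σ : Equiv.Perm (Fin n) := Equiv.ofBijective τ (Finite.injective_iff_bijective.mp hτinj)
  have hσ : ∀ j, σ j = τ j := fun j => rfl
  let u : S n := h * (P σ)⁻¹
  have hu_apply : ∀ r c, (u : Matrix (Fin n) (Fin n) (ZMod 2)) r c = (h : Matrix (Fin n) (Fin n) (ZMod 2)) r (σ.symm c) := by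
    intro r c
    show ((h * (P σ)⁻¹ : S n) : Matrix (Fin n) (Fin n) (ZMod 2)) r c = _
    rw [P_inv]
    show ((h : Matrix (Fin n) (Fin n) (ZMod 2)) * (P σ⁻¹ : Matrix (Fin n) (Fin n) (ZMod 2))) r c = _
    rw [mul_P_apply]
    rfl
  have hu : u ∈ UU n := by
    show IsUT (u : Matrix (Fin n) (Fin n) (ZMod 2))
    intro r c hcr
    rw [hu_apply]
    have h1 : (σ (σ.symm c)) = c := by simp
    have h2 : τ (σ.symm c) = c := h1
    have h3 := hτ (σ.symm c)
    rw [h2] at h3
    by_cases hrc : r = c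
    · subst hrc
      rw [if_pos rfl]
      have := hτ' (σ.symm r)
      rw [h2] at this
      exact zmod2_ne_zero this
    · rw [if_neg hrc]
      apply piv_zero_of_lt
      rw [h3]
      have : (c : ℕ) < r := by
        have h4 : c < r := lt_of_le_of_ne hcr (Ne.symm hrc)
        exact h4
      omega
  refine ⟨σ, u, hu, u₀⁻¹, inv_mem hu₀, ?_⟩
  have : u * P σ = h := by
    show h * (P σ)⁻¹ * P σ = h
    group
  rw [this, hh]
  group

/-- A strictly monotone permutation of `Fin n` is the identity. -/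
theorem eq_one_of_strictMono {σ : Equiv.Perm (Fin n)} (h : StrictMono σ) : σ = 1 := by
  have h1 : (σ : Fin n → Fin n) = id :=
    (StrictMono.range_inj h strictMono_id).mp (by
      rw [Set.range_id]
      exact σ.surjective.range_eq)
  ext i
  exact congrArg (fun f : Fin n → Fin n => (f i : ℕ)) h1

/-- A strictly decreasing permutation of `Fin n` is the reversal. -/
theorem eq_rev_of_strictAnti {σ : Equiv.Perm (Fin n)} (h : StrictAnti σ) : σ = Fin.revPerm := by
  have h1 : StrictMono (σ * (Fin.revPerm : Equiv.Perm (Fin n))) := by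
    intro i j hij
    apply h
    exact Fin.rev_lt_rev.mpr hij
  have h2 := eq_one_of_strictMono h1
  apply Equiv.ext
  intro i
  have h3 : (σ * (Fin.revPerm : Equiv.Perm (Fin n))) (Fin.rev i) = Fin.rev i := by
    rw [h2]
    rfl
  have h4 : (σ * (Fin.revPerm : Equiv.Perm (Fin n))) (Fin.rev i) = σ i := by
    simp [Equiv.Perm.mul_apply]
  rw [← h4, h3]
  rfl

/-- If the pair `i < j` is not inverted by `σ` the conjugate meets `U`: an explicit element. -/
theorem conj_elem_mem {σ : Equiv.Perm (Fin n)} {i j : Fin n} (hij : i < j) (hσ : σ i < σ j) :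
    (P σ)⁻¹ * elem (F := ZMod 2) hσ * P σ ∈ UU n := by
  show IsUT (((P σ)⁻¹ * elem (F := ZMod 2) hσ * P σ : S n) : Matrix (Fin n) (Fin n) (ZMod 2))
  have : (P σ)⁻¹ * elem (F := ZMod 2) hσ * P σ = P σ⁻¹ * elem (F := ZMod 2) hσ * (P σ⁻¹)⁻¹ := by
    rw [P_inv, P_inv, inv_inv]
  rw [this]
  intro r c hcr
  rw [conj_apply]
  have hs : σ⁻¹.symm = σ := rfl
  rw [hs]
  show (1 + vecMulVec (Pi.single (σ i) 1) (Pi.single (σ j) 1) : Matrix (Fin n) (Fin n) (ZMod 2)) (σ r) (σ c) = _
  rw [Matrix.add_apply, vecMulVec_apply, Matrix.one_apply]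
  have h1 : (Pi.single (σ i) (1 : ZMod 2) : Fin n → ZMod 2) (σ r) * (Pi.single (σ j) (1 : ZMod 2) : Fin n → ZMod 2) (σ c) = 0 := by
    by_cases hr : r = i
    · by_cases hc : c = j
      · subst hr hc
        exact absurd hij (not_lt.mpr hcr)
      · have : σ c ≠ σ j := fun h => hc (σ.injective h)
        simp [Pi.single_eq_of_ne this]
    · have : σ r ≠ σ i := fun h => hr (σ.injective h)
      simp [Pi.single_eq_of_ne this]
  rw [h1, add_zero]
  by_cases hrc : r = c
  · simp [hrc]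
  · rw [if_neg hrc, if_neg (fun h => hrc (σ.injective h))]

theorem elem_ne_one {i j : Fin n} (hij : i < j) : elem (F := ZMod 2) hij ≠ 1 := by
  intro h
  have h1 := congrArg (fun y : S n => (y : Matrix (Fin n) (Fin n) (ZMod 2)) i j) h
  have h2 : (1 + vecMulVec (Pi.single i 1) (Pi.single j 1) : Matrix (Fin n) (Fin n) (ZMod 2)) i j = (1 : Matrix (Fin n) (Fin n) (ZMod 2)) i j := h1
  rw [Matrix.add_apply, vecMulVec_apply, Matrix.one_apply_ne hij.ne] at h2
  simp at h2

/-- The unitriangular subgroup is self-normalizing. -/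
theorem mem_UU_of_normalizes {g : S n} (h : ∀ u ∈ UU n, g * u * g⁻¹ ∈ UU n) : g ∈ UU n := by
  obtain ⟨σ, u, hu, u', hu', rfl⟩ := bruhat g
  -- `P σ` normalizes `U`
  have hP : ∀ y ∈ UU n, P σ * y * (P σ)⁻¹ ∈ UU n := by
    intro y hy
    have h1 := h (u'⁻¹ * y * u') (mul_mem (mul_mem (inv_mem hu') hy) hu')
    have h2 : u⁻¹ * (u * P σ * u' * (u'⁻¹ * y * u') * (u * P σ * u')⁻¹) * u = P σ * y * (P σ)⁻¹ := by
      group
    rw [← h2]
    exact mul_mem (mul_mem (inv_mem hu) h1) hu
  have hmono : StrictMono σ := by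
    intro i j hij
    by_contra hlt
    have hle : σ j ≤ σ i := not_lt.mp hlt
    have h3 : IsUT ((P σ * elem (F := ZMod 2) hij * (P σ)⁻¹ : S n) : Matrix (Fin n) (Fin n) (ZMod 2)) :=
      hP _ (elem_mem hij)
    have h4 := h3 (σ i) (σ j) hle
    rw [conj_apply] at h4
    simp only [Equiv.symm_apply_apply] at h4
    have h5 : (1 + vecMulVec (Pi.single i 1) (Pi.single j 1) : Matrix (Fin n) (Fin n) (ZMod 2)) i j =
        if σ i = σ j then 1 else 0 := h4
    rw [Matrix.add_apply, vecMulVec_apply, Matrix.one_apply_ne hij.ne,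
      if_neg (fun h => hij.ne (σ.injective h))] at h5
    simp at h5
  rw [eq_one_of_strictMono hmono, P_one, mul_one]
  exact mul_mem hu hu'

theorem mem_conj {G : Type*} [Group G] (g y : G) (A : Subgroup G) :
    y ∈ MulAut.conj g • A ↔ g⁻¹ * y * g ∈ A := by
  rw [Subgroup.mem_pointwise_smul_iff_inv_smul_mem]
  have : (MulAut.conj g)⁻¹ • y = g⁻¹ * y * g := by
    simp [MulAut.smul_def]
  rw [this]

/-- The opposite unitriangular subgroup. -/
noncomputable def oppU (n : ℕ) : Subgroup (S n) := MulAut.conj (P (Fin.revPerm : Equiv.Perm (Fin n))) • UU n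

/-- If the conjugate of `U` by `g` meets `U` trivially then it is a `U`-conjugate of `U⁻`. -/
theorem exists_of_inf_eq_bot (g : S n) (h : UU n ⊓ MulAut.conj g • UU n = ⊥) :
    ∃ u : UU n, MulAut.conj g • UU n = MulAut.conj (u : S n) • oppU n := by
  obtain ⟨σ, u, hu, u', hu', rfl⟩ := bruhat g
  have hanti : StrictAnti σ := by
    intro i j hij
    by_contra hlt
    have hle : σ i ≤ σ j := not_lt.mp hlt
    have hlt' : σ i < σ j := lt_of_le_of_ne hle (fun h => hij.ne (σ.injective h))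
    -- an element of the intersection
    have hmem : u * elem (F := ZMod 2) hlt' * u⁻¹ ∈ UU n ⊓ MulAut.conj (u * P σ * u') • UU n := by
      refine Subgroup.mem_inf.mpr ⟨mul_mem (mul_mem hu (elem_mem hlt')) (inv_mem hu), ?_⟩
      rw [mem_conj]
      have h1 : (u * P σ * u')⁻¹ * (u * elem (F := ZMod 2) hlt' * u⁻¹) * (u * P σ * u') =
          u'⁻¹ * ((P σ)⁻¹ * elem (F := ZMod 2) hlt' * P σ) * u' := by
        group
      rw [h1]
      exact mul_mem (mul_mem (inv_mem hu') (conj_elem_mem hij hlt')) hu'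
    rw [h, Subgroup.mem_bot] at hmem
    apply elem_ne_one hlt'
    have h2 : elem (F := ZMod 2) hlt' = u⁻¹ * (u * elem (F := ZMod 2) hlt' * u⁻¹) * u := by group
    rw [h2, hmem]
    group
  have hrev := eq_rev_of_strictAnti hanti
  refine ⟨⟨u, hu⟩, ?_⟩
  ext y
  rw [oppU, mem_conj, mem_conj, mem_conj, hrev]
  have e1 : (u * P Fin.revPerm * u')⁻¹ * y * (u * P Fin.revPerm * u') =
      u'⁻¹ * ((P Fin.revPerm)⁻¹ * (u⁻¹ * y * u) * P Fin.revPerm) * u' := by group
  rw [e1]
  constructor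
  · intro h3
    have h4 := mul_mem (mul_mem hu' h3) (inv_mem hu')
    have h5 : u' * (u'⁻¹ * ((P Fin.revPerm)⁻¹ * (u⁻¹ * y * u) * P Fin.revPerm) * u') * u'⁻¹ = (P Fin.revPerm)⁻¹ * (u⁻¹ * y * u) * P Fin.revPerm := by group
    rwa [h5] at h4
  · intro h3
    exact mul_mem (mul_mem (inv_mem hu') h3) hu'

end Cfsg.Agent.Lib.Classical.BruhatF2
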