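import Mathlib

/-!
# Sylow 2-subgroups of a group with a normal subgroup of index two

Let `N` be a normal subgroup of index two of `G`, isomorphic to a group `S` with a self-normalizing
Sylow 2-subgroup `U`, such that the conjugates of `U` meeting `U` trivially are at most `|U|` many.
Then any two Sylow 2-subgroups of `G` meet nontrivially.
-/

set_option autoImplicit false

namespace Cfsg.Agent.Lib.Classical.IndexTwoSylow

open scoped Pointwise

variable {G S : Type*} [Group G] [Finite G] [Group S]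

omit [Finite G] in
theorem mem_conj {G : Type*} [Group G] (g y : G) (A : Subgroup G) :
    y ∈ MulAut.conj g • A ↔ g⁻¹ * y * g ∈ A := by
  rw [Subgroup.mem_pointwise_smul_iff_inv_smul_mem]
  have : (MulAut.conj g)⁻¹ • y = g⁻¹ * y * g := by
    simp [MulAut.smul_def]
  rw [this]

/-- The image of a subgroup in `S`. -/
def toS (N : Subgroup G) (e : N ≃* S) (A : Subgroup G) : Subgroup S :=
  (A.subgroupOf N).map e.toMonoidHom

omit [Finite G] in
theorem mem_toS (N : Subgroup G) (e : N ≃* S) (A : Subgroup G) (y : S) :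
    y ∈ toS N e A ↔ ((e.symm y : N) : G) ∈ A := by
  constructor
  · rintro ⟨a, ha, rfl⟩
    have h1 : e.symm (e.toMonoidHom a) = a := e.symm_apply_apply a
    rw [h1]
    exact ha
  · intro h
    exact ⟨e.symm y, h, by simp⟩

omit [Finite G] in
theorem card_toS (N : Subgroup G) (e : N ≃* S) (A : Subgroup G) (hA : A ≤ N) :
    Nat.card (toS N e A) = Nat.card A := by
  have h1 : Nat.card (toS N e A) = Nat.card (A.subgroupOf N) :=
    (Nat.card_congr (Subgroup.equivMapOfInjective _ _ e.injective).toEquiv).symm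
  rw [h1]
  exact Nat.card_congr (Subgroup.subgroupOfEquivOfLe hA).toEquiv

omit [Finite G] in
/-- The order of a subgroup in terms of its intersection with `N`. -/
theorem card_sub (N M : Subgroup G) :
    Nat.card M = Nat.card (M ⊓ N : Subgroup G) * N.relIndex M := by
  have h4 := (N.subgroupOf M).card_mul_index
  have h6 : Nat.card (N.subgroupOf M) = Nat.card (M ⊓ N : Subgroup G) :=
    Nat.card_congr
      { toFun := fun x => ⟨x.1.1, x.1.2, x.2⟩
        invFun := fun y => ⟨⟨y.1, y.2.1⟩, y.2.2⟩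
        left_inv := fun _ => rfl
        right_inv := fun _ => rfl }
  rw [h6] at h4
  exact h4.symm

section

variable (N : Subgroup G) [N.Normal] (hidx : N.index = 2)

include hidx

/-- The intersection of a Sylow 2-subgroup with `N` has index two in it. -/
theorem card_eq (K : Sylow 2 G) :
    Nat.card (K : Subgroup G) = Nat.card ((K : Subgroup G) ⊓ N : Subgroup G) * 2 := by
  have h1 : N.relIndex (K : Subgroup G) ∣ N.index := Subgroup.relIndex_dvd_index_of_normal N _
  rw [hidx] at h1
  have h2 : N.relIndex (K : Subgroup G) ≠ 1 := by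
    intro h
    have h3 : (K : Subgroup G) ≤ N := Subgroup.relIndex_eq_one.mp h
    have h4 : N.index ∣ (K : Subgroup G).index := Subgroup.index_dvd_of_le h3
    rw [hidx] at h4
    exact K.not_dvd_index h4
  have h3 : N.relIndex (K : Subgroup G) = 2 := by
    rcases (Nat.dvd_prime (by norm_num)).mp h1 with h | h
    · exact absurd h h2
    · exact h
  rw [card_sub N (K : Subgroup G), h3]

/-- The image of the intersection with `N` of a Sylow 2-subgroup is conjugate to `U`. -/
theorem toS_sylow (e : N ≃* S) (U : Subgroup S)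
    (hSyl : ∀ P : Sylow 2 S, ∃ g : S, (P : Subgroup S) = MulAut.conj g • U) (K : Sylow 2 G) :
    ∃ g : S, toS N e ((K : Subgroup G) ⊓ N) = MulAut.conj g • U := by
  have : Finite S := Finite.of_equiv _ e.toEquiv
  have hcard := card_toS N e ((K : Subgroup G) ⊓ N) inf_le_right
  have hp : IsPGroup 2 ((K : Subgroup G) ⊓ N : Subgroup G) := K.isPGroup'.to_inf_left
  obtain ⟨m, hm⟩ := IsPGroup.iff_card.mp hp
  have hP : IsPGroup 2 (toS N e ((K : Subgroup G) ⊓ N)) := IsPGroup.of_card (n := m) (by rw [hcard, hm])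
  have h1 := (toS N e ((K : Subgroup G) ⊓ N)).card_mul_index
  have h2 := (K : Subgroup G).card_mul_index
  have h3 := N.card_mul_index
  have h4 : Nat.card S = Nat.card N := (Nat.card_congr e.toEquiv).symm
  rw [hcard] at h1
  rw [card_eq N hidx K] at h2
  rw [hidx] at h3
  have hind : (toS N e ((K : Subgroup G) ⊓ N)).index = (K : Subgroup G).index := by
    have h5 : 0 < Nat.card ((K : Subgroup G) ⊓ N : Subgroup G) := Nat.card_pos
    apply Nat.eq_of_mul_eq_mul_left h5
    rw [h1, h4]
    have h6 : Nat.card ((K : Subgroup G) ⊓ N : Subgroup G) * (K : Subgroup G).index * 2 = Nat.card N * 2 := by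
      rw [h3, ← h2]
      ring
    omega
  have hnd : ¬ 2 ∣ (toS N e ((K : Subgroup G) ⊓ N)).index := by
    rw [hind]
    exact K.not_dvd_index
  obtain ⟨g, hg⟩ := hSyl (hP.toSylow hnd)
  exact ⟨g, hg⟩

/-- A Sylow 2-subgroup is the normalizer of its intersection with `N`. -/
theorem normalizer_eq (e : N ≃* S) (U : Subgroup S)
    (hSyl : ∀ P : Sylow 2 S, ∃ g : S, (P : Subgroup S) = MulAut.conj g • U)
    (hNorm : ∀ g : S, (∀ u ∈ U, g * u * g⁻¹ ∈ U) → g ∈ U) (K : Sylow 2 G) :
    Subgroup.normalizer (((K : Subgroup G) ⊓ N : Subgroup G) : Set G) = K := by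
  set R : Subgroup G := (K : Subgroup G) ⊓ N with hR
  have hle : (K : Subgroup G) ≤ Subgroup.normalizer (R : Set G) := by
    intro k hk
    rw [Subgroup.mem_normalizer_iff]
    intro y
    rw [hR, Subgroup.mem_inf, Subgroup.mem_inf]
    constructor
    · rintro ⟨h1, h2⟩
      exact ⟨mul_mem (mul_mem hk h1) (inv_mem hk), (inferInstance : N.Normal).conj_mem y h2 k⟩
    · rintro ⟨h1, h2⟩
      refine ⟨?_, ?_⟩
      · have := mul_mem (mul_mem (inv_mem hk) h1) hk
        simpa [mul_assoc] using this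
      · have := (inferInstance : N.Normal).conj_mem _ h2 k⁻¹
        simpa [mul_assoc] using this
  obtain ⟨g, hg⟩ := toS_sylow N hidx e U hSyl K
  have hinf : Subgroup.normalizer (R : Set G) ⊓ N ≤ R := by
    intro y hy
    obtain ⟨hy1, hy2⟩ := Subgroup.mem_inf.mp hy
    rw [Subgroup.mem_normalizer_iff] at hy1
    -- the image of `y` normalizes `toS R`
    let s : S := e ⟨y, hy2⟩
    have hs : ((e.symm s : N) : G) = y := by simp [s]
    have h1 : g⁻¹ * s * g ∈ U := by
      apply hNorm
      intro u hu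
      have hm : g * u * g⁻¹ ∈ toS N e R := by
        rw [hg, mem_conj]
        simpa [mul_assoc] using hu
      rw [mem_toS] at hm
      have hm2 := (hy1 _).mp hm
      have hm3 : s * (g * u * g⁻¹) * s⁻¹ ∈ toS N e R := by
        rw [mem_toS]
        have h5 : ((e.symm (s * (g * u * g⁻¹) * s⁻¹) : N) : G) =
            y * ((e.symm (g * u * g⁻¹) : N) : G) * y⁻¹ := by
          simp [s]
        rw [h5]
        exact hm2
      rw [hg, mem_conj] at hm3
      have h6 : g⁻¹ * s * g * u * (g⁻¹ * s * g)⁻¹ = g⁻¹ * (s * (g * u * g⁻¹) * s⁻¹) * g := by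
        group
      rw [h6]
      exact hm3
    have h2 : s ∈ toS N e R := by
      rw [hg, mem_conj]
      exact h1
    rw [mem_toS, hs] at h2
    exact h2
  apply le_antisymm _ hle
  have hcard : Nat.card (Subgroup.normalizer (R : Set G)) ≤ Nat.card (K : Subgroup G) := by
    rw [card_sub N (Subgroup.normalizer (R : Set G)), card_eq N hidx K]
    have h1 : N.relIndex (Subgroup.normalizer (R : Set G)) ∣ N.index :=
      Subgroup.relIndex_dvd_index_of_normal N _
    rw [hidx] at h1
    have h2 : N.relIndex (Subgroup.normalizer (R : Set G)) ≤ 2 := Nat.le_of_dvd (by norm_num) h1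
    exact Nat.mul_le_mul (Subgroup.card_le_of_le hinf) h2
  exact ge_of_eq (Subgroup.eq_of_le_of_card_ge hle hcard)

end

/-- The main theorem. -/
theorem main (N : Subgroup G) [N.Normal] (e : N ≃* S) (hidx : N.index = 2) (U : Subgroup S)
    (hSyl : ∀ P : Sylow 2 S, ∃ g : S, (P : Subgroup S) = MulAut.conj g • U)
    (hNorm : ∀ g : S, (∀ u ∈ U, g * u * g⁻¹ ∈ U) → g ∈ U)
    (f : U → Subgroup S)
    (hf : ∀ g : S, U ⊓ MulAut.conj g • U = ⊥ → ∃ t, MulAut.conj g • U = f t)
    (H : Sylow 2 G) (x : G) :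
    (H : Subgroup G) ⊓ MulAut.conj x • (H : Subgroup G) ≠ ⊥ := by
  intro hbot
  have : Finite S := Finite.of_equiv _ e.toEquiv
  obtain ⟨g₀, hg₀⟩ := toS_sylow N hidx e U hSyl H
  let K' : Sylow 2 G := x • H
  have hK' : (K' : Subgroup G) = MulAut.conj x • (H : Subgroup G) := Sylow.coe_subgroup_smul
  have hcoe : ∀ h : G, ((h • K' : Sylow 2 G) : Subgroup G) = MulAut.conj h • (K' : Subgroup G) :=
    fun h => Sylow.coe_subgroup_smul
  have hQ : ∀ h : (H : Subgroup G), ∃ t : U,
      toS N e (((h.1 • K' : Sylow 2 G) : Subgroup G) ⊓ N) = MulAut.conj g₀ • f t := by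
    intro h
    obtain ⟨g, hg⟩ := toS_sylow N hidx e U hSyl (h.1 • K')
    have hb : U ⊓ MulAut.conj (g₀⁻¹ * g) • U = ⊥ := by
      rw [eq_bot_iff]
      rintro y ⟨hy1, hy2⟩
      have hz1 : g₀ * y * g₀⁻¹ ∈ toS N e ((H : Subgroup G) ⊓ N) := by
        rw [hg₀, mem_conj]
        simpa [mul_assoc] using hy1
      have hz2 : g₀ * y * g₀⁻¹ ∈ toS N e (((h.1 • K' : Sylow 2 G) : Subgroup G) ⊓ N) := by
        rw [hg, mem_conj]
        have hy2' := (mem_conj _ _ _).mp hy2
        have : g⁻¹ * (g₀ * y * g₀⁻¹) * g = (g₀⁻¹ * g)⁻¹ * y * (g₀⁻¹ * g) := by group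
        rw [this]
        exact hy2'
      rw [mem_toS] at hz1 hz2
      set w : G := ((e.symm (g₀ * y * g₀⁻¹) : N) : G) with hw
      have hz3 : w ∈ MulAut.conj h.1 • (K' : Subgroup G) := by
        rw [← hcoe]
        exact hz2.1
      have hz4 := (mem_conj _ _ _).mp hz3
      have hz5 : h.1⁻¹ * w * h.1 ∈ (H : Subgroup G) ⊓ MulAut.conj x • (H : Subgroup G) := by
        refine Subgroup.mem_inf.mpr ⟨mul_mem (mul_mem (inv_mem h.2) hz1.1) h.2, ?_⟩
        rw [← hK']
        exact hz4
      rw [hbot, Subgroup.mem_bot] at hz5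
      have hw1 : w = 1 := by
        have : w = h.1 * (h.1⁻¹ * w * h.1) * h.1⁻¹ := by group
        rw [this, hz5]
        group
      have hw2 : e.symm (g₀ * y * g₀⁻¹) = 1 := Subtype.ext hw1
      have hw3 : g₀ * y * g₀⁻¹ = 1 := by
        have := congrArg e hw2
        simpa using this
      rw [Subgroup.mem_bot]
      have : y = g₀⁻¹ * (g₀ * y * g₀⁻¹) * g₀ := by group
      rw [this, hw3]
      group
    obtain ⟨t, ht⟩ := hf _ hb
    refine ⟨t, ?_⟩
    rw [hg, ← ht, ← mul_smul, ← map_mul]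
    simp
  choose t ht using hQ
  have hcard : Nat.card U < Nat.card (H : Subgroup G) := by
    have h1 := card_toS N e ((H : Subgroup G) ⊓ N) inf_le_right
    rw [hg₀, Nat.card_congr (Subgroup.equivSMul (MulAut.conj g₀) U).symm.toEquiv] at h1
    rw [card_eq N hidx H, ← h1]
    have h2 : 0 < Nat.card U := Nat.card_pos
    omega
  have hnotinj : ¬ Function.Injective t := fun hi =>
    absurd (Nat.card_le_card_of_injective t hi) (by omega)
  simp only [Function.Injective, not_forall] at hnotinj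
  obtain ⟨h₁, h₂, heq, hne⟩ := hnotinj
  have hinj : ∀ A B : Subgroup G, A ≤ N → B ≤ N → toS N e A = toS N e B → A = B := by
    intro A B hA hB hAB
    apply le_antisymm
    · intro y hy
      have h1 : e ⟨y, hA hy⟩ ∈ toS N e A := by
        rw [mem_toS]
        simpa using hy
      rw [hAB, mem_toS] at h1
      simpa using h1
    · intro y hy
      have h1 : e ⟨y, hB hy⟩ ∈ toS N e B := by
        rw [mem_toS]
        simpa using hy
      rw [← hAB, mem_toS] at h1
      simpa using h1
  have hR := hinj _ _ inf_le_right inf_le_right ((ht h₁).trans ((congrArg _ (congrArg _ heq)).trans (ht h₂).symm))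
  have hmemR : ∀ (h y : G), y ∈ (((h • K' : Sylow 2 G) : Subgroup G) ⊓ N : Subgroup G) ↔
      h⁻¹ * y * h ∈ ((K' : Subgroup G) ⊓ N : Subgroup G) := by
    intro h y
    rw [Subgroup.mem_inf, Subgroup.mem_inf, hcoe, mem_conj]
    apply and_congr_right
    intro _
    constructor
    · intro hy
      have := (inferInstance : N.Normal).conj_mem y hy h⁻¹
      simpa using this
    · intro hy
      have := (inferInstance : N.Normal).conj_mem _ hy h
      simpa [mul_assoc] using this
  have hnorm : h₂.1⁻¹ * h₁.1 ∈ Subgroup.normalizer (((K' : Subgroup G) ⊓ N : Subgroup G) : Set G) := by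
    rw [Subgroup.mem_normalizer_iff]
    intro y
    have h1 : h₁.1 * y * h₁.1⁻¹ ∈ (((h₁.1 • K' : Sylow 2 G) : Subgroup G) ⊓ N : Subgroup G) ↔ y ∈ ((K' : Subgroup G) ⊓ N : Subgroup G) := by
      rw [hmemR]
      have : h₁.1⁻¹ * (h₁.1 * y * h₁.1⁻¹) * h₁.1 = y := by group
      rw [this]
    rw [← h1, hR, hmemR]
    have : h₂.1⁻¹ * (h₁.1 * y * h₁.1⁻¹) * h₂.1 = h₂.1⁻¹ * h₁.1 * y * (h₂.1⁻¹ * h₁.1)⁻¹ := by group
    rw [this]
  rw [normalizer_eq N hidx e U hSyl hNorm K'] at hnorm
  have hfin : h₂.1⁻¹ * h₁.1 ∈ (H : Subgroup G) ⊓ MulAut.conj x • (H : Subgroup G) := by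
    refine Subgroup.mem_inf.mpr ⟨mul_mem (inv_mem h₂.2) h₁.2, ?_⟩
    rw [← hK']
    exact hnorm
  rw [hbot, Subgroup.mem_bot] at hfin
  apply hne
  apply Subtype.ext
  have : h₁.1 = h₂.1 * (h₂.1⁻¹ * h₁.1) := by group
  rw [this, hfin, mul_one]

end Cfsg.Agent.Lib.Classical.IndexTwoSylow
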