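/-
Field automorphisms of `Ω_{2m+1}(q)`, `q` odd.
-/
import Mathlib
import Cfsg.Agent.Lib.Classical.OmegaDesc

set_option autoImplicit false
set_option linter.unusedSimpArgs false
set_option linter.unusedSectionVars false
set_option linter.style.haveILetI false
set_option linter.unusedVariables false

namespace Cfsg.Agent.Lib.Classical.OmegaFieldOdd

open Module MulAction QuadraticMap Matrix Cfsg.Agent.Lib.Witt.Quadratic Cfsg.Agent.Lib.Orth.Refl
open Cfsg.Agent.Lib.Orth.Gen Cfsg.Agent.Lib.OrthRefl.Eichler Cfsg.Agent.Lib.Classical.QuadEichler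
open Cfsg.Agent.Lib.Classical.QuadEichSimple Cfsg.Agent.Lib.Classical.OmegaHP Cfsg.Agent.Lib.Classical.OmegaLocal
open Cfsg.Agent.Lib.Classical.OmegaRoot Cfsg.Agent.Lib.Classical.OmegaSemi Cfsg.Agent.Lib.Classical.OmegaConj
open Cfsg.Agent.Lib.Classical.OmegaBar Cfsg.Agent.Lib.Classical.OmegaAut Cfsg.Agent.Lib.Classical.OmegaCount
open Cfsg.Agent.Lib.Orth.Forms Cfsg.Agent.Lib.Classical.BinaryForms Cfsg.Agent.Lib.Classical.QuadEichBridge
open Cfsg.Agent.Lib.Classical.OmegaForms Cfsg.Agent.Lib.Classical.OmegaOut Cfsg.Agent.Lib.Orth.Bridge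
open Cfsg.Agent.Lib.Classical.MatrixBridge Cfsg.Agent.Lib.Classical.SympSimple
open Cfsg.Agent.Lib.Classical.OmegaPGO Cfsg.Agent.Lib.Classical.OmegaPGO2 Cfsg.Agent.Lib.Classical.OmegaFrob
open Cfsg.Agent.Lib.Classical.OmegaOutOdd Cfsg.Agent.Lib.KS71.Speiser Cfsg.Agent.Lib.Classical.OmegaDesc
open scoped commutatorElement

universe u

variable {F : Type u} [Field F] [Fintype F]

section general

variable {ι : Type} [Fintype ι] [DecidableEq ι] {Q : QuadraticForm F (ι → F)}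

/-- Elements of the image of the conformal group. -/
theorem mem_pgo_iff {β : MulAut (Cfsg.POmega F ⇑Q)} : β ∈ Cfsg.pgoAut F ⇑Q ↔ ∃ g : Hs ⇑Q, β = conjHom ⇑Q g := by
  rw [pgoAut_eq]
  constructor
  · rintro ⟨g, rfl⟩
    exact ⟨g, rfl⟩
  · rintro ⟨g, rfl⟩
    exact ⟨g, rfl⟩

variable [Nontrivial (ι → F)] (hQ : (polarBilin Q).Nondegenerate) (hn : 5 ≤ Fintype.card ι) (p : ℕ) [hp : Fact p.Prime] [hc : CharP F p]

include hQ hn p

theorem pgo_normal (hn7 : 7 ≤ Fintype.card ι) (h8 : NoSolid Q) (α' : MulAut (Cfsg.POmega F ⇑Q)) (h : MulAut (Cfsg.POmega F ⇑Q))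
    (hh : h ∈ Cfsg.pgoAut F ⇑Q) : α' * h * α'⁻¹ ∈ Cfsg.pgoAut F ⇑Q := by
  obtain ⟨g, rfl⟩ := mem_pgo_iff.1 hh
  obtain ⟨A, rfl⟩ := conjS_surjective hQ hn p hn7 h8 α'
  obtain ⟨g', -, hg'⟩ := conj_conjHom hQ hn A g
  rw [hg']
  exact mem_pgo_iff.2 ⟨g', rfl⟩

omit hn p in
theorem semi_toSemi_mul_coord (g : Hs ⇑Q) {σ : F ≃+* F} (hσ : ∀ x : ι → F, Q (fun i => σ (x i)) = σ (Q x)) :
    Semi Q (toSemi Q g * coordS σ hσ).1 σ (mult hQ g) :=
  ⟨fun c y => by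
    show g.1.val *ᵥ (coordEquiv σ (c • y)) = σ c • g.1.val *ᵥ (coordEquiv σ y)
    rw [(semiOfCoord σ hσ).smul, Matrix.mulVec_smul], fun y => by
    show Q (g.1.val *ᵥ (coordEquiv σ y)) = _
    rw [mult_spec hQ]
    exact congrArg _ (hσ y), (mult hQ g).ne_zero⟩

/-- The conjugacy statement for forms in odd dimension. -/
theorem main_conj_gen {m : ℕ} (hc1 : Fintype.card ι = 2 * m + 1) (hn7 : 7 ≤ Fintype.card ι) (h8 : NoSolid Q)
    (hcoord : ∀ (σ : F ≃+* F) (x : ι → F), Q (fun i => σ (x i)) = σ (Q x))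
    (x δ : MulAut (Cfsg.POmega F ⇑Q)) (hx : Cfsg.IsFieldAutClassPOmega ⇑Q x) {r : ℕ} (hxr : orderOf x = r)
    (hδ : δ ∈ Cfsg.pgoAut F ⇑Q) :
    orderOf (δ * x) = r ↔ Cfsg.IsConjUnder (Cfsg.pgoAut F ⇑Q) x (δ * x) := by
  constructor
  · intro hy
    have hord : (δ * x) ^ r = 1 := by
      rw [← hy]
      exact pow_orderOf_eq_one _
    obtain ⟨α, φ, σ, hσ, hφ, hα⟩ := hx
    have hφ' := eq_conjS_coord hQ hn σ (hcoord σ) hφ
    refine transport (Cfsg.pgoAut F ⇑Q) (pgo_normal hQ hn p hn7 h8) x δ α hδ ?_ hord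
    intro g' hg' hg'r
    obtain ⟨g, rfl⟩ := mem_pgo_iff.1 hg'
    have hα' : α * x * α⁻¹ = conjS hQ hn (coordS σ (hcoord σ)) := by
      rw [hα, hφ']
    rw [hα'] at hg'r ⊢
    have hσr : orderOf σ = r := by
      rw [← orderOf_conjS_coord hQ hn p σ (hcoord σ), ← hα', ← hxr]
      exact (MulAut.conj α).orderOf_eq x
    obtain ⟨h, hh⟩ := conj_core hQ hn p (semi_toSemi_mul_coord hQ g (hcoord σ)) (semiOfCoord σ (hcoord σ)) hσr (by
        rw [map_mul, conjS_toSemi]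
        exact hg'r) (coordS_pow_order (hcoord σ) hσr)
        (fun T' l' k k₀ b b₀ D D₀ _ _ _ => similarF_odd (descend_nondeg _ _ (twistForm_nondeg hQ k D.b_ne))
          (descend_nondeg _ _ (twistForm_nondeg hQ k₀ D₀.b_ne)) hc1)
    refine ⟨conjHom _ h, mem_pgo_iff.2 ⟨h, rfl⟩, ?_⟩
    rw [← hh, map_mul, conjS_toSemi]
  · rintro ⟨h, -, hh⟩
    rw [hh, ← hxr]
    exact (MulAut.conj h).orderOf_eq x

end general

section odd

variable (m : ℕ)

theorem card_odd : Fintype.card (Unit ⊕ (Fin m ⊕ Fin m)) = 2 * m + 1 := by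
  simp only [Fintype.card_sum, Fintype.card_unit, Fintype.card_fin]
  ring

theorem noSolid_odd : NoSolid (oddForm m F) := by
  intro W hW hdim
  exfalso
  have h1 := card_odd m
  rw [finrank_eq] at hdim
  omega

/-- The conjugacy statement for `Ω_{2m+1}(q)`. -/
theorem main_conj (hodd : Odd (Fintype.card F)) (hm : 3 ≤ m) (x δ : MulAut (Cfsg.POmega F (Cfsg.quadFormOdd m F)))
    (hx : Cfsg.IsFieldAutClassPOmega (Cfsg.quadFormOdd m F) x) {r : ℕ} (hr : r.Prime) (hxr : orderOf x = r)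
    (hδ : δ ∈ Cfsg.inndiagPOmegaOdd m F) :
    orderOf (δ * x) = r ↔ Cfsg.IsConjUnder (Cfsg.inndiagPOmegaOdd m F) x (δ * x) := by
  obtain ⟨p, hp, hc⟩ := OmegaPGO3.exists_char (F := F)
  have h2 : (2 : F) ≠ 0 := OmegaPGO3.two_ne hodd
  have hQ := oddForm_nondeg (F := F) m h2
  have hc1 := card_odd m
  have hn7 : 7 ≤ Fintype.card (Unit ⊕ (Fin m ⊕ Fin m)) := by omega
  have hn : 5 ≤ Fintype.card (Unit ⊕ (Fin m ⊕ Fin m)) := by omega
  have hfr : 7 ≤ finrank F (Unit ⊕ (Fin m ⊕ Fin m) → F) := by rw [finrank_eq]; exact hn7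
  haveI : Nontrivial (Unit ⊕ (Fin m ⊕ Fin m) → F) := Module.nontrivial_of_finrank_pos (R := F) (by omega)
  exact main_conj_gen (Q := oddForm m F) hQ hn p hc1 hn7 (noSolid_odd m) (coordStable_odd m) x δ hx hxr hδ

end odd

end Cfsg.Agent.Lib.Classical.OmegaFieldOdd
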