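/-
The centraliser of a standard field automorphism of `PΩ`.
-/
import Mathlib
import Cfsg.Agent.Lib.Classical.OmegaFieldOdd

set_option autoImplicit false
set_option linter.unusedSimpArgs false
set_option linter.unusedSectionVars false
set_option linter.style.haveILetI false
set_option linter.unusedVariables false

namespace Cfsg.Agent.Lib.Classical.OmegaCent

open Module MulAction QuadraticMap Matrix Cfsg.Agent.Lib.Witt.Quadratic Cfsg.Agent.Lib.Orth.Refl
open Cfsg.Agent.Lib.Orth.Gen Cfsg.Agent.Lib.OrthRefl.Eichler Cfsg.Agent.Lib.Classical.QuadEichler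
open Cfsg.Agent.Lib.Classical.QuadEichSimple Cfsg.Agent.Lib.Classical.OmegaHP Cfsg.Agent.Lib.Classical.OmegaLocal
open Cfsg.Agent.Lib.Classical.OmegaRoot Cfsg.Agent.Lib.Classical.OmegaSemi Cfsg.Agent.Lib.Classical.OmegaConj
open Cfsg.Agent.Lib.Classical.OmegaBar Cfsg.Agent.Lib.Classical.OmegaAut Cfsg.Agent.Lib.Classical.OmegaCount
open Cfsg.Agent.Lib.Orth.Forms Cfsg.Agent.Lib.Classical.BinaryForms Cfsg.Agent.Lib.Classical.QuadEichBridge
open Cfsg.Agent.Lib.Classical.OmegaForms Cfsg.Agent.Lib.Classical.OmegaOut Cfsg.Agent.Lib.Orth.Bridge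
open Cfsg.Agent.Lib.Classical.MatrixBridge Cfsg.Agent.Lib.Classical.SympSimple
open Cfsg.Agent.Lib.Classical.OmegaPGO Cfsg.Agent.Lib.Classical.OmegaPGO2 Cfsg.Agent.Lib.Classical.OmegaFrob
open Cfsg.Agent.Lib.Classical.OmegaOutOdd Cfsg.Agent.Lib.KS71.Speiser Cfsg.Agent.Lib.Classical.OmegaDesc
open Cfsg.Agent.Lib.Classical.OmegaFieldOdd
open scoped commutatorElement

universe u v

variable {F : Type u} [Field F] [Fintype F] {F₀ : Type v} [Field F₀] [Fintype F₀] {ι : Type} [Fintype ι] [DecidableEq ι]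
variable {Q : QuadraticForm F (ι → F)} {Q₀ : QuadraticForm F₀ (ι → F₀)}

section forms

variable (ε : F₀ →+* F)

/-- Mapping coordinates. -/
def mapV (y : ι → F₀) : ι → F := fun i => ε (y i)

@[simp] theorem mapV_apply (y : ι → F₀) (i : ι) : mapV ε y i = ε (y i) := rfl

theorem mapV_single (i : ι) (c : F₀) : mapV ε (Pi.single i c) = Pi.single i (ε c) := by
  ext j
  by_cases h : j = i
  · subst h
    simp
  · simp [h]

theorem mapV_add (x y : ι → F₀) : mapV ε (x + y) = mapV ε x + mapV ε y := by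
  ext i
  simp

theorem mapV_mulVec (M : Matrix ι ι F₀) (y : ι → F₀) : (M.map ε) *ᵥ (mapV ε y) = mapV ε (M *ᵥ y) := by
  ext i
  simp [Matrix.mulVec, dotProduct, map_sum]

/-- Two forms over `F` which agree on the vectors over `F₀` are equal. -/
theorem forms_eq_of_map (A B : QuadraticForm F (ι → F)) (h : ∀ x : ι → F₀, A (mapV ε x) = B (mapV ε x))
    (x : ι → F) : A x = B x := by
  have h1 : ∀ i, (A - B) (Pi.single i 1) = 0 := by
    intro i
    have := h (Pi.single i 1)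
    rw [mapV_single, map_one] at this
    show A _ - B _ = 0
    rw [this, sub_self]
  have h2 : ∀ i j, polar (A - B) (Pi.single i 1) (Pi.single j 1) = 0 := by
    intro i j
    have h3 := h (Pi.single i 1 + Pi.single j 1)
    rw [mapV_add, mapV_single, mapV_single, map_one] at h3
    have h4 := h1 i
    have h5 := h1 j
    show (A - B) _ - (A - B) _ - (A - B) _ = 0
    rw [h4, h5]
    show A _ - B _ - 0 - 0 = 0
    rw [h3]
    simp
  have := form_eq_zero (A - B) h1 h2 x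
  show A x = B x
  exact sub_eq_zero.1 this

end forms

section lift

variable (ε : F₀ →+* F) (hc : ∀ y : ι → F₀, Q (mapV ε y) = ε (Q₀ y))
include hc

/-- The lift of a similarity. -/
noncomputable def liftHs : Hs ⇑Q₀ →* Hs ⇑Q where
  toFun g := ⟨Matrix.GeneralLinearGroup.map ε g.1, by
    obtain ⟨c, hc'⟩ := g.2
    refine ⟨Units.map (ε : F₀ →* F) c, fun v => ?_⟩
    let A : QuadraticForm F (ι → F) := Q.comp (Matrix.toLin' (g.1.val.map ε))
    let B : QuadraticForm F (ι → F) := (ε (c : F₀)) • Q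
    exact forms_eq_of_map ε A B (fun y => by
      show Q ((g.1.val.map ε) *ᵥ mapV ε y) = ε (c : F₀) * Q (mapV ε y)
      rw [mapV_mulVec, hc, hc, hc', map_mul]) v⟩
  map_one' := Subtype.ext (map_one _)
  map_mul' a b := Subtype.ext (map_mul _ _ _)

theorem liftHs_val (g : Hs ⇑Q₀) : (liftHs ε hc g).1.val = g.1.val.map ε := rfl

end lift

section main

variable (ε : F₀ →+* F) (hc : ∀ y : ι → F₀, Q (mapV ε y) = ε (Q₀ y))
variable (σ : F ≃+* F) (hσ : ∀ x : ι → F, Q (fun i => σ (x i)) = σ (Q x)) (hε : ∀ x, σ x = x ↔ x ∈ Set.range ε)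

variable (hQ : (polarBilin Q).Nondegenerate) (hQ₀ : (polarBilin Q₀).Nondegenerate) (hn : 5 ≤ Fintype.card ι)
variable (p : ℕ) [hp : Fact p.Prime] [hcp : CharP F p] [hcp₀ : CharP F₀ p]
variable [Nontrivial (ι → F)] [Nontrivial (ι → F₀)]

include hε in
/-- A lifted similarity commutes with the field automorphism. -/
theorem lift_comm (g : Hs ⇑Q₀) : toSemi Q (liftHs ε hc g) * coordS σ hσ = coordS σ hσ * toSemi Q (liftHs ε hc g) := by
  apply Subtype.ext
  ext1 x
  rw [SemiEl.mul_apply, SemiEl.mul_apply, toSemi_apply, toSemi_apply, coordS_apply, coordS_apply, liftHs_val]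
  have h1 := map_mulVec_coord σ (g.1.val.map ε) x
  have h2 : (g.1.val.map ε).map σ = g.1.val.map ε := by
    ext i j
    exact (hε _).2 ⟨_, rfl⟩
  rw [h2] at h1
  exact h1

include hε hQ hn p hQ₀ in
/-- An element of the centraliser is a scalar multiple of a lift. -/
theorem exists_lift_of_comm (g : Hs ⇑Q) (hg : conjHom ⇑Q g * conjS hQ hn (coordS σ hσ) = conjS hQ hn (coordS σ hσ) * conjHom ⇑Q g) :
    ∃ (d : F) (g₀ : Hs ⇑Q₀), d ≠ 0 ∧ (liftHs ε hc g₀).1.val = d • g.1.val := by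
  classical
  set S := coordS σ hσ with hS
  set T := toSemi Q g with hT
  have h1 : conjS hQ hn (T * S * T⁻¹ * S⁻¹) = 1 := by
    rw [map_mul, map_mul, map_mul, map_inv, map_inv, hT, conjS_toSemi, hg]
    group
  obtain ⟨c, hc0, hcx⟩ := (conjS_eq_one_iff hQ hn p).1 h1
  have h2 : ∀ x, T.1 (S.1 x) = c • S.1 (T.1 x) := by
    intro x
    have h3 := hcx (S.1 (T.1 x))
    have h5 : T * S * T⁻¹ * S⁻¹ * (S * T) = T * S := by group
    have h4 : (T * S * T⁻¹ * S⁻¹ * (S * T)).1 x = (T * S).1 x := by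
      rw [h5]
    rw [← h3]
    exact h4.symm
  set M := g.1.val with hM
  have h3 : M = c • M.map σ := by
    apply Cfsg.Agent.Lib.Orth.Words.mat_eq_of_mulVec
    intro y
    obtain ⟨z, rfl⟩ := (coordEquiv (ι := ι) σ).surjective y
    have h5 := h2 z
    have e1 : coordEquiv (ι := ι) σ z = fun i => σ (z i) := rfl
    rw [e1, Matrix.smul_mulVec, map_mulVec_coord]
    exact h5
  have hdet : M.det ≠ 0 := by
    have : M.det = ((Matrix.GeneralLinearGroup.det g.1 : Fˣ) : F) := rfl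
    rw [this]
    exact Units.ne_zero _
  obtain ⟨i₀, j₀, ha⟩ : ∃ i j, M i j ≠ 0 := by
    by_contra hcon
    push Not at hcon
    apply hdet
    have hM0 : M = 0 := by
      ext i j
      exact hcon i j
    haveI : Nonempty ι := Fintype.card_pos_iff.1 (by omega)
    rw [hM0]
    exact Matrix.det_zero
  set a := M i₀ j₀ with ha'
  have hent : ∀ i j, M i j = c * σ (M i j) := fun i j => congrFun (congrFun h3 i) j
  have hfix : ∀ i j, σ (a⁻¹ * M i j) = a⁻¹ * M i j := by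
    intro i j
    have h5 := hent i₀ j₀
    have h6 := hent i j
    have h7 : σ a ≠ 0 := fun h => ha (σ.map_eq_zero_iff.1 h)
    rw [map_mul, map_inv₀]
    rw [← ha'] at h5
    have h8 : c ≠ 0 := hc0
    have e1 : σ a = a / c := by
      rw [eq_div_iff h8, mul_comm]
      exact h5.symm
    have e2 : σ (M i j) = M i j / c := by
      rw [eq_div_iff h8, mul_comm]
      exact h6.symm
    rw [e1, e2]
    field_simp
  -- the matrix over the subfield
  choose pre hpre using fun i j => (hε _).1 (hfix i j)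
  let M₀ : Matrix ι ι F₀ := Matrix.of pre
  have hmap : M₀.map ε = a⁻¹ • M := by
    ext i j
    exact hpre i j
  have hdet₀ : M₀.det ≠ 0 := by
    intro h0
    have h5 : (M₀.map ε).det = ε M₀.det := (RingHom.map_det ε M₀).symm
    rw [hmap, h0, map_zero, Matrix.det_smul] at h5
    exact (mul_ne_zero (pow_ne_zero _ (inv_ne_zero ha)) hdet) h5
  let g₁ : GL ι F₀ := Matrix.GeneralLinearGroup.mkOfDetNeZero M₀ hdet₀
  have hg₁ : g₁.val = M₀ := rfl
  set lam : F := a⁻¹ * a⁻¹ * (mult hQ g : F) with hlam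
  have hlam0 : lam ≠ 0 := mul_ne_zero (mul_ne_zero (inv_ne_zero ha) (inv_ne_zero ha)) (mult hQ g).ne_zero
  have hsim : ∀ y : ι → F₀, ε (Q₀ (M₀ *ᵥ y)) = lam * ε (Q₀ y) := by
    intro y
    rw [← hc, ← hc, ← mapV_mulVec, hmap, Matrix.smul_mulVec, QuadraticMap.map_smul, mult_spec hQ, hlam, smul_eq_mul]
    ring
  obtain ⟨y₀, hy₀⟩ := Cfsg.Agent.Lib.Orth.Closure.exists_nonsingular (Q := Q₀) hQ₀
  set l₀ : F₀ := Q₀ (M₀ *ᵥ y₀) / Q₀ y₀ with hl₀
  have hl₀' : ε l₀ = lam := by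
    have hne : ε (Q₀ y₀) ≠ 0 := fun h => hy₀ ((map_eq_zero ε).1 h)
    rw [hl₀, map_div₀, hsim]
    field_simp
  have hl₀0 : l₀ ≠ 0 := by
    intro h
    rw [h, map_zero] at hl₀'
    exact hlam0 hl₀'.symm
  have hmem : g₁ ∈ Hs ⇑Q₀ := ⟨Units.mk0 l₀ hl₀0, fun y => by
    apply ε.injective
    show ε (Q₀ (M₀ *ᵥ y)) = ε (l₀ * Q₀ y)
    rw [hsim, map_mul, hl₀']⟩
  refine ⟨a⁻¹, ⟨g₁, hmem⟩, inv_ne_zero ha, ?_⟩
  rw [liftHs_val]
  exact hmap

include hQ hn p hQ₀ hε in
/-- The kernel of the lifted action. -/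
theorem conjHom_lift_eq_one_iff (g : Hs ⇑Q₀) :
    conjHom ⇑Q (liftHs ε hc g) = 1 ↔ conjHom ⇑Q₀ g = 1 := by
  classical
  have hn₀ := hn
  rw [conjHom_eq_one_iff (p := p) hQ hn, conjHom_eq_one_iff (p := p) hQ₀ hn₀]
  have hne : Nonempty ι := Fintype.card_pos_iff.1 (by omega)
  obtain ⟨i₀⟩ := hne
  constructor
  · rintro ⟨c, hc0, h1⟩
    rw [liftHs_val] at h1
    have hent : ∀ i j, ε (g.1.val i j) = if i = j then c else 0 := by
      intro i j
      have := congrFun (congrFun h1 i) j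
      simp only [Matrix.map_apply, Matrix.smul_apply, Matrix.one_apply, smul_eq_mul] at this
      rw [this]
      split_ifs <;> simp
    refine ⟨g.1.val i₀ i₀, ?_, ?_⟩
    · intro h0
      have := hent i₀ i₀
      rw [h0, map_zero, if_pos rfl] at this
      exact hc0 this.symm
    · ext i j
      apply ε.injective
      rw [hent]
      simp only [Matrix.smul_apply, Matrix.one_apply, smul_eq_mul, map_mul, hent i₀ i₀, if_true]
      split_ifs <;> simp
  · rintro ⟨c, hc0, h1⟩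
    refine ⟨ε c, fun h => hc0 ((map_eq_zero ε).1 h), ?_⟩
    rw [liftHs_val, h1]
    ext i j
    simp only [Matrix.map_apply, Matrix.smul_apply, Matrix.one_apply, smul_eq_mul]
    split_ifs <;> simp

include hQ hn p hQ₀ hε in
/-- **The centraliser of a standard field automorphism.** -/
theorem cent_equiv (P : Subgroup (Hs ⇑Q)) (P₀ : Subgroup (Hs ⇑Q₀)) (hP : ∀ g, g ∈ P₀ ↔ liftHs ε hc g ∈ P)
    (hPs : ∀ (d : F) (hd : d ≠ 0) (g g' : Hs ⇑Q), g'.1.val = d • g.1.val → (g ∈ P ↔ g' ∈ P)) :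
    Nonempty (↥(P.map (conjHom ⇑Q) ⊓ Subgroup.centralizer {conjS hQ hn (coordS σ hσ)}) ≃* ↥(P₀.map (conjHom ⇑Q₀))) := by
  let Ψ₀ : P₀ →* MulAut (Cfsg.POmega F₀ ⇑Q₀) := (conjHom ⇑Q₀).comp P₀.subtype
  let Ψ : P₀ →* MulAut (Cfsg.POmega F ⇑Q) := (conjHom ⇑Q).comp ((liftHs ε hc).comp P₀.subtype)
  have hker : Ψ.ker = Ψ₀.ker := by
    ext g
    rw [MonoidHom.mem_ker, MonoidHom.mem_ker]
    exact conjHom_lift_eq_one_iff ε hc σ hε hQ hQ₀ hn p g.1
  have hr₀ : Ψ₀.range = P₀.map (conjHom ⇑Q₀) := by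
    rw [MonoidHom.range_comp, Subgroup.range_subtype]
  have hr : Ψ.range = P.map (conjHom ⇑Q) ⊓ Subgroup.centralizer {conjS hQ hn (coordS σ hσ)} := by
    ext β
    constructor
    · rintro ⟨⟨g, hg⟩, rfl⟩
      refine ⟨⟨liftHs ε hc g, (hP g).1 hg, rfl⟩, Subgroup.mem_centralizer_iff.2 ?_⟩
      rintro _ rfl
      show _ * conjHom ⇑Q (liftHs ε hc g) = conjHom ⇑Q (liftHs ε hc g) * _
      rw [← conjS_toSemi hQ hn, ← map_mul, ← map_mul, lift_comm ε hc σ hσ hε]
    · rintro ⟨⟨g, hg, rfl⟩, h2⟩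
      have h2' := Subgroup.mem_centralizer_iff.1 h2
      have h3 := (h2' _ rfl).symm
      obtain ⟨d, g₀, hd, hg₀⟩ := exists_lift_of_comm ε hc σ hσ hε hQ hQ₀ hn p g h3
      have hg₀P : g₀ ∈ P₀ := (hP g₀).2 ((hPs d hd g _ hg₀).1 hg)
      refine ⟨⟨g₀, hg₀P⟩, ?_⟩
      show conjHom ⇑Q (liftHs ε hc g₀) = conjHom ⇑Q g
      have h4 : conjHom ⇑Q ((liftHs ε hc g₀) * g⁻¹) = 1 := by
        rw [conjHom_eq_one_iff (p := p) hQ hn]
        refine ⟨d, hd, ?_⟩
        show ((liftHs ε hc g₀).1 * (g⁻¹ : Hs ⇑Q).1 : GL ι F).val = _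
        rw [Units.val_mul, hg₀, Matrix.smul_mul]
        congr 1
        rw [← Units.val_mul]
        have : g.1 * (g⁻¹ : Hs ⇑Q).1 = 1 := by
          rw [← Subgroup.coe_mul, mul_inv_cancel]
          rfl
        rw [this]
        rfl
      rw [map_mul, map_inv] at h4
      exact mul_inv_eq_one.1 h4
  rw [← hr, ← hr₀]
  exact ⟨(QuotientGroup.quotientKerEquivRange Ψ).symm.trans
    ((QuotientGroup.quotientMulEquivOfEq hker).trans (QuotientGroup.quotientKerEquivRange Ψ₀))⟩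

end main

end Cfsg.Agent.Lib.Classical.OmegaCent
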