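/-
Class counts for field automorphisms of `Ω`.
-/
import Mathlib
import Cfsg.Agent.Lib.Classical.OmegaCent
import Cfsg.Agent.Lib.KS71.PSLCent

set_option autoImplicit false
set_option linter.unusedSimpArgs false
set_option linter.unusedSectionVars false
set_option linter.style.haveILetI false
set_option linter.unusedVariables false

namespace Cfsg.Agent.Lib.Classical.OmegaFieldCount

open Module MulAction QuadraticMap Matrix Cfsg.Agent.Lib.Witt.Quadratic Cfsg.Agent.Lib.Orth.Refl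
open Cfsg.Agent.Lib.Orth.Gen Cfsg.Agent.Lib.OrthRefl.Eichler Cfsg.Agent.Lib.Classical.QuadEichler
open Cfsg.Agent.Lib.Classical.QuadEichSimple Cfsg.Agent.Lib.Classical.OmegaHP Cfsg.Agent.Lib.Classical.OmegaLocal
open Cfsg.Agent.Lib.Classical.OmegaRoot Cfsg.Agent.Lib.Classical.OmegaSemi Cfsg.Agent.Lib.Classical.OmegaConj
open Cfsg.Agent.Lib.Classical.OmegaBar Cfsg.Agent.Lib.Classical.OmegaAut Cfsg.Agent.Lib.Classical.OmegaCount
open Cfsg.Agent.Lib.Orth.Forms Cfsg.Agent.Lib.Classical.BinaryForms Cfsg.Agent.Lib.Classical.QuadEichBridge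
open Cfsg.Agent.Lib.Classical.OmegaForms Cfsg.Agent.Lib.Classical.OmegaOut Cfsg.Agent.Lib.Orth.Bridge
open Cfsg.Agent.Lib.Classical.MatrixBridge Cfsg.Agent.Lib.Classical.SympSimple
open Cfsg.Agent.Lib.Classical.OmegaPGO Cfsg.Agent.Lib.Classical.OmegaPGO2 Cfsg.Agent.Lib.Classical.OmegaFrob
open Cfsg.Agent.Lib.Classical.OmegaOutOdd Cfsg.Agent.Lib.KS71.Speiser Cfsg.Agent.Lib.Classical.OmegaDesc
open Cfsg.Agent.Lib.Classical.OmegaFieldOdd Cfsg.Agent.Lib.Classical.OmegaCent Cfsg.Agent.Lib.KS71.ClassSplit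
open scoped commutatorElement

universe u v

section abstract

variable {G₀ A : Type*} [Group G₀] [Group A]

/-- The class count as an index. -/
theorem split_index (π : G₀ →* A) (K : Subgroup A) (hK : K ≤ π.range) [hN : (K.comap π).Normal] (x : A) :
    Cfsg.splitClassCount π.range K x = ((Subgroup.centralizer {x}).comap π ⊔ K.comap π).index := by
  have h1 := split_count π (QuotientGroup.mk' (K.comap π)) (QuotientGroup.mk'_surjective _) x
  have h2 : (QuotientGroup.mk' (K.comap π)).ker.map π = K := by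
    rw [QuotientGroup.ker_mk', Subgroup.map_comap_eq]
    exact inf_eq_right.2 hK
  rw [h2] at h1
  rw [h1]
  show Subgroup.index _ = _
  rw [← Subgroup.index_comap_of_surjective _ (QuotientGroup.mk'_surjective (K.comap π)), Subgroup.comap_map_eq,
    QuotientGroup.ker_mk']

theorem split_eq_index_of_le (π : G₀ →* A) (K : Subgroup A) (hK : K ≤ π.range) [hN : (K.comap π).Normal] (x : A)
    (h : (Subgroup.centralizer {x}).comap π ≤ K.comap π) :
    Cfsg.splitClassCount π.range K x = (K.comap π).index := by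
  rw [split_index π K hK, sup_eq_right.2 h]

theorem split_one_of_not_le (π : G₀ →* A) (K : Subgroup A) (hK : K ≤ π.range) [hN : (K.comap π).Normal] (x : A)
    (h2 : (K.comap π).index = 2)
    (h : ¬ (Subgroup.centralizer {x}).comap π ≤ K.comap π) :
    Cfsg.splitClassCount π.range K x = 1 := by
  rw [split_index π K hK]
  set L := (Subgroup.centralizer {x}).comap π ⊔ K.comap π with hL
  have hle : K.comap π ≤ L := le_sup_right
  have h3 : L.index ∣ (K.comap π).index := Subgroup.index_dvd_of_le hle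
  rw [h2] at h3
  have h4 : L.index = 1 ∨ L.index = 2 := (Nat.dvd_prime Nat.prime_two).1 h3
  rcases h4 with h4 | h4
  · exact h4
  · exfalso
    apply h
    have h5 := Subgroup.relIndex_mul_index hle
    rw [h2, h4] at h5
    have h6 : (K.comap π).relIndex L = 1 := by omega
    have h7 := Subgroup.relIndex_eq_one.1 h6
    exact le_sup_left.trans h7

end abstract

section squares

variable {F : Type u} [Field F] [Fintype F] {F₀ : Type v} [Field F₀] [Fintype F₀]

theorem isSquare_of_quadratic (ε : F₀ →+* F) (h2 : (2 : F) ≠ 0) (hc : Fintype.card F = Fintype.card F₀ ^ 2) (a : F₀) :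
    IsSquare (ε a) := by
  classical
  by_cases ha : a = 0
  · rw [ha, map_zero]
    exact IsSquare.zero
  have hch : ringChar F ≠ 2 := by
    intro h
    apply h2
    have := ringChar.spec F 2
    exact_mod_cast this.2 (by rw [h])
  have ha' : ε a ≠ 0 := fun h => ha ((map_eq_zero ε).1 h)
  rw [FiniteField.isSquare_iff hch ha', ← map_pow]
  have hq : Odd (Fintype.card F₀) := by
    have h3 := FiniteField.odd_card_of_char_ne_two hch
    rw [hc] at h3
    exact Nat.Odd.of_mul_right (by rw [← pow_two]; exact Nat.odd_iff.2 h3)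
  obtain ⟨k, hk⟩ := hq
  have h5 : Fintype.card F / 2 = (Fintype.card F₀ - 1) * (k + 1) := by
    rw [hc, hk]
    have : (2 * k + 1) ^ 2 = 2 * ((2 * k + 1 - 1) * (k + 1)) + 1 := by
      have : 2 * k + 1 - 1 = 2 * k := by omega
      rw [this]
      ring
    rw [this]
    omega
  rw [h5, pow_mul, FiniteField.pow_card_sub_one_eq_one a ha, one_pow, map_one]

theorem not_isSquare_of_odd (ε : F₀ →+* F) (σ : F ≃+* F) (hε : ∀ x, σ x = x ↔ x ∈ Set.range ε) {r : ℕ} (hr : Odd r)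
    (hσr : σ ^ r = 1) (h2 : (2 : F) ≠ 0) {a : F₀} (ha0 : a ≠ 0) (ha : ¬ IsSquare a) : ¬ IsSquare (ε a) := by
  rintro ⟨b, hb⟩
  have hb0 : b ≠ 0 := by
    intro h
    rw [h, zero_mul] at hb
    exact ha0 ((map_eq_zero ε).1 hb)
  have h1 : σ (ε a) = ε a := (hε _).2 ⟨a, rfl⟩
  have h3 : (σ b - b) * (σ b + b) = 0 := by
    have : σ b * σ b = b * b := by
      rw [← map_mul, ← hb, h1]
    linear_combination this
  rcases mul_eq_zero.1 h3 with h4 | h4
  · obtain ⟨b₀, rfl⟩ := (hε b).1 (sub_eq_zero.1 h4)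
    apply ha
    refine ⟨b₀, ε.injective ?_⟩
    rw [hb, map_mul]
  · have h5 : σ b = -b := eq_neg_of_add_eq_zero_left h4
    have h6 : ∀ k : ℕ, (σ ^ k) b = (-1) ^ k * b := by
      intro k
      induction k with
      | zero => simp
      | succ k ih =>
        have e : (σ ^ (k + 1)) b = (σ ^ k) (σ b) := by
          rw [pow_succ]
          rfl
        rw [e, h5, map_neg, ih, pow_succ]
        ring
    have h7 := h6 r
    rw [hσr, hr.neg_one_pow] at h7
    have h8 : (2 : F) * b = 0 := by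
      have : b = -1 * b := h7
      linear_combination this
    exact (mul_ne_zero h2 hb0) h8

end squares

section word

variable {F : Type u} [Field F] [Fintype F] {ι : Type} [Fintype ι] [DecidableEq ι]
variable {Q : QuadraticForm F (ι → F)}

theorem neg_one_ne (h2 : (2 : F) ≠ 0) : (-1 : F) ≠ 1 := by
  intro h
  apply h2
  linear_combination -h

/-- The word as a subgroup element. -/
theorem word_isometry (vs : List (ι → F)) (hvs : ∀ v ∈ vs, Q v ≠ 0) :
    ∃ g : Cfsg.isometryGroup F ⇑Q, ((g : GL ι F) : Matrix ι ι F) = (vs.map (fun v => reflectionMatrix ⇑Q v)).prod := by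
  induction vs with
  | nil => exact ⟨1, by simp⟩
  | cons v vs ih =>
    obtain ⟨g, hg⟩ := ih (fun w hw => hvs w (by simp [hw]))
    refine ⟨Cfsg.Agent.Lib.Orth.Closure.reflEl Q v * g, ?_⟩
    simp only [List.map_cons, List.prod_cons]
    rw [← hg, ← Cfsg.Agent.Lib.Orth.Closure.reflEl_val]
    rfl

variable [Nontrivial (ι → F)] (hQ : (polarBilin Q).Nondegenerate) (hn : 5 ≤ Fintype.card ι) (p : ℕ) [hp : Fact p.Prime] [hc : CharP F p]

include hQ in
/-- Every similarity in odd dimension is a scalar times an even word in reflections. -/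
theorem exists_scalar_word (h2 : (2 : F) ≠ 0) (hodd : Odd (Fintype.card ι)) (g : Hs ⇑Q) :
    ∃ (c : Fˣ) (vs : List (ι → F)), (∀ v ∈ vs, Q v ≠ 0) ∧ Even vs.length ∧
      g.1.val = (c : F) • (vs.map (fun v => reflectionMatrix ⇑Q v)).prod := by
  classical
  obtain ⟨k, hk⟩ := hodd
  set μ := mult hQ g with hμ
  have hd := det_sq_of_sim hQ g.1.val (μ : F) (fun v => mult_spec hQ g v)
  set d : Fˣ := Matrix.GeneralLinearGroup.det g.1 with hd'
  have hdd : (d : F) = g.1.val.det := rfl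
  -- a square root of the multiplier
  set c₁ : Fˣ := d * (μ ^ k)⁻¹ with hc₁
  have hc₁2 : c₁ * c₁ = μ := by
    apply Units.ext
    rw [Units.val_mul, hc₁, Units.val_mul, Units.val_inv_eq_inv_val, Units.val_pow_eq_pow_val, hdd]
    have hμ0 : (μ : F) ≠ 0 := μ.ne_zero
    have e : g.1.val.det * g.1.val.det = (μ : F) ^ (2 * k + 1) := by
      rw [← hk, ← hd]
    field_simp
    rw [pow_two, e]
    ring
  have hsign : ∃ c : Fˣ, c * c = μ ∧ (Matrix.GeneralLinearGroup.det g.1) = c ^ (2 * k + 1) := by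
    have hneg : (-c₁) * (-c₁) = μ := by
      rw [neg_mul_neg, hc₁2]
    have hpow : c₁ ^ (2 * k + 1) = μ ^ k * c₁ := by
      rw [pow_succ, pow_mul, pow_two, hc₁2]
    have hd2 : d * d = c₁ ^ (2 * k + 1) * c₁ ^ (2 * k + 1) := by
      apply Units.ext
      rw [Units.val_mul, hdd]
      have e : g.1.val.det * g.1.val.det = (μ : F) ^ (2 * k + 1) := by
        rw [← hk, ← hd]
      rw [e, ← Units.val_pow_eq_pow_val, ← mul_pow, hc₁2]
    have h3 : d = c₁ ^ (2 * k + 1) ∨ d = -(c₁ ^ (2 * k + 1)) := by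
      have h4 : ((d : F) - ((c₁ ^ (2 * k + 1) : Fˣ) : F)) * ((d : F) + ((c₁ ^ (2 * k + 1) : Fˣ) : F)) = 0 := by
        have := congrArg Units.val hd2
        simp only [Units.val_mul] at this
        linear_combination this
      rcases mul_eq_zero.1 h4 with h5 | h5
      · left
        exact Units.ext (sub_eq_zero.1 h5)
      · right
        apply Units.ext
        rw [Units.val_neg]
        exact eq_neg_of_add_eq_zero_left h5
    rcases h3 with h3 | h3
    · exact ⟨c₁, hc₁2, h3⟩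
    · refine ⟨-c₁, hneg, ?_⟩
      show d = _
      rw [h3, Odd.neg_pow ⟨k, rfl⟩]
  obtain ⟨c, hc2, hcd⟩ := hsign
  -- the isometry
  let h : Hs ⇑Q := (scH c)⁻¹ * g
  have hker : h ∈ (mult hQ).ker := by
    rw [MonoidHom.mem_ker, map_mul, map_inv, mult_scH, hc2]
    exact inv_mul_cancel _
  have hiso : h.1 ∈ Cfsg.isometryGroup F ⇑Q := (mem_ker_mult hQ).1 hker
  have hcard : Fintype.card F ≠ 2 ∨ Fintype.card ι ≠ 4 := Or.inl (Cfsg.Agent.Lib.Orth.Closure.card_ne_two_of_two_ne h2)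
  obtain ⟨vs, hvs, hvs2⟩ := Cfsg.Agent.Lib.Orth.Closure.exists_word Q hQ hcard ⟨h.1, hiso⟩
  have hval : (h.1 : GL ι F).val = (vs.map (fun v => reflectionMatrix ⇑Q v)).prod := by
    have := Cfsg.Agent.Lib.Orth.Closure.word_val Q vs
    rw [← this, ← hvs2]
  have hdeth : ((h.1 : GL ι F).val).det = 1 := by
    have e1 : (scH c : Hs ⇑Q) * h = g := by
      simp [h]
    have e2 : ((g.1 : GL ι F).val).det = (c : F) ^ (2 * k + 1) * ((h.1 : GL ι F).val).det := by
      rw [← e1]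
      show (((scH c : Hs ⇑Q).1 * h.1 : GL ι F).val).det = _
      rw [Units.val_mul, Matrix.det_mul, scH_val, Matrix.det_smul, Matrix.det_one, mul_one, hk]
    have e3 : ((g.1 : GL ι F).val).det = (c : F) ^ (2 * k + 1) := by
      have := congrArg Units.val hcd
      rw [Units.val_pow_eq_pow_val] at this
      exact this
    rw [e3] at e2
    have h0 : (c : F) ^ (2 * k + 1) ≠ 0 := pow_ne_zero _ c.ne_zero
    exact (mul_eq_left₀ h0).1 e2.symm
  refine ⟨c, vs, hvs, ?_, ?_⟩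
  · have h3 := Cfsg.Agent.Lib.Orth.Closure.det_word Q vs hvs
    rw [← hval, hdeth] at h3
    by_contra hne
    rw [Nat.not_even_iff_odd] at hne
    rw [hne.neg_one_pow] at h3
    exact neg_one_ne h2 h3.symm
  · rw [← hval]
    have e1 : (scH c : Hs ⇑Q) * h = g := by
      simp [h]
    rw [← e1]
    show (((scH c : Hs ⇑Q).1 * h.1 : GL ι F).val) = _
    rw [Units.val_mul, scH_val, Matrix.smul_mul, Matrix.one_mul]

include hQ hn p in
/-- In odd dimension, membership in the `Ω`-part is detected by the spinor norm of the word. -/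
theorem mem_comap_inn_iff (h2 : (2 : F) ≠ 0) (hodd : Odd (Fintype.card ι)) (g : Hs ⇑Q) (c : Fˣ) (vs : List (ι → F))
    (hvs : ∀ v ∈ vs, Q v ≠ 0) (hev : Even vs.length)
    (hg : g.1.val = (c : F) • (vs.map (fun v => reflectionMatrix ⇑Q v)).prod) :
    conjHom ⇑Q g ∈ Cfsg.Inn (Cfsg.POmega F ⇑Q) ↔ IsSquare (vs.map (fun v => Q v)).prod := by
  classical
  have hcard : Fintype.card F ≠ 2 ∨ Fintype.card ι ≠ 4 := Or.inl (Cfsg.Agent.Lib.Orth.Closure.card_ne_two_of_two_ne h2)
  obtain ⟨W, hW⟩ := word_isometry (Q := Q) vs hvs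
  have hmem := Cfsg.Agent.Lib.Orth.Bridge.word_mem_Omega_iff Q hQ hcard W vs hvs hW
  rw [inn_eq]
  constructor
  · rintro ⟨y, ⟨s, rfl⟩, hy⟩
    -- `y` is the image of an element of `Ω`
    have h1 : conjHom ⇑Q (g * (omegaToHs s)⁻¹) = 1 := by
      rw [map_mul, map_inv]
      exact mul_inv_eq_one.2 hy.symm
    obtain ⟨d, hd0, hd⟩ := (conjHom_eq_one_iff (p := p) hQ hn _).1 h1
    have h3 : g.1.val = d • (s.1.1 : GL ι F).val := by
      have e : g * (omegaToHs s)⁻¹ * omegaToHs s = g := by group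
      rw [← e]
      show ((g * (omegaToHs s)⁻¹ : Hs ⇑Q).1 * (omegaToHs s).1 : GL ι F).val = _
      rw [Units.val_mul, hd, Matrix.smul_mul, Matrix.one_mul]
      rfl
    -- comparing
    have h4 : (W : GL ι F).val = ((c : F)⁻¹ * d) • (s.1.1 : GL ι F).val := by
      rw [hW, mul_smul, ← h3, hg, smul_smul, inv_mul_cancel₀ c.ne_zero, one_smul]
    set e : F := (c : F)⁻¹ * d with he
    have he0 : e ≠ 0 := mul_ne_zero (inv_ne_zero c.ne_zero) hd0
    have hsq : e * e = 1 := by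
      obtain ⟨v, hv⟩ := Cfsg.Agent.Lib.Orth.Closure.exists_nonsingular (Q := Q) hQ
      have h5 := (mem_isometryGroup_iff _ _).1 W.2 v
      rw [h4, Matrix.smul_mulVec, QuadraticMap.map_smul, smul_eq_mul,
        (mem_isometryGroup_iff _ _).1 s.1.2 v] at h5
      exact mul_right_cancel₀ hv (by rw [h5, one_mul])
    have hdetW : (W : GL ι F).val.det = 1 := by
      rw [hW, Cfsg.Agent.Lib.Orth.Closure.det_word Q vs hvs, hev.neg_one_pow]
    have hdets : (s.1.1 : GL ι F).val.det = 1 := by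
      have := omH_le_soH hQ (⟨s, rfl⟩ : omegaToHs s ∈ omH ⇑Q)
      have h6 : Matrix.GeneralLinearGroup.det (omegaToHs s).1 = 1 := this.2
      exact congrArg Units.val h6
    have he1 : e = 1 := by
      obtain ⟨k, hk⟩ := hodd
      have h5 := hdetW
      rw [h4, Matrix.det_smul, hdets, mul_one, hk, pow_succ, pow_mul, pow_two, hsq, one_pow, one_mul] at h5
      exact h5
    have hWs : W = s.1 := by
      apply Subtype.ext
      apply Units.ext
      rw [h4, he1, one_smul]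
    have hWO : W ∈ Cfsg.Omega F ⇑Q := by
      rw [hWs]
      exact s.2
    exact (hmem.1 hWO).2
  · intro hsq
    have hWO : W ∈ Cfsg.Omega F ⇑Q := hmem.2 ⟨hev, hsq⟩
    refine ⟨omegaToHs ⟨W, hWO⟩, ⟨⟨W, hWO⟩, rfl⟩, ?_⟩
    have h1 : conjHom ⇑Q (g * (omegaToHs ⟨W, hWO⟩)⁻¹) = 1 := by
      apply (conjHom_eq_one_iff (p := p) hQ hn _).2
      refine ⟨c, c.ne_zero, ?_⟩
      have e : (omegaToHs ⟨W, hWO⟩) * (omegaToHs ⟨W, hWO⟩)⁻¹ = 1 := mul_inv_cancel _
      have e2 : (g * (omegaToHs ⟨W, hWO⟩)⁻¹ : Hs ⇑Q).1 = g.1 * ((omegaToHs ⟨W, hWO⟩)⁻¹ : Hs ⇑Q).1 := rfl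
      rw [e2, Units.val_mul, hg, ← hW, Matrix.smul_mul]
      congr 1
      have e3 : ((omegaToHs ⟨W, hWO⟩ : Hs ⇑Q).1 : GL ι F).val = (W : GL ι F).val := rfl
      rw [← e3, ← Units.val_mul]
      have e4 : (omegaToHs ⟨W, hWO⟩ : Hs ⇑Q).1 * ((omegaToHs ⟨W, hWO⟩)⁻¹ : Hs ⇑Q).1 = 1 := by
        rw [← Subgroup.coe_mul, e]
        rfl
      rw [e4]
      rfl
    rw [map_mul, map_inv] at h1
    exact (mul_inv_eq_one.1 h1).symm

end word

section index

variable {F : Type u} [Field F] [Fintype F] {ι : Type} [Fintype ι] [DecidableEq ι]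
variable {Q : QuadraticForm F (ι → F)}
variable [Nontrivial (ι → F)] (hQ : (polarBilin Q).Nondegenerate) (hn : 5 ≤ Fintype.card ι) (p : ℕ) [hp : Fact p.Prime] [hc : CharP F p]

instance normal_comap_inn : ((Cfsg.Inn (Cfsg.POmega F ⇑Q)).comap (conjHom ⇑Q)).Normal := by
  have : (Cfsg.Inn (Cfsg.POmega F ⇑Q)).Normal := by
    constructor
    rintro n hn g
    obtain ⟨y, rfl⟩ := hn
    exact ⟨g y, by
      ext z
      simp [MulAut.conj_apply]⟩
  exact Subgroup.normal_comap _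

/-- A word as a similarity. -/
noncomputable def wordH (Q : QuadraticForm F (ι → F)) (vs : List (ι → F)) : Hs ⇑Q := (vs.map (reflH Q)).prod

omit [Nontrivial (ι → F)] in
theorem wordH_val (vs : List (ι → F)) : (wordH Q vs).1.val = (vs.map (fun v => reflectionMatrix ⇑Q v)).prod := by
  induction vs with
  | nil => rfl
  | cons v vs ih =>
    simp only [wordH, List.map_cons, List.prod_cons] at ih ⊢
    show ((reflH Q v).1 * (vs.map (reflH Q)).prod.1 : GL ι F).val = _
    rw [Units.val_mul, ih]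
    congr 1
    exact Cfsg.Agent.Lib.Orth.Closure.reflEl_val Q v

include hQ hn p in
/-- In odd dimension, the image of `Ω` has index two in the image of the conformal group. -/
theorem index_comap_inn_odd (h2 : (2 : F) ≠ 0) (hodd : Odd (Fintype.card ι)) :
    ((Cfsg.Inn (Cfsg.POmega F ⇑Q)).comap (conjHom ⇑Q)).index = 2 := by
  classical
  have hch : ringChar F ≠ 2 := by
    intro h
    apply h2
    have := ringChar.spec F 2
    exact_mod_cast this.2 (by rw [h])
  obtain ⟨δ, hδ⟩ := FiniteField.exists_nonsquare hch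
  have hδ0 : δ ≠ 0 := by
    rintro rfl
    exact hδ IsSquare.zero
  have hfr : 2 ≤ finrank F (ι → F) := by
    rw [finrank_eq]
    omega
  obtain ⟨v, hv⟩ := Cfsg.Agent.Lib.Orth.Closure.exists_Q_eq (Q := Q) h2 hQ hfr δ
  obtain ⟨w, hw⟩ := Cfsg.Agent.Lib.Orth.Closure.exists_Q_eq (Q := Q) h2 hQ hfr 1
  rw [Subgroup.index_eq_two_iff]
  refine ⟨wordH Q [v, w], fun b => ?_⟩
  obtain ⟨c, vs, hvs, hev, hb⟩ := exists_scalar_word hQ h2 hodd b
  have hb' : conjHom ⇑Q b ∈ Cfsg.Inn (Cfsg.POmega F ⇑Q) ↔ IsSquare (vs.map (fun v => Q v)).prod :=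
    mem_comap_inn_iff hQ hn p h2 hodd b c vs hvs hev hb
  have hbm : conjHom ⇑Q (b * wordH Q [v, w]) ∈ Cfsg.Inn (Cfsg.POmega F ⇑Q) ↔
      IsSquare ((vs ++ [v, w]).map (fun v => Q v)).prod := by
    refine mem_comap_inn_iff hQ hn p h2 hodd _ c (vs ++ [v, w]) ?_ ?_ ?_
    · intro u hu
      rcases List.mem_append.1 hu with hu | hu
      · exact hvs u hu
      · simp only [List.mem_cons, List.not_mem_nil, or_false] at hu
        rcases hu with rfl | rfl
        · rw [hv]
          exact hδ0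
        · rw [hw]
          exact one_ne_zero
    · rw [List.length_append]
      exact hev.add (by simp)
    · show ((b.1 * (wordH Q [v, w]).1 : GL ι F)).val = _
      rw [Units.val_mul, hb, wordH_val, Matrix.smul_mul, List.map_append, List.prod_append]
  have hs0 : (vs.map (fun v => Q v)).prod ≠ 0 := by
    rw [Ne, List.prod_eq_zero_iff]
    intro h
    obtain ⟨u, hu, hu2⟩ := List.mem_map.1 h
    exact hvs u hu hu2
  have hprod : ((vs ++ [v, w]).map (fun v => Q v)).prod = (vs.map (fun v => Q v)).prod * δ := by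
    simp [hv, hw]
  rw [hprod] at hbm
  rw [Subgroup.mem_comap, Subgroup.mem_comap, hbm, hb']
  set s := (vs.map (fun v => Q v)).prod with hs
  have h3 : quadraticChar F δ = -1 := quadraticChar_neg_one_iff_not_isSquare.2 hδ
  by_cases hsq : IsSquare s
  · right
    refine ⟨hsq, ?_⟩
    intro h
    have h4 := (quadraticChar_one_iff_isSquare (mul_ne_zero hs0 hδ0)).2 h
    rw [map_mul, h3, (quadraticChar_one_iff_isSquare hs0).2 hsq] at h4
    norm_num at h4
  · left
    refine ⟨?_, hsq⟩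
    have h5 := quadraticChar_neg_one_iff_not_isSquare.2 hsq
    apply (quadraticChar_one_iff_isSquare (mul_ne_zero hs0 hδ0)).1
    rw [map_mul, h3, h5]
    norm_num

end index

section lifts

variable {F : Type u} [Field F] [Fintype F] {F₀ : Type v} [Field F₀] [Fintype F₀] {ι : Type} [Fintype ι] [DecidableEq ι]
variable {Q : QuadraticForm F (ι → F)} {Q₀ : QuadraticForm F₀ (ι → F₀)}
variable (ε : F₀ →+* F) (hc : ∀ y : ι → F₀, Q (mapV ε y) = ε (Q₀ y))

include hc

theorem map_reflectionMatrix (v : ι → F₀) : (reflectionMatrix ⇑Q₀ v).map ε = reflectionMatrix ⇑Q (mapV ε v) := by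
  ext i j
  have h1 : ε (Cfsg.polarVec ⇑Q₀ v j) = Cfsg.polarVec ⇑Q (mapV ε v) j := by
    show ε (polar ⇑Q₀ v (Pi.single j 1)) = polar ⇑Q (mapV ε v) (Pi.single j 1)
    have e : (Pi.single j 1 : ι → F) = mapV ε (Pi.single j 1) := by
      rw [mapV_single, map_one]
    rw [e, polar, polar, ← mapV_add, hc, hc, hc]
    simp
  simp only [reflectionMatrix, Matrix.map_apply, Matrix.sub_apply, Matrix.one_apply, Matrix.smul_apply,
    Matrix.vecMulVec_apply, smul_eq_mul, map_sub, map_mul, map_inv₀, hc, h1, mapV_apply]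
  congr 1
  split_ifs <;> simp

theorem map_word (vs : List (ι → F₀)) :
    ((vs.map (fun v => reflectionMatrix ⇑Q₀ v)).prod).map ε = ((vs.map (mapV ε)).map (fun v => reflectionMatrix ⇑Q v)).prod := by
  induction vs with
  | nil =>
    simp
  | cons v vs ih =>
    simp only [List.map_cons, List.prod_cons]
    rw [Matrix.map_mul, ih, map_reflectionMatrix ε hc]

theorem prod_map_word (vs : List (ι → F₀)) :
    ((vs.map (mapV ε)).map (fun v => Q v)).prod = ε ((vs.map (fun v => Q₀ v)).prod) := by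
  induction vs with
  | nil => simp
  | cons v vs ih =>
    simp only [List.map_cons, List.prod_cons]
    rw [ih, map_mul, hc]

end lifts

section oddcount

variable {F : Type u} [Field F] [Fintype F] {F₀ : Type v} [Field F₀] [Fintype F₀] {ι : Type} [Fintype ι] [DecidableEq ι]
variable {Q : QuadraticForm F (ι → F)} {Q₀ : QuadraticForm F₀ (ι → F₀)}
variable (ε : F₀ →+* F) (hc : ∀ y : ι → F₀, Q (mapV ε y) = ε (Q₀ y))
variable (σ : F ≃+* F) (hσ : ∀ x : ι → F, Q (fun i => σ (x i)) = σ (Q x)) (hε : ∀ x, σ x = x ↔ x ∈ Set.range ε)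
variable (hQ : (polarBilin Q).Nondegenerate) (hQ₀ : (polarBilin Q₀).Nondegenerate) (hn : 5 ≤ Fintype.card ι)
variable (p : ℕ) [hp : Fact p.Prime] [hcp : CharP F p] [hcp₀ : CharP F₀ p]
variable [Nontrivial (ι → F)] [Nontrivial (ι → F₀)]

include hc hε hQ hQ₀ hn p in
/-- In odd dimension, the count of classes for a field automorphism when every element of `F₀` is a square in `F`. -/
theorem count_le_of_squares (h2 : (2 : F) ≠ 0) (h20 : (2 : F₀) ≠ 0) (hodd : Odd (Fintype.card ι)) (hsq : ∀ a : F₀, IsSquare (ε a)) :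
    (Subgroup.centralizer {conjS hQ hn (coordS σ hσ)}).comap (conjHom ⇑Q) ≤ (Cfsg.Inn (Cfsg.POmega F ⇑Q)).comap (conjHom ⇑Q) := by
  classical
  intro g hg
  have hg' := Subgroup.mem_centralizer_iff.1 (Subgroup.mem_comap.1 hg) _ rfl
  obtain ⟨d, g₀, hd, hg₀⟩ := exists_lift_of_comm ε hc σ hσ hε hQ hQ₀ hn p g hg'.symm
  obtain ⟨c₀, vs, hvs, hev, hw⟩ := exists_scalar_word hQ₀ h20 hodd g₀
  rw [Subgroup.mem_comap]
  refine (mem_comap_inn_iff hQ hn p h2 hodd g (Units.mk0 (d⁻¹ * ε c₀) (mul_ne_zero (inv_ne_zero hd) (fun h => c₀.ne_zero ((map_eq_zero ε).1 h)))) (vs.map (mapV ε)) ?_ ?_ ?_).2 ?_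
  · intro v hv
    obtain ⟨u, hu, rfl⟩ := List.mem_map.1 hv
    rw [hc]
    exact fun h => hvs u hu ((map_eq_zero ε).1 h)
  · rw [List.length_map]
    exact hev
  · have h1 : d • g.1.val = (ε c₀) • ((vs.map (mapV ε)).map (fun v => reflectionMatrix ⇑Q v)).prod := by
      rw [← hg₀, liftHs_val, hw, ← map_word ε hc]
      ext i j
      simp
    rw [Units.val_mk0, mul_smul, ← h1, smul_smul, inv_mul_cancel₀ hd, one_smul]
  · rw [prod_map_word ε hc]
    exact hsq _

include hc hε hQ hQ₀ hn p in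
/-- In odd dimension, the count of classes for a field automorphism when non-squares stay non-squares. -/
theorem not_le_of_nonsquare (h2 : (2 : F) ≠ 0) (h20 : (2 : F₀) ≠ 0) (hodd : Odd (Fintype.card ι))
    (hsq : ∀ a : F₀, a ≠ 0 → ¬ IsSquare a → ¬ IsSquare (ε a)) :
    ¬ (Subgroup.centralizer {conjS hQ hn (coordS σ hσ)}).comap (conjHom ⇑Q) ≤ (Cfsg.Inn (Cfsg.POmega F ⇑Q)).comap (conjHom ⇑Q) := by
  classical
  have hch : ringChar F₀ ≠ 2 := by
    intro h
    apply h20
    have := ringChar.spec F₀ 2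
    exact_mod_cast this.2 (by rw [h])
  obtain ⟨δ, hδ⟩ := FiniteField.exists_nonsquare hch
  have hδ0 : δ ≠ 0 := by
    rintro rfl
    exact hδ IsSquare.zero
  have hfr : 2 ≤ finrank F₀ (ι → F₀) := by
    rw [finrank_eq]
    omega
  obtain ⟨v, hv⟩ := Cfsg.Agent.Lib.Orth.Closure.exists_Q_eq (Q := Q₀) h20 hQ₀ hfr δ
  obtain ⟨w, hw⟩ := Cfsg.Agent.Lib.Orth.Closure.exists_Q_eq (Q := Q₀) h20 hQ₀ hfr 1
  intro hle
  have hmem : liftHs ε hc (wordH Q₀ [v, w]) ∈ (Subgroup.centralizer {conjS hQ hn (coordS σ hσ)}).comap (conjHom ⇑Q) := by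
    rw [Subgroup.mem_comap]
    refine Subgroup.mem_centralizer_iff.2 ?_
    rintro _ rfl
    show _ * conjHom ⇑Q _ = conjHom ⇑Q _ * _
    rw [← conjS_toSemi hQ hn, ← map_mul, ← map_mul, lift_comm ε hc σ hσ hε]
  have h3 := hle hmem
  rw [Subgroup.mem_comap] at h3
  have h4 := (mem_comap_inn_iff hQ hn p h2 hodd (liftHs ε hc (wordH Q₀ [v, w])) 1 ([v, w].map (mapV ε)) ?_ ?_ ?_).1 h3
  · rw [prod_map_word ε hc] at h4
    simp only [List.map_cons, List.map_nil, List.prod_cons, List.prod_nil, hv, hw, mul_one] at h4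
    exact hsq δ hδ0 hδ h4
  · intro u hu
    simp only [List.map_cons, List.map_nil, List.mem_cons, List.not_mem_nil, or_false] at hu
    rcases hu with rfl | rfl
    · rw [hc, hv]
      exact fun h => hδ0 ((map_eq_zero ε).1 h)
    · rw [hc, hw, map_one]
      exact one_ne_zero
  · simp
  · rw [liftHs_val, wordH_val, map_word ε hc]
    simp

end oddcount

section oddmain

variable {F : Type u} [Field F] [Fintype F] {F₀ : Type v} [Field F₀] [Fintype F₀] {ι : Type} [Fintype ι] [DecidableEq ι]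
variable {Q : QuadraticForm F (ι → F)} {Q₀ : QuadraticForm F₀ (ι → F₀)}

theorem inn_normal' {G : Type*} [Group G] (α : MulAut G) (h : MulAut G) (hh : h ∈ Cfsg.Inn G) : α * h * α⁻¹ ∈ Cfsg.Inn G := by
  obtain ⟨y, rfl⟩ := hh
  exact ⟨α y, by
    ext z
    simp [MulAut.conj_apply]⟩

/-- The main theorem on field automorphisms in odd dimension, in general form. -/
theorem field_odd_gen {p f : ℕ} [hp : Fact p.Prime] (hF : Fintype.card F = p ^ f) (hf : 1 ≤ f) (h2 : (2 : F) ≠ 0)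
    (hQ : (polarBilin Q).Nondegenerate) (hn7 : 7 ≤ Fintype.card ι) (h8 : NoSolid Q)
    (hcoord : ∀ (σ : F ≃+* F) (x : ι → F), Q (fun i => σ (x i)) = σ (Q x)) (hodd : Odd (Fintype.card ι))
    (x : MulAut (Cfsg.POmega F ⇑Q)) (hx : Cfsg.IsFieldAutClassPOmega ⇑Q x) {r : ℕ} (hr : r.Prime) (hxr : orderOf x = r)
    (hF₀ : Fintype.card F₀ = p ^ (f / r)) (hQ₀ : (2 : F₀) ≠ 0 → (polarBilin Q₀).Nondegenerate)
    (hcompat : ∀ (ε : F₀ →+* F) (y : ι → F₀), Q (mapV ε y) = ε (Q₀ y)) :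
    r ∣ f ∧ Nonempty (↥(Cfsg.pgoAut F ⇑Q ⊓ Subgroup.centralizer {x}) ≃* ↥(Cfsg.pgoAut F₀ ⇑Q₀)) ∧
      (Odd r → Cfsg.splitClassCount (Cfsg.pgoAut F ⇑Q) (Cfsg.Inn (Cfsg.POmega F ⇑Q)) x = 1) ∧
      (r = 2 → Cfsg.splitClassCount (Cfsg.pgoAut F ⇑Q) (Cfsg.Inn (Cfsg.POmega F ⇑Q)) x = 2) := by
  classical
  haveI hcp : CharP F p := charP_of_card_eq_prime_pow hF
  have hn : 5 ≤ Fintype.card ι := by omega
  haveI : Nontrivial (ι → F) := by
    haveI : Nonempty ι := Fintype.card_pos_iff.1 (by omega)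
    infer_instance
  haveI : Nontrivial (ι → F₀) := by
    haveI : Nonempty ι := Fintype.card_pos_iff.1 (by omega)
    infer_instance
  obtain ⟨α, φ, σ, hσ, hφ, hα⟩ := hx
  have hφ' := eq_conjS_coord hQ hn σ (hcoord σ) hφ
  have hα' : α * x * α⁻¹ = conjS hQ hn (coordS σ (hcoord σ)) := by
    rw [hα, hφ']
  have hσr : orderOf σ = r := by
    rw [← orderOf_conjS_coord hQ hn p σ (hcoord σ), ← hα', ← hxr]
    exact (MulAut.conj α).orderOf_eq x
  have hrf : r ∣ f := by
    rw [← hσr]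
    exact Cfsg.Agent.Lib.KS71.PSLCent.order_dvd hF hf σ
  obtain ⟨ε, hε⟩ := Cfsg.Agent.Lib.KS71.PSLCent.exists_embed hF hf σ (F₀ := F₀) (by rw [hσr]; exact hF₀)
  have hfr0 : f / r ≠ 0 := by
    have := Nat.div_pos (Nat.le_of_dvd (by omega) hrf) hr.pos
    omega
  haveI hcp₀ : CharP F₀ p := charP_of_card_eq_prime_pow hF₀
  have h20 : (2 : F₀) ≠ 0 := by
    intro h
    apply h2
    have := congrArg ε h
    rwa [map_zero, map_ofNat] at this
  have hQ₀' := hQ₀ h20
  have hc := hcompat ε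
  have hnormal : ∀ (α : MulAut (Cfsg.POmega F ⇑Q)) (h : MulAut (Cfsg.POmega F ⇑Q)), h ∈ Cfsg.pgoAut F ⇑Q → α * h * α⁻¹ ∈ Cfsg.pgoAut F ⇑Q :=
    fun α' h hh => pgo_normal hQ hn p hn7 h8 α' h hh
  have hInn : Cfsg.Inn (Cfsg.POmega F ⇑Q) ≤ (conjHom ⇑Q).range := by
    rw [← pgoAut_eq]
    exact (inn_le_pso hQ p).trans (pso_le_pgo hQ p)
  refine ⟨hrf, ?_, ?_, ?_⟩
  · obtain ⟨e⟩ := cent_equiv ε hc σ (hcoord σ) hε hQ hQ₀' hn p ⊤ ⊤ (by simp) (by simp)
    rw [← MonoidHom.range_eq_map, ← MonoidHom.range_eq_map, ← pgoAut_eq, ← pgoAut_eq] at e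
    exact ⟨(centConj (Cfsg.pgoAut F ⇑Q) hnormal α x _ hα').trans e⟩
  · intro hr2
    rw [← split_conj _ _ hnormal inn_normal' α x, hα', pgoAut_eq]
    refine split_one_of_not_le (conjHom ⇑Q) _ hInn _ (index_comap_inn_odd hQ hn p h2 hodd) ?_
    refine not_le_of_nonsquare ε hc σ (hcoord σ) hε hQ hQ₀' hn p h2 h20 hodd ?_
    intro a ha0 ha
    refine OmegaFieldCount.not_isSquare_of_odd ε σ hε hr2 ?_ h2 ha0 ha
    rw [← hσr]
    exact pow_orderOf_eq_one σ
  · intro hr2
    subst hr2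
    rw [← split_conj _ _ hnormal inn_normal' α x, hα', pgoAut_eq]
    rw [split_eq_index_of_le (conjHom ⇑Q) _ hInn _ ?_, index_comap_inn_odd hQ hn p h2 hodd]
    refine count_le_of_squares ε hc σ (hcoord σ) hε hQ hQ₀' hn p h2 h20 hodd ?_
    refine isSquare_of_quadratic ε h2 ?_
    rw [hF, hF₀, ← pow_mul, Nat.div_mul_cancel hrf]

end oddmain

section forms

variable {F : Type u} [Field F] [Fintype F] {F₀ : Type v} [Field F₀] [Fintype F₀]

theorem mapV_odd (m : ℕ) (ε : F₀ →+* F) (y : Unit ⊕ (Fin m ⊕ Fin m) → F₀) :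
    oddForm m F (mapV ε y) = ε (oddForm m F₀ y) := by
  rw [coe_oddForm, coe_oddForm]
  simp [Cfsg.quadFormOdd, map_sum, map_mul, map_pow, mapV_apply]

theorem mapV_plus (m : ℕ) (ε : F₀ →+* F) (y : Fin m ⊕ Fin m → F₀) :
    plusForm m F (mapV ε y) = ε (plusForm m F₀ y) := by
  rw [coe_plusForm, coe_plusForm]
  simp [Cfsg.quadFormPlus, map_sum, map_mul, map_pow, mapV_apply]

end forms

/-- **S2714**: field automorphisms of `Ω_{2m+1}(q)`. -/
theorem main_odd {F : Type u} [Field F] [Fintype F] {p f : ℕ} [Fact p.Prime] (hF : Fintype.card F = p ^ f) (hf : 1 ≤ f)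
    (hodd : Odd (Fintype.card F)) {m : ℕ} (hm : 3 ≤ m) (x : MulAut (Cfsg.POmega F (Cfsg.quadFormOdd m F)))
    (hx : Cfsg.IsFieldAutClassPOmega (Cfsg.quadFormOdd m F) x) {r : ℕ} (hr : r.Prime) (hxr : orderOf x = r)
    (F₀ : Type v) [Field F₀] [Fintype F₀] (hF₀ : Fintype.card F₀ = p ^ (f / r)) :
    r ∣ f ∧ Nonempty (↥(Cfsg.inndiagPOmegaOdd m F ⊓ Subgroup.centralizer {x}) ≃* ↥(Cfsg.inndiagPOmegaOdd m F₀)) ∧
      (Odd r → Cfsg.splitClassCount (Cfsg.inndiagPOmegaOdd m F) (Cfsg.Inn (Cfsg.POmega F (Cfsg.quadFormOdd m F))) x = 1) ∧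
      (r = 2 → Cfsg.splitClassCount (Cfsg.inndiagPOmegaOdd m F) (Cfsg.Inn (Cfsg.POmega F (Cfsg.quadFormOdd m F))) x = 2) := by
  have h2 : (2 : F) ≠ 0 := OmegaPGO3.two_ne hodd
  have hQ := oddForm_nondeg (F := F) m h2
  have hc1 := card_odd m
  have hn7 : 7 ≤ Fintype.card (Unit ⊕ (Fin m ⊕ Fin m)) := by omega
  have hoddι : Odd (Fintype.card (Unit ⊕ (Fin m ⊕ Fin m))) := by
    rw [hc1]
    exact ⟨m, rfl⟩
  exact field_odd_gen (Q := oddForm m F) (Q₀ := oddForm m F₀) hF hf h2 hQ hn7 (noSolid_odd m) (coordStable_odd m) hoddι x hx hr hxr hF₀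
    (fun h => oddForm_nondeg (F := F₀) m h) (mapV_odd m)

end Cfsg.Agent.Lib.Classical.OmegaFieldCount
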