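/-
The parity of a semisimilarity on the maximal totally singular subspaces.
-/
import Mathlib
import Cfsg.Agent.Lib.Classical.OmegaFieldCount
import Cfsg.Agent.Lib.OutO.Classes

set_option autoImplicit false
set_option linter.unusedSimpArgs false
set_option linter.unusedSectionVars false
set_option linter.style.haveILetI false
set_option linter.unusedVariables false

namespace Cfsg.Agent.Lib.Classical.OmegaClass

open Module MulAction QuadraticMap Matrix Cfsg.Agent.Lib.Witt.Quadratic Cfsg.Agent.Lib.Orth.Refl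
open Cfsg.Agent.Lib.Orth.Gen Cfsg.Agent.Lib.OrthRefl.Eichler Cfsg.Agent.Lib.Classical.QuadEichler
open Cfsg.Agent.Lib.Classical.QuadEichSimple Cfsg.Agent.Lib.Classical.OmegaHP Cfsg.Agent.Lib.Classical.OmegaLocal
open Cfsg.Agent.Lib.Classical.OmegaRoot Cfsg.Agent.Lib.Classical.OmegaSemi Cfsg.Agent.Lib.Classical.OmegaConj
open Cfsg.Agent.Lib.Classical.OmegaBar Cfsg.Agent.Lib.Classical.OmegaAut Cfsg.Agent.Lib.Classical.OmegaCount
open Cfsg.Agent.Lib.Orth.Forms Cfsg.Agent.Lib.Classical.BinaryForms Cfsg.Agent.Lib.Classical.QuadEichBridge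
open Cfsg.Agent.Lib.Classical.OmegaForms Cfsg.Agent.Lib.Classical.OmegaOut Cfsg.Agent.Lib.Orth.Bridge
open Cfsg.Agent.Lib.Classical.MatrixBridge Cfsg.Agent.Lib.Classical.SympSimple
open Cfsg.Agent.Lib.Classical.OmegaPGO Cfsg.Agent.Lib.Classical.OmegaPGO2 Cfsg.Agent.Lib.Classical.OmegaFrob
open Cfsg.Agent.Lib.Classical.OmegaOutOdd Cfsg.Agent.Lib.KS71.Speiser Cfsg.Agent.Lib.Classical.OmegaDesc
open Cfsg.Agent.Lib.Classical.OmegaFieldOdd Cfsg.Agent.Lib.Classical.OmegaCent Cfsg.Agent.Lib.KS71.ClassSplit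
open Cfsg.Agent.Lib.Classical.OmegaFieldCount Cfsg.Agent.Lib.QuadFn.MaxSingular Cfsg.Agent.Lib.Orth.Parity
open scoped commutatorElement

universe u v

section img

variable {F : Type u} {V : Type v} [Field F] [AddCommGroup V] [Module F V] {Q : QuadraticForm F V}
variable {g g' : V ≃+ V} {θ θ' : F ≃+* F} {l l' : F}

/-- The image of a subspace under a semisimilarity. -/
def img (H : Semi Q g θ l) (U : Submodule F V) : Submodule F V where
  carrier := g '' U
  add_mem' := by
    rintro _ _ ⟨a, ha, rfl⟩ ⟨b, hb, rfl⟩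
    exact ⟨a + b, U.add_mem ha hb, map_add g a b⟩
  zero_mem' := ⟨0, U.zero_mem, map_zero g⟩
  smul_mem' := by
    rintro c _ ⟨a, ha, rfl⟩
    refine ⟨θ.symm c • a, U.smul_mem _ ha, ?_⟩
    rw [H.smul, θ.apply_symm_apply]

theorem mem_img (H : Semi Q g θ l) {U : Submodule F V} {x : V} : x ∈ img H U ↔ ∃ u ∈ U, g u = x := Iff.rfl

theorem img_congr (H : Semi Q g θ l) (H' : Semi Q g θ' l') (U : Submodule F V) : img H U = img H' U := rfl

theorem img_inf (H : Semi Q g θ l) (U W : Submodule F V) : img H (U ⊓ W) = img H U ⊓ img H W := by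
  ext x
  constructor
  · rintro ⟨u, ⟨h1, h2⟩, rfl⟩
    exact ⟨⟨u, h1, rfl⟩, ⟨u, h2, rfl⟩⟩
  · rintro ⟨⟨u, h1, rfl⟩, ⟨w, h2, h3⟩⟩
    have : w = u := g.injective h3
    subst this
    exact ⟨w, ⟨h1, h2⟩, rfl⟩

theorem finrank_img (H : Semi Q g θ l) (U : Submodule F V) : finrank F (img H U) = finrank F U := by
  let j : U ≃+ img H U :=
    { toFun := fun u => ⟨g u, u.1, u.2, rfl⟩
      invFun := fun x => ⟨g.symm x.1, by
        obtain ⟨x, u, hu, rfl⟩ := x
        simpa using hu⟩
      left_inv := fun u => Subtype.ext (g.symm_apply_apply _)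
      right_inv := fun x => Subtype.ext (g.apply_symm_apply _)
      map_add' := fun a b => Subtype.ext (map_add g _ _) }
  have h1 : Module.rank F U = Module.rank F (img H U) := rank_eq_of_equiv_equiv θ j θ.bijective (fun r m => Subtype.ext (H.smul r m))
  exact (congrArg Cardinal.toNat h1).symm

theorem ts_img (H : Semi Q g θ l) {U : Submodule F V} (hU : TS (⇑Q) U) : TS (⇑Q) (img H U) := by
  rintro _ ⟨u, hu, rfl⟩
  rw [H.Q_eq, hU u hu, map_zero, mul_zero]

theorem img_trans (H : Semi Q g θ l) (H' : Semi Q g' θ' l') (U : Submodule F V) :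
    img (H.trans H') U = img H (img H' U) := by
  ext x
  constructor
  · rintro ⟨u, hu, rfl⟩
    exact ⟨g' u, ⟨u, hu, rfl⟩, rfl⟩
  · rintro ⟨_, ⟨u, hu, rfl⟩, rfl⟩
    exact ⟨u, hu, rfl⟩

theorem img_refl (U : Submodule F V) : img (Semi.refl (Q := Q)) U = U := by
  ext x
  constructor
  · rintro ⟨u, hu, rfl⟩
    exact hu
  · intro hx
    exact ⟨x, hx, rfl⟩

variable [FiniteDimensional F V] {m : ℕ}

/-- The parity does not depend on the maximal totally singular subspace. -/
theorem par_indep (hQ : (polarBilin Q).Nondegenerate) (hdim : finrank F V = 2 * m) (H : Semi Q g θ l)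
    {U U' : Submodule F V} (hU : TS (⇑Q) U) (hUm : finrank F U = m) (hU' : TS (⇑Q) U') (hUm' : finrank F U' = m) :
    Even (m - finrank F (U ⊓ img H U : Submodule F V)) ↔ Even (m - finrank F (U' ⊓ img H U' : Submodule F V)) := by
  have S := qspace hQ
  have hIm : finrank F (img H U) = m := (finrank_img H U).trans hUm
  have hIm' : finrank F (img H U') = m := (finrank_img H U').trans hUm'
  have p1 := S.parity hdim hU hUm _ U' (img H U') hU' hUm' (ts_img H hU') hIm' rfl
  have p2 := S.parity hdim hU hUm _ (img H U) (img H U') (ts_img H hU) hIm (ts_img H hU') hIm' rfl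
  rw [← img_inf, finrank_img] at p2
  generalize m - finrank F (U ⊓ U' : Submodule F V) = a at *
  generalize m - finrank F (U' ⊓ img H U' : Submodule F V) = b at *
  generalize m - finrank F (U ⊓ img H U' : Submodule F V) = c at *
  generalize m - finrank F (U ⊓ img H U : Submodule F V) = d at *
  simp only [Nat.even_iff] at *
  omega

/-- The parity is additive. -/
theorem par_trans (hQ : (polarBilin Q).Nondegenerate) (hdim : finrank F V = 2 * m) (H : Semi Q g θ l) (H' : Semi Q g' θ' l')
    {U : Submodule F V} (hU : TS (⇑Q) U) (hUm : finrank F U = m) :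
    Even (m - finrank F (U ⊓ img (H.trans H') U : Submodule F V)) ↔
      (Even (m - finrank F (U ⊓ img H U : Submodule F V)) ↔ Even (m - finrank F (U ⊓ img H' U : Submodule F V))) := by
  have S := qspace hQ
  have hIm : finrank F (img H U) = m := (finrank_img H U).trans hUm
  have hIm' : finrank F (img H' U) = m := (finrank_img H' U).trans hUm
  have hIm2 : finrank F (img H (img H' U)) = m := (finrank_img H _).trans hIm'
  have p1 := S.parity hdim hU hUm _ (img H U) (img H (img H' U)) (ts_img H hU) hIm (ts_img H (ts_img H' hU)) hIm2 rfl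
  rw [← img_inf, finrank_img] at p1
  rw [img_trans H H']
  have key : ∀ a b c : ℕ, Even (a + b + c) → (Even c ↔ (Even a ↔ Even b)) := by
    intro a b c h
    simp only [Nat.even_iff] at *
    omega
  exact key _ _ _ p1

/-- The parity of an element of the group of semisimilarities. -/
theorem semiOf (T : SemiEl Q) : Semi Q T.1 T.2.choose T.2.choose_spec.choose := T.2.choose_spec.choose_spec

/-- `T` maps every maximal totally singular subspace to one of the same class. -/
def EvenT (m : ℕ) (T : SemiEl Q) : Prop :=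
  ∀ U : Submodule F V, TS (⇑Q) U → finrank F U = m → Even (m - finrank F (U ⊓ img (semiOf T) U : Submodule F V))

theorem evenT_iff (hQ : (polarBilin Q).Nondegenerate) (hdim : finrank F V = 2 * m) {T : SemiEl Q} (H : Semi Q T.1 θ l)
    {U : Submodule F V} (hU : TS (⇑Q) U) (hUm : finrank F U = m) :
    EvenT m T ↔ Even (m - finrank F (U ⊓ img H U : Submodule F V)) := by
  constructor
  · intro h
    exact h U hU hUm
  · intro h U' hU' hUm'
    exact (par_indep hQ hdim (semiOf T) hU hUm hU' hUm').1 h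

theorem evenT_mul (hQ : (polarBilin Q).Nondegenerate) (hdim : finrank F V = 2 * m) {U : Submodule F V} (hU : TS (⇑Q) U)
    (hUm : finrank F U = m) (S T : SemiEl Q) : EvenT m (S * T) ↔ (EvenT m S ↔ EvenT m T) := by
  have H := (semiOf S).trans (semiOf T)
  have e : Semi Q (S * T).1 _ _ := H
  rw [evenT_iff hQ hdim (semiOf S) hU hUm, evenT_iff hQ hdim (semiOf T) hU hUm, evenT_iff hQ hdim e hU hUm]
  exact par_trans hQ hdim (semiOf S) (semiOf T) hU hUm

theorem evenT_one (hQ : (polarBilin Q).Nondegenerate) (hdim : finrank F V = 2 * m) : EvenT m (1 : SemiEl Q) := by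
  intro U hU hUm
  have e : img (semiOf (1 : SemiEl Q)) U = U := img_refl (Q := Q) U
  rw [e, inf_idem, hUm]
  simp

theorem evenT_inv (hQ : (polarBilin Q).Nondegenerate) (hdim : finrank F V = 2 * m) {U : Submodule F V} (hU : TS (⇑Q) U)
    (hUm : finrank F U = m) (T : SemiEl Q) : EvenT m T⁻¹ ↔ EvenT m T := by
  have h1 := evenT_mul hQ hdim hU hUm T T⁻¹
  rw [mul_inv_cancel] at h1
  have h2 := h1.1 (evenT_one hQ hdim)
  exact h2.symm

/-- The subgroup of the semisimilarities preserving the classes. -/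
noncomputable def evenSub (hQ : (polarBilin Q).Nondegenerate) (hdim : finrank F V = 2 * m) {U : Submodule F V} (hU : TS (⇑Q) U)
    (hUm : finrank F U = m) : Subgroup (SemiEl Q) where
  carrier := {T | EvenT m T}
  mul_mem' := fun {a b} ha hb => (evenT_mul hQ hdim hU hUm a b).2 (iff_of_true ha hb)
  one_mem' := evenT_one hQ hdim
  inv_mem' := fun {a} ha => (evenT_inv hQ hdim hU hUm a).2 ha

/-- A stable maximal totally singular subspace shows that `T` preserves the classes. -/
theorem evenT_of_stable (hQ : (polarBilin Q).Nondegenerate) (hdim : finrank F V = 2 * m) {T : SemiEl Q} (H : Semi Q T.1 θ l)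
    {U : Submodule F V} (hU : TS (⇑Q) U) (hUm : finrank F U = m) (hT : img H U = U) : EvenT m T := by
  rw [evenT_iff hQ hdim H hU hUm, hT, inf_idem, hUm]
  simp

/-- A neighbour shows that `T` interchanges the classes. -/
theorem not_evenT_of_neighbour (hQ : (polarBilin Q).Nondegenerate) (hdim : finrank F V = 2 * m) {T : SemiEl Q} (H : Semi Q T.1 θ l)
    {U : Submodule F V} (hU : TS (⇑Q) U) (hUm : finrank F U = m) (hT : finrank F (U ⊓ img H U : Submodule F V) + 1 = m) :
    ¬ EvenT m T := by
  rw [evenT_iff hQ hdim H hU hUm]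
  have : m - finrank F (U ⊓ img H U : Submodule F V) = 1 := by omega
  rw [this]
  simp

end img

section hs

variable {F : Type u} [Field F] [Fintype F] {ι : Type} [Fintype ι] [DecidableEq ι] {Q : QuadraticForm F (ι → F)} {m : ℕ}

/-- Similarities preserving the classes. -/
noncomputable def Hp (hQ : (polarBilin Q).Nondegenerate) (hdim : finrank F (ι → F) = 2 * m) {U : Submodule F (ι → F)} (hU : TS (⇑Q) U)
    (hUm : finrank F U = m) : Subgroup (Hs ⇑Q) :=
  (evenSub hQ hdim hU hUm).comap (toSemiHom Q)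

theorem mem_Hp (hQ : (polarBilin Q).Nondegenerate) (hdim : finrank F (ι → F) = 2 * m) {U : Submodule F (ι → F)} (hU : TS (⇑Q) U)
    (hUm : finrank F U = m) (g : Hs ⇑Q) : g ∈ Hp hQ hdim hU hUm ↔ EvenT m (toSemi Q g) := Iff.rfl

theorem imageSubmodule_eq (g : Hs ⇑Q) (U : Submodule F (ι → F)) :
    Cfsg.imageSubmodule g.1.val U = img (semiOf (toSemi Q g)) U := by
  ext x
  constructor
  · rintro ⟨u, hu, rfl⟩
    exact ⟨u, hu, by simp [Matrix.toLin'_apply]⟩
  · rintro ⟨u, hu, rfl⟩
    exact ⟨u, hu, by simp [Matrix.toLin'_apply]⟩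

theorem preserves_iff_mem (hQ : (polarBilin Q).Nondegenerate) (hdim : finrank F (ι → F) = 2 * m) {U : Submodule F (ι → F)} (hU : TS (⇑Q) U)
    (hUm : finrank F U = m) (g : Hs ⇑Q) :
    Cfsg.PreservesSingularClasses ⇑Q g.1.val ↔ g ∈ Hp hQ hdim hU hUm := by
  have S := qspace hQ
  rw [mem_Hp]
  constructor
  · intro hP W hW hWm
    have hmax : Cfsg.IsMaxTotallySingular (⇑Q) W := by
      refine ⟨hW, ?_⟩
      intro W' hW' hle
      symm
      apply Submodule.eq_of_le_of_finrank_le hle
      rw [hWm]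
      exact S.finrank_ts_le hdim hW'
    have := hP W hmax
    unfold Cfsg.SameParityClass at this
    rw [imageSubmodule_eq, hWm] at this
    exact this
  · intro hE W hW
    have hWm : finrank F W = m := by
      by_contra hne
      have hle := S.finrank_ts_le hdim hW.1
      obtain ⟨W', hW', hUW, hne'⟩ := Cfsg.Agent.Lib.OutO.Classes.exists_extend S hdim hU hUm hW.1 (by omega)
      exact hne' (hW.2 W' hW' hUW)
    unfold Cfsg.SameParityClass
    rw [imageSubmodule_eq, hWm]
    exact hE W hW.1 hWm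

/-- A reflection interchanges the classes. -/
theorem not_evenT_refl (hQ : (polarBilin Q).Nondegenerate) (hdim : finrank F (ι → F) = 2 * m) {U : Submodule F (ι → F)} (hU : TS (⇑Q) U)
    (hUm : finrank F U = m) {v : ι → F} (hv : Q v ≠ 0) : ¬ EvenT m (toSemi Q (reflH Q v)) := by
  apply not_evenT_of_neighbour hQ hdim (semiOf _) hU hUm
  have h1 := neighbor hQ hdim hU hUm hv
  have e : img (semiOf (toSemi Q (reflH Q v))) U = U.map (refl Q v : (ι → F) →ₗ[F] (ι → F)) := by
    ext x
    constructor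
    · rintro ⟨u, hu, rfl⟩
      exact ⟨u, hu, (reflH_mulVec v u).symm⟩
    · rintro ⟨u, hu, rfl⟩
      exact ⟨u, hu, reflH_mulVec v u⟩
  rw [e]
  exact h1

/-- Composing with a reflection moves a similarity into the subgroup. -/
theorem mul_refl_mem (hQ : (polarBilin Q).Nondegenerate) (hdim : finrank F (ι → F) = 2 * m) {U : Submodule F (ι → F)} (hU : TS (⇑Q) U)
    (hUm : finrank F U = m) {g : Hs ⇑Q} (hg : g ∉ Hp hQ hdim hU hUm) {v : ι → F} (hv : Q v ≠ 0) :
    g * reflH Q v ∈ Hp hQ hdim hU hUm := by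
  rw [mem_Hp, toSemi_mul, evenT_mul hQ hdim hU hUm]
  exact iff_of_false hg (not_evenT_refl hQ hdim hU hUm hv)

end hs

end Cfsg.Agent.Lib.Classical.OmegaClass
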