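/-
The type of the form descended by a semisimilarity of prime order.
-/
import Mathlib
import Cfsg.Agent.Lib.Classical.OmegaClass

set_option autoImplicit false
set_option linter.unusedSimpArgs false
set_option linter.unusedSectionVars false
set_option linter.style.haveILetI false
set_option linter.unusedVariables false

namespace Cfsg.Agent.Lib.Classical.OmegaType

open Module MulAction QuadraticMap Matrix Cfsg.Agent.Lib.Witt.Quadratic Cfsg.Agent.Lib.Orth.Refl
open Cfsg.Agent.Lib.Orth.Gen Cfsg.Agent.Lib.OrthRefl.Eichler Cfsg.Agent.Lib.Classical.QuadEichler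
open Cfsg.Agent.Lib.Classical.QuadEichSimple Cfsg.Agent.Lib.Classical.OmegaHP Cfsg.Agent.Lib.Classical.OmegaLocal
open Cfsg.Agent.Lib.Classical.OmegaRoot Cfsg.Agent.Lib.Classical.OmegaSemi Cfsg.Agent.Lib.Classical.OmegaConj
open Cfsg.Agent.Lib.Classical.OmegaBar Cfsg.Agent.Lib.Classical.OmegaAut Cfsg.Agent.Lib.Classical.OmegaCount
open Cfsg.Agent.Lib.Orth.Forms Cfsg.Agent.Lib.Classical.BinaryForms Cfsg.Agent.Lib.Classical.QuadEichBridge
open Cfsg.Agent.Lib.Classical.OmegaForms Cfsg.Agent.Lib.Classical.OmegaOut Cfsg.Agent.Lib.Orth.Bridge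
open Cfsg.Agent.Lib.Classical.MatrixBridge Cfsg.Agent.Lib.Classical.SympSimple
open Cfsg.Agent.Lib.Classical.OmegaPGO Cfsg.Agent.Lib.Classical.OmegaPGO2 Cfsg.Agent.Lib.Classical.OmegaFrob
open Cfsg.Agent.Lib.Classical.OmegaOutOdd Cfsg.Agent.Lib.KS71.Speiser Cfsg.Agent.Lib.Classical.OmegaDesc
open Cfsg.Agent.Lib.Classical.OmegaFieldOdd Cfsg.Agent.Lib.Classical.OmegaCent Cfsg.Agent.Lib.KS71.ClassSplit
open Cfsg.Agent.Lib.Classical.OmegaFieldCount Cfsg.Agent.Lib.QuadFn.MaxSingular Cfsg.Agent.Lib.Orth.Parity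
open Cfsg.Agent.Lib.Classical.OmegaClass Cfsg.Agent.Lib.Orth.HypBasis Cfsg.Agent.Lib.QuadFn.PlusForm
open scoped commutatorElement

universe u v

section basechange

variable {F : Type u} [Field F] [Fintype F] {ι : Type} [Fintype ι] [DecidableEq ι]

/-- Base change of a linear equivalence over the fixed field. -/
theorem exists_base_change {σ : F ≃+* F} {J : Type} [Fintype J] [DecidableEq J]
    {R : QuadraticForm F (ι → F)} (hR : ∀ x : ι → F, R (fun i => σ (x i)) = σ (R x))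
    (A : QuadraticForm F (J → F)) (A₀ : QuadraticForm (Fx σ) (J → Fx σ)) (hA : ∀ y : J → Fx σ, A (incl σ y) = A₀ y)
    (Θ₀ : (J → Fx σ) ≃ₗ[Fx σ] (ι → Fx σ)) (hΘ₀ : ∀ y, descend R hR (Θ₀ y) = A₀ y) :
    ∃ Θ : (J → F) ≃ₗ[F] (ι → F), (∀ y, R (Θ y) = A y) ∧ (∀ y, Θ (fun j => σ (y j)) = fun i => σ (Θ y i)) := by
  classical
  set M₀ := LinearMap.toMatrix' (Θ₀ : (J → Fx σ) →ₗ[Fx σ] (ι → Fx σ)) with hM₀
  set M₁ := LinearMap.toMatrix' (Θ₀.symm : (ι → Fx σ) →ₗ[Fx σ] (J → Fx σ)) with hM₁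
  have hM₀x : ∀ x, M₀ *ᵥ x = Θ₀ x := fun x => by
    rw [hM₀, LinearMap.toMatrix'_mulVec]
    rfl
  have h01 : M₀ * M₁ = 1 := by
    rw [hM₀, hM₁, ← LinearMap.toMatrix'_comp]
    have : (Θ₀ : (J → Fx σ) →ₗ[Fx σ] (ι → Fx σ)) ∘ₗ (Θ₀.symm : (ι → Fx σ) →ₗ[Fx σ] (J → Fx σ)) = LinearMap.id := by
      ext1 i
      ext
      simp
    rw [this, LinearMap.toMatrix'_id]
  have h10 : M₁ * M₀ = 1 := by
    rw [hM₀, hM₁, ← LinearMap.toMatrix'_comp]
    have : (Θ₀.symm : (ι → Fx σ) →ₗ[Fx σ] (J → Fx σ)) ∘ₗ (Θ₀ : (J → Fx σ) →ₗ[Fx σ] (ι → Fx σ)) = LinearMap.id := by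
      ext1 i
      ext
      simp
    rw [this, LinearMap.toMatrix'_id]
  set M : Matrix ι J F := M₀.map (Fx σ).subtype with hM
  set M' : Matrix J ι F := M₁.map (Fx σ).subtype with hM'
  have hinc01 : M * M' = 1 := by
    rw [hM, hM', ← Matrix.map_mul, h01, Matrix.map_one _ (map_zero _) (map_one _)]
  have hinc10 : M' * M = 1 := by
    rw [hM, hM', ← Matrix.map_mul, h10, Matrix.map_one _ (map_zero _) (map_one _)]
  let L : (J → F) ≃ₗ[F] (ι → F) := LinearEquiv.ofLinearMap (Matrix.toLin' M) (Matrix.toLin' M')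
    (by rw [← Matrix.toLin'_mul, hinc01, Matrix.toLin'_one]) (by rw [← Matrix.toLin'_mul, hinc10, Matrix.toLin'_one])
  have hL : ∀ x, L x = M *ᵥ x := fun x => rfl
  have hinc : ∀ y : J → Fx σ, L (incl σ y) = incl σ (Θ₀ y) := by
    intro y
    rw [hL, ← hM₀x]
    ext i
    simp [hM, Matrix.mulVec, dotProduct, incl]
  refine ⟨L, fun y => ?_, fun y => ?_⟩
  · let B : QuadraticForm F (J → F) := R.comp (L : (J → F) →ₗ[F] (ι → F))
    refine forms_eq_of_incl (σ := σ) B A (fun z => ?_) y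
    show R (L (incl σ z)) = _
    rw [hinc, hA, ← hΘ₀]
    rfl
  · ext i
    rw [hL, hL]
    simp only [Matrix.mulVec, dotProduct, map_sum, map_mul]
    refine Finset.sum_congr rfl fun j _ => ?_
    congr 1
    exact ((M₀ i j).2).symm

/-- The cardinality of the fixed field. -/
theorem card_Fx (σ : F ≃+* F) : Fintype.card F = Nat.card (Fx σ) ^ orderOf σ := by
  classical
  letI : Fintype (Subgroup.zpowers σ) := Fintype.ofFinite _
  let S := FixedPoints.subfield (Subgroup.zpowers σ) F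
  have hmem : ∀ x, x ∈ S ↔ σ x = x := by
    intro x
    constructor
    · intro h
      exact h ⟨σ, Subgroup.mem_zpowers σ⟩
    · intro h g
      have h1 : σ ∈ MulAction.stabilizer (F ≃+* F) x := MulAction.mem_stabilizer_iff.2 h
      have h2 := Subgroup.zpowers_le.2 h1 g.2
      exact MulAction.mem_stabilizer_iff.1 h2
  have hS : S = Fx σ := by
    ext x
    rw [hmem, mem_Fx]
  have h1 : Module.finrank S F = orderOf σ := by
    rw [FixedPoints.finrank_eq_card (Subgroup.zpowers σ) F, ← Nat.card_eq_fintype_card, Nat.card_zpowers]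
  have h2 : Fintype.card F = Fintype.card S ^ Module.finrank S F := Module.card_eq_pow_finrank
  rw [h1] at h2
  rw [h2, ← hS, Nat.card_eq_fintype_card]

end basechange

section rootsub

variable {K : Type u} [Field K] (k : ℕ)

/-- The maximal singular subspace of a root. -/
def rootSub (ρ : K) : Submodule K ((Fin k ⊕ Fin k) ⊕ Fin 2 → K) where
  carrier := {y | (∀ i, y (Sum.inl (Sum.inr i)) = 0) ∧ y (Sum.inr 0) = ρ * y (Sum.inr 1)}
  add_mem' := by
    rintro a b ⟨h1, h2⟩ ⟨h3, h4⟩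
    refine ⟨fun i => ?_, ?_⟩
    · simp [h1, h3]
    · simp [h2, h4, mul_add]
  zero_mem' := by
    refine ⟨fun i => rfl, ?_⟩
    simp
  smul_mem' := by
    rintro c a ⟨h1, h2⟩
    refine ⟨fun i => ?_, ?_⟩
    · simp [h1]
    · simp [h2]
      ring

theorem mem_rootSub {ρ : K} {y : (Fin k ⊕ Fin k) ⊕ Fin 2 → K} :
    y ∈ rootSub k ρ ↔ (∀ i, y (Sum.inl (Sum.inr i)) = 0) ∧ y (Sum.inr 0) = ρ * y (Sum.inr 1) := Iff.rfl

theorem rootSub_ts {a b ρ : K} (hρ : ρ ^ 2 + a * ρ + b = 0) : TS (⇑(minusForm k K a b)) (rootSub k ρ) := by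
  rintro y ⟨h1, h2⟩
  show Cfsg.quadFormMinus k K a b y = 0
  simp only [Cfsg.quadFormMinus, h1, mul_zero, Finset.sum_const_zero, zero_add, h2]
  linear_combination (y (Sum.inr 1)) ^ 2 * hρ

/-- The parametrisation of `rootSub`. -/
def rootMap (ρ : K) : (Fin k ⊕ Fin 1 → K) →ₗ[K] ((Fin k ⊕ Fin k) ⊕ Fin 2 → K) where
  toFun x := Sum.elim (Sum.elim (fun i => x (.inl i)) (fun _ => 0)) ![ρ * x (.inr 0), x (.inr 0)]
  map_add' := by
    intro x y
    funext j
    rcases j with (i | i) | t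
    · simp
    · simp
    · fin_cases t <;> simp [mul_add]
  map_smul' := by
    intro r x
    funext j
    rcases j with (i | i) | t
    · simp
    · simp
    · fin_cases t
      · simp
        ring
      · simp

theorem rootMap_inj (ρ : K) : Function.Injective (rootMap k ρ) := by
  rw [← LinearMap.ker_eq_bot, LinearMap.ker_eq_bot']
  intro x hx
  funext j
  rcases j with i | i
  · have := congrFun hx (.inl (.inl i))
    simpa [rootMap] using this
  · have := congrFun hx (.inr 1)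
    have hi : i = 0 := Subsingleton.elim _ _
    subst hi
    simpa [rootMap] using this

theorem range_rootMap (ρ : K) : LinearMap.range (rootMap k ρ) = rootSub k ρ := by
  ext y
  constructor
  · rintro ⟨x, rfl⟩
    refine ⟨fun i => rfl, ?_⟩
    simp [rootMap]
  · rintro ⟨h1, h2⟩
    refine ⟨Sum.elim (fun i => y (Sum.inl (Sum.inl i))) (fun _ => y (Sum.inr 1)), ?_⟩
    funext j
    rcases j with (i | i) | t
    · simp [rootMap]
    · simp [rootMap, h1]
    · fin_cases t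
      · simp [rootMap, h2]
      · simp [rootMap]

theorem finrank_rootSub (ρ : K) : finrank K (rootSub k ρ) = k + 1 := by
  rw [← range_rootMap, LinearMap.finrank_range_of_inj (rootMap_inj k ρ)]
  simp

/-- The intersection of two `rootSub`s. -/
theorem finrank_rootSub_inf {ρ ρ' : K} (h : ρ ≠ ρ') : finrank K (rootSub k ρ ⊓ rootSub k ρ' : Submodule K _) = k := by
  -- it is the range of the injective map on `Fin k → K`
  let L : (Fin k → K) →ₗ[K] ((Fin k ⊕ Fin k) ⊕ Fin 2 → K) :=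
    { toFun := fun x => Sum.elim (Sum.elim x (fun _ => 0)) (fun _ => 0)
      map_add' := by
        intro x y
        funext j
        rcases j with (i | i) | t <;> simp
      map_smul' := by
        intro r x
        funext j
        rcases j with (i | i) | t <;> simp }
  have hinj : Function.Injective L := by
    rw [← LinearMap.ker_eq_bot, LinearMap.ker_eq_bot']
    intro x hx
    funext i
    have := congrFun hx (.inl (.inl i))
    simpa [L] using this
  have hr : LinearMap.range L = rootSub k ρ ⊓ rootSub k ρ' := by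
    ext y
    constructor
    · rintro ⟨x, rfl⟩
      refine ⟨⟨fun i => rfl, ?_⟩, ⟨fun i => rfl, ?_⟩⟩ <;> simp [L]
    · rintro ⟨⟨h1, h2⟩, ⟨h3, h4⟩⟩
      have h5 : y (Sum.inr 1) = 0 := by
        have h6 : (ρ - ρ') * y (Sum.inr 1) = 0 := by
          rw [sub_mul, ← h2, ← h4, sub_self]
        exact (mul_eq_zero.1 h6).resolve_left (sub_ne_zero.2 h)
      have h7 : y (Sum.inr 0) = 0 := by
        rw [h2, h5, mul_zero]
      refine ⟨fun i => y (Sum.inl (Sum.inl i)), ?_⟩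
      funext j
      rcases j with (i | i) | t
      · simp [L]
      · simp [L, h1]
      · fin_cases t
        · simp [L, h7]
        · simp [L, h5]
  rw [← hr, LinearMap.finrank_range_of_inj hinj]
  simp

theorem coord_rootSub {σ : K ≃+* K} {ρ : K} {y : (Fin k ⊕ Fin k) ⊕ Fin 2 → K} :
    (fun i => σ (y i)) ∈ rootSub k (σ ρ) ↔ y ∈ rootSub k ρ := by
  constructor
  · rintro ⟨h1, h2⟩
    refine ⟨fun i => (σ.map_eq_zero_iff.1 (h1 i)), σ.injective ?_⟩
    rw [map_mul]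
    exact h2
  · rintro ⟨h1, h2⟩
    refine ⟨fun i => ?_, ?_⟩
    · show σ _ = 0
      rw [h1, map_zero]
    · show σ _ = σ ρ * σ _
      rw [h2, map_mul]

end rootsub

section types

variable {F : Type u} [Field F] [Fintype F] {ι : Type} [Fintype ι] [DecidableEq ι] {Q : QuadraticForm F (ι → F)}
variable {σ : F ≃+* F} {l : F} {T : SemiEl Q} {k₀ : (ι → F) ≃ₗ[F] (ι → F)} {b : F}

/-- The plus model over the fixed field. -/
theorem incl_plus (σ : F ≃+* F) (m : ℕ) (y : Fin m ⊕ Fin m → Fx σ) :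
    plusForm m F (incl σ y) = (plusForm m (Fx σ) y : Fx σ) := by
  rw [coe_plusForm, coe_plusForm]
  simp [Cfsg.quadFormPlus]

theorem incl_minus (σ : F ≃+* F) (m : ℕ) (a b : Fx σ) (y : (Fin m ⊕ Fin m) ⊕ Fin 2 → Fx σ) :
    minusForm m F (a : F) (b : F) (incl σ y) = (minusForm m (Fx σ) a b y : Fx σ) := by
  rw [coe_minusForm, coe_minusForm]
  simp [Cfsg.quadFormMinus]

/-- A Lagrangian over the fixed field gives a stable Lagrangian. -/
theorem stable_of_lagr (hQ : (polarBilin Q).Nondegenerate) (H : Semi Q T.1 σ l) (D : IsDesc T σ k₀ b) {m : ℕ}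
    (hc : Fintype.card ι = 2 * m) (hnd : (polarBilin (descend (twistForm Q k₀ b) D.stable)).Nondegenerate)
    {U₀ : Submodule (Fx σ) (ι → Fx σ)} (hU₀ : TS (⇑(descend (twistForm Q k₀ b) D.stable)) U₀) (hU₀m : finrank (Fx σ) U₀ = m) :
    ∃ U : Submodule F (ι → F), TS (⇑Q) U ∧ finrank F U = m ∧ img H U = U := by
  classical
  obtain ⟨Θ₀, hΘ₀⟩ := exists_equiv_plus_of_ts hnd (m := m) (by rw [finrank_coord, hc]) hU₀ hU₀m
  obtain ⟨Θ, h1, h2⟩ := exists_base_change D.stable (plusForm m F) (plusForm m (Fx σ)) (incl_plus σ m) Θ₀ hΘ₀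
  let K : (Fin m ⊕ Fin m → F) ≃ₗ[F] (ι → F) := Θ.trans k₀
  have hK : ∀ y, K y = k₀ (Θ y) := fun y => rfl
  have hKT : ∀ y, T.1 (K y) = K (fun j => σ (y j)) := by
    intro y
    rw [hK, hK, D.frame, h2]
  have hKQ : ∀ y, b * Q (K y) = plusForm m F y := by
    intro y
    rw [← h1 y, twistForm_apply, hK]
  let U : Submodule F (ι → F) := (stdM F m).map (K : (Fin m ⊕ Fin m → F) →ₗ[F] (ι → F))
  have hUm : finrank F U = m := by
    rw [← stdM_finrank F m]
    exact LinearEquiv.finrank_map_eq K _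
  have hb : b ≠ 0 := D.b_ne
  refine ⟨U, ?_, hUm, ?_⟩
  · rintro _ ⟨y, hy, rfl⟩
    have h3 := hKQ y
    have h4 : plusForm m F y = 0 := stdM_ts F m y hy
    rw [h4] at h3
    exact (mul_eq_zero.1 h3).resolve_left hb
  · apply Submodule.eq_of_le_of_finrank_eq
    · rintro _ ⟨_, ⟨y, hy, rfl⟩, rfl⟩
      refine ⟨fun j => σ (y j), ?_, (hKT y).symm⟩
      have hy' : ∀ i, y (Sum.inr i) = 0 := fun i => by
        have := congrFun (LinearMap.mem_ker.mp hy) i
        simpa [LinearMap.funLeft_apply] using this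
      apply LinearMap.mem_ker.2
      funext i
      simp [LinearMap.funLeft_apply, hy']
    · rw [finrank_img]

/-- The elliptic normal form. -/
theorem exists_minus_model (hQ : (polarBilin Q).Nondegenerate) (H : Semi Q T.1 σ l) (D : IsDesc T σ k₀ b) {k : ℕ}
    (hc : Fintype.card ι = 2 * (k + 1)) (hnd : (polarBilin (descend (twistForm Q k₀ b) D.stable)).Nondegenerate)
    (hL : ¬ ∃ U₀ : Submodule (Fx σ) (ι → Fx σ), TS (⇑(descend (twistForm Q k₀ b) D.stable)) U₀ ∧ finrank (Fx σ) U₀ = k + 1) :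
    ∃ (a₀ b₀ : Fx σ) (K : ((Fin k ⊕ Fin k) ⊕ Fin 2 → F) ≃ₗ[F] (ι → F)),
      (∀ z₁ z₂ : Fx σ, z₁ ^ 2 + a₀ * z₁ * z₂ + b₀ * z₂ ^ 2 = 0 → z₁ = 0 ∧ z₂ = 0) ∧
      (∀ y, b * Q (K y) = minusForm k F (a₀ : F) (b₀ : F) y) ∧ (∀ y, T.1 (K y) = K (fun j => σ (y j))) := by
  classical
  obtain ⟨a₀, b₀, hab, h⟩ := exists_equiv_minus hnd (k := k) (by rw [finrank_coord, hc]) hL
  obtain ⟨Θ₀, hΘ₀⟩ := h a₀ b₀ hab
  obtain ⟨Θ, h1, h2⟩ := exists_base_change D.stable (minusForm k F (a₀ : F) (b₀ : F)) (minusForm k (Fx σ) a₀ b₀) (incl_minus σ k a₀ b₀) Θ₀ hΘ₀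
  refine ⟨a₀, b₀, Θ.trans k₀, hab, fun y => ?_, fun y => ?_⟩
  · rw [← h1 y, twistForm_apply]
    rfl
  · show T.1 (k₀ (Θ y)) = k₀ (Θ _)
    rw [D.frame, h2]

/-- A root of the elliptic polynomial. -/
theorem exists_root_two (hσ : orderOf σ = 2) {a₀ b₀ : Fx σ}
    (hab : ∀ z₁ z₂ : Fx σ, z₁ ^ 2 + a₀ * z₁ * z₂ + b₀ * z₂ ^ 2 = 0 → z₁ = 0 ∧ z₂ = 0) :
    ∃ ρ : F, ρ ^ 2 + (a₀ : F) * ρ + (b₀ : F) = 0 ∧ σ ρ ≠ ρ := by
  classical
  letI : Fintype (Fx σ) := Fintype.ofFinite _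
  have hcard : Fintype.card F = Fintype.card (Fx σ) ^ 2 := by
    have := card_Fx σ
    rw [hσ, Nat.card_eq_fintype_card] at this
    exact this
  obtain ⟨ρ, hρ, -⟩ := Cfsg.Agent.Lib.KS71.FieldEmb.exists_root_of_anisotropic (F := Fx σ) (K := F) rfl hcard a₀ b₀ hab
  refine ⟨ρ, hρ, fun h => ?_⟩
  have hmem : ρ ∈ Fx σ := h
  have hρ' : ρ ^ 2 + (a₀ : F) * ρ + (b₀ : F) = 0 := hρ
  have h3 := hab ⟨ρ, hmem⟩ 1 (by
    apply Subtype.ext
    simp only [Subfield.coe_add, Subfield.coe_mul, SubmonoidClass.coe_pow, Subfield.coe_zero, Subfield.coe_one]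
    linear_combination hρ')
  exact one_ne_zero h3.2

/-- In the elliptic case with an involution, the semisimilarity interchanges the classes. -/
theorem neighbour_of_elliptic (hQ : (polarBilin Q).Nondegenerate) (H : Semi Q T.1 σ l) (D : IsDesc T σ k₀ b) {k : ℕ}
    (hc : Fintype.card ι = 2 * (k + 1)) (hnd : (polarBilin (descend (twistForm Q k₀ b) D.stable)).Nondegenerate)
    (hσ : orderOf σ = 2)
    (hL : ¬ ∃ U₀ : Submodule (Fx σ) (ι → Fx σ), TS (⇑(descend (twistForm Q k₀ b) D.stable)) U₀ ∧ finrank (Fx σ) U₀ = k + 1) :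
    ∃ U : Submodule F (ι → F), TS (⇑Q) U ∧ finrank F U = k + 1 ∧ finrank F (U ⊓ img H U : Submodule F (ι → F)) + 1 = k + 1 := by
  classical
  obtain ⟨a₀, b₀, K, hab, hKQ, hKT⟩ := exists_minus_model hQ H D hc hnd hL
  obtain ⟨ρ, hρ, hσρ⟩ := exists_root_two hσ hab
  have hb : b ≠ 0 := D.b_ne
  let mp : Submodule F ((Fin k ⊕ Fin k) ⊕ Fin 2 → F) → Submodule F (ι → F) := fun W => W.map (K : _ →ₗ[F] (ι → F))
  have hmp : ∀ W, finrank F (mp W) = finrank F W := fun W => LinearEquiv.finrank_map_eq K W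
  have himg : img H (mp (rootSub k ρ)) = mp (rootSub k (σ ρ)) := by
    ext x
    constructor
    · rintro ⟨_, ⟨y, hy, rfl⟩, rfl⟩
      exact ⟨fun j => σ (y j), coord_rootSub k |>.2 hy, (hKT y).symm⟩
    · rintro ⟨y, hy, rfl⟩
      refine ⟨_, ⟨fun j => σ.symm (y j), ?_, rfl⟩, ?_⟩
      · apply (coord_rootSub k (σ := σ)).1
        simpa using hy
      · show T.1 (K _) = K y
        rw [hKT]
        congr 1
        funext j
        simp
  refine ⟨mp (rootSub k ρ), ?_, ?_, ?_⟩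
  · rintro _ ⟨y, hy, rfl⟩
    have h3 := hKQ y
    have h4 : minusForm k F (a₀ : F) (b₀ : F) y = 0 := rootSub_ts k hρ y hy
    rw [h4] at h3
    exact (mul_eq_zero.1 h3).resolve_left hb
  · rw [hmp, finrank_rootSub]
  · rw [himg]
    have e : mp (rootSub k ρ) ⊓ mp (rootSub k (σ ρ)) = mp (rootSub k ρ ⊓ rootSub k (σ ρ)) :=
      (Submodule.map_inf _ K.injective).symm
    rw [e, hmp, finrank_rootSub_inf k (Ne.symm hσρ)]

/-- In the elliptic case with an automorphism of odd order, there is no Lagrangian. -/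
theorem no_lagr_of_elliptic_odd (hQ : (polarBilin Q).Nondegenerate) (H : Semi Q T.1 σ l) (D : IsDesc T σ k₀ b) {k : ℕ}
    (hc : Fintype.card ι = 2 * (k + 1)) (hnd : (polarBilin (descend (twistForm Q k₀ b) D.stable)).Nondegenerate)
    (hσ : Odd (orderOf σ))
    (hL : ¬ ∃ U₀ : Submodule (Fx σ) (ι → Fx σ), TS (⇑(descend (twistForm Q k₀ b) D.stable)) U₀ ∧ finrank (Fx σ) U₀ = k + 1) :
    ¬ ∃ U : Submodule F (ι → F), TS (⇑Q) U ∧ finrank F U = k + 1 := by
  classical
  obtain ⟨a₀, b₀, K, hab, hKQ, hKT⟩ := exists_minus_model hQ H D hc hnd hL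
  rintro ⟨U, hU, hUm⟩
  -- anisotropy over `F`
  have haniso : ∀ z₁ z₂ : F, z₁ ^ 2 + (a₀ : F) * z₁ * z₂ + (b₀ : F) * z₂ ^ 2 = 0 → z₁ = 0 ∧ z₂ = 0 := by
    intro z₁ z₂ hz
    have hroot : ∀ ρ : F, ρ ^ 2 + (a₀ : F) * ρ + (b₀ : F) = 0 → False := by
      intro ρ hρ
      have ha : σ (a₀ : F) = a₀ := a₀.2
      have hb' : σ (b₀ : F) = b₀ := b₀.2
      have h1 : (σ ρ) ^ 2 + (a₀ : F) * σ ρ + (b₀ : F) = 0 := by
        have := congrArg σ hρ
        simpa [map_add, map_mul, map_pow, ha, hb'] using this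
      have h2 : (σ ρ - ρ) * (σ ρ + ρ + a₀) = 0 := by
        linear_combination h1 - hρ
      have h3 : σ (σ ρ) = ρ := by
        rcases mul_eq_zero.1 h2 with h4 | h4
        · rw [sub_eq_zero.1 h4, sub_eq_zero.1 h4]
        · have h5 : σ ρ = -ρ - a₀ := by linear_combination h4
          rw [h5, map_sub, map_neg, h5, ha]
          ring
      have h4 : ∀ j : ℕ, (σ ^ (2 * j)) ρ = ρ := by
        intro j
        induction j with
        | zero => simp
        | succ j ih =>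
          have e : σ ^ (2 * (j + 1)) = σ ^ (2 * j) * (σ * σ) := by
            rw [mul_add, pow_add, mul_one, pow_two]
          rw [e]
          show (σ ^ (2 * j)) (σ (σ ρ)) = ρ
          rw [h3, ih]
      obtain ⟨t, ht⟩ := hσ
      have h5 : σ ρ = ρ := by
        have e : σ = σ ^ (2 * (t + 1)) := by
          have : σ ^ (2 * t + 1) = 1 := by
            rw [← ht]
            exact pow_orderOf_eq_one σ
          calc σ = σ ^ (2 * t + 1) * σ := by rw [this, one_mul]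
            _ = σ ^ (2 * (t + 1)) := by
              rw [← pow_succ]
              congr 1
        rw [e]
        exact h4 _
      have h6 := hab ⟨ρ, h5⟩ 1 (by
        apply Subtype.ext
        simp only [Subfield.coe_add, Subfield.coe_mul, SubmonoidClass.coe_pow, Subfield.coe_zero, Subfield.coe_one]
        linear_combination hρ)
      exact one_ne_zero h6.2
    by_cases h2 : z₂ = 0
    · subst h2
      simpa using hz
    · exfalso
      apply hroot (z₁ / z₂)
      field_simp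
      linear_combination hz
  -- pull back the Lagrangian
  let W : Submodule F ((Fin k ⊕ Fin k) ⊕ Fin 2 → F) := U.comap (K : _ →ₗ[F] (ι → F))
  have hWm : finrank F W = k + 1 := by
    have : W = U.map (K.symm : (ι → F) →ₗ[F] _) := by
      ext y
      constructor
      · intro hy
        exact ⟨K y, hy, by simp⟩
      · rintro ⟨x, hx, rfl⟩
        show K (K.symm x) ∈ U
        simpa using hx
    rw [this, ← hUm]
    exact LinearEquiv.finrank_map_eq K.symm U
  have hb : b ≠ 0 := D.b_ne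
  refine no_half_minus haniso W (fun y hy => ?_) ?_
  · have h4 : Q (K y) = 0 := hU _ hy
    rw [← hKQ y, h4, mul_zero]
  · rw [hWm]
    simp
    ring

/-- Comparison of the descended forms. -/
theorem similar_of_even (hQ : (polarBilin Q).Nondegenerate) {T T₀ : SemiEl Q} {l l₀ : F} (H : Semi Q T.1 σ l) (H₀ : Semi Q T₀.1 σ l₀)
    {k₁ k₂ : (ι → F) ≃ₗ[F] (ι → F)} {b₁ b₂ : F} (D : IsDesc T σ k₁ b₁) (D₀ : IsDesc T₀ σ k₂ b₂) {k : ℕ}
    (hc : Fintype.card ι = 2 * (k + 1)) (hσ : orderOf σ = 2 ∨ Odd (orderOf σ))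
    {U : Submodule F (ι → F)} (hU : TS (⇑Q) U) (hUm : finrank F U = k + 1) (hpar : EvenT (k + 1) T ↔ EvenT (k + 1) T₀) :
    SimilarF (descend (twistForm Q k₁ b₁) D.stable) (descend (twistForm Q k₂ b₂) D₀.stable) := by
  classical
  have hnd := descend_nondeg _ D.stable (twistForm_nondeg hQ k₁ D.b_ne)
  have hnd₀ := descend_nondeg _ D₀.stable (twistForm_nondeg hQ k₂ D₀.b_ne)
  have hdim : finrank F (ι → F) = 2 * (k + 1) := by rw [finrank_coord, hc]
  -- the implication for one side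
  have key : ∀ {T₁ : SemiEl Q} {l₁ : F} {k₃ : (ι → F) ≃ₗ[F] (ι → F)} {b₃ : F} (H₁ : Semi Q T₁.1 σ l₁) (D₁ : IsDesc T₁ σ k₃ b₃),
      (polarBilin (descend (twistForm Q k₃ b₃) D₁.stable)).Nondegenerate →
      ((∃ U₀ : Submodule (Fx σ) (ι → Fx σ), TS (⇑(descend (twistForm Q k₃ b₃) D₁.stable)) U₀ ∧ finrank (Fx σ) U₀ = k + 1) ↔ EvenT (k + 1) T₁) := by
    intro T₁ l₁ k₃ b₃ H₁ D₁ hnd₁
    constructor
    · rintro ⟨U₀, h1, h2⟩
      obtain ⟨W, hW, hWm, hWT⟩ := stable_of_lagr hQ H₁ D₁ (m := k + 1) hc hnd₁ h1 h2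
      exact evenT_of_stable hQ hdim H₁ hW hWm hWT
    · intro hE
      by_contra hL
      rcases hσ with h2 | h2
      · obtain ⟨W, hW, hWm, hWn⟩ := neighbour_of_elliptic hQ H₁ D₁ hc hnd₁ h2 hL
        exact not_evenT_of_neighbour hQ hdim H₁ hW hWm hWn hE
      · exact no_lagr_of_elliptic_odd hQ H₁ D₁ hc hnd₁ h2 hL ⟨U, hU, hUm⟩
  have h1 := key H D hnd
  have h2 := key H₀ D₀ hnd₀
  by_cases hE : EvenT (k + 1) T
  · obtain ⟨U₁, hU₁, hU₁m⟩ := h1.2 hE
    obtain ⟨U₂, hU₂, hU₂m⟩ := h2.2 (hpar.1 hE)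
    exact similarF_lagr hnd hnd₀ hc hU₁ hU₁m hU₂ hU₂m
  · exact similarF_elliptic hnd hnd₀ hc (fun h => hE (h1.1 h)) (fun h => hE (hpar.2 (h2.1 h)))

end types

end Cfsg.Agent.Lib.Classical.OmegaType
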