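/-
Coset conjugacy for field and graph-field automorphisms of `PΩ⁺`.
-/
import Mathlib
import Cfsg.Agent.Lib.Classical.OmegaType

set_option autoImplicit false
set_option linter.unusedSimpArgs false
set_option linter.unusedSectionVars false
set_option linter.style.haveILetI false
set_option linter.unusedVariables false

namespace Cfsg.Agent.Lib.Classical.OmegaPlusConj

open Module MulAction QuadraticMap Matrix Cfsg.Agent.Lib.Witt.Quadratic Cfsg.Agent.Lib.Orth.Refl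
open Cfsg.Agent.Lib.Orth.Gen Cfsg.Agent.Lib.OrthRefl.Eichler Cfsg.Agent.Lib.Classical.QuadEichler
open Cfsg.Agent.Lib.Classical.QuadEichSimple Cfsg.Agent.Lib.Classical.OmegaHP Cfsg.Agent.Lib.Classical.OmegaLocal
open Cfsg.Agent.Lib.Classical.OmegaRoot Cfsg.Agent.Lib.Classical.OmegaSemi Cfsg.Agent.Lib.Classical.OmegaConj
open Cfsg.Agent.Lib.Classical.OmegaBar Cfsg.Agent.Lib.Classical.OmegaAut Cfsg.Agent.Lib.Classical.OmegaCount
open Cfsg.Agent.Lib.Orth.Forms Cfsg.Agent.Lib.Classical.BinaryForms Cfsg.Agent.Lib.Classical.QuadEichBridge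
open Cfsg.Agent.Lib.Classical.OmegaForms Cfsg.Agent.Lib.Classical.OmegaOut Cfsg.Agent.Lib.Orth.Bridge
open Cfsg.Agent.Lib.Classical.MatrixBridge Cfsg.Agent.Lib.Classical.SympSimple
open Cfsg.Agent.Lib.Classical.OmegaPGO Cfsg.Agent.Lib.Classical.OmegaPGO2 Cfsg.Agent.Lib.Classical.OmegaFrob
open Cfsg.Agent.Lib.Classical.OmegaOutOdd Cfsg.Agent.Lib.KS71.Speiser Cfsg.Agent.Lib.Classical.OmegaDesc
open Cfsg.Agent.Lib.Classical.OmegaFieldOdd Cfsg.Agent.Lib.Classical.OmegaCent Cfsg.Agent.Lib.KS71.ClassSplit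
open Cfsg.Agent.Lib.Classical.OmegaFieldCount Cfsg.Agent.Lib.QuadFn.MaxSingular Cfsg.Agent.Lib.Orth.Parity
open Cfsg.Agent.Lib.Classical.OmegaClass Cfsg.Agent.Lib.Orth.HypBasis Cfsg.Agent.Lib.QuadFn.PlusForm
open Cfsg.Agent.Lib.Classical.OmegaType
open scoped commutatorElement

universe u v

section general

variable {F : Type u} [Field F] [Fintype F] {ι : Type} [Fintype ι] [DecidableEq ι] {Q : QuadraticForm F (ι → F)}

/-- A reflection in an eigenvector commutes with the semisimilarity. -/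
theorem refl_comm {σ : F ≃+* F} {l₀ : F} {T₀ : SemiEl Q} (H₀ : Semi Q T₀.1 σ l₀) {v : ι → F} {c : F} (hv : T₀.1 v = c • v)
    (hQv : Q v ≠ 0) : toSemi Q (reflH Q v) * T₀ = T₀ * toSemi Q (reflH Q v) := by
  have hv0 : v ≠ 0 := by
    rintro rfl
    simp at hQv
  have hc : c ≠ 0 := by
    rintro rfl
    rw [zero_smul] at hv
    exact hv0 (T₀.1.injective (by rw [hv, map_zero]))
  apply Subtype.ext
  ext1 x
  rw [SemiEl.mul_apply, SemiEl.mul_apply, toSemi_apply, toSemi_apply, reflH_mulVec, reflH_mulVec, refl_apply, refl_apply, map_sub,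
    H₀.smul, hv, smul_smul]
  congr 2
  have e1 := H₀.polar_eq x v
  rw [hv, polar_smul_right, smul_eq_mul] at e1
  have e2 := H₀.Q_eq v
  rw [hv, QuadraticMap.map_smul, smul_eq_mul] at e2
  have hD : σ (Q v) ≠ 0 := fun h => hQv (σ.map_eq_zero_iff.1 h)
  have key : polar Q (T₀.1 x) v * σ (Q v) = c * σ (polar Q x v) * Q v := by
    apply mul_left_cancel₀ H₀.ne
    linear_combination (-(polar Q (T₀.1 x) v)) * e2 + (c * Q v) * e1
  rw [map_mul, map_inv₀]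
  field_simp
  linear_combination key

theorem semi_conj (A T₁ : SemiEl Q) {σ : F ≃+* F} {l : F} (H₁ : Semi Q T₁.1 σ l) : ∃ l', Semi Q (A⁻¹ * T₁ * A).1 σ l' := by
  obtain ⟨θ, a, HA⟩ := A.2
  have H := HA.symm.trans (H₁.trans HA)
  have e : (θ.trans σ).trans θ.symm = σ := by
    ext x
    show θ.symm (σ (θ x)) = σ x
    have h1 := DFunLike.congr_fun (Cfsg.Agent.Lib.KS71.GalFin.comm σ θ) x
    have h2 : σ (θ x) = θ (σ x) := h1
    rw [h2]
    exact θ.symm_apply_apply _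
  rw [e] at H
  exact ⟨_, H⟩

theorem evenT_scS' {m : ℕ} (hQ : (polarBilin Q).Nondegenerate) (hdim : finrank F (ι → F) = 2 * m) (a : F) (ha : a ≠ 0) :
    EvenT m (scS' (Q := Q) a ha) := by
  intro U hU hUm
  have e : img (semiOf (scS' (Q := Q) a ha)) U = U := by
    apply Submodule.eq_of_le_of_finrank_eq
    · rintro _ ⟨u, hu, rfl⟩
      exact U.smul_mem a hu
    · rw [finrank_img]
  rw [e, inf_idem, hUm]
  simp

variable [Nontrivial (ι → F)] (hQ : (polarBilin Q).Nondegenerate) (hn : 5 ≤ Fintype.card ι) (p : ℕ) [hp : Fact p.Prime] [hc : CharP F p]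

omit hn p hp hc in
theorem semi_toSemi_mul (g : Hs ⇑Q) {σ : F ≃+* F} {l₀ : F} {T₀ : SemiEl Q} (H₀ : Semi Q T₀.1 σ l₀) :
    Semi Q (toSemi Q g * T₀).1 σ (mult hQ g * l₀) :=
  ⟨fun c y => by
    show g.1.val *ᵥ (T₀.1 (c • y)) = σ c • g.1.val *ᵥ (T₀.1 y)
    rw [H₀.smul, Matrix.mulVec_smul], fun y => by
    show Q (g.1.val *ᵥ (T₀.1 y)) = _
    rw [mult_spec hQ, H₀.Q_eq]
    ring, mul_ne_zero (mult hQ g).ne_zero H₀.ne⟩

include hQ p in
/-- The conjugacy with a subgroup of index two. -/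
theorem conj_in_P (P : Subgroup (Hs ⇑Q)) (hP : ∀ g, g ∉ P → ∀ v, Q v ≠ 0 → g * reflH Q v ∈ P) {σ : F ≃+* F} {l₀ : F} {T₀ : SemiEl Q}
    (H₀ : Semi Q T₀.1 σ l₀) {r : ℕ} (hr : orderOf σ = r) (hT₀ : T₀ ^ r = 1) {v : ι → F} {c : F} (hv : T₀.1 v = c • v) (hQv : Q v ≠ 0)
    (g : Hs ⇑Q) (hord : (conjHom ⇑Q g * conjS hQ hn T₀) ^ r = 1)
    (hsim : ∀ (T' : SemiEl Q) (l' : F) (k k₀ : (ι → F) ≃ₗ[F] (ι → F)) (b b₀ : F) (D : IsDesc T' σ k b) (D₀ : IsDesc T₀ σ k₀ b₀),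
      Semi Q T'.1 σ l' → T' ^ r = 1 → (∃ (a : F) (ha : a ≠ 0), T' = scS' a ha * (toSemi Q g * T₀)) →
      SimilarF (descend (twistForm Q k b) D.stable) (descend (twistForm Q k₀ b₀) D₀.stable)) :
    ∃ h ∈ P, conjHom ⇑Q g * conjS hQ hn T₀ = conjHom ⇑Q h * conjS hQ hn T₀ * (conjHom ⇑Q h)⁻¹ := by
  obtain ⟨h, hh⟩ := conj_core hQ hn p (semi_toSemi_mul hQ g H₀) H₀ hr (by
      rw [map_mul, conjS_toSemi]
      exact hord) hT₀ hsim
  rw [map_mul, conjS_toSemi] at hh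
  by_cases hmem : h ∈ P
  · exact ⟨h, hmem, hh⟩
  · refine ⟨h * reflH Q v, hP h hmem v hQv, ?_⟩
    have hcomm : conjHom ⇑Q (reflH Q v) * conjS hQ hn T₀ = conjS hQ hn T₀ * conjHom ⇑Q (reflH Q v) := by
      rw [← conjS_toSemi hQ hn, ← map_mul, ← map_mul, refl_comm H₀ hv hQv]
    rw [hh, map_mul, _root_.mul_inv_rev]
    calc conjHom ⇑Q h * conjS hQ hn T₀ * (conjHom ⇑Q h)⁻¹
        = conjHom ⇑Q h * (conjHom ⇑Q (reflH Q v) * conjS hQ hn T₀ * (conjHom ⇑Q (reflH Q v))⁻¹) * (conjHom ⇑Q h)⁻¹ := by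
          rw [hcomm]
          group
      _ = _ := by group

include hQ p in
/-- The conjugacy in the class-preserving subgroup. -/
theorem conj_plus {k : ℕ} (hcard : Fintype.card ι = 2 * (k + 1)) (hdim : finrank F (ι → F) = 2 * (k + 1))
    {U : Submodule F (ι → F)} (hU : TS (⇑Q) U) (hUm : finrank F U = k + 1)
    {σ : F ≃+* F} {l₀ : F} {T₀ : SemiEl Q} (H₀ : Semi Q T₀.1 σ l₀) {r : ℕ} (hr : orderOf σ = r) (hσ : r = 2 ∨ Odd r) (hT₀ : T₀ ^ r = 1)
    {v : ι → F} {c : F} (hv : T₀.1 v = c • v) (hQv : Q v ≠ 0)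
    (g : Hs ⇑Q) (hg : g ∈ Hp hQ hdim hU hUm) (hord : (conjHom ⇑Q g * conjS hQ hn T₀) ^ r = 1) :
    ∃ h ∈ Hp hQ hdim hU hUm, conjHom ⇑Q g * conjS hQ hn T₀ = conjHom ⇑Q h * conjS hQ hn T₀ * (conjHom ⇑Q h)⁻¹ := by
  refine conj_in_P hQ hn p (Hp hQ hdim hU hUm) (fun g hg v hv => mul_refl_mem hQ hdim hU hUm hg hv) H₀ hr hT₀ hv hQv g hord ?_
  rintro T' l' k₁ k₂ b b₀ D D₀ H' hT' ⟨a, ha, rfl⟩
  refine similar_of_even hQ H' H₀ D D₀ hcard (by rwa [hr]) hU hUm ?_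
  rw [evenT_mul hQ hdim hU hUm, evenT_mul hQ hdim hU hUm]
  have h1 : EvenT (k + 1) (scS' (Q := Q) a ha) := evenT_scS' hQ hdim a ha
  have h2 : EvenT (k + 1) (toSemi Q g) := hg
  simp [h1, h2]

end general

section main

variable {F : Type u} [Field F] [Fintype F] {ι : Type} [Fintype ι] [DecidableEq ι] {Q : QuadraticForm F (ι → F)}

/-- Graph-field automorphisms for a general form. -/
def IsGF (Q : QuadraticForm F (ι → F)) (x : MulAut (Cfsg.POmega F ⇑Q)) : Prop :=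
  ∃ (α γ φ : MulAut (Cfsg.POmega F ⇑Q)) (σ : F ≃+* F) (v : ι → F) (r : GL ι F),
    σ ≠ RingEquiv.refl F ∧ Q v ≠ 0 ∧ (∀ i, σ (v i) = v i) ∧
    (r : Matrix ι ι F) = Cfsg.reflectionMatrix ⇑Q v ∧
    Cfsg.IsInducedBySemilinearPOmega ⇑Q r (RingEquiv.refl F) γ ∧
    Cfsg.IsFieldAutPOmegaOf ⇑Q σ φ ∧ α * x * α⁻¹ = γ * φ

theorem evenT_pow {m : ℕ} (hQ : (polarBilin Q).Nondegenerate) (hdim : finrank F (ι → F) = 2 * m) {U : Submodule F (ι → F)} (hU : TS (⇑Q) U)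
    (hUm : finrank F U = m) (T : SemiEl Q) (hT : ¬ EvenT m T) (n : ℕ) : EvenT m (T ^ n) ↔ Even n := by
  induction n with
  | zero =>
    rw [pow_zero]
    exact iff_of_true (evenT_one hQ hdim) (by simp)
  | succ n ih =>
    rw [pow_succ, evenT_mul hQ hdim hU hUm, ih, Nat.even_add_one]
    tauto

theorem evenT_of_scalar {m : ℕ} (hQ : (polarBilin Q).Nondegenerate) (hdim : finrank F (ι → F) = 2 * m) {T : SemiEl Q} {c : F} (hc : c ≠ 0)
    (h : ∀ x, T.1 x = c • x) : EvenT m T := by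
  intro U hU hUm
  have e : img (semiOf T) U = U := by
    apply Submodule.eq_of_le_of_finrank_eq
    · rintro _ ⟨u, hu, rfl⟩
      rw [h]
      exact U.smul_mem c hu
    · rw [finrank_img]
  rw [e, inf_idem, hUm]
  simp

theorem refl_self_apply {v : ι → F} (hv : Q v ≠ 0) : refl Q v v = (-1 : F) • v := by
  rw [refl_apply, polar_self_eq]
  have : (Q v)⁻¹ * (2 * Q v) = 2 := by
    field_simp
  rw [this, two_smul]
  simp

variable [Nontrivial (ι → F)]

/-- The main conjugacy statement in general form. -/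
theorem conj_gen {k : ℕ} (hQ : (polarBilin Q).Nondegenerate) (p : ℕ) [hp : Fact p.Prime] [hc : CharP F p]
    (hcard : Fintype.card ι = 2 * (k + 1)) (hdim : finrank F (ι → F) = 2 * (k + 1)) (hn7 : 7 ≤ Fintype.card ι) (h8 : NoSolid Q)
    {U : Submodule F (ι → F)} (hU : TS (⇑Q) U) (hUm : finrank F U = k + 1)
    (hUσ : ∀ (σ : F ≃+* F), ∀ u ∈ U, (fun i => σ (u i)) ∈ U)
    (hcoord : ∀ (σ : F ≃+* F) (x : ι → F), Q (fun i => σ (x i)) = σ (Q x))
    (hfix : ∃ v : ι → F, Q v ≠ 0 ∧ ∀ (σ : F ≃+* F) i, σ (v i) = v i)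
    (x δ : MulAut (Cfsg.POmega F ⇑Q)) (hx : Cfsg.IsFieldAutClassPOmega ⇑Q x ∨ IsGF Q x) {r : ℕ} (hr : r.Prime) (hxr : orderOf x = r)
    (hδ : δ ∈ (Hp hQ hdim hU hUm).map (conjHom ⇑Q)) :
    orderOf (δ * x) = r ↔ Cfsg.IsConjUnder ((Hp hQ hdim hU hUm).map (conjHom ⇑Q)) x (δ * x) := by
  classical
  have hn : 5 ≤ Fintype.card ι := by omega
  constructor
  swap
  · rintro ⟨h, -, hh⟩
    rw [hh, ← hxr]
    exact (MulAut.conj h).orderOf_eq x
  intro hy
  have hord : (δ * x) ^ r = 1 := by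
    rw [← hy]
    exact pow_orderOf_eq_one _
  obtain ⟨g, hg, rfl⟩ := hδ
  have core : ∀ (T₁ : SemiEl Q) (σ : F ≃+* F) (l : F) (H₁ : Semi Q T₁.1 σ l) (α : MulAut (Cfsg.POmega F ⇑Q))
      (hα : α * x * α⁻¹ = conjS hQ hn T₁) (hT₁ : T₁ ^ r = 1) (v : ι → F) (c : F) (hv : T₁.1 v = c • v) (hQv : Q v ≠ 0)
      (hrσ : orderOf σ = r), Cfsg.IsConjUnder ((Hp hQ hdim hU hUm).map (conjHom ⇑Q)) x (conjHom ⇑Q g * x) := by
    intro T₁ σ l H₁ α hα hT₁ v c hv hQv hrσ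
    obtain ⟨A, rfl⟩ := conjS_surjective hQ hn p hn7 h8 α
    have hx' : x = conjS hQ hn (A⁻¹ * T₁ * A) := by
      rw [map_mul, map_mul, map_inv, ← hα]
      group
    obtain ⟨l', H₀⟩ := semi_conj A T₁ H₁
    have hT₀ : (A⁻¹ * T₁ * A) ^ r = 1 := by
      have e : A⁻¹ * T₁ * A = A⁻¹ * T₁ * (A⁻¹)⁻¹ := by simp
      rw [e, conj_pow, hT₁]
      simp
    obtain ⟨θ, a, HA⟩ := A.2
    have hA' : Semi Q A⁻¹.1 θ.symm (θ.symm a⁻¹) := HA.symm
    have hv₀ : (A⁻¹ * T₁ * A).1 (A⁻¹.1 v) = (θ.symm c) • A⁻¹.1 v := by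
      show A⁻¹.1 (T₁.1 (A.1 (A⁻¹.1 v))) = _
      have e : A.1 (A⁻¹.1 v) = v := A.1.apply_symm_apply v
      rw [e, hv, hA'.smul]
    have hQv₀ : Q (A⁻¹.1 v) ≠ 0 := by
      rw [hA'.Q_eq]
      exact mul_ne_zero hA'.ne (fun h => hQv (θ.symm.map_eq_zero_iff.1 h))
    rw [hx'] at hord ⊢
    obtain ⟨h, hh, he⟩ := conj_plus hQ hn p hcard hdim hU hUm H₀ hrσ hr.eq_two_or_odd' hT₀ hv₀ hQv₀ g hg hord
    exact ⟨conjHom ⇑Q h, ⟨h, hh, rfl⟩, he⟩
  obtain ⟨v₁, hv₁, hv₁f⟩ := hfix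
  rcases hx with ⟨α, φ, σ, hσ1, hφ, hα⟩ | ⟨α, γ, φ, σ, v, r', hσ1, hQv, hvfix, hr', hγ, hφ, hα⟩
  · -- field automorphisms
    have hφ' := eq_conjS_coord hQ hn σ (hcoord σ) hφ
    have hα' : α * x * α⁻¹ = conjS hQ hn (coordS σ (hcoord σ)) := by
      rw [hα, hφ']
    have hσr : orderOf σ = r := by
      rw [← orderOf_conjS_coord hQ hn p σ (hcoord σ), ← hα', ← hxr]
      exact (MulAut.conj α).orderOf_eq x
    refine core (coordS σ (hcoord σ)) σ 1 (semiOfCoord σ (hcoord σ)) α hα' (coordS_pow_order (hcoord σ) hσr) v₁ 1 ?_ hv₁ hσr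
    rw [one_smul]
    funext i
    exact hv₁f σ i
  · -- graph-field automorphisms
    have hφ' := eq_conjS_coord hQ hn σ (hcoord σ) hφ
    set g₀ := reflH Q v with hg₀
    have hr'' : r' = g₀.1 := Units.ext (hr'.trans (Cfsg.Agent.Lib.Orth.Closure.reflEl_val Q v).symm)
    have hγ' : γ = conjHom ⇑Q g₀ := (induced_iff g₀ γ).1 (by
      rw [← hr'']
      exact hγ)
    set S := coordS σ (hcoord σ) with hS
    set R := toSemi Q g₀ with hR
    have hSv : S.1 v = (1 : F) • v := by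
      rw [one_smul]
      funext i
      exact hvfix i
    have hcomm : R * S = S * R := refl_comm (semiOfCoord σ (hcoord σ)) hSv hQv
    have hα' : α * x * α⁻¹ = conjS hQ hn (R * S) := by
      rw [hα, hφ', hγ', map_mul, hR, conjS_toSemi]
    have hoc : orderOf (conjS hQ hn (R * S)) = r := by
      rw [← hα', ← hxr]
      exact (MulAut.conj α).orderOf_eq x
    have hnotE : ¬ EvenT (k + 1) (R * S) := by
      rw [evenT_mul hQ hdim hU hUm]
      have h1 : ¬ EvenT (k + 1) R := not_evenT_refl hQ hdim hU hUm hQv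
      have h2 : EvenT (k + 1) S := by
        apply evenT_of_stable hQ hdim (semiOfCoord σ (hcoord σ)) hU hUm
        apply Submodule.eq_of_le_of_finrank_eq
        · rintro _ ⟨u, hu, rfl⟩
          exact hUσ σ u hu
        · exact finrank_img _ U
      simp [h1, h2]
    have hr2 : r = 2 := by
      rcases hr.eq_two_or_odd' with h | h
      · exact h
      · exfalso
        have h1 : conjS hQ hn ((R * S) ^ r) = 1 := by
          rw [map_pow, ← hoc]
          exact pow_orderOf_eq_one _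
        obtain ⟨c, hc0, hc'⟩ := (conjS_eq_one_iff hQ hn p).1 h1
        have h2 := evenT_of_scalar (m := k + 1) hQ hdim hc0 hc'
        rw [evenT_pow hQ hdim hU hUm _ hnotE] at h2
        exact (Nat.not_even_iff_odd.2 h) h2
    subst hr2
    have hR2 : R ^ 2 = 1 := by
      rw [pow_two, hR, ← toSemi_mul, hg₀, reflH_sq hQ, toSemi_one]
    have hRS2 : (R * S) ^ 2 = S ^ 2 := by
      rw [(show Commute R S from hcomm).mul_pow, hR2, one_mul]
    have hσ2 : orderOf σ = 2 := by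
      have h1 : (conjS hQ hn S) ^ 2 = 1 := by
        rw [← map_pow, ← hRS2, map_pow, ← hoc]
        exact pow_orderOf_eq_one _
      have h2 : orderOf σ ∣ 2 := by
        rw [← orderOf_conjS_coord hQ hn p σ (hcoord σ)]
        exact orderOf_dvd_of_pow_eq_one h1
      rcases (Nat.dvd_prime Nat.prime_two).1 h2 with h3 | h3
      · exact absurd (orderOf_eq_one_iff.1 h3) hσ1
      · exact h3
    refine core (R * S) σ _ (semi_toSemi_mul hQ g₀ (semiOfCoord σ (hcoord σ))) α hα' ?_ v (-1) ?_ hQv hσ2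
    · rw [hRS2]
      exact coordS_pow_order (hcoord σ) hσ2
    · show R.1 (S.1 v) = _
      rw [hSv, one_smul, hR, toSemi_apply, reflH_mulVec, refl_self_apply hQv]

end main

section plus

variable {F : Type u} [Field F] [Fintype F]

/-- The class-preserving similarities of the hyperbolic form. -/
noncomputable def HpPlus (m : ℕ) (F : Type u) [Field F] [Fintype F] : Subgroup (Hs ⇑(plusForm m F)) :=
  Hp (plusForm_nondeg m) (finrank_total F m) (stdM_ts F m) (stdM_finrank F m)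

theorem inndiag_plus_eq (m : ℕ) : Cfsg.inndiagPOmegaPlus m F = (HpPlus m F).map (conjHom ⇑(plusForm m F)) := by
  apply le_antisymm
  · apply (Subgroup.closure_le _).2
    rintro β ⟨g, hg, hp, hi⟩
    exact ⟨⟨g, hg⟩, (preserves_iff_mem (plusForm_nondeg m) (finrank_total F m) (stdM_ts F m) (stdM_finrank F m) ⟨g, hg⟩).1 hp,
      ((induced_iff ⟨g, hg⟩ β).1 hi).symm⟩
  · rintro β ⟨g, hg, rfl⟩
    exact Subgroup.subset_closure ⟨g.1, g.2, (preserves_iff_mem (plusForm_nondeg m) (finrank_total F m) (stdM_ts F m) (stdM_finrank F m) g).2 hg,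
      (induced_iff g _).2 rfl⟩

theorem noSolid_plus {m : ℕ} (hm : 5 ≤ m) : NoSolid (plusForm m F) := by
  intro W hW hdim h4
  rw [finrank_total, h4] at hdim
  omega

theorem card_plus (m : ℕ) : Fintype.card (Fin m ⊕ Fin m) = 2 * m := by
  simp [two_mul]

theorem stdM_coord (m : ℕ) (σ : F ≃+* F) (u : Fin m ⊕ Fin m → F) (hu : u ∈ stdM F m) : (fun i => σ (u i)) ∈ stdM F m := by
  have hy' : ∀ i, u (Sum.inr i) = 0 := fun i => by
    have := congrFun (LinearMap.mem_ker.mp hu) i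
    simpa [LinearMap.funLeft_apply] using this
  apply LinearMap.mem_ker.2
  funext i
  simp [LinearMap.funLeft_apply, hy']

theorem exists_fix_plus {m : ℕ} (hm : 1 ≤ m) : ∃ v : Fin m ⊕ Fin m → F, plusForm m F v ≠ 0 ∧ ∀ (σ : F ≃+* F) i, σ (v i) = v i := by
  classical
  let j : Fin m := ⟨0, hm⟩
  refine ⟨Pi.single (Sum.inl j) 1 + Pi.single (Sum.inr j) 1, ?_, ?_⟩
  · rw [coe_plusForm]
    simp only [Cfsg.quadFormPlus, Pi.add_apply, Sum.inl.injEq, reduceCtorEq, Pi.single_apply]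
    rw [Finset.sum_eq_single j]
    · simp
    · intro b _ hb
      simp [hb]
    · simp
  · intro σ i
    rcases i with i | i <;> by_cases h : i = j <;> simp [h, Pi.single_apply]

/-- **S2736**. -/
theorem main_plus {m : ℕ} (hm : 5 ≤ m) (x δ : MulAut (Cfsg.POmega F (Cfsg.quadFormPlus m F)))
    (hx : Cfsg.IsFieldAutClassPOmega (Cfsg.quadFormPlus m F) x ∨ Cfsg.IsGraphFieldAutClassPOmegaPlus m x) {r : ℕ} (hr : r.Prime)
    (hxr : orderOf x = r) (hδ : δ ∈ Cfsg.inndiagPOmegaPlus m F) :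
    orderOf (δ * x) = r ↔ Cfsg.IsConjUnder (Cfsg.inndiagPOmegaPlus m F) x (δ * x) := by
  obtain ⟨p, hp, hc⟩ := OmegaPGO3.exists_char (F := F)
  obtain ⟨k, rfl⟩ : ∃ k, m = k + 1 := ⟨m - 1, by omega⟩
  have hfr : 7 ≤ finrank F (Fin (k + 1) ⊕ Fin (k + 1) → F) := by rw [finrank_total]; omega
  haveI : Nontrivial (Fin (k + 1) ⊕ Fin (k + 1) → F) := Module.nontrivial_of_finrank_pos (R := F) (by omega)
  rw [inndiag_plus_eq] at hδ ⊢
  exact conj_gen (Q := plusForm (k + 1) F) (plusForm_nondeg (k + 1)) p (card_plus (k + 1)) (finrank_total F (k + 1))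
    (by rw [card_plus]; omega) (noSolid_plus hm) (stdM_ts F (k + 1)) (stdM_finrank F (k + 1)) (stdM_coord (k + 1))
    (coordStable_plus (k + 1)) (exists_fix_plus (by omega)) x δ hx hr hxr hδ

end plus

end Cfsg.Agent.Lib.Classical.OmegaPlusConj
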