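/-
The centraliser of a semisimilarity with a frame: a form over the fixed field.
-/
import Mathlib
import Cfsg.Agent.Lib.Classical.OmegaPlusConj

set_option autoImplicit false
set_option linter.unusedSimpArgs false
set_option linter.unusedSectionVars false
set_option linter.style.haveILetI false
set_option linter.unusedVariables false

namespace Cfsg.Agent.Lib.Classical.OmegaCentF

open Module MulAction QuadraticMap Matrix Cfsg.Agent.Lib.Witt.Quadratic Cfsg.Agent.Lib.Orth.Refl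
open Cfsg.Agent.Lib.Orth.Gen Cfsg.Agent.Lib.OrthRefl.Eichler Cfsg.Agent.Lib.Classical.QuadEichler
open Cfsg.Agent.Lib.Classical.QuadEichSimple Cfsg.Agent.Lib.Classical.OmegaHP Cfsg.Agent.Lib.Classical.OmegaLocal
open Cfsg.Agent.Lib.Classical.OmegaRoot Cfsg.Agent.Lib.Classical.OmegaSemi Cfsg.Agent.Lib.Classical.OmegaConj
open Cfsg.Agent.Lib.Classical.OmegaBar Cfsg.Agent.Lib.Classical.OmegaAut Cfsg.Agent.Lib.Classical.OmegaCount
open Cfsg.Agent.Lib.Orth.Forms Cfsg.Agent.Lib.Classical.BinaryForms Cfsg.Agent.Lib.Classical.QuadEichBridge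
open Cfsg.Agent.Lib.Classical.OmegaForms Cfsg.Agent.Lib.Classical.OmegaOut Cfsg.Agent.Lib.Orth.Bridge
open Cfsg.Agent.Lib.Classical.MatrixBridge Cfsg.Agent.Lib.Classical.SympSimple
open Cfsg.Agent.Lib.Classical.OmegaPGO Cfsg.Agent.Lib.Classical.OmegaPGO2 Cfsg.Agent.Lib.Classical.OmegaFrob
open Cfsg.Agent.Lib.Classical.OmegaOutOdd Cfsg.Agent.Lib.KS71.Speiser Cfsg.Agent.Lib.Classical.OmegaDesc
open Cfsg.Agent.Lib.Classical.OmegaFieldOdd Cfsg.Agent.Lib.Classical.OmegaCent Cfsg.Agent.Lib.KS71.ClassSplit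
open Cfsg.Agent.Lib.Classical.OmegaFieldCount Cfsg.Agent.Lib.QuadFn.MaxSingular Cfsg.Agent.Lib.Orth.Parity
open Cfsg.Agent.Lib.Classical.OmegaClass Cfsg.Agent.Lib.Orth.HypBasis Cfsg.Agent.Lib.QuadFn.PlusForm
open Cfsg.Agent.Lib.Classical.OmegaType Cfsg.Agent.Lib.Classical.OmegaPlusConj
open scoped commutatorElement

universe u v

section lift

variable {F : Type u} [Field F] [Fintype F] {F₀ : Type v} [Field F₀] [Fintype F₀]
variable {ι J : Type} [Fintype ι] [DecidableEq ι] [Fintype J] [DecidableEq J]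
variable {Q : QuadraticForm F (ι → F)} {Q₀ : QuadraticForm F₀ (J → F₀)}
variable (ε : F₀ →+* F) (K : (J → F) ≃ₗ[F] (ι → F)) (b : F)

/-- The matrix of a lifted element. -/
noncomputable def liftLin (g : GL J F₀) : (ι → F) ≃ₗ[F] (ι → F) :=
  K.symm.trans ((glToLin (Matrix.GeneralLinearGroup.map ε g)).trans K)

theorem liftLin_apply (g : GL J F₀) (y : J → F) : liftLin ε K g (K y) = K ((g.val.map ε) *ᵥ y) := by
  show K (glToLin (Matrix.GeneralLinearGroup.map ε g) (K.symm (K y))) = _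
  rw [K.symm_apply_apply, glToLin_apply]
  rfl

/-- The lift as an element of the general linear group. -/
noncomputable def liftGL : GL J F₀ →* GL ι F where
  toFun g := glToLin.symm (liftLin ε K g)
  map_one' := by
    apply glToLin.injective
    rw [MulEquiv.apply_symm_apply, map_one]
    apply LinearEquiv.ext
    intro z
    obtain ⟨y, rfl⟩ := K.surjective z
    rw [liftLin_apply]
    simp
  map_mul' g g' := by
    apply glToLin.injective
    rw [map_mul, MulEquiv.apply_symm_apply, MulEquiv.apply_symm_apply, MulEquiv.apply_symm_apply]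
    apply LinearEquiv.ext
    intro z
    obtain ⟨y, rfl⟩ := K.surjective z
    show liftLin ε K (g * g') (K y) = liftLin ε K g (liftLin ε K g' (K y))
    rw [liftLin_apply, liftLin_apply, liftLin_apply, Units.val_mul, Matrix.map_mul, Matrix.mulVec_mulVec]

theorem liftGL_mulVec (g : GL J F₀) (y : J → F) : (liftGL ε K g).val *ᵥ (K y) = K ((g.val.map ε) *ᵥ y) := by
  have h1 := glToLin_apply (liftGL ε K g) (K y)
  have h2 : glToLin (liftGL ε K g) = liftLin ε K g := MulEquiv.apply_symm_apply _ _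
  rw [← h1, h2, liftLin_apply]

variable (hc : ∀ y : J → F₀, b * Q (K (mapV ε y)) = ε (Q₀ y)) (hb : b ≠ 0)
include hc hb

/-- The lift of a similarity. -/
noncomputable def liftH : Hs ⇑Q₀ →* Hs ⇑Q where
  toFun g := ⟨liftGL ε K g.1, by
    obtain ⟨c, hc'⟩ := g.2
    refine ⟨Units.map (ε : F₀ →* F) c, fun v => ?_⟩
    obtain ⟨y, rfl⟩ := K.surjective v
    rw [liftGL_mulVec]
    apply mul_left_cancel₀ hb
    let A : QuadraticForm F (J → F) := b • (Q.comp (K : (J → F) →ₗ[F] (ι → F))).comp (Matrix.toLin' (g.1.val.map ε))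
    let B : QuadraticForm F (J → F) := (ε (c : F₀)) • (b • Q.comp (K : (J → F) →ₗ[F] (ι → F)))
    have := forms_eq_of_map ε A B (fun z => by
      show b * Q (K ((g.1.val.map ε) *ᵥ mapV ε z)) = ε (c : F₀) * (b * Q (K (mapV ε z)))
      rw [mapV_mulVec, hc, hc, hc', map_mul]) y
    have h2 : b * Q (K ((g.1.val.map ε) *ᵥ y)) = ε (c : F₀) * (b * Q (K y)) := this
    rw [h2]
    show _ = b * (ε (c : F₀) * Q (K y))
    ring⟩
  map_one' := Subtype.ext (map_one _)
  map_mul' a b := Subtype.ext (map_mul _ _ _)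

theorem liftH_val (g : Hs ⇑Q₀) : (liftH ε K b hc hb g).1 = liftGL ε K g.1 := rfl

theorem liftH_mulVec (g : Hs ⇑Q₀) (y : J → F) : (liftH ε K b hc hb g).1.val *ᵥ (K y) = K ((g.1.val.map ε) *ᵥ y) :=
  liftGL_mulVec ε K g.1 y

end lift

section main

variable {F : Type u} [Field F] [Fintype F] {F₀ : Type v} [Field F₀] [Fintype F₀]
variable {ι J : Type} [Fintype ι] [DecidableEq ι] [Fintype J] [DecidableEq J]
variable {Q : QuadraticForm F (ι → F)} {Q₀ : QuadraticForm F₀ (J → F₀)}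
variable (ε : F₀ →+* F) (K : (J → F) ≃ₗ[F] (ι → F)) (b : F)
variable (hc : ∀ y : J → F₀, b * Q (K (mapV ε y)) = ε (Q₀ y)) (hb : b ≠ 0)
variable (σ : F ≃+* F) (hε : ∀ x, σ x = x ↔ x ∈ Set.range ε)
variable (T₀ : SemiEl Q) (hT : ∀ y, T₀.1 (K y) = K (fun j => σ (y j)))
variable (hQ : (polarBilin Q).Nondegenerate) (hQ₀ : (polarBilin Q₀).Nondegenerate) (hn : 5 ≤ Fintype.card ι)
variable (p : ℕ) [hp : Fact p.Prime] [hcp : CharP F p] [hcp₀ : CharP F₀ p]
variable [Nontrivial (ι → F)] [Nontrivial (J → F₀)]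

theorem map_mulVec_coord' (σ : F ≃+* F) (M : Matrix J J F) (x : J → F) :
    (M.map σ) *ᵥ (fun i => σ (x i)) = fun i => σ ((M *ᵥ x) i) := by
  ext i
  simp [Matrix.mulVec, dotProduct, map_sum]

include hε hT in
/-- A lifted similarity commutes with the semisimilarity. -/
theorem lift_comm' (g : Hs ⇑Q₀) : toSemi Q (liftH ε K b hc hb g) * T₀ = T₀ * toSemi Q (liftH ε K b hc hb g) := by
  apply Subtype.ext
  ext1 x
  obtain ⟨y, rfl⟩ := K.surjective x
  rw [SemiEl.mul_apply, SemiEl.mul_apply, toSemi_apply, toSemi_apply, hT, liftH_mulVec, liftH_mulVec, hT]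
  congr 1
  have h1 := map_mulVec_coord' σ (g.1.val.map ε) y
  have h2 : (g.1.val.map ε).map σ = g.1.val.map ε := by
    ext i j
    exact (hε _).2 ⟨_, rfl⟩
  rw [h2] at h1
  exact h1

include hε hT hQ hQ₀ hn p in
/-- An element of the centraliser is a scalar multiple of a lift. -/
theorem exists_lift_of_comm' (g : Hs ⇑Q) (hg : conjHom ⇑Q g * conjS hQ hn T₀ = conjS hQ hn T₀ * conjHom ⇑Q g) :
    ∃ (d : F) (g₀ : Hs ⇑Q₀), d ≠ 0 ∧ (liftH ε K b hc hb g₀).1.val = d • g.1.val := by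
  classical
  set T := toSemi Q g with hTd
  have h1 : conjS hQ hn (T * T₀ * T⁻¹ * T₀⁻¹) = 1 := by
    rw [map_mul, map_mul, map_mul, map_inv, map_inv, hTd, conjS_toSemi, hg]
    group
  obtain ⟨c, hc0, hcx⟩ := (conjS_eq_one_iff hQ hn p).1 h1
  have h2 : ∀ x, T.1 (T₀.1 x) = c • T₀.1 (T.1 x) := by
    intro x
    have h3 := hcx (T₀.1 (T.1 x))
    have h5 : T * T₀ * T⁻¹ * T₀⁻¹ * (T₀ * T) = T * T₀ := by group
    have h4 : (T * T₀ * T⁻¹ * T₀⁻¹ * (T₀ * T)).1 x = (T * T₀).1 x := by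
      rw [h5]
    rw [← h3]
    exact h4.symm
  -- the matrix in the coordinates `J`
  set L : (J → F) →ₗ[F] (J → F) := (K.symm : (ι → F) →ₗ[F] (J → F)) ∘ₗ (glToLin g.1 : (ι → F) →ₗ[F] (ι → F)) ∘ₗ (K : (J → F) →ₗ[F] (ι → F)) with hL
  set L' : (J → F) →ₗ[F] (J → F) := (K.symm : (ι → F) →ₗ[F] (J → F)) ∘ₗ (glToLin g.1⁻¹ : (ι → F) →ₗ[F] (ι → F)) ∘ₗ (K : (J → F) →ₗ[F] (ι → F)) with hL'
  set M : Matrix J J F := LinearMap.toMatrix' L with hM
  set M' : Matrix J J F := LinearMap.toMatrix' L' with hM'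
  have hMx : ∀ y, K (M *ᵥ y) = g.1.val *ᵥ (K y) := by
    intro y
    rw [hM, LinearMap.toMatrix'_mulVec, hL]
    show K (K.symm (glToLin g.1 (K y))) = _
    rw [K.apply_symm_apply, glToLin_apply]
  have hMM' : M * M' = 1 := by
    rw [hM, hM', ← LinearMap.toMatrix'_comp]
    have : L ∘ₗ L' = LinearMap.id := by
      apply LinearMap.ext
      intro y
      show K.symm (glToLin g.1 (K (K.symm (glToLin g.1⁻¹ (K y))))) = y
      rw [K.apply_symm_apply, ← LinearEquiv.mul_apply, ← map_mul, mul_inv_cancel, map_one]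
      simp
    rw [this, LinearMap.toMatrix'_id]
  have h3 : M = c • M.map σ := by
    apply Cfsg.Agent.Lib.Orth.Words.mat_eq_of_mulVec
    intro y
    obtain ⟨z, rfl⟩ := (coordEquiv (ι := J) σ).surjective y
    have e1 : coordEquiv (ι := J) σ z = fun i => σ (z i) := rfl
    rw [e1, Matrix.smul_mulVec, map_mulVec_coord']
    have h5 := h2 (K z)
    rw [hT] at h5
    have e2 : T.1 (K z) = K (M *ᵥ z) := (hMx z).symm
    rw [e2, hT] at h5
    apply K.injective
    rw [hMx, map_smul]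
    exact h5
  haveI : Nonempty J := by
    by_contra hcon
    rw [not_nonempty_iff] at hcon
    exact (exists_ne (0 : J → F₀)).elim fun x hx => hx (Subsingleton.elim _ _)
  have hdetM : M.det ≠ 0 := by
    intro h0
    have h5 := congrArg Matrix.det hMM'
    rw [Matrix.det_mul, h0, zero_mul, Matrix.det_one] at h5
    exact zero_ne_one h5
  obtain ⟨i₀, j₀, ha⟩ : ∃ i j, M i j ≠ 0 := by
    by_contra hcon
    push Not at hcon
    apply hdetM
    have hM0 : M = 0 := by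
      ext i j
      exact hcon i j
    rw [hM0]
    exact Matrix.det_zero
  set a := M i₀ j₀ with ha'
  have hent : ∀ i j, M i j = c * σ (M i j) := fun i j => congrFun (congrFun h3 i) j
  have hfix : ∀ i j, σ (a⁻¹ * M i j) = a⁻¹ * M i j := by
    intro i j
    have h5 := hent i₀ j₀
    have h6 := hent i j
    have h7 : σ a ≠ 0 := fun h => ha (σ.map_eq_zero_iff.1 h)
    rw [map_mul, map_inv₀]
    rw [← ha'] at h5
    have h8 : c ≠ 0 := hc0
    have e1 : σ a = a / c := by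
      rw [eq_div_iff h8, mul_comm]
      exact h5.symm
    have e2 : σ (M i j) = M i j / c := by
      rw [eq_div_iff h8, mul_comm]
      exact h6.symm
    rw [e1, e2]
    field_simp
  -- the matrix over the subfield
  choose pre hpre using fun i j => (hε _).1 (hfix i j)
  let M₀ : Matrix J J F₀ := Matrix.of pre
  have hmap : M₀.map ε = a⁻¹ • M := by
    ext i j
    exact hpre i j
  have hdet₀ : M₀.det ≠ 0 := by
    intro h0
    have h5 : (M₀.map ε).det = ε M₀.det := (RingHom.map_det ε M₀).symm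
    rw [hmap, h0, map_zero, Matrix.det_smul] at h5
    exact (mul_ne_zero (pow_ne_zero _ (inv_ne_zero ha)) hdetM) h5
  let g₁ : GL J F₀ := Matrix.GeneralLinearGroup.mkOfDetNeZero M₀ hdet₀
  have hg₁ : g₁.val = M₀ := rfl
  set lam : F := a⁻¹ * a⁻¹ * (mult hQ g : F) with hlam
  have hlam0 : lam ≠ 0 := mul_ne_zero (mul_ne_zero (inv_ne_zero ha) (inv_ne_zero ha)) (mult hQ g).ne_zero
  have hsim : ∀ y : J → F₀, ε (Q₀ (M₀ *ᵥ y)) = lam * ε (Q₀ y) := by
    intro y
    rw [← hc, ← hc, ← mapV_mulVec, hmap, Matrix.smul_mulVec, map_smul, QuadraticMap.map_smul, hMx, mult_spec hQ, hlam, smul_eq_mul]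
    ring
  obtain ⟨y₀, hy₀⟩ := Cfsg.Agent.Lib.Orth.Closure.exists_nonsingular (Q := Q₀) hQ₀
  set l₀ : F₀ := Q₀ (M₀ *ᵥ y₀) / Q₀ y₀ with hl₀
  have hl₀' : ε l₀ = lam := by
    have hne : ε (Q₀ y₀) ≠ 0 := fun h => hy₀ ((map_eq_zero ε).1 h)
    rw [hl₀, map_div₀, hsim]
    field_simp
  have hl₀0 : l₀ ≠ 0 := by
    intro h
    rw [h, map_zero] at hl₀'
    exact hlam0 hl₀'.symm
  have hmem : g₁ ∈ Hs ⇑Q₀ := ⟨Units.mk0 l₀ hl₀0, fun y => by
    apply ε.injective
    show ε (Q₀ (M₀ *ᵥ y)) = ε (l₀ * Q₀ y)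
    rw [hsim, map_mul, hl₀']⟩
  refine ⟨a⁻¹, ⟨g₁, hmem⟩, inv_ne_zero ha, ?_⟩
  apply Cfsg.Agent.Lib.Orth.Words.mat_eq_of_mulVec
  intro x
  obtain ⟨y, rfl⟩ := K.surjective x
  rw [liftH_mulVec, Matrix.smul_mulVec, ← hMx, ← map_smul, ← Matrix.smul_mulVec, ← hmap]
  rfl

include hε hT hQ hQ₀ hn p in
/-- The kernel of the lifted action. -/
theorem conjHom_lift_eq_one_iff' (hn₀ : 5 ≤ Fintype.card J) (g : Hs ⇑Q₀) :
    conjHom ⇑Q (liftH ε K b hc hb g) = 1 ↔ conjHom ⇑Q₀ g = 1 := by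
  classical
  rw [conjHom_eq_one_iff (p := p) hQ hn, conjHom_eq_one_iff (p := p) hQ₀ hn₀]
  have hne : Nonempty J := Fintype.card_pos_iff.1 (by omega)
  obtain ⟨i₀⟩ := hne
  constructor
  · rintro ⟨c, hc0, h1⟩
    have h2 : g.1.val.map ε = c • (1 : Matrix J J F) := by
      apply Cfsg.Agent.Lib.Orth.Words.mat_eq_of_mulVec
      intro y
      apply K.injective
      rw [← liftH_mulVec ε K b hc hb, h1, Matrix.smul_mulVec, Matrix.smul_mulVec, Matrix.one_mulVec, Matrix.one_mulVec, map_smul]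
    have hent : ∀ i j, ε (g.1.val i j) = if i = j then c else 0 := by
      intro i j
      have := congrFun (congrFun h2 i) j
      simp only [Matrix.map_apply, Matrix.smul_apply, Matrix.one_apply, smul_eq_mul] at this
      rw [this]
      split_ifs <;> simp
    refine ⟨g.1.val i₀ i₀, ?_, ?_⟩
    · intro h0
      have := hent i₀ i₀
      rw [h0, map_zero, if_pos rfl] at this
      exact hc0 this.symm
    · ext i j
      apply ε.injective
      rw [hent]
      simp only [Matrix.smul_apply, Matrix.one_apply, smul_eq_mul, map_mul, hent i₀ i₀, if_true]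
      split_ifs <;> simp
  · rintro ⟨c, hc0, h1⟩
    refine ⟨ε c, fun h => hc0 ((map_eq_zero ε).1 h), ?_⟩
    apply Cfsg.Agent.Lib.Orth.Words.mat_eq_of_mulVec
    intro x
    obtain ⟨y, rfl⟩ := K.surjective x
    have h2 : g.1.val.map ε = ε c • (1 : Matrix J J F) := by
      rw [h1]
      ext i j
      simp only [Matrix.map_apply, Matrix.smul_apply, Matrix.one_apply, smul_eq_mul, map_mul]
      split_ifs <;> simp
    rw [liftH_mulVec, h2, Matrix.smul_mulVec, Matrix.one_mulVec, Matrix.smul_mulVec, Matrix.one_mulVec, map_smul]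

include hε hT hQ hQ₀ hn p in
/-- **The centraliser of a framed semisimilarity.** -/
theorem cent_equiv' (hn₀ : 5 ≤ Fintype.card J) (P : Subgroup (Hs ⇑Q)) (P₀ : Subgroup (Hs ⇑Q₀)) (hP : ∀ g, g ∈ P₀ ↔ liftH ε K b hc hb g ∈ P)
    (hPs : ∀ (d : F) (hd : d ≠ 0) (g g' : Hs ⇑Q), g'.1.val = d • g.1.val → (g ∈ P ↔ g' ∈ P)) :
    Nonempty (↥(P.map (conjHom ⇑Q) ⊓ Subgroup.centralizer {conjS hQ hn T₀}) ≃* ↥(P₀.map (conjHom ⇑Q₀))) := by
  let Ψ₀ : P₀ →* MulAut (Cfsg.POmega F₀ ⇑Q₀) := (conjHom ⇑Q₀).comp P₀.subtype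
  let Ψ : P₀ →* MulAut (Cfsg.POmega F ⇑Q) := (conjHom ⇑Q).comp ((liftH ε K b hc hb).comp P₀.subtype)
  have hker : Ψ.ker = Ψ₀.ker := by
    ext g
    rw [MonoidHom.mem_ker, MonoidHom.mem_ker]
    exact conjHom_lift_eq_one_iff' ε K b hc hb σ hε T₀ hT hQ hQ₀ hn p hn₀ g.1
  have hr₀ : Ψ₀.range = P₀.map (conjHom ⇑Q₀) := by
    rw [MonoidHom.range_comp, Subgroup.range_subtype]
  have hr : Ψ.range = P.map (conjHom ⇑Q) ⊓ Subgroup.centralizer {conjS hQ hn T₀} := by
    ext β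
    constructor
    · rintro ⟨⟨g, hg⟩, rfl⟩
      refine ⟨⟨liftH ε K b hc hb g, (hP g).1 hg, rfl⟩, Subgroup.mem_centralizer_iff.2 ?_⟩
      rintro _ rfl
      show _ * conjHom ⇑Q (liftH ε K b hc hb g) = conjHom ⇑Q (liftH ε K b hc hb g) * _
      rw [← conjS_toSemi hQ hn, ← map_mul, ← map_mul, lift_comm' ε K b hc hb σ hε T₀ hT]
    · rintro ⟨⟨g, hg, rfl⟩, h2⟩
      have h2' := Subgroup.mem_centralizer_iff.1 h2
      have h3 := (h2' _ rfl).symm
      obtain ⟨d, g₀, hd, hg₀⟩ := exists_lift_of_comm' ε K b hc hb σ hε T₀ hT hQ hQ₀ hn p g h3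
      have hg₀P : g₀ ∈ P₀ := (hP g₀).2 ((hPs d hd g _ hg₀).1 hg)
      refine ⟨⟨g₀, hg₀P⟩, ?_⟩
      show conjHom ⇑Q (liftH ε K b hc hb g₀) = conjHom ⇑Q g
      have h4 : conjHom ⇑Q ((liftH ε K b hc hb g₀) * g⁻¹) = 1 := by
        rw [conjHom_eq_one_iff (p := p) hQ hn]
        refine ⟨d, hd, ?_⟩
        show ((liftH ε K b hc hb g₀).1 * (g⁻¹ : Hs ⇑Q).1 : GL ι F).val = _
        rw [Units.val_mul, hg₀, Matrix.smul_mul]
        congr 1
        rw [← Units.val_mul]
        have : g.1 * (g⁻¹ : Hs ⇑Q).1 = 1 := by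
          rw [← Subgroup.coe_mul, mul_inv_cancel]
          rfl
        rw [this]
        rfl
      rw [map_mul, map_inv] at h4
      exact mul_inv_eq_one.1 h4
  rw [← hr, ← hr₀]
  exact ⟨(QuotientGroup.quotientKerEquivRange Ψ).symm.trans
    ((QuotientGroup.quotientMulEquivOfEq hker).trans (QuotientGroup.quotientKerEquivRange Ψ₀))⟩

end main

end Cfsg.Agent.Lib.Classical.OmegaCentF
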