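/-
Isomorphisms of `PΩ` between two isometric forms.
-/
import Mathlib
import Cfsg.Agent.Lib.Classical.OmegaCentF

set_option autoImplicit false
set_option linter.unusedSimpArgs false
set_option linter.unusedSectionVars false
set_option linter.style.haveILetI false
set_option linter.unusedVariables false

namespace Cfsg.Agent.Lib.Classical.OmegaCross

open Module MulAction QuadraticMap Matrix Cfsg.Agent.Lib.Witt.Quadratic Cfsg.Agent.Lib.Orth.Refl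
open Cfsg.Agent.Lib.Orth.Gen Cfsg.Agent.Lib.OrthRefl.Eichler Cfsg.Agent.Lib.Classical.QuadEichler
open Cfsg.Agent.Lib.Classical.QuadEichSimple Cfsg.Agent.Lib.Classical.OmegaHP Cfsg.Agent.Lib.Classical.OmegaLocal
open Cfsg.Agent.Lib.Classical.OmegaRoot Cfsg.Agent.Lib.Classical.OmegaSemi Cfsg.Agent.Lib.Classical.OmegaConj
open Cfsg.Agent.Lib.Classical.OmegaBar Cfsg.Agent.Lib.Classical.OmegaAut Cfsg.Agent.Lib.Classical.OmegaCount
open Cfsg.Agent.Lib.Orth.Forms Cfsg.Agent.Lib.Classical.BinaryForms Cfsg.Agent.Lib.Classical.QuadEichBridge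
open Cfsg.Agent.Lib.Classical.OmegaForms Cfsg.Agent.Lib.Classical.OmegaOut Cfsg.Agent.Lib.Orth.Bridge
open Cfsg.Agent.Lib.Classical.MatrixBridge Cfsg.Agent.Lib.Classical.SympSimple
open Cfsg.Agent.Lib.Classical.OmegaPGO Cfsg.Agent.Lib.Classical.OmegaPGO2 Cfsg.Agent.Lib.Classical.OmegaFrob
open Cfsg.Agent.Lib.Classical.OmegaOutOdd Cfsg.Agent.Lib.KS71.Speiser Cfsg.Agent.Lib.Classical.OmegaDesc
open Cfsg.Agent.Lib.Classical.OmegaFieldOdd Cfsg.Agent.Lib.Classical.OmegaCent Cfsg.Agent.Lib.KS71.ClassSplit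
open Cfsg.Agent.Lib.Classical.OmegaFieldCount Cfsg.Agent.Lib.QuadFn.MaxSingular Cfsg.Agent.Lib.Orth.Parity
open Cfsg.Agent.Lib.Classical.OmegaClass Cfsg.Agent.Lib.Orth.HypBasis Cfsg.Agent.Lib.QuadFn.PlusForm
open Cfsg.Agent.Lib.Classical.OmegaType Cfsg.Agent.Lib.Classical.OmegaPlusConj Cfsg.Agent.Lib.Classical.OmegaCentF
open scoped commutatorElement

universe u v

section cross

variable {F : Type u} [Field F] [Fintype F] {ι : Type} [Fintype ι] [DecidableEq ι]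
variable {Q Q' : QuadraticForm F (ι → F)} (Θ : (ι → F) ≃ₗ[F] (ι → F)) (hΘ : ∀ y, Q' (Θ y) = Q y)

theorem glG_mulVec (y : ι → F) : (glToLin.symm Θ : GL ι F).val *ᵥ y = Θ y := glToLin_symm_mulVec Θ y

theorem glG_inv_mulVec (y : ι → F) : ((glToLin.symm Θ : GL ι F)⁻¹ : GL ι F).val *ᵥ y = Θ.symm y := by
  have h : (glToLin.symm Θ : GL ι F)⁻¹ = glToLin.symm Θ⁻¹ := (map_inv glToLin.symm Θ).symm
  rw [h, glToLin_symm_mulVec]
  rfl

include hΘ in
theorem cross_mem (s : Cfsg.isometryGroup F ⇑Q) :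
    (glToLin.symm Θ : GL ι F) * s.1 * (glToLin.symm Θ : GL ι F)⁻¹ ∈ Cfsg.isometryGroup F ⇑Q' := by
  rw [mem_isometryGroup_iff]
  intro v
  rw [Units.val_mul, Units.val_mul, ← Matrix.mulVec_mulVec, ← Matrix.mulVec_mulVec, glG_inv_mulVec, glG_mulVec, hΘ,
    (mem_isometryGroup_iff _ _).1 s.2]
  have := hΘ (Θ.symm v)
  rw [Θ.apply_symm_apply] at this
  exact this.symm

include hΘ in
theorem cross_mem' (s : Cfsg.isometryGroup F ⇑Q') :
    (glToLin.symm Θ : GL ι F)⁻¹ * s.1 * (glToLin.symm Θ : GL ι F) ∈ Cfsg.isometryGroup F ⇑Q := by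
  rw [mem_isometryGroup_iff]
  intro v
  rw [Units.val_mul, Units.val_mul, ← Matrix.mulVec_mulVec, ← Matrix.mulVec_mulVec, glG_inv_mulVec, glG_mulVec]
  rw [← hΘ (Θ.symm _), Θ.apply_symm_apply, (mem_isometryGroup_iff _ _).1 s.2, hΘ]

/-- The isomorphism of the isometry groups. -/
noncomputable def crossI : Cfsg.isometryGroup F ⇑Q ≃* Cfsg.isometryGroup F ⇑Q' where
  toFun s := ⟨_, cross_mem Θ hΘ s⟩
  invFun s := ⟨_, cross_mem' Θ hΘ s⟩
  left_inv s := by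
    apply Subtype.ext
    simp [mul_assoc]
  right_inv s := by
    apply Subtype.ext
    simp [mul_assoc]
  map_mul' s t := by
    apply Subtype.ext
    simp [mul_assoc]

theorem crossI_mulVec (s : Cfsg.isometryGroup F ⇑Q) (y : ι → F) :
    ((crossI Θ hΘ s : Cfsg.isometryGroup F ⇑Q') : GL ι F).val *ᵥ (Θ y) = Θ ((s : GL ι F).val *ᵥ y) := by
  show ((glToLin.symm Θ : GL ι F) * s.1 * (glToLin.symm Θ : GL ι F)⁻¹ : GL ι F).val *ᵥ (Θ y) = _
  rw [Units.val_mul, Units.val_mul, ← Matrix.mulVec_mulVec, ← Matrix.mulVec_mulVec, glG_inv_mulVec, glG_mulVec, Θ.symm_apply_apply]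

/-- The isomorphism of `Ω`. -/
noncomputable def crossO : Cfsg.Omega F ⇑Q ≃* Cfsg.Omega F ⇑Q' where
  toFun s := ⟨crossI Θ hΘ s.1, (mem_commutator_equiv (crossI Θ hΘ) s.1).1 s.2⟩
  invFun s := ⟨(crossI Θ hΘ).symm s.1, (mem_commutator_equiv (crossI Θ hΘ) _).2 (by simpa using s.2)⟩
  left_inv s := by
    apply Subtype.ext
    simp
  right_inv s := by
    apply Subtype.ext
    simp
  map_mul' s t := by
    apply Subtype.ext
    simp

/-- The isomorphism of `PΩ`. -/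
noncomputable def crossP : Cfsg.POmega F ⇑Q ≃* Cfsg.POmega F ⇑Q' := quotientCenterEquiv (crossO Θ hΘ)

theorem crossP_mk (s : Cfsg.Omega F ⇑Q) : crossP Θ hΘ (QuotientGroup.mk s) = QuotientGroup.mk (crossO Θ hΘ s) := rfl

include hΘ in
theorem back_semi {T' : (ι → F) ≃+ (ι → F)} {σ : F ≃+* F} {l : F} (H : Semi Q' T' σ l) :
    Semi Q (Θ.toAddEquiv.trans (T'.trans Θ.symm.toAddEquiv)) σ l := by
  refine ⟨fun c x => ?_, fun x => ?_, H.ne⟩
  · show Θ.symm (T' (Θ (c • x))) = σ c • Θ.symm (T' (Θ x))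
    rw [map_smul, H.smul, map_smul]
  · show Q (Θ.symm (T' (Θ x))) = _
    rw [← hΘ, Θ.apply_symm_apply, H.Q_eq, hΘ]

/-- The transport of semisimilarities. -/
def crossBack (T' : SemiEl Q') : SemiEl Q :=
  ⟨Θ.toAddEquiv.trans (T'.1.trans Θ.symm.toAddEquiv), by
    obtain ⟨σ, l, H⟩ := T'.2
    exact ⟨σ, l, back_semi Θ hΘ H⟩⟩

theorem crossBack_apply (T' : SemiEl Q') (x : ι → F) : (crossBack Θ hΘ T').1 x = Θ.symm (T'.1 (Θ x)) := rfl

theorem crossBack_mul (S T : SemiEl Q') : crossBack Θ hΘ (S * T) = crossBack Θ hΘ S * crossBack Θ hΘ T := by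
  apply Subtype.ext
  ext1 x
  rw [SemiEl.mul_apply, crossBack_apply, crossBack_apply, crossBack_apply, SemiEl.mul_apply, Θ.apply_symm_apply]

theorem crossBack_one : crossBack Θ hΘ (1 : SemiEl Q') = 1 := by
  apply Subtype.ext
  ext1 x
  rw [crossBack_apply]
  simp

/-- The transport as a homomorphism. -/
noncomputable def crossBackHom : SemiEl Q' →* SemiEl Q := MonoidHom.mk' (crossBack Θ hΘ) (crossBack_mul Θ hΘ)

variable [Nontrivial (ι → F)] (hQ : (polarBilin Q).Nondegenerate) (hQ' : (polarBilin Q').Nondegenerate) (hn : 5 ≤ Fintype.card ι)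

/-- Compatibility with the action. -/
theorem conjS_cross (T' : SemiEl Q') (z : Cfsg.POmega F ⇑Q) :
    crossP Θ hΘ (conjS hQ hn (crossBack Θ hΘ T') z) = conjS hQ' hn T' (crossP Θ hΘ z) := by
  obtain ⟨s, rfl⟩ := QuotientGroup.mk'_surjective _ z
  obtain ⟨s₁, hs₁⟩ := exists_conj_mem hQ hn (crossBack Θ hΘ T') s
  show crossP Θ hΘ (conjS hQ hn (crossBack Θ hΘ T') (QuotientGroup.mk s)) = conjS hQ' hn T' (crossP Θ hΘ (QuotientGroup.mk s))
  rw [conjS_mk hQ hn _ s s₁ hs₁, crossP_mk, crossP_mk]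
  symm
  apply conjS_mk
  intro x
  obtain ⟨w, rfl⟩ := Θ.surjective x
  have h1 := hs₁ w
  rw [crossBack_apply] at h1
  have h2 : ((crossO Θ hΘ s : Cfsg.Omega F ⇑Q').1 : GL ι F).val *ᵥ (Θ w) = Θ ((s.1 : GL ι F).val *ᵥ w) := crossI_mulVec Θ hΘ s.1 w
  have h3 := crossI_mulVec Θ hΘ s₁.1 (Θ.symm (T'.1 (Θ w)))
  rw [Θ.apply_symm_apply] at h3
  have h4 : ((crossO Θ hΘ s₁ : Cfsg.Omega F ⇑Q').1 : GL ι F).val *ᵥ (T'.1 (Θ w)) = Θ ((s₁.1 : GL ι F).val *ᵥ (Θ.symm (T'.1 (Θ w)))) := h3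
  rw [h4, h2, h1, crossBack_apply, Θ.apply_symm_apply]

include Θ hΘ in
/-- A field automorphism transported along an isomorphism is given by a semisimilarity. -/
theorem exists_T₀ (p : ℕ) [hp : Fact p.Prime] [hc : CharP F p] (hn7 : 7 ≤ Fintype.card ι) (h8' : NoSolid Q')
    (ψ : Cfsg.POmega F ⇑Q ≃* Cfsg.POmega F ⇑Q') (x : MulAut (Cfsg.POmega F ⇑Q))
    (S : SemiEl Q') {σ : F ≃+* F} {l : F} (HS : Semi Q' S.1 σ l) (hx : (ψ.symm.trans x).trans ψ = conjS hQ' hn S) :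
    ∃ (T₀ : SemiEl Q) (l₀ : F), Semi Q T₀.1 σ l₀ ∧ conjS hQ hn T₀ = x ∧ (∀ r : ℕ, S ^ r = 1 → T₀ ^ r = 1) ∧
      (∀ (v : ι → F) (c : F), S.1 v = c • v → Q' v ≠ 0 → ∃ (v₀ : ι → F) (c₀ : F), T₀.1 v₀ = c₀ • v₀ ∧ Q v₀ ≠ 0) := by
  obtain ⟨A, hA⟩ := conjS_surjective hQ' hn p hn7 h8' ((crossP Θ hΘ).symm.trans ψ)
  obtain ⟨l', H'⟩ := semi_conj A S HS
  obtain ⟨θ, a, HA⟩ := A.2
  have hA' : Semi Q' A⁻¹.1 θ.symm (θ.symm a⁻¹) := HA.symm
  refine ⟨crossBack Θ hΘ (A⁻¹ * S * A), l', back_semi Θ hΘ H', ?_, ?_, ?_⟩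
  · ext z
    apply ψ.injective
    have h1 : ∀ w, ψ w = conjS hQ' hn A (crossP Θ hΘ w) := by
      intro w
      rw [hA]
      show ψ w = ψ ((crossP Θ hΘ).symm (crossP Θ hΘ w))
      rw [MulEquiv.symm_apply_apply]
    rw [h1, conjS_cross Θ hΘ hQ hQ' hn]
    have h2 : ψ (x z) = conjS hQ' hn S (ψ z) := by
      have h3 := DFunLike.congr_fun hx (ψ z)
      have h4 : ((ψ.symm.trans x).trans ψ) (ψ z) = ψ (x (ψ.symm (ψ z))) := rfl
      rw [h4, MulEquiv.symm_apply_apply] at h3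
      exact h3
    rw [h2, h1 z]
    show (conjS hQ' hn A * conjS hQ' hn (A⁻¹ * S * A)) _ = (conjS hQ' hn S * conjS hQ' hn A) _
    rw [← map_mul, ← map_mul]
    congr 2
    group
  · intro r hr
    have h1 : (A⁻¹ * S * A) ^ r = 1 := by
      have e : A⁻¹ * S * A = A⁻¹ * S * (A⁻¹)⁻¹ := by simp
      rw [e, conj_pow, hr]
      simp
    have h2 := map_pow (crossBackHom Θ hΘ) (A⁻¹ * S * A) r
    have h3 : crossBackHom Θ hΘ (A⁻¹ * S * A) = crossBack Θ hΘ (A⁻¹ * S * A) := rfl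
    rw [h1, map_one, h3] at h2
    exact h2.symm
  · intro v c hv hQv
    refine ⟨Θ.symm (A⁻¹.1 v), θ.symm c, ?_, ?_⟩
    · rw [crossBack_apply, Θ.apply_symm_apply]
      show Θ.symm (A⁻¹.1 (S.1 (A.1 (A⁻¹.1 v)))) = _
      have e : A.1 (A⁻¹.1 v) = v := A.1.apply_symm_apply v
      rw [e, hv, hA'.smul, map_smul]
    · rw [← hΘ, Θ.apply_symm_apply, hA'.Q_eq]
      exact mul_ne_zero hA'.ne (fun h => hQv (θ.symm.map_eq_zero_iff.1 h))

end cross

end Cfsg.Agent.Lib.Classical.OmegaCross
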