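/-
The class-preserving similarities of minus-type forms and their characterisations.
-/
import Mathlib
import Cfsg.Agent.Lib.Classical.OmegaCross
import Cfsg.Agent.Lib.OutO.Forms

set_option autoImplicit false
set_option linter.unusedSimpArgs false
set_option linter.unusedSectionVars false
set_option linter.style.haveILetI false
set_option linter.unusedVariables false

namespace Cfsg.Agent.Lib.Classical.OmegaMinusP

open Module MulAction QuadraticMap Matrix Cfsg.Agent.Lib.Witt.Quadratic Cfsg.Agent.Lib.Orth.Refl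
open Cfsg.Agent.Lib.Orth.Gen Cfsg.Agent.Lib.OrthRefl.Eichler Cfsg.Agent.Lib.Classical.QuadEichler
open Cfsg.Agent.Lib.Classical.QuadEichSimple Cfsg.Agent.Lib.Classical.OmegaHP Cfsg.Agent.Lib.Classical.OmegaLocal
open Cfsg.Agent.Lib.Classical.OmegaRoot Cfsg.Agent.Lib.Classical.OmegaSemi Cfsg.Agent.Lib.Classical.OmegaConj
open Cfsg.Agent.Lib.Classical.OmegaBar Cfsg.Agent.Lib.Classical.OmegaAut Cfsg.Agent.Lib.Classical.OmegaCount
open Cfsg.Agent.Lib.Orth.Forms Cfsg.Agent.Lib.Classical.BinaryForms Cfsg.Agent.Lib.Classical.QuadEichBridge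
open Cfsg.Agent.Lib.Classical.OmegaForms Cfsg.Agent.Lib.Classical.OmegaOut Cfsg.Agent.Lib.Orth.Bridge
open Cfsg.Agent.Lib.Classical.MatrixBridge Cfsg.Agent.Lib.Classical.SympSimple
open Cfsg.Agent.Lib.Classical.OmegaPGO Cfsg.Agent.Lib.Classical.OmegaPGO2 Cfsg.Agent.Lib.Classical.OmegaFrob
open Cfsg.Agent.Lib.Classical.OmegaOutOdd Cfsg.Agent.Lib.KS71.Speiser Cfsg.Agent.Lib.Classical.OmegaDesc
open Cfsg.Agent.Lib.Classical.OmegaFieldOdd Cfsg.Agent.Lib.Classical.OmegaCent Cfsg.Agent.Lib.KS71.ClassSplit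
open Cfsg.Agent.Lib.Classical.OmegaFieldCount Cfsg.Agent.Lib.QuadFn.MaxSingular Cfsg.Agent.Lib.Orth.Parity
open Cfsg.Agent.Lib.Classical.OmegaClass Cfsg.Agent.Lib.Orth.HypBasis Cfsg.Agent.Lib.QuadFn.PlusForm
open Cfsg.Agent.Lib.Classical.OmegaType Cfsg.Agent.Lib.Classical.OmegaPlusConj Cfsg.Agent.Lib.Classical.OmegaCentF
open Cfsg.Agent.Lib.Classical.OmegaCross
open scoped commutatorElement

universe u v

section words

variable {F : Type u} [Field F] [Fintype F] {ι : Type} [Fintype ι] [DecidableEq ι] {Q : QuadraticForm F (ι → F)} {m : ℕ}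

theorem evenT_word (hQ : (polarBilin Q).Nondegenerate) (hdim : finrank F (ι → F) = 2 * m) {U : Submodule F (ι → F)} (hU : TS (⇑Q) U)
    (hUm : finrank F U = m) (vs : List (ι → F)) (hvs : ∀ v ∈ vs, Q v ≠ 0) : EvenT m (toSemi Q (wordH Q vs)) ↔ Even vs.length := by
  induction vs with
  | nil =>
    have : wordH Q [] = 1 := rfl
    rw [this, toSemi_one]
    exact iff_of_true (evenT_one hQ hdim) (by simp)
  | cons v vs ih =>
    have e : wordH Q (v :: vs) = reflH Q v * wordH Q vs := by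
      simp [wordH]
    rw [e, toSemi_mul, evenT_mul hQ hdim hU hUm, ih (fun w hw => hvs w (by simp [hw])), List.length_cons, Nat.even_add_one]
    have h1 := not_evenT_refl hQ hdim hU hUm (hvs v (by simp))
    tauto

theorem evenT_scalar_word (hQ : (polarBilin Q).Nondegenerate) (hdim : finrank F (ι → F) = 2 * m) {U : Submodule F (ι → F)} (hU : TS (⇑Q) U)
    (hUm : finrank F U = m) (g : Hs ⇑Q) (c : F) (vs : List (ι → F)) (hc0 : c ≠ 0) (hvs : ∀ v ∈ vs, Q v ≠ 0)
    (hg : g.1.val = c • (vs.map (fun v => Cfsg.reflectionMatrix ⇑Q v)).prod) : EvenT m (toSemi Q g) ↔ Even vs.length := by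
  have e : toSemi Q g = scS' c hc0 * toSemi Q (wordH Q vs) := by
    apply Subtype.ext
    ext1 x
    rw [SemiEl.mul_apply, toSemi_apply, toSemi_apply, hg, Matrix.smul_mulVec, wordH_val]
    rfl
  rw [e, evenT_mul hQ hdim hU hUm, evenT_word hQ hdim hU hUm vs hvs]
  have := evenT_scS' (m := m) hQ hdim c hc0
  tauto

end words

section classSub

variable {F : Type u} [Field F] [Fintype F] {ι : Type} [Fintype ι] [DecidableEq ι] {Q : QuadraticForm F (ι → F)} [Nontrivial (ι → F)]

/-- The characteristic properties of the subgroup of class-preserving similarities. -/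
structure IsClassSub (hQ : (polarBilin Q).Nondegenerate) (m : ℕ) (P : Subgroup (Hs ⇑Q)) : Prop where
  word : ∀ (g : Hs ⇑Q) (c : F) (vs : List (ι → F)), c ≠ 0 → (∀ v ∈ vs, Q v ≠ 0) →
    g.1.val = c • (vs.map (fun v => Cfsg.reflectionMatrix ⇑Q v)).prod → (g ∈ P ↔ Even vs.length)
  det : (2 : F) ≠ 0 → ∀ g : Hs ⇑Q, g ∈ P ↔ g.1.val.det = (mult hQ g : F) ^ m

theorem isClassSub_Hp {m : ℕ} (hQ : (polarBilin Q).Nondegenerate) (hdim : finrank F (ι → F) = 2 * m) (hcard : Fintype.card ι = 2 * m)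
    {U : Submodule F (ι → F)} (hU : TS (⇑Q) U) (hUm : finrank F U = m) : IsClassSub hQ m (Hp hQ hdim hU hUm) where
  word g c vs hc0 hvs hg := evenT_scalar_word hQ hdim hU hUm g c vs hc0 hvs hg
  det h2 g := by
    rw [← preserves_iff_mem hQ hdim hU hUm]
    exact Cfsg.Agent.Lib.OutO.Classes.preserves_iff hQ h2 hcard hU hUm g.1 (mult hQ g) (mult_spec hQ g)

/-- In characteristic two, every similarity is a scalar times a word. -/
theorem exists_scalar_word_two (hQ : (polarBilin Q).Nondegenerate) (h2 : (2 : F) = 0) (hn : 5 ≤ Fintype.card ι) (g : Hs ⇑Q) :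
    ∃ (c : Fˣ) (vs : List (ι → F)), (∀ v ∈ vs, Q v ≠ 0) ∧ g.1.val = (c : F) • (vs.map (fun v => Cfsg.reflectionMatrix ⇑Q v)).prod := by
  classical
  have hch : ringChar F = 2 := CharP.ringChar_of_prime_eq_zero Nat.prime_two (by exact_mod_cast h2)
  obtain ⟨s, hs⟩ := FiniteField.isSquare_of_char_two hch (mult hQ g : F)
  have hs0 : s ≠ 0 := by
    rintro rfl
    exact (mult hQ g).ne_zero (by simpa using hs)
  let c : Fˣ := Units.mk0 s hs0
  have hc2 : c * c = mult hQ g := Units.ext hs.symm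
  let h : Hs ⇑Q := (scH c)⁻¹ * g
  have hker : h ∈ (mult hQ).ker := by
    rw [MonoidHom.mem_ker, map_mul, map_inv, mult_scH, hc2]
    exact inv_mul_cancel _
  have hiso : h.1 ∈ Cfsg.isometryGroup F ⇑Q := (mem_ker_mult hQ).1 hker
  have hcard : Fintype.card F ≠ 2 ∨ Fintype.card ι ≠ 4 := Or.inr (by omega)
  obtain ⟨vs, hvs, hvs2⟩ := Cfsg.Agent.Lib.Orth.Closure.exists_word Q hQ hcard ⟨h.1, hiso⟩
  have hval : (h.1 : GL ι F).val = (vs.map (fun v => Cfsg.reflectionMatrix ⇑Q v)).prod := by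
    have := Cfsg.Agent.Lib.Orth.Closure.word_val Q vs
    rw [← this, ← hvs2]
  refine ⟨c, vs, hvs, ?_⟩
  rw [← hval]
  have e1 : (scH c : Hs ⇑Q) * h = g := by
    simp [h]
  rw [← e1]
  show (((scH c : Hs ⇑Q).1 * h.1 : GL ι F).val) = _
  rw [Units.val_mul, scH_val, Matrix.smul_mul, Matrix.one_mul]

end classSub

section minusP

variable {F : Type u} [Field F] [Fintype F] {k : ℕ} {a b : F}

theorem mapV_minus (k : ℕ) {K : Type v} [Field K] (ε : F →+* K) (a b : F) (y : (Fin k ⊕ Fin k) ⊕ Fin 2 → F) :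
    minusForm k K (ε a) (ε b) (mapV ε y) = ε (minusForm k F a b y) := by
  rw [coe_minusForm, coe_minusForm]
  simp [Cfsg.quadFormMinus, map_sum, map_mul, map_pow, mapV_apply]

open Cfsg.Agent.Lib.OutO.Forms in
/-- The word criterion over a quadratic extension. -/
theorem preserves_K_of_word (hab : ∀ z₁ z₂ : F, z₁ ^ 2 + a * z₁ * z₂ + b * z₂ ^ 2 = 0 → z₁ = 0 ∧ z₂ = 0)
    (g : Hs ⇑(minusForm k F a b)) (c : F) (vs : List ((Fin k ⊕ Fin k) ⊕ Fin 2 → F)) (hc0 : c ≠ 0)
    (hvs : ∀ v ∈ vs, minusForm k F a b v ≠ 0)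
    (hg : g.1.val = c • (vs.map (fun v => Cfsg.reflectionMatrix ⇑(minusForm k F a b) v)).prod)
    {K : Type u} [Field K] [Algebra F K] (hK : finrank F K = 2) :
    Cfsg.PreservesSingularClasses (Cfsg.quadFormMinus k K (algebraMap F K a) (algebraMap F K b)) (g.1.val.map (algebraMap F K)) ↔
      Even vs.length := by
  classical
  have hfd : FiniteDimensional F K := Module.finite_of_finrank_pos (by omega)
  have hfin : Finite K := Module.finite_of_finite F
  letI : Fintype K := Fintype.ofFinite K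
  have hcard : Fintype.card K = Fintype.card F ^ 2 := by
    rw [Module.card_eq_pow_finrank (K := F), hK]
  obtain ⟨ρ, hρ, -⟩ := Cfsg.Agent.Lib.KS71.FieldEmb.exists_root_of_anisotropic (F := F) (K := K) rfl hcard a b hab
  have hρ' : ρ ^ 2 + algebraMap F K a * ρ + algebraMap F K b = 0 := hρ
  set QK := minusForm k K (algebraMap F K a) (algebraMap F K b) with hQK
  have hnd : (polarBilin QK).Nondegenerate := nondeg_ext hab k
  have hU : TS (⇑QK) (rootSub k ρ) := rootSub_ts k hρ'
  have hUm := finrank_rootSub k ρ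
  have hdim : finrank K ((Fin k ⊕ Fin k) ⊕ Fin 2 → K) = 2 * (k + 1) := by
    simp
    ring
  have hc : ∀ y, QK (mapV (algebraMap F K) y) = algebraMap F K (minusForm k F a b y) := mapV_minus k (algebraMap F K) a b
  let gK := liftHs (Q := QK) (Q₀ := minusForm k F a b) (algebraMap F K) hc g
  have h1 := preserves_iff_mem hnd hdim hU hUm gK
  refine h1.trans ?_
  have hlen : (vs.map (mapV (algebraMap F K))).length = vs.length := List.length_map _
  rw [← hlen]
  refine (isClassSub_Hp hnd hdim (by simp; ring) hU hUm).word gK (algebraMap F K c) _ (by simpa using hc0) ?_ ?_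
  · intro v hv
    obtain ⟨u, hu, rfl⟩ := List.mem_map.1 hv
    rw [hc]
    exact fun h => hvs u hu ((map_eq_zero _).1 h)
  · show g.1.val.map (algebraMap F K) = _
    rw [hg, ← map_word (algebraMap F K) hc]
    ext i j
    simp

open Cfsg.Agent.Lib.OutO.Forms in
/-- Independence of the extension. -/
theorem pres_K_iff (hn : 5 ≤ 2 * k + 2) (hab : ∀ z₁ z₂ : F, z₁ ^ 2 + a * z₁ * z₂ + b * z₂ ^ 2 = 0 → z₁ = 0 ∧ z₂ = 0)
    (g : Hs ⇑(minusForm k F a b)) {K K' : Type u} [Field K] [Algebra F K] (hK : finrank F K = 2) [Field K'] [Algebra F K'] (hK' : finrank F K' = 2) :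
    Cfsg.PreservesSingularClasses (Cfsg.quadFormMinus k K (algebraMap F K a) (algebraMap F K b)) (g.1.val.map (algebraMap F K)) ↔
    Cfsg.PreservesSingularClasses (Cfsg.quadFormMinus k K' (algebraMap F K' a) (algebraMap F K' b)) (g.1.val.map (algebraMap F K')) := by
  classical
  have hQ := minusForm_nondeg (F := F) k hab
  have hcard : Fintype.card ((Fin k ⊕ Fin k) ⊕ Fin 2) = 2 * (k + 1) := card_minus k
  haveI : Nontrivial ((Fin k ⊕ Fin k) ⊕ Fin 2 → F) := by
    haveI : Nonempty ((Fin k ⊕ Fin k) ⊕ Fin 2) := ⟨Sum.inr 0⟩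
    infer_instance
  by_cases h2 : (2 : F) = 0
  · obtain ⟨c, vs, hvs, hg⟩ := exists_scalar_word_two hQ h2 (by rw [hcard]; omega) g
    rw [preserves_K_of_word hab g c vs c.ne_zero hvs hg hK, preserves_K_of_word hab g c vs c.ne_zero hvs hg hK']
  · rw [preserves_ext_iff h2 hab g.1 (mult hQ g) (mult_spec hQ g) hK, preserves_ext_iff h2 hab g.1 (mult hQ g) (mult_spec hQ g) hK']

open Cfsg.Agent.Lib.OutO.Forms in
theorem pres_minus_iff_K (hn : 5 ≤ 2 * k + 2) (hab : ∀ z₁ z₂ : F, z₁ ^ 2 + a * z₁ * z₂ + b * z₂ ^ 2 = 0 → z₁ = 0 ∧ z₂ = 0)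
    (g : Hs ⇑(minusForm k F a b)) {K : Type u} [Field K] [Algebra F K] (hK : finrank F K = 2) :
    Cfsg.PreservesSingularClassesMinus k a b g.1.val ↔
    Cfsg.PreservesSingularClasses (Cfsg.quadFormMinus k K (algebraMap F K a) (algebraMap F K b)) (g.1.val.map (algebraMap F K)) := by
  constructor
  · rintro ⟨K', fK, aK, hK', hP⟩
    exact (pres_K_iff hn hab g hK' hK).1 hP
  · intro h
    exact ⟨K, _, _, hK, h⟩

open Cfsg.Agent.Lib.OutO.Forms in
/-- The subgroup of class-preserving similarities of a form of minus type. -/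
noncomputable def Pm (hn : 5 ≤ 2 * k + 2) (hab : ∀ z₁ z₂ : F, z₁ ^ 2 + a * z₁ * z₂ + b * z₂ ^ 2 = 0 → z₁ = 0 ∧ z₂ = 0) :
    Subgroup (Hs ⇑(minusForm k F a b)) where
  carrier := {g | Cfsg.PreservesSingularClassesMinus k a b g.1.val}
  mul_mem' := by
    intro g g' hg hg'
    obtain ⟨K, fK, aK, hK⟩ := exists_ext hab
    classical
    have hfd : FiniteDimensional F K := Module.finite_of_finrank_pos (by omega)
    have hfin : Finite K := Module.finite_of_finite F
    letI : Fintype K := Fintype.ofFinite K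
    have hcard : Fintype.card K = Fintype.card F ^ 2 := by
      rw [Module.card_eq_pow_finrank (K := F), hK]
    obtain ⟨ρ, hρ, -⟩ := Cfsg.Agent.Lib.KS71.FieldEmb.exists_root_of_anisotropic (F := F) (K := K) rfl hcard a b hab
    have hρ' : ρ ^ 2 + algebraMap F K a * ρ + algebraMap F K b = 0 := hρ
    have hnd : (polarBilin (minusForm k K (algebraMap F K a) (algebraMap F K b))).Nondegenerate := nondeg_ext hab k
    have hU : TS (⇑(minusForm k K (algebraMap F K a) (algebraMap F K b))) (rootSub k ρ) := rootSub_ts k hρ'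
    have hUm := finrank_rootSub k ρ
    have hdim : finrank K ((Fin k ⊕ Fin k) ⊕ Fin 2 → K) = 2 * (k + 1) := by
      simp
      ring
    have hc : ∀ y, minusForm k K (algebraMap F K a) (algebraMap F K b) (mapV (algebraMap F K) y) = algebraMap F K (minusForm k F a b y) := mapV_minus k (algebraMap F K) a b
    have key : ∀ g, Cfsg.PreservesSingularClassesMinus k a b (g : Hs ⇑(minusForm k F a b)).1.val ↔ liftHs (algebraMap F K) hc g ∈ Hp hnd hdim hU hUm := by
      intro g
      rw [pres_minus_iff_K hn hab g hK]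
      exact preserves_iff_mem hnd hdim hU hUm (liftHs (algebraMap F K) hc g)
    show Cfsg.PreservesSingularClassesMinus k a b (g * g' : Hs ⇑(minusForm k F a b)).1.val
    rw [key, map_mul]
    exact mul_mem ((key g).1 hg) ((key g').1 hg')
  one_mem' := by
    obtain ⟨K, fK, aK, hK⟩ := exists_ext hab
    classical
    have hfd : FiniteDimensional F K := Module.finite_of_finrank_pos (by omega)
    have hfin : Finite K := Module.finite_of_finite F
    letI : Fintype K := Fintype.ofFinite K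
    have hcard : Fintype.card K = Fintype.card F ^ 2 := by
      rw [Module.card_eq_pow_finrank (K := F), hK]
    obtain ⟨ρ, hρ, -⟩ := Cfsg.Agent.Lib.KS71.FieldEmb.exists_root_of_anisotropic (F := F) (K := K) rfl hcard a b hab
    have hρ' : ρ ^ 2 + algebraMap F K a * ρ + algebraMap F K b = 0 := hρ
    have hnd : (polarBilin (minusForm k K (algebraMap F K a) (algebraMap F K b))).Nondegenerate := nondeg_ext hab k
    have hU : TS (⇑(minusForm k K (algebraMap F K a) (algebraMap F K b))) (rootSub k ρ) := rootSub_ts k hρ'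
    have hUm := finrank_rootSub k ρ
    have hdim : finrank K ((Fin k ⊕ Fin k) ⊕ Fin 2 → K) = 2 * (k + 1) := by
      simp
      ring
    have hc : ∀ y, minusForm k K (algebraMap F K a) (algebraMap F K b) (mapV (algebraMap F K) y) = algebraMap F K (minusForm k F a b y) := mapV_minus k (algebraMap F K) a b
    have key : ∀ g, Cfsg.PreservesSingularClassesMinus k a b (g : Hs ⇑(minusForm k F a b)).1.val ↔ liftHs (algebraMap F K) hc g ∈ Hp hnd hdim hU hUm := by
      intro g
      rw [pres_minus_iff_K hn hab g hK]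
      exact preserves_iff_mem hnd hdim hU hUm (liftHs (algebraMap F K) hc g)
    show Cfsg.PreservesSingularClassesMinus k a b (1 : Hs ⇑(minusForm k F a b)).1.val
    rw [key, map_one]
    exact one_mem _
  inv_mem' := by
    intro g hg
    obtain ⟨K, fK, aK, hK⟩ := exists_ext hab
    classical
    have hfd : FiniteDimensional F K := Module.finite_of_finrank_pos (by omega)
    have hfin : Finite K := Module.finite_of_finite F
    letI : Fintype K := Fintype.ofFinite K
    have hcard : Fintype.card K = Fintype.card F ^ 2 := by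
      rw [Module.card_eq_pow_finrank (K := F), hK]
    obtain ⟨ρ, hρ, -⟩ := Cfsg.Agent.Lib.KS71.FieldEmb.exists_root_of_anisotropic (F := F) (K := K) rfl hcard a b hab
    have hρ' : ρ ^ 2 + algebraMap F K a * ρ + algebraMap F K b = 0 := hρ
    have hnd : (polarBilin (minusForm k K (algebraMap F K a) (algebraMap F K b))).Nondegenerate := nondeg_ext hab k
    have hU : TS (⇑(minusForm k K (algebraMap F K a) (algebraMap F K b))) (rootSub k ρ) := rootSub_ts k hρ'
    have hUm := finrank_rootSub k ρ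
    have hdim : finrank K ((Fin k ⊕ Fin k) ⊕ Fin 2 → K) = 2 * (k + 1) := by
      simp
      ring
    have hc : ∀ y, minusForm k K (algebraMap F K a) (algebraMap F K b) (mapV (algebraMap F K) y) = algebraMap F K (minusForm k F a b y) := mapV_minus k (algebraMap F K) a b
    have key : ∀ g, Cfsg.PreservesSingularClassesMinus k a b (g : Hs ⇑(minusForm k F a b)).1.val ↔ liftHs (algebraMap F K) hc g ∈ Hp hnd hdim hU hUm := by
      intro g
      rw [pres_minus_iff_K hn hab g hK]
      exact preserves_iff_mem hnd hdim hU hUm (liftHs (algebraMap F K) hc g)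
    show Cfsg.PreservesSingularClassesMinus k a b (g⁻¹ : Hs ⇑(minusForm k F a b)).1.val
    rw [key, map_inv]
    exact inv_mem ((key g).1 hg)

theorem mem_Pm (hn : 5 ≤ 2 * k + 2) (hab : ∀ z₁ z₂ : F, z₁ ^ 2 + a * z₁ * z₂ + b * z₂ ^ 2 = 0 → z₁ = 0 ∧ z₂ = 0)
    (g : Hs ⇑(minusForm k F a b)) : g ∈ Pm hn hab ↔ Cfsg.PreservesSingularClassesMinus k a b g.1.val := Iff.rfl

open Cfsg.Agent.Lib.OutO.Forms in
theorem isClassSub_Pm (hn : 5 ≤ 2 * k + 2) (hab : ∀ z₁ z₂ : F, z₁ ^ 2 + a * z₁ * z₂ + b * z₂ ^ 2 = 0 → z₁ = 0 ∧ z₂ = 0)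
    [Nontrivial ((Fin k ⊕ Fin k) ⊕ Fin 2 → F)] : IsClassSub (minusForm_nondeg (F := F) k hab) (k + 1) (Pm hn hab) where
  word g c vs hc0 hvs hg := by
    rw [mem_Pm]
    obtain ⟨K, fK, aK, hK⟩ := exists_ext hab
    rw [pres_minus_iff_K hn hab g hK]
    exact preserves_K_of_word hab g c vs hc0 hvs hg hK
  det h2 g := by
    rw [mem_Pm]
    exact preserves_minus_iff h2 hab g.1 (mult (minusForm_nondeg (F := F) k hab) g) (mult_spec (minusForm_nondeg (F := F) k hab) g)

/-- The inner-diagonal group. -/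
theorem inndiag_minus_eq' (hn : 5 ≤ 2 * k + 2) (hab : ∀ z₁ z₂ : F, z₁ ^ 2 + a * z₁ * z₂ + b * z₂ ^ 2 = 0 → z₁ = 0 ∧ z₂ = 0) :
    Cfsg.inndiagPOmegaMinus k F a b = (Pm hn hab).map (conjHom ⇑(minusForm k F a b)) := by
  apply le_antisymm
  · apply (Subgroup.closure_le _).2
    rintro β ⟨g, hg, hp, hi⟩
    exact ⟨⟨g, hg⟩, hp, ((induced_iff ⟨g, hg⟩ β).1 hi).symm⟩
  · rintro β ⟨g, hg, rfl⟩
    exact Subgroup.subset_closure ⟨g.1, g.2, hg, (induced_iff g _).2 rfl⟩

end minusP

end Cfsg.Agent.Lib.Classical.OmegaMinusP
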