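/-
Field automorphisms of `PΩ⁻`: coset conjugacy.
-/
import Mathlib
import Cfsg.Agent.Lib.Classical.OmegaMinusP

set_option autoImplicit false
set_option linter.unusedSimpArgs false
set_option linter.unusedSectionVars false
set_option linter.style.haveILetI false
set_option linter.unusedVariables false

namespace Cfsg.Agent.Lib.Classical.OmegaMinusConj

open Module MulAction QuadraticMap Matrix Cfsg.Agent.Lib.Witt.Quadratic Cfsg.Agent.Lib.Orth.Refl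
open Cfsg.Agent.Lib.Orth.Gen Cfsg.Agent.Lib.OrthRefl.Eichler Cfsg.Agent.Lib.Classical.QuadEichler
open Cfsg.Agent.Lib.Classical.QuadEichSimple Cfsg.Agent.Lib.Classical.OmegaHP Cfsg.Agent.Lib.Classical.OmegaLocal
open Cfsg.Agent.Lib.Classical.OmegaRoot Cfsg.Agent.Lib.Classical.OmegaSemi Cfsg.Agent.Lib.Classical.OmegaConj
open Cfsg.Agent.Lib.Classical.OmegaBar Cfsg.Agent.Lib.Classical.OmegaAut Cfsg.Agent.Lib.Classical.OmegaCount
open Cfsg.Agent.Lib.Orth.Forms Cfsg.Agent.Lib.Classical.BinaryForms Cfsg.Agent.Lib.Classical.QuadEichBridge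
open Cfsg.Agent.Lib.Classical.OmegaForms Cfsg.Agent.Lib.Classical.OmegaOut Cfsg.Agent.Lib.Orth.Bridge
open Cfsg.Agent.Lib.Classical.MatrixBridge Cfsg.Agent.Lib.Classical.SympSimple
open Cfsg.Agent.Lib.Classical.OmegaPGO Cfsg.Agent.Lib.Classical.OmegaPGO2 Cfsg.Agent.Lib.Classical.OmegaFrob
open Cfsg.Agent.Lib.Classical.OmegaOutOdd Cfsg.Agent.Lib.KS71.Speiser Cfsg.Agent.Lib.Classical.OmegaDesc
open Cfsg.Agent.Lib.Classical.OmegaFieldOdd Cfsg.Agent.Lib.Classical.OmegaCent Cfsg.Agent.Lib.KS71.ClassSplit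
open Cfsg.Agent.Lib.Classical.OmegaFieldCount Cfsg.Agent.Lib.QuadFn.MaxSingular Cfsg.Agent.Lib.Orth.Parity
open Cfsg.Agent.Lib.Classical.OmegaClass Cfsg.Agent.Lib.Orth.HypBasis Cfsg.Agent.Lib.QuadFn.PlusForm
open Cfsg.Agent.Lib.Classical.OmegaType Cfsg.Agent.Lib.Classical.OmegaPlusConj Cfsg.Agent.Lib.Classical.OmegaCentF
open Cfsg.Agent.Lib.Classical.OmegaCross Cfsg.Agent.Lib.Classical.OmegaMinusP
open scoped commutatorElement

universe u v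

section general

variable {F : Type u} [Field F] [Fintype F] {ι : Type} [Fintype ι] [DecidableEq ι] {Q : QuadraticForm F (ι → F)} [Nontrivial (ι → F)]

/-- Composing with a reflection moves a similarity into the subgroup. -/
theorem mul_refl_class {hQ : (polarBilin Q).Nondegenerate} {m : ℕ} {P : Subgroup (Hs ⇑Q)} (hP : IsClassSub hQ m P)
    (hcard : Fintype.card ι = 2 * m) (hn : 5 ≤ Fintype.card ι) {g : Hs ⇑Q} (hg : g ∉ P) {v : ι → F} (hv : Q v ≠ 0) : g * reflH Q v ∈ P := by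
  classical
  by_cases h2 : (2 : F) = 0
  · obtain ⟨c, vs, hvs, hw⟩ := exists_scalar_word_two hQ h2 hn g
    have h3 := hP.word g c vs c.ne_zero hvs hw
    have hvs' : ∀ u ∈ vs ++ [v], Q u ≠ 0 := by
      intro u hu
      rcases List.mem_append.1 hu with hu | hu
      · exact hvs u hu
      · simp only [List.mem_singleton] at hu
        rw [hu]
        exact hv
    have h4 := hP.word (g * reflH Q v) c (vs ++ [v]) c.ne_zero hvs' (by
      show (g.1 * (reflH Q v).1 : GL ι F).val = _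
      rw [Units.val_mul, hw, Matrix.smul_mul, List.map_append, List.prod_append]
      congr 2
      simp only [List.map_cons, List.map_nil, List.prod_cons, List.prod_nil, mul_one]
      exact Cfsg.Agent.Lib.Orth.Closure.reflEl_val Q v)
    rw [h4, List.length_append, Nat.even_add]
    simp only [List.length_cons, List.length_nil, zero_add]
    have h5 : ¬ Even vs.length := fun h => hg (h3.2 h)
    simp [h5]
  · rw [hP.det h2] at hg ⊢
    have hdr : (reflH Q v : Hs ⇑Q).1.val.det = -1 := by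
      show ((Cfsg.Agent.Lib.Orth.Closure.reflEl Q v : Cfsg.isometryGroup F ⇑Q) : GL ι F).val.det = -1
      rw [Cfsg.Agent.Lib.Orth.Closure.reflEl_val, Cfsg.Agent.Lib.Reflect.Basic.reflection_det Q v hv]
    have hmr : mult hQ (reflH Q v) = 1 := by
      apply mult_eq
      intro w
      show Q ((reflH Q v).1.val *ᵥ w) = _
      rw [reflH_mulVec, Units.val_one, one_mul]
      exact refl_mem Q v w
    have hd := det_sq_of_sim hQ g.1.val (mult hQ g : F) (fun w => mult_spec hQ g w)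
    rw [hcard, pow_mul', pow_two] at hd
    have h3 : (g.1.val.det - (mult hQ g : F) ^ m) * (g.1.val.det + (mult hQ g : F) ^ m) = 0 := by
      linear_combination hd
    rcases mul_eq_zero.1 h3 with h4 | h4
    · exact absurd (sub_eq_zero.1 h4) hg
    · have e : (g * reflH Q v : Hs ⇑Q).1.val = g.1.val * (reflH Q v).1.val := rfl
      rw [e, Matrix.det_mul, hdr, map_mul, hmr, mul_one]
      linear_combination -h4

variable (hQ : (polarBilin Q).Nondegenerate) (hn : 5 ≤ Fintype.card ι) (p : ℕ) [hp : Fact p.Prime] [hc : CharP F p]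

include hQ p in
/-- The conjugacy when there is no Lagrangian. -/
theorem conj_no_lagr {k : ℕ} (hcard : Fintype.card ι = 2 * (k + 1)) (P : Subgroup (Hs ⇑Q)) (hP : IsClassSub hQ (k + 1) P)
    (hL : ¬ ∃ U : Submodule F (ι → F), TS (⇑Q) U ∧ finrank F U = k + 1)
    {σ : F ≃+* F} {l₀ : F} {T₀ : SemiEl Q} (H₀ : Semi Q T₀.1 σ l₀) {r : ℕ} (hr : orderOf σ = r) (hT₀ : T₀ ^ r = 1)
    {v : ι → F} {c : F} (hv : T₀.1 v = c • v) (hQv : Q v ≠ 0)
    (g : Hs ⇑Q) (hord : (conjHom ⇑Q g * conjS hQ hn T₀) ^ r = 1) :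
    ∃ h ∈ P, conjHom ⇑Q g * conjS hQ hn T₀ = conjHom ⇑Q h * conjS hQ hn T₀ * (conjHom ⇑Q h)⁻¹ := by
  refine conj_in_P hQ hn p P (fun g hg v hv => mul_refl_class hP hcard hn hg hv) H₀ hr hT₀ hv hQv g hord ?_
  rintro T' l' k₁ k₂ b b₀ D D₀ H' hT' -
  have hnd := descend_nondeg _ D.stable (twistForm_nondeg hQ k₁ D.b_ne)
  have hnd₀ := descend_nondeg _ D₀.stable (twistForm_nondeg hQ k₂ D₀.b_ne)
  refine similarF_elliptic hnd hnd₀ hcard ?_ ?_
  · rintro ⟨U₀, h1, h2⟩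
    obtain ⟨W, hW, hWm, -⟩ := stable_of_lagr hQ H' D (m := k + 1) hcard hnd h1 h2
    exact hL ⟨W, hW, hWm⟩
  · rintro ⟨U₀, h1, h2⟩
    obtain ⟨W, hW, hWm, -⟩ := stable_of_lagr hQ H₀ D₀ (m := k + 1) hcard hnd₀ h1 h2
    exact hL ⟨W, hW, hWm⟩

end general

section minus

variable {F : Type u} [Field F] [Fintype F] {k : ℕ} {a b : F}

theorem card_minus' (k : ℕ) : Fintype.card ((Fin k ⊕ Fin k) ⊕ Fin 2) = 2 * (k + 1) := by
  simp
  omega

theorem finrank_minus (k : ℕ) : finrank F ((Fin k ⊕ Fin k) ⊕ Fin 2 → F) = 2 * (k + 1) := by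
  simp
  omega

theorem no_lagr_minus (hab : ∀ z₁ z₂ : F, z₁ ^ 2 + a * z₁ * z₂ + b * z₂ ^ 2 = 0 → z₁ = 0 ∧ z₂ = 0) :
    ¬ ∃ U : Submodule F ((Fin k ⊕ Fin k) ⊕ Fin 2 → F), TS (⇑(minusForm k F a b)) U ∧ finrank F U = k + 1 := by
  rintro ⟨U, hU, hUm⟩
  exact no_half_minus hab U hU (by rw [hUm, finrank_minus])

theorem noSolid_minus (hab : ∀ z₁ z₂ : F, z₁ ^ 2 + a * z₁ * z₂ + b * z₂ ^ 2 = 0 → z₁ = 0 ∧ z₂ = 0) : NoSolid (minusForm k F a b) := by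
  intro W hW hdim
  exact (no_half_minus hab W hW hdim).elim

instance instNontrivialMinus : Nontrivial ((Fin k ⊕ Fin k) ⊕ Fin 2 → F) := by
  haveI : Nonempty ((Fin k ⊕ Fin k) ⊕ Fin 2) := ⟨Sum.inr 0⟩
  infer_instance

/-- The isometry between two minus-type forms. -/
theorem exists_Θ {a' b' : F} (hab : ∀ z₁ z₂ : F, z₁ ^ 2 + a * z₁ * z₂ + b * z₂ ^ 2 = 0 → z₁ = 0 ∧ z₂ = 0)
    (hab' : ∀ z₁ z₂ : F, z₁ ^ 2 + a' * z₁ * z₂ + b' * z₂ ^ 2 = 0 → z₁ = 0 ∧ z₂ = 0) :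
    ∃ Θ : ((Fin k ⊕ Fin k) ⊕ Fin 2 → F) ≃ₗ[F] ((Fin k ⊕ Fin k) ⊕ Fin 2 → F), ∀ y, minusForm k F a' b' (Θ y) = minusForm k F a b y := by
  obtain ⟨-, -, -, h⟩ := exists_equiv_minus (minusForm_nondeg (F := F) k hab') (k := k) (finrank_minus k) (no_lagr_minus hab')
  obtain ⟨Θ, hΘ⟩ := h a b hab
  exact ⟨Θ, hΘ⟩

theorem coord_minus (a' b' : F) (σ : F ≃+* F) (ha : σ a' = a') (hb : σ b' = b') (x : (Fin k ⊕ Fin k) ⊕ Fin 2 → F) :
    minusForm k F a' b' (fun i => σ (x i)) = σ (minusForm k F a' b' x) := by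
  rw [coe_minusForm]
  simp [Cfsg.quadFormMinus, map_sum, map_mul, map_pow, ha, hb]

/-- The data attached to a field automorphism. -/
theorem exists_data (p : ℕ) [hp : Fact p.Prime] [hc : CharP F p] (hk : 3 ≤ k) (hab : ∀ z₁ z₂ : F, z₁ ^ 2 + a * z₁ * z₂ + b * z₂ ^ 2 = 0 → z₁ = 0 ∧ z₂ = 0)
    (x : MulAut (Cfsg.POmega F (Cfsg.quadFormMinus k F a b))) (hx : Cfsg.IsFieldAutClassPOmegaMinus k x) {r : ℕ} (hxr : orderOf x = r)
    (hn : 5 ≤ Fintype.card ((Fin k ⊕ Fin k) ⊕ Fin 2)) :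
    ∃ (a' b' : F) (σ : F ≃+* F) (T₀ : SemiEl (minusForm k F a b)) (l₀ : F) (v : (Fin k ⊕ Fin k) ⊕ Fin 2 → F) (c : F),
      (∀ z₁ z₂ : F, z₁ ^ 2 + a' * z₁ * z₂ + b' * z₂ ^ 2 = 0 → z₁ = 0 ∧ z₂ = 0) ∧ σ ≠ RingEquiv.refl F ∧ σ a' = a' ∧ σ b' = b' ∧ orderOf σ = r ∧
      Semi (minusForm k F a b) T₀.1 σ l₀ ∧ conjS (minusForm_nondeg (F := F) k hab) hn T₀ = x ∧ T₀ ^ r = 1 ∧
      T₀.1 v = c • v ∧ minusForm k F a b v ≠ 0 := by
  classical
  obtain ⟨a', b', ψ, σ, hab', hσ1, hσa, hσb, hφ⟩ := hx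
  have hQ := minusForm_nondeg (F := F) k hab
  have hQ' := minusForm_nondeg (F := F) k hab'
  have hσ' : ∀ y : (Fin k ⊕ Fin k) ⊕ Fin 2 → F, minusForm k F a' b' (fun i => σ (y i)) = σ (minusForm k F a' b' y) := coord_minus a' b' σ hσa hσb
  have hφ' := eq_conjS_coord hQ' hn σ hσ' hφ
  obtain ⟨Θ, hΘ⟩ := exists_Θ (k := k) hab hab'
  have hn7 : 7 ≤ Fintype.card ((Fin k ⊕ Fin k) ⊕ Fin 2) := by
    rw [card_minus']
    omega
  obtain ⟨T₀, l₀, H₀, hconj, hpow, hvec⟩ := exists_T₀ Θ hΘ hQ hQ' hn p hn7 (noSolid_minus hab') ψ x (coordS σ hσ') (semiOfCoord σ hσ') hφ'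
  have hσr : orderOf σ = r := by
    rw [← orderOf_conjS_coord hQ' hn p σ hσ', ← hφ', ← hxr]
    exact (MulAut.congr ψ).orderOf_eq x
  have hT₀ := hpow r (coordS_pow_order hσ' hσr)
  have hv₁ : ∀ i, σ ((Pi.single (Sum.inr 0) 1 : (Fin k ⊕ Fin k) ⊕ Fin 2 → F) i) = (Pi.single (Sum.inr 0) 1 : (Fin k ⊕ Fin k) ⊕ Fin 2 → F) i := by
    intro i
    by_cases h : i = Sum.inr 0
    · subst h
      simp
    · simp [h]
  have hQv₁ : minusForm k F a' b' (Pi.single (Sum.inr 0) 1) ≠ 0 := by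
    rw [coe_minusForm]
    simp [Cfsg.quadFormMinus]
  obtain ⟨v, c, hv, hQv⟩ := hvec (Pi.single (Sum.inr 0) 1) 1 (by
    rw [one_smul]
    funext i
    exact hv₁ i) hQv₁
  exact ⟨a', b', σ, T₀, l₀, v, c, hab', hσ1, hσa, hσb, hσr, H₀, hconj, hT₀, hv, hQv⟩

/-- **S2737**. -/
theorem main_minus (hk : 3 ≤ k) (hab : ∀ z₁ z₂ : F, z₁ ^ 2 + a * z₁ * z₂ + b * z₂ ^ 2 = 0 → z₁ = 0 ∧ z₂ = 0)
    (x δ : MulAut (Cfsg.POmega F (Cfsg.quadFormMinus k F a b))) (hx : Cfsg.IsFieldAutClassPOmegaMinus k x) {r : ℕ} (hr : r.Prime) (hxr : orderOf x = r)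
    (hδ : δ ∈ Cfsg.inndiagPOmegaMinus k F a b) :
    orderOf (δ * x) = r ↔ Cfsg.IsConjUnder (Cfsg.inndiagPOmegaMinus k F a b) x (δ * x) := by
  classical
  obtain ⟨p, hp, hc⟩ := OmegaPGO3.exists_char (F := F)
  have hn : 5 ≤ Fintype.card ((Fin k ⊕ Fin k) ⊕ Fin 2) := by
    rw [card_minus']
    omega
  have hQ := minusForm_nondeg (F := F) k hab
  have hn' : 5 ≤ 2 * k + 2 := by omega
  constructor
  swap
  · rintro ⟨h, -, hh⟩
    rw [hh, ← hxr]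
    exact (MulAut.conj h).orderOf_eq x
  intro hy
  have hord : (δ * x) ^ r = 1 := by
    rw [← hy]
    exact pow_orderOf_eq_one _
  obtain ⟨a', b', σ, T₀, l₀, v, c, hab', hσ1, hσa, hσb, hσr, H₀, hconj, hT₀, hv, hQv⟩ := exists_data p hk hab x hx hxr hn
  rw [inndiag_minus_eq' hn' hab] at hδ ⊢
  obtain ⟨g, hg, rfl⟩ := hδ
  subst hconj
  obtain ⟨h, hh, he⟩ := conj_no_lagr hQ hn p (card_minus' k) (Pm hn' hab) (isClassSub_Pm hn' hab) (no_lagr_minus hab) H₀ hσr hT₀ hv hQv g hord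
  exact ⟨conjHom _ h, ⟨h, hh, rfl⟩, he⟩

end minus

end Cfsg.Agent.Lib.Classical.OmegaMinusConj
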