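/-
Lifting similarities over a subfield: words, determinants, class subgroups and the count of classes.
-/
import Mathlib
import Cfsg.Agent.Lib.Classical.OmegaMinusConj

set_option autoImplicit false
set_option linter.unusedSimpArgs false
set_option linter.unusedSectionVars false
set_option linter.style.haveILetI false
set_option linter.unusedVariables false

namespace Cfsg.Agent.Lib.Classical.OmegaLift


open Module MulAction QuadraticMap Matrix Cfsg.Agent.Lib.Witt.Quadratic Cfsg.Agent.Lib.Orth.Refl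
open Cfsg.Agent.Lib.Orth.Gen Cfsg.Agent.Lib.OrthRefl.Eichler Cfsg.Agent.Lib.Classical.QuadEichler
open Cfsg.Agent.Lib.Classical.QuadEichSimple Cfsg.Agent.Lib.Classical.OmegaHP Cfsg.Agent.Lib.Classical.OmegaLocal
open Cfsg.Agent.Lib.Classical.OmegaRoot Cfsg.Agent.Lib.Classical.OmegaSemi Cfsg.Agent.Lib.Classical.OmegaConj
open Cfsg.Agent.Lib.Classical.OmegaBar Cfsg.Agent.Lib.Classical.OmegaAut Cfsg.Agent.Lib.Classical.OmegaCount
open Cfsg.Agent.Lib.Orth.Forms Cfsg.Agent.Lib.Classical.BinaryForms Cfsg.Agent.Lib.Classical.QuadEichBridge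
open Cfsg.Agent.Lib.Classical.OmegaForms Cfsg.Agent.Lib.Classical.OmegaOut Cfsg.Agent.Lib.Orth.Bridge
open Cfsg.Agent.Lib.Classical.MatrixBridge Cfsg.Agent.Lib.Classical.SympSimple
open Cfsg.Agent.Lib.Classical.OmegaPGO Cfsg.Agent.Lib.Classical.OmegaPGO2 Cfsg.Agent.Lib.Classical.OmegaFrob
open Cfsg.Agent.Lib.Classical.OmegaOutOdd Cfsg.Agent.Lib.KS71.Speiser Cfsg.Agent.Lib.Classical.OmegaDesc
open Cfsg.Agent.Lib.Classical.OmegaFieldOdd Cfsg.Agent.Lib.Classical.OmegaCent Cfsg.Agent.Lib.KS71.ClassSplit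
open Cfsg.Agent.Lib.Classical.OmegaFieldCount Cfsg.Agent.Lib.QuadFn.MaxSingular Cfsg.Agent.Lib.Orth.Parity
open Cfsg.Agent.Lib.Classical.OmegaClass Cfsg.Agent.Lib.Orth.HypBasis Cfsg.Agent.Lib.QuadFn.PlusForm
open Cfsg.Agent.Lib.Classical.OmegaType Cfsg.Agent.Lib.Classical.OmegaPlusConj Cfsg.Agent.Lib.Classical.OmegaCentF
open Cfsg.Agent.Lib.Classical.OmegaCross Cfsg.Agent.Lib.Classical.OmegaMinusP
open Cfsg.Agent.Lib.Classical.OmegaMinusConj
open scoped commutatorElement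

universe u v

section innword

variable {F : Type u} [Field F] [Fintype F] {ι : Type} [Fintype ι] [DecidableEq ι] {Q : QuadraticForm F (ι → F)} [Nontrivial (ι → F)]
variable (hQ : (polarBilin Q).Nondegenerate) (hn : 5 ≤ Fintype.card ι) (p : ℕ) [hp : Fact p.Prime] [hc : CharP F p]

include hQ hn p in
/-- A scalar times an even word of square spinor norm acts as an inner automorphism. -/
theorem inn_of_word (g : Hs ⇑Q) (c : F) (hc0 : c ≠ 0) (vs : List (ι → F))
    (hvs : ∀ v ∈ vs, Q v ≠ 0) (hev : Even vs.length) (hsq : IsSquare (vs.map (fun v => Q v)).prod)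
    (hg : g.1.val = c • (vs.map (fun v => Cfsg.reflectionMatrix ⇑Q v)).prod) :
    conjHom ⇑Q g ∈ Cfsg.Inn (Cfsg.POmega F ⇑Q) := by
  classical
  have hcard : Fintype.card F ≠ 2 ∨ Fintype.card ι ≠ 4 := Or.inr (by omega)
  obtain ⟨W, hW⟩ := word_isometry (Q := Q) vs hvs
  have hmem := Cfsg.Agent.Lib.Orth.Bridge.word_mem_Omega_iff Q hQ hcard W vs hvs hW
  have hWO : W ∈ Cfsg.Omega F ⇑Q := hmem.2 ⟨hev, hsq⟩
  rw [inn_eq]
  refine ⟨omegaToHs ⟨W, hWO⟩, ⟨⟨W, hWO⟩, rfl⟩, ?_⟩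
  have h1 : conjHom ⇑Q (g * (omegaToHs ⟨W, hWO⟩)⁻¹) = 1 := by
    apply (conjHom_eq_one_iff (p := p) hQ hn _).2
    refine ⟨c, hc0, ?_⟩
    have e : (omegaToHs ⟨W, hWO⟩) * (omegaToHs ⟨W, hWO⟩)⁻¹ = 1 := mul_inv_cancel _
    have e2 : (g * (omegaToHs ⟨W, hWO⟩)⁻¹ : Hs ⇑Q).1 = g.1 * ((omegaToHs ⟨W, hWO⟩)⁻¹ : Hs ⇑Q).1 := rfl
    rw [e2, Units.val_mul, hg, ← hW, Matrix.smul_mul]
    congr 1
    have e3 : ((omegaToHs ⟨W, hWO⟩ : Hs ⇑Q).1 : GL ι F).val = (W : GL ι F).val := rfl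
    rw [← e3, ← Units.val_mul]
    have e4 : (omegaToHs ⟨W, hWO⟩ : Hs ⇑Q).1 * ((omegaToHs ⟨W, hWO⟩)⁻¹ : Hs ⇑Q).1 = 1 := by
      rw [← Subgroup.coe_mul, e]
      rfl
    rw [e4]
    rfl
  rw [map_mul, map_inv] at h1
  exact (mul_inv_eq_one.1 h1).symm

include hQ hn in
/-- Elements of `Ω` lie in the class subgroup. -/
theorem omega_mem_class {m : ℕ} {P : Subgroup (Hs ⇑Q)} (hP : IsClassSub hQ m P) (s : Cfsg.Omega F ⇑Q) : omegaToHs s ∈ P := by
  classical
  have hcard : Fintype.card F ≠ 2 ∨ Fintype.card ι ≠ 4 := Or.inr (by omega)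
  obtain ⟨vs, hvs, hvs2⟩ := Cfsg.Agent.Lib.Orth.Closure.exists_word Q hQ hcard s.1
  have hval : (s.1 : GL ι F).val = (vs.map (fun v => Cfsg.reflectionMatrix ⇑Q v)).prod := by
    have := Cfsg.Agent.Lib.Orth.Closure.word_val Q vs
    rw [← this, ← hvs2]
  have hmem := Cfsg.Agent.Lib.Orth.Bridge.word_mem_Omega_iff Q hQ hcard s.1 vs hvs hval
  have h1 := (hmem.1 s.2).1
  refine (hP.word (omegaToHs s) 1 vs one_ne_zero hvs ?_).2 h1
  rw [one_smul]
  exact hval

include hQ hn in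
/-- The scalars do not matter for the class subgroup. -/
theorem class_smul {m : ℕ} {P : Subgroup (Hs ⇑Q)} (hP : IsClassSub hQ m P) (hcard : Fintype.card ι = 2 * m)
    (d : F) (hd : d ≠ 0) (g g' : Hs ⇑Q) (h : g'.1.val = d • g.1.val) : g ∈ P ↔ g' ∈ P := by
  classical
  by_cases h2 : (2 : F) = 0
  · obtain ⟨c, vs, hvs, hw⟩ := exists_scalar_word_two hQ h2 hn g
    rw [hP.word g c vs c.ne_zero hvs hw, hP.word g' (d * c) vs (mul_ne_zero hd c.ne_zero) hvs (by
      rw [h, hw, smul_smul])]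
  · rw [hP.det h2, hP.det h2]
    have hdu : d ≠ 0 := hd
    have hm : (mult hQ g' : F) = d * d * (mult hQ g : F) := by
      have e : mult hQ g' = Units.mk0 d hd * Units.mk0 d hd * mult hQ g := by
        apply mult_eq hQ
        intro v
        rw [h, Matrix.smul_mulVec, QuadraticMap.map_smul, mult_spec hQ, smul_eq_mul]
        simp [Units.val_mul]
        ring
      rw [e]
      simp [Units.val_mul]
    rw [h, Matrix.det_smul, hm, hcard]
    have e : d ^ (2 * m) = (d * d) ^ m := by rw [pow_mul, pow_two]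
    rw [e, mul_pow (d * d) (mult hQ g : F)]
    exact (mul_right_inj' (pow_ne_zero m (mul_ne_zero hd hd))).symm

include hQ hn in
/-- A similarity of the required multiplier inside the class subgroup. -/
theorem exists_mult_class {m : ℕ} {P : Subgroup (Hs ⇑Q)} (hP : IsClassSub hQ m P) (hcard : Fintype.card ι = 2 * m)
    (g : Hs ⇑Q) : ∃ g' ∈ P, mult hQ g' = mult hQ g := by
  classical
  by_cases hg : g ∈ P
  · exact ⟨g, hg, rfl⟩
  · obtain ⟨v, hv⟩ := Cfsg.Agent.Lib.Orth.Closure.exists_nonsingular (Q := Q) hQ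
    refine ⟨g * reflH Q v, mul_refl_class hP hcard hn hg hv, ?_⟩
    have hmr : mult hQ (reflH Q v) = 1 := by
      apply mult_eq
      intro w
      show Q ((reflH Q v).1.val *ᵥ w) = _
      rw [reflH_mulVec, Units.val_one, one_mul]
      exact refl_mem Q v w
    rw [map_mul, hmr, mul_one]

end innword

section lift

variable {F : Type u} [Field F] [Fintype F] {F₀ : Type v} [Field F₀] [Fintype F₀]
variable {ι J : Type} [Fintype ι] [DecidableEq ι] [Fintype J] [DecidableEq J]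
variable {Q : QuadraticForm F (ι → F)} {Q₀ : QuadraticForm F₀ (J → F₀)}
variable (ε : F₀ →+* F) (K : (J → F) ≃ₗ[F] (ι → F)) (b : F)
variable (hc : ∀ y : J → F₀, b * Q (K (mapV ε y)) = ε (Q₀ y)) (hb : b ≠ 0)
variable [Nontrivial (J → F₀)]

/-- The pulled-back form. -/
noncomputable def pullForm (Q : QuadraticForm F (ι → F)) (K : (J → F) ≃ₗ[F] (ι → F)) (b : F) : QuadraticForm F (J → F) :=
  b • Q.comp (K : (J → F) →ₗ[F] (ι → F))

theorem pullForm_apply (y : J → F) : pullForm Q K b y = b * Q (K y) := rfl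

include hc hb in
/-- Reflections under the lift. -/
theorem K_refl (v : J → F₀) (y : J → F) :
    K (((Cfsg.reflectionMatrix ⇑Q₀ v).map ε) *ᵥ y) = Cfsg.reflectionMatrix ⇑Q (K (mapV ε v)) *ᵥ (K y) := by
  have h1 := map_reflectionMatrix (Q := pullForm Q K b) (Q₀ := Q₀) ε hc v
  rw [h1, Cfsg.Agent.Lib.Orth.Bridge.reflectionMatrix_mulVec_eq, Cfsg.Agent.Lib.Orth.Bridge.reflectionMatrix_mulVec_eq,
    refl_apply, refl_apply, map_sub, map_smul]
  congr 2
  have e1 : polar ⇑(pullForm Q K b) y (mapV ε v) = b * polar ⇑Q (K y) (K (mapV ε v)) := by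
    simp only [polar, pullForm_apply, map_add]
    ring
  rw [e1, pullForm_apply]
  by_cases h0 : Q (K (mapV ε v)) = 0
  · simp [h0]
  · field_simp

include hc hb in
theorem K_word (vs : List (J → F₀)) (y : J → F) :
    K ((((vs.map (fun v => Cfsg.reflectionMatrix ⇑Q₀ v)).prod).map ε) *ᵥ y) =
      ((vs.map (fun v => K (mapV ε v))).map (fun v => Cfsg.reflectionMatrix ⇑Q v)).prod *ᵥ (K y) := by
  induction vs generalizing y with
  | nil =>
    simp
  | cons v vs ih =>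
    simp only [List.map_cons, List.prod_cons]
    rw [Matrix.map_mul, ← Matrix.mulVec_mulVec, ← Matrix.mulVec_mulVec, K_refl ε K b hc hb, ih]

include hc hb in
/-- The lift of a scalar times a word. -/
theorem liftH_word (g : Hs ⇑Q₀) (c : F₀) (vs : List (J → F₀))
    (hg : g.1.val = c • (vs.map (fun v => Cfsg.reflectionMatrix ⇑Q₀ v)).prod) :
    (liftH ε K b hc hb g).1.val = ε c • ((vs.map (fun v => K (mapV ε v))).map (fun v => Cfsg.reflectionMatrix ⇑Q v)).prod := by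
  apply Cfsg.Agent.Lib.Orth.Words.mat_eq_of_mulVec
  intro x
  obtain ⟨y, rfl⟩ := K.surjective x
  rw [liftH_mulVec, Matrix.smul_mulVec, ← K_word ε K b hc hb, ← map_smul, ← Matrix.smul_mulVec, hg]
  congr 2
  ext i j
  simp

include hc hb in
theorem Q_lift_ne {v : J → F₀} (hv : Q₀ v ≠ 0) : Q (K (mapV ε v)) ≠ 0 := by
  intro h
  have := hc v
  rw [h, mul_zero] at this
  exact hv ((map_eq_zero ε).1 this.symm)

include hc hb in
theorem Q_lift_eq (v : J → F₀) : Q (K (mapV ε v)) = b⁻¹ * ε (Q₀ v) := by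
  rw [← hc]
  field_simp

include hc hb in
/-- The form under a lifted similarity. -/
theorem Q_liftH (g : Hs ⇑Q₀) (hQ₀ : (polarBilin Q₀).Nondegenerate) (z : ι → F) :
    Q ((liftH ε K b hc hb g).1.val *ᵥ z) = ε (mult hQ₀ g : F₀) * Q z := by
  obtain ⟨y, rfl⟩ := K.surjective z
  rw [liftH_mulVec]
  apply mul_left_cancel₀ hb
  let A : QuadraticForm F (J → F) := b • (Q.comp (K : (J → F) →ₗ[F] (ι → F))).comp (Matrix.toLin' (g.1.val.map ε))
  let B : QuadraticForm F (J → F) := (ε (mult hQ₀ g : F₀)) • (b • Q.comp (K : (J → F) →ₗ[F] (ι → F)))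
  have := forms_eq_of_map ε A B (fun z => by
    show b * Q (K ((g.1.val.map ε) *ᵥ mapV ε z)) = ε (mult hQ₀ g : F₀) * (b * Q (K (mapV ε z)))
    rw [mapV_mulVec, hc, hc, mult_spec hQ₀, map_mul]) y
  have h2 : b * Q (K ((g.1.val.map ε) *ᵥ y)) = ε (mult hQ₀ g : F₀) * (b * Q (K y)) := this
  rw [h2]
  ring

include hc hb in
theorem mult_lift (hQ : (polarBilin Q).Nondegenerate) (hQ₀ : (polarBilin Q₀).Nondegenerate) [Nontrivial (ι → F)] (g : Hs ⇑Q₀) :
    (mult hQ (liftH ε K b hc hb g) : F) = ε (mult hQ₀ g : F₀) := by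
  have h0 : ε (mult hQ₀ g : F₀) ≠ 0 := fun h => (mult hQ₀ g).ne_zero ((map_eq_zero ε).1 h)
  have := mult_eq hQ (liftH ε K b hc hb g) (c := Units.mk0 _ h0) (fun v => Q_liftH ε K b hc hb g hQ₀ v)
  rw [this]
  rfl

include hc hb in
theorem det_lift (g : Hs ⇑Q₀) : (liftH ε K b hc hb g).1.val.det = ε (g.1.val.det) := by
  have h1 : Matrix.toLin' (liftH ε K b hc hb g).1.val =
      (K : (J → F) →ₗ[F] (ι → F)) ∘ₗ (Matrix.toLin' (g.1.val.map ε)) ∘ₗ (K.symm : (ι → F) →ₗ[F] (J → F)) := by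
    apply LinearMap.ext
    intro x
    obtain ⟨y, rfl⟩ := K.surjective x
    simp only [LinearMap.comp_apply, LinearEquiv.coe_coe, LinearEquiv.symm_apply_apply, Matrix.toLin'_apply]
    exact liftH_mulVec ε K b hc hb g y
  have h2 := congrArg LinearMap.det h1
  rw [LinearMap.det_toLin', LinearMap.det_conj, LinearMap.det_toLin'] at h2
  rw [h2]
  exact (RingHom.map_det ε g.1.val).symm

end lift

section classlift

variable {F : Type u} [Field F] [Fintype F] {F₀ : Type v} [Field F₀] [Fintype F₀]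
variable {ι J : Type} [Fintype ι] [DecidableEq ι] [Fintype J] [DecidableEq J]
variable {Q : QuadraticForm F (ι → F)} {Q₀ : QuadraticForm F₀ (J → F₀)}
variable (ε : F₀ →+* F) (K : (J → F) ≃ₗ[F] (ι → F)) (b : F)
variable (hc : ∀ y : J → F₀, b * Q (K (mapV ε y)) = ε (Q₀ y)) (hb : b ≠ 0)
variable (hQ : (polarBilin Q).Nondegenerate) (hQ₀ : (polarBilin Q₀).Nondegenerate) (hn₀ : 5 ≤ Fintype.card J)
variable [Nontrivial (ι → F)] [Nontrivial (J → F₀)]
variable {m : ℕ} {P : Subgroup (Hs ⇑Q)} {P₀ : Subgroup (Hs ⇑Q₀)}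

include hQ₀ hn₀ in
/-- The lift preserves the class subgroups. -/
theorem lift_mem_iff (hP : IsClassSub hQ m P) (hP₀ : IsClassSub hQ₀ m P₀) (g : Hs ⇑Q₀) :
    g ∈ P₀ ↔ liftH ε K b hc hb g ∈ P := by
  classical
  by_cases h2 : (2 : F) = 0
  · have h20 : (2 : F₀) = 0 := by
      apply ε.injective
      rw [map_ofNat, map_zero]
      exact h2
    obtain ⟨c, vs, hvs, hw⟩ := exists_scalar_word_two hQ₀ h20 hn₀ g
    rw [hP₀.word g c vs c.ne_zero hvs hw, hP.word (liftH ε K b hc hb g) (ε c) (vs.map (fun v => K (mapV ε v)))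
      (fun h => c.ne_zero ((map_eq_zero ε).1 h)) ?_ (liftH_word ε K b hc hb g c vs hw), List.length_map]
    intro u hu
    obtain ⟨v, hv, rfl⟩ := List.mem_map.1 hu
    exact Q_lift_ne ε K b hc hb (hvs v hv)
  · have h20 : (2 : F₀) ≠ 0 := by
      intro h
      apply h2
      have := congrArg ε h
      rwa [map_ofNat, map_zero] at this
    rw [hP₀.det h20, hP.det h2, det_lift, mult_lift ε K b hc hb hQ hQ₀, ← map_pow]
    exact ε.injective.eq_iff.symm

end classlift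

section count

variable {F : Type u} [Field F] [Fintype F] {F₀ : Type v} [Field F₀] [Fintype F₀]
variable {ι J : Type} [Fintype ι] [DecidableEq ι] [Fintype J] [DecidableEq J]
variable {Q : QuadraticForm F (ι → F)} {Q₀ : QuadraticForm F₀ (J → F₀)}
variable (ε : F₀ →+* F) (K : (J → F) ≃ₗ[F] (ι → F)) (b : F)
variable (hc : ∀ y : J → F₀, b * Q (K (mapV ε y)) = ε (Q₀ y)) (hb : b ≠ 0)
variable (σ : F ≃+* F) (hε : ∀ x, σ x = x ↔ x ∈ Set.range ε)
variable (T₀ : SemiEl Q) (hT : ∀ y, T₀.1 (K y) = K (fun j => σ (y j)))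
variable (hQ : (polarBilin Q).Nondegenerate) (hQ₀ : (polarBilin Q₀).Nondegenerate) (hn : 5 ≤ Fintype.card ι) (hn₀ : 5 ≤ Fintype.card J)
variable (p : ℕ) [hp : Fact p.Prime] [hcp : CharP F p] [hcp₀ : CharP F₀ p]
variable [Nontrivial (ι → F)] [Nontrivial (J → F₀)]
variable {m : ℕ} {P : Subgroup (Hs ⇑Q)} {P₀ : Subgroup (Hs ⇑Q₀)}

include hQ hn in
/-- The reduction of the count to an index, for a subgroup of the conformal group. -/
theorem split_class (hP : IsClassSub hQ m P) (x : MulAut (Cfsg.POmega F ⇑Q)) :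
    Cfsg.splitClassCount (P.map (conjHom ⇑Q)) (Cfsg.Inn (Cfsg.POmega F ⇑Q)) x =
      ((Subgroup.centralizer {x}).comap ((conjHom ⇑Q).comp P.subtype) ⊔ (Cfsg.Inn (Cfsg.POmega F ⇑Q)).comap ((conjHom ⇑Q).comp P.subtype)).index := by
  have hr : ((conjHom ⇑Q).comp P.subtype).range = P.map (conjHom ⇑Q) := by
    rw [MonoidHom.range_comp, Subgroup.range_subtype]
  have hK : Cfsg.Inn (Cfsg.POmega F ⇑Q) ≤ ((conjHom ⇑Q).comp P.subtype).range := by
    rw [hr, inn_eq]
    rintro _ ⟨y, ⟨s, rfl⟩, rfl⟩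
    exact ⟨omegaToHs s, omega_mem_class hQ hn hP s, rfl⟩
  haveI : (Cfsg.Inn (Cfsg.POmega F ⇑Q)).Normal := by
    constructor
    rintro n hn g
    obtain ⟨y, rfl⟩ := hn
    exact ⟨g y, by
      ext z
      simp [MulAut.conj_apply]⟩
  haveI : ((Cfsg.Inn (Cfsg.POmega F ⇑Q)).comap ((conjHom ⇑Q).comp P.subtype)).Normal := Subgroup.normal_comap _
  rw [← hr]
  exact split_index _ _ hK x

include hε hT hc hb hQ hQ₀ hn hn₀ p in
/-- **The count of classes is one** when non-squares of the subfield stay non-squares. -/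
theorem count_one (hP : IsClassSub hQ m P) (hP₀ : IsClassSub hQ₀ m P₀) (hcard₀ : Fintype.card J = 2 * m)
    (hmult : ∀ t : F₀, t ≠ 0 → ∃ g₀ : Hs ⇑Q₀, (mult hQ₀ g₀ : F₀) = t)
    (hsq : (2 : F) ≠ 0 → ∀ a : F₀, a ≠ 0 → ¬ IsSquare a → ¬ IsSquare (ε a)) :
    Cfsg.splitClassCount (P.map (conjHom ⇑Q)) (Cfsg.Inn (Cfsg.POmega F ⇑Q)) (conjS hQ hn T₀) = 1 := by
  classical
  rw [split_class hQ hn hP]
  set C := (Subgroup.centralizer {conjS hQ hn T₀}).comap ((conjHom ⇑Q).comp P.subtype) with hC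
  set N := (Cfsg.Inn (Cfsg.POmega F ⇑Q)).comap ((conjHom ⇑Q).comp P.subtype) with hN
  have hlift : ∀ g₀ (hg₀ : g₀ ∈ P₀), (⟨liftH ε K b hc hb g₀, (lift_mem_iff ε K b hc hb hQ hQ₀ hn₀ hP hP₀ g₀).1 hg₀⟩ : P) ∈ C := by
    intro g₀ hg₀
    rw [hC, Subgroup.mem_comap]
    refine Subgroup.mem_centralizer_iff.2 ?_
    rintro _ rfl
    show _ * conjHom ⇑Q (liftH ε K b hc hb g₀) = conjHom ⇑Q (liftH ε K b hc hb g₀) * _
    rw [← conjS_toSemi hQ hn, ← map_mul, ← map_mul, lift_comm' ε K b hc hb σ hε T₀ hT]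
  suffices h : C ⊔ N = ⊤ by
    rw [h, Subgroup.index_top]
  rw [eq_top_iff]
  rintro ⟨g, hgP⟩ -
  by_cases h2 : (2 : F) = 0
  · -- characteristic two
    apply Subgroup.mem_sup_right
    obtain ⟨c, vs, hvs, hw⟩ := exists_scalar_word_two hQ h2 hn g
    have hev := (hP.word g c vs c.ne_zero hvs hw).1 hgP
    have hch : ringChar F = 2 := CharP.ringChar_of_prime_eq_zero Nat.prime_two (by exact_mod_cast h2)
    exact inn_of_word hQ hn p g c c.ne_zero vs hvs hev (FiniteField.isSquare_of_char_two hch _) hw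
  · -- odd characteristic
    have h20 : (2 : F₀) ≠ 0 := by
      intro h
      apply h2
      have := congrArg ε h
      rwa [map_ofNat, map_zero] at this
    have hch₀ : ringChar F₀ ≠ 2 := by
      intro h
      apply h20
      have := ringChar.spec F₀ 2
      exact_mod_cast this.2 (by rw [h])
    obtain ⟨δ, hδ⟩ := FiniteField.exists_nonsquare hch₀
    have hδ0 : δ ≠ 0 := by
      rintro rfl
      exact hδ IsSquare.zero
    have hεδ : ¬ IsSquare (ε δ) := hsq h2 δ hδ0 hδ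
    have hεδ0 : ε δ ≠ 0 := fun h => hδ0 ((map_eq_zero ε).1 h)
    -- the product of non-squares
    have hprod : ∀ s s' : F, s ≠ 0 → s' ≠ 0 → ¬ IsSquare s → ¬ IsSquare s' → IsSquare (s * s') := by
      intro s s' hs hs' h1 h3
      apply (quadraticChar_one_iff_isSquare (mul_ne_zero hs hs')).1
      rw [map_mul, quadraticChar_neg_one_iff_not_isSquare.2 h1, quadraticChar_neg_one_iff_not_isSquare.2 h3]
      norm_num
    -- the multiplier
    obtain ⟨t₀, ht₀, d, hd0, hμ⟩ : ∃ t₀ : F₀, t₀ ≠ 0 ∧ ∃ d : F, d ≠ 0 ∧ (mult hQ g : F) = ε t₀ * (d * d) := by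
      have hμ0 := (mult hQ g).ne_zero
      by_cases hs : IsSquare (mult hQ g : F)
      · obtain ⟨d, hd⟩ := hs
        refine ⟨1, one_ne_zero, d, ?_, by rw [map_one, one_mul, hd]⟩
        rintro rfl
        apply hμ0
        rw [hd, zero_mul]
      · obtain ⟨d, hd⟩ := hprod _ _ hμ0 hεδ0 hs hεδ
        have hd0 : d ≠ 0 := by
          rintro rfl
          rw [zero_mul] at hd
          exact (mul_ne_zero hμ0 hεδ0) hd
        refine ⟨δ, hδ0, d * (ε δ)⁻¹, mul_ne_zero hd0 (inv_ne_zero hεδ0), ?_⟩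
        field_simp
        linear_combination hd
    obtain ⟨g₁, hg₁⟩ := hmult t₀ ht₀
    obtain ⟨g₀, hg₀P, hg₀m⟩ := exists_mult_class hQ₀ hn₀ hP₀ hcard₀ g₁
    have hg₀m' : (mult hQ₀ g₀ : F₀) = t₀ := by rw [hg₀m, hg₁]
    set c := liftH ε K b hc hb g₀ with hcdef
    have hcP : c ∈ P := (lift_mem_iff ε K b hc hb hQ hQ₀ hn₀ hP hP₀ g₀).1 hg₀P
    have hcC : (⟨c, hcP⟩ : P) ∈ C := hlift g₀ hg₀P
    have hcm : (mult hQ c : F) = ε t₀ := by
      rw [hcdef, mult_lift ε K b hc hb hQ hQ₀, hg₀m']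
    let du : Fˣ := Units.mk0 d hd0
    let g₂ : Hs ⇑Q := (scH du)⁻¹ * g * c⁻¹
    have hg₂ker : g₂ ∈ (mult hQ).ker := by
      rw [MonoidHom.mem_ker, map_mul, map_mul, map_inv, map_inv, mult_scH]
      apply Units.ext
      simp only [Units.val_mul, Units.val_inv_eq_inv_val, Units.val_one, Units.val_mk0, du, hμ, hcm]
      have : ε t₀ ≠ 0 := fun h => ht₀ ((map_eq_zero ε).1 h)
      field_simp
    have hiso : g₂.1 ∈ Cfsg.isometryGroup F ⇑Q := (mem_ker_mult hQ).1 hg₂ker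
    have hcard : Fintype.card F ≠ 2 ∨ Fintype.card ι ≠ 4 := Or.inr (by omega)
    obtain ⟨vs, hvs, hvs2⟩ := Cfsg.Agent.Lib.Orth.Closure.exists_word Q hQ hcard ⟨g₂.1, hiso⟩
    have hval : (g₂.1 : GL ι F).val = (vs.map (fun v => Cfsg.reflectionMatrix ⇑Q v)).prod := by
      have := Cfsg.Agent.Lib.Orth.Closure.word_val Q vs
      rw [← this, ← hvs2]
    have hscP : scH du ∈ P := by
      refine (hP.word (scH du) (du : F) [] du.ne_zero (by simp) ?_).2 (by simp)
      rw [scH_val]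
      simp
    have hg₂P : g₂ ∈ P := mul_mem (mul_mem (inv_mem hscP) hgP) (inv_mem hcP)
    have hev : Even vs.length := (hP.word g₂ 1 vs one_ne_zero hvs (by rw [one_smul]; exact hval)).1 hg₂P
    -- `g * c⁻¹` is `d` times the word
    have hgc : (g * c⁻¹ : Hs ⇑Q).1.val = d • (vs.map (fun v => Cfsg.reflectionMatrix ⇑Q v)).prod := by
      have e : g * c⁻¹ = scH du * g₂ := by
        simp only [g₂]
        group
      rw [e]
      show ((scH du : Hs ⇑Q).1 * g₂.1 : GL ι F).val = _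
      rw [Units.val_mul, scH_val, hval, Matrix.smul_mul, Matrix.one_mul]
      rfl
    have hs0 : (vs.map (fun v => Q v)).prod ≠ 0 := by
      rw [Ne, List.prod_eq_zero_iff]
      intro h
      obtain ⟨u, hu, hu2⟩ := List.mem_map.1 h
      exact hvs u hu hu2
    have hgP' : (g * c⁻¹) ∈ P := mul_mem hgP (inv_mem hcP)
    by_cases hsq' : IsSquare (vs.map (fun v => Q v)).prod
    · -- square spinor norm
      have h3 : (⟨g * c⁻¹, hgP'⟩ : P) ∈ N := inn_of_word hQ hn p _ d hd0 vs hvs hev hsq' hgc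
      have h4 : (⟨g, hgP⟩ : P) = ⟨g * c⁻¹, hgP'⟩ * ⟨c, hcP⟩ := by
        apply Subtype.ext
        show g = g * c⁻¹ * c
        group
      rw [h4]
      exact mul_mem (Subgroup.mem_sup_right h3) (Subgroup.mem_sup_left hcC)
    · -- non-square spinor norm: correct by a word over the subfield
      have hfr : 2 ≤ finrank F₀ (J → F₀) := by
        rw [finrank_eq]
        omega
      obtain ⟨v₁, hv₁⟩ := Cfsg.Agent.Lib.Orth.Closure.exists_Q_eq (Q := Q₀) h20 hQ₀ hfr δ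
      obtain ⟨v₂, hv₂⟩ := Cfsg.Agent.Lib.Orth.Closure.exists_Q_eq (Q := Q₀) h20 hQ₀ hfr 1
      have hvs₀ : ∀ u ∈ [v₁, v₂], Q₀ u ≠ 0 := by
        intro u hu
        simp only [List.mem_cons, List.not_mem_nil, or_false] at hu
        rcases hu with rfl | rfl
        · rw [hv₁]
          exact hδ0
        · rw [hv₂]
          exact one_ne_zero
      have hw₀ : (wordH Q₀ [v₁, v₂]).1.val = (1 : F₀) • (([v₁, v₂] : List (J → F₀)).map (fun v => Cfsg.reflectionMatrix ⇑Q₀ v)).prod := by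
        rw [one_smul, wordH_val]
      have hw₀P : wordH Q₀ [v₁, v₂] ∈ P₀ := (hP₀.word _ 1 [v₁, v₂] one_ne_zero hvs₀ hw₀).2 (by simp)
      set c' := liftH ε K b hc hb (wordH Q₀ [v₁, v₂]) with hc'def
      have hc'P : c' ∈ P := (lift_mem_iff ε K b hc hb hQ hQ₀ hn₀ hP hP₀ _).1 hw₀P
      have hc'C : (⟨c', hc'P⟩ : P) ∈ C := hlift _ hw₀P
      have hc'w := liftH_word ε K b hc hb _ 1 [v₁, v₂] hw₀
      rw [map_one, one_smul] at hc'w
      set us := [v₁, v₂].map (fun v => K (mapV ε v)) with hus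
      have hus' : ∀ u ∈ us, Q u ≠ 0 := by
        intro u hu
        obtain ⟨v, hv, rfl⟩ := List.mem_map.1 hu
        exact Q_lift_ne ε K b hc hb (hvs₀ v hv)
      have hg3 : (g * c⁻¹ * c' : Hs ⇑Q).1.val = d • ((vs ++ us).map (fun v => Cfsg.reflectionMatrix ⇑Q v)).prod := by
        show ((g * c⁻¹ : Hs ⇑Q).1 * c'.1 : GL ι F).val = _
        rw [Units.val_mul, hgc, hc'w, Matrix.smul_mul, List.map_append, List.prod_append]
      have hg3P : g * c⁻¹ * c' ∈ P := mul_mem hgP' hc'P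
      have hvs3 : ∀ u ∈ vs ++ us, Q u ≠ 0 := by
        intro u hu
        rcases List.mem_append.1 hu with hu | hu
        · exact hvs u hu
        · exact hus' u hu
      have hev3 : Even (vs ++ us).length := by
        rw [List.length_append]
        exact hev.add (by simp [hus])
      have hsq3 : IsSquare ((vs ++ us).map (fun v => Q v)).prod := by
        have e : ((vs ++ us).map (fun v => Q v)).prod = ((vs.map (fun v => Q v)).prod * ε δ) * (b⁻¹ * b⁻¹) := by
          simp only [List.map_append, List.prod_append, hus, List.map_cons, List.map_nil, List.prod_cons, List.prod_nil, mul_one]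
          rw [Q_lift_eq ε K b hc hb v₁, Q_lift_eq ε K b hc hb v₂, hv₁, hv₂, map_one]
          ring
        rw [e]
        exact (hprod _ _ hs0 hεδ0 hsq' hεδ).mul ⟨b⁻¹, rfl⟩
      have h3 : (⟨g * c⁻¹ * c', hg3P⟩ : P) ∈ N := inn_of_word hQ hn p _ d hd0 (vs ++ us) hvs3 hev3 hsq3 hg3
      have h4 : (⟨g, hgP⟩ : P) = ⟨g * c⁻¹ * c', hg3P⟩ * (⟨c', hc'P⟩ : P)⁻¹ * ⟨c, hcP⟩ := by
        apply Subtype.ext
        show g = g * c⁻¹ * c' * c'⁻¹ * c
        group
      rw [h4]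
      exact mul_mem (mul_mem (Subgroup.mem_sup_right h3) (inv_mem (Subgroup.mem_sup_left hc'C))) (Subgroup.mem_sup_left hcC)

end count

end Cfsg.Agent.Lib.Classical.OmegaLift
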