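/-
Totally isotropic frames of a symplectic space; orders of parabolic subgroups by counting adapted frames.
-/
import Mathlib
import Cfsg.Agent.Lib.Classical.SympCount
import Cfsg.Prelude.Def_ClassicalGeometry

set_option autoImplicit false
set_option linter.unusedSimpArgs false
set_option linter.unusedSectionVars false
set_option linter.style.haveILetI false
set_option linter.unusedVariables false

namespace Cfsg.Agent.Lib.Classical.SympParabolic

open Module Matrix Cfsg.Agent.Lib.Classical.Alt Cfsg.Agent.Lib.Classical.SympForm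
open Cfsg.Agent.Lib.Classical.SympCount

universe u v

variable {F : Type u} {V : Type v} [Field F] [AddCommGroup V] [Module F V]

section orbit

/-- Orbit counting inside an ambient group. -/
theorem orbit_count {A X : Type*} [Group A] [MulAction A X] (K : Subgroup A) (x : X) :
    Nat.card K = (MulAction.orbit K x).ncard * Nat.card ↥(K ⊓ MulAction.stabilizer A x) := by
  have h1 := Subgroup.index_mul_card (MulAction.stabilizer K x)
  rw [MulAction.index_stabilizer] at h1
  have e : MulAction.stabilizer K x ≃ ↥(K ⊓ MulAction.stabilizer A x) :=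
    { toFun := fun g => ⟨g.1.1, g.1.2, g.2⟩
      invFun := fun g => ⟨⟨g.1, g.2.1⟩, g.2.2⟩
      left_inv := fun g => rfl
      right_inv := fun g => rfl }
  rw [← Nat.card_congr e]
  exact h1.symm

end orbit

section frames

variable (B : LinearMap.BilinForm F V)

/-- Totally isotropic frames. -/
def TIF (k : ℕ) : Set (Fin k → V) := {u | LinearIndependent F u ∧ ∀ i j, B (u i) (u j) = 0}

variable {B}

theorem span_le_orthogonal (hB : B.IsAlt) {k : ℕ} {u : Fin k → V} (hu : ∀ i j, B (u i) (u j) = 0) :
    Submodule.span F (Set.range u) ≤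
      B.orthogonal (Submodule.span F (Set.range u)) := by
  have h1 : ∀ x ∈ Submodule.span F (Set.range u), ∀ j, B (u j) x = 0 := by
    intro x hx j
    induction hx using Submodule.span_induction with
    | mem x hx =>
      obtain ⟨i, rfl⟩ := hx
      exact hu j i
    | zero => simp
    | add a b _ _ ha hb => rw [map_add, ha, hb, add_zero]
    | smul c a _ ha => rw [map_smul, ha, smul_zero]
  intro x hx
  rw [LinearMap.BilinForm.mem_orthogonal_iff]
  intro y hy
  induction hy using Submodule.span_induction with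
  | mem y hy =>
    obtain ⟨j, rfl⟩ := hy
    exact h1 x hx j
  | zero => simp
  | add a b _ _ ha hb =>
    show B (a + b) x = 0
    rw [map_add, LinearMap.add_apply]
    have h3 : B a x = 0 := ha
    have h4 : B b x = 0 := hb
    rw [h3, h4, add_zero]
  | smul c a _ ha =>
    show B (c • a) x = 0
    rw [map_smul, LinearMap.smul_apply]
    have h3 : B a x = 0 := ha
    rw [h3, smul_zero]

variable [Finite F] [FiniteDimensional F V]

theorem card_fiber_TIF (hB : B.IsAlt) (hN : B.Nondegenerate) {q n : ℕ} (hq : Nat.card F = q)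
    (hV : finrank F V = n) {k : ℕ} {u : Fin k → V} (hu : u ∈ TIF B k) :
    Nat.card {x : V // x ∈ B.orthogonal (Submodule.span F (Set.range u)) ∧
      x ∉ Submodule.span F (Set.range u)} = q ^ (n - k) - q ^ k := by
  classical
  haveI : Finite V := Module.finite_of_finite F
  set S := Submodule.span F (Set.range u) with hS
  set P := B.orthogonal S with hP
  have hSP : S ≤ P := span_le_orthogonal hB hu.2
  have hfS : finrank F S = k := by
    have := finrank_span_eq_card hu.1
    simpa using this
  have hfP : finrank F P = n - k := by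
    rw [hP, LinearMap.BilinForm.finrank_orthogonal hN S, hV, hfS]
  have h1 : ({x : V | x ∈ P ∧ x ∉ S} : Set V) = (P : Set V) \ (S : Set V) := rfl
  have h2 : Nat.card {x : V // x ∈ P ∧ x ∉ S} = ((P : Set V) \ (S : Set V)).ncard := by
    rw [← h1]
    rfl
  rw [h2, Set.ncard_sdiff hSP (Set.toFinite _)]
  have h3 : (P : Set V).ncard = Nat.card P := rfl
  have h4 : (S : Set V).ncard = Nat.card S := rfl
  rw [h3, h4, Module.natCard_eq_pow_finrank (K := F) (V := P), Module.natCard_eq_pow_finrank (K := F) (V := S),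
    hq, hfS, hfP]

/-- The number of totally isotropic frames. -/
theorem card_TIF (hB : B.IsAlt) (hN : B.Nondegenerate) {q n : ℕ} (hq : Nat.card F = q)
    (hV : finrank F V = n) (k : ℕ) :
    Nat.card (TIF B k) = ∏ i ∈ Finset.range k, (q ^ (n - i) - q ^ i) := by
  classical
  haveI : Finite V := Module.finite_of_finite F
  induction k with
  | zero =>
    simp only [Finset.range_zero, Finset.prod_empty]
    have : Unique (TIF B 0) := by
      refine ⟨⟨⟨fun i => i.elim0, ?_, ?_⟩⟩, ?_⟩
      · exact linearIndependent_empty_type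
      · exact fun i => i.elim0
      · rintro ⟨u, hu⟩
        apply Subtype.ext
        funext i
        exact i.elim0
    exact Nat.card_unique
  | succ k ih =>
    rw [Finset.prod_range_succ, ← ih]
    let φ : TIF B (k + 1) → TIF B k := fun u =>
      ⟨Fin.init u.1, (linearIndependent_finSnoc.1 (by
        rw [Fin.snoc_init_self]
        exact u.2.1)).1, fun i j => u.2.2 _ _⟩
    have hfib : ∀ u : TIF B k, Nat.card {f // φ f = u} = q ^ (n - k) - q ^ k := by
      intro u
      rw [← card_fiber_TIF hB hN hq hV u.2]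
      apply Nat.card_congr
      have halt : ∀ x y, B x y = 0 → B y x = 0 := fun x y h => by
        rw [alt_neg hB x y, h, neg_zero]
      have hP : ∀ x, x ∈ B.orthogonal (Submodule.span F (Set.range u.1)) ↔ ∀ i, B (u.1 i) x = 0 := by
        intro x
        rw [LinearMap.BilinForm.mem_orthogonal_iff]
        constructor
        · intro h i
          exact h _ (Submodule.subset_span ⟨i, rfl⟩)
        · intro h y hy
          induction hy using Submodule.span_induction with
          | mem y hy =>
            obtain ⟨j, rfl⟩ := hy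
            exact h j
          | zero =>
            show B 0 x = 0
            simp
          | add a b _ _ ha hb =>
            show B (a + b) x = 0
            rw [map_add, LinearMap.add_apply]
            have h3 : B a x = 0 := ha
            have h4 : B b x = 0 := hb
            rw [h3, h4, add_zero]
          | smul c a _ ha =>
            show B (c • a) x = 0
            rw [map_smul, LinearMap.smul_apply]
            have h3 : B a x = 0 := ha
            rw [h3, smul_zero]
      exact
        { toFun := fun f => ⟨f.1.1 (Fin.last k), by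
            obtain ⟨f, rfl⟩ := f
            rw [hP]
            exact ⟨fun i => f.2.2 _ _, fun hx => by
              have h1 := f.2.1
              rw [← Fin.snoc_init_self f.1, linearIndependent_finSnoc] at h1
              exact h1.2 (by simpa [φ] using hx)⟩⟩
          invFun := fun x => ⟨⟨Fin.snoc u.1 x.1, by
              rw [linearIndependent_finSnoc]
              exact ⟨u.2.1, x.2.2⟩, by
              have hx := (hP x.1).1 x.2.1
              intro i j
              induction i using Fin.lastCases with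
              | last =>
                induction j using Fin.lastCases with
                | last =>
                  simp only [Fin.snoc_last]
                  exact hB x.1
                | cast j =>
                  simp only [Fin.snoc_last, Fin.snoc_castSucc]
                  exact halt _ _ (hx j)
              | cast i =>
                induction j using Fin.lastCases with
                | last =>
                  simp only [Fin.snoc_last, Fin.snoc_castSucc]
                  exact hx i
                | cast j =>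
                  simp only [Fin.snoc_castSucc]
                  exact u.2.2 i j⟩, by
              apply Subtype.ext
              simp [φ, Fin.init_snoc]⟩
          left_inv := by
            rintro ⟨f, rfl⟩
            apply Subtype.ext
            apply Subtype.ext
            exact Fin.snoc_init_self f.1
          right_inv := by
            rintro ⟨x, hx⟩
            apply Subtype.ext
            simp }
    have : Fintype (TIF B k) := Fintype.ofFinite _
    have h1 := Nat.card_congr (Equiv.sigmaFiberEquiv φ)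
    rw [← h1, Nat.card_sigma]
    simp only [hfib]
    rw [Finset.sum_const, Finset.card_univ, ← Nat.card_eq_fintype_card, smul_eq_mul]

end frames

section relation

variable [FiniteDimensional F V] {B : LinearMap.BilinForm F V}

/-- The main counting relation for subgroups of the isometry group with adapted frames. -/
theorem card_relation (hB : B.IsAlt) (hN : B.Nondegenerate) {k : ℕ} {u : Fin k → V} (hu : u ∈ TIF B k)
    (H : Subgroup (V ≃ₗ[F] V)) (hHG : H ≤ isomGroup B)
    (hSH : ∀ g ∈ isomGroup B, (∀ i, g (u i) = u i) → g ∈ H)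
    (A : Set (Fin k → V)) (hA : ∀ v, v ∈ A ↔ ∃ g ∈ H, ∀ i, g (u i) = v i) :
    Nat.card H * Nat.card (TIF B k) = Nat.card A * Nat.card (isomGroup B) := by
  classical
  have hstab : ∀ g : V ≃ₗ[F] V, g ∈ MulAction.stabilizer (V ≃ₗ[F] V) u ↔ ∀ i, g (u i) = u i := by
    intro g
    rw [MulAction.mem_stabilizer_iff]
    constructor
    · intro h i
      exact congrFun h i
    · intro h
      funext i
      exact h i
  have h1 := orbit_count H u
  have h2 := orbit_count (isomGroup B) u
  have h3 : H ⊓ MulAction.stabilizer (V ≃ₗ[F] V) u = isomGroup B ⊓ MulAction.stabilizer (V ≃ₗ[F] V) u := by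
    ext g
    constructor
    · rintro ⟨ha, hb⟩
      exact ⟨hHG ha, hb⟩
    · rintro ⟨ha, hb⟩
      exact ⟨hSH g ha ((hstab g).1 hb), hb⟩
  have h4 : MulAction.orbit H u = A := by
    ext v
    rw [hA]
    constructor
    · rintro ⟨g, rfl⟩
      exact ⟨g.1, g.2, fun i => rfl⟩
    · rintro ⟨g, hg, hgv⟩
      refine ⟨⟨g, hg⟩, ?_⟩
      funext i
      exact hgv i
  have h5 : MulAction.orbit (isomGroup B) u = TIF B k := by
    ext v
    constructor
    · rintro ⟨g, rfl⟩
      refine ⟨?_, fun i j => ?_⟩
      · exact hu.1.map' (g.1 : V →ₗ[F] V) (LinearMap.ker_eq_bot.2 g.1.injective)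
      · show B (g.1 (u i)) (g.1 (u j)) = 0
        rw [g.2, hu.2]
    · intro hv
      obtain ⟨g, hg, hgv⟩ := witt_family hN hB u v hu.1 hv.1 (fun i j => by rw [hu.2, hv.2])
      refine ⟨⟨g, tGroup_le_isomGroup hB hg⟩, ?_⟩
      funext i
      exact hgv i
  rw [h4] at h1
  rw [h5] at h2
  have h6 : (A : Set (Fin k → V)).ncard = Nat.card A := rfl
  have h7 : (TIF B k).ncard = Nat.card (TIF B k) := rfl
  rw [h6] at h1
  rw [h7] at h2
  rw [h1, h2, h3]
  ring

end relation

section numeric

theorem prod_split (q m k : ℕ) (hk : k ≤ m) :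
    (∏ i ∈ Finset.range m, (q ^ (2 * (i + 1)) - 1)) =
      (∏ i ∈ Finset.range (m - k), (q ^ (2 * (i + 1)) - 1)) *
        ∏ i ∈ Finset.range k, (q ^ (2 * (m - i)) - 1) := by
  induction k with
  | zero => simp
  | succ k ih =>
    rw [ih (by omega), Finset.prod_range_succ _ k]
    obtain ⟨l, hl⟩ : ∃ l, m - k = l + 1 := ⟨m - k - 1, by omega⟩
    have h1 : m - (k + 1) = l := by omega
    rw [h1, hl, Finset.prod_range_succ _ l]
    ring

theorem prod_frames (q m k : ℕ) (hq : 1 ≤ q) (hk : k ≤ m) :
    (∏ i ∈ Finset.range k, (q ^ (2 * m - i) - q ^ i)) =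
      q ^ (k * (k - 1) / 2) * ∏ i ∈ Finset.range k, (q ^ (2 * (m - i)) - 1) := by
  have h1 : ∀ i ∈ Finset.range k, q ^ (2 * m - i) - q ^ i = q ^ i * (q ^ (2 * (m - i)) - 1) := by
    intro i hi
    have hi' := Finset.mem_range.1 hi
    have h2 : 2 * m - i = i + 2 * (m - i) := by omega
    rw [h2, pow_add, Nat.mul_sub_one]
  rw [Finset.prod_congr rfl h1, Finset.prod_mul_distrib, Finset.prod_pow_eq_pow_sum, Finset.sum_range_id]

theorem tri_add (k : ℕ) : k * (k - 1) / 2 + k = k * (k + 1) / 2 := by
  cases k with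
  | zero => rfl
  | succ j =>
    simp only [Nat.add_sub_cancel]
    have h1 : (j + 1) * j + 2 * (j + 1) = (j + 1) * (j + 1 + 1) := by ring
    rw [← h1]
    have h2 : 2 ∣ (j + 1) * j := (Nat.even_mul_pred_self (j + 1)).two_dvd
    omega

theorem exp_identity (k l : ℕ) :
    (k + l) ^ 2 = k * (k - 1) / 2 + (k * (k + 1) / 2 + 2 * k * l) + l ^ 2 := by
  rw [← tri_add]
  have h2 : 2 * (k * (k - 1) / 2) = k * (k - 1) := by
    have h3 : 2 ∣ k * (k - 1) := (Nat.even_mul_pred_self k).two_dvd
    exact Nat.mul_div_cancel' h3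
  cases k with
  | zero => simp
  | succ j =>
    simp only [Nat.add_sub_cancel] at h2 ⊢
    nlinarith [h2]

end numeric

section sp

variable [Finite F] (m : ℕ)

local notation "VV" => (Fin m ⊕ Fin m → F)

variable (F) in
/-- The embedding of the symplectic group in the automorphism group. -/
noncomputable def phi : Matrix.symplecticGroup (Fin m) F →* (VV ≃ₗ[F] VV) :=
  (isomGroup (sympBilin m F)).subtype.comp (spEquiv (m := m) (F := F)).toMonoidHom

theorem phi_injective : Function.Injective (phi F m) :=
  (isomGroup (sympBilin m F)).subtype_injective.comp (spEquiv (m := m) (F := F)).injective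

theorem card_map_phi (K : Subgroup (Matrix.symplecticGroup (Fin m) F)) :
    Nat.card (K.map (phi F m)) = Nat.card K :=
  Nat.card_congr (K.equivMapOfInjective _ (phi_injective m)).toEquiv.symm

theorem phi_apply (A : Matrix.symplecticGroup (Fin m) F) (x : VV) :
    phi F m A x = (A : Matrix _ _ F) *ᵥ x := rfl

theorem mem_map_phi {K : Subgroup (Matrix.symplecticGroup (Fin m) F)} {g : VV ≃ₗ[F] VV} :
    g ∈ K.map (phi F m) ↔ ∃ hg : g ∈ isomGroup (sympBilin m F), spEquiv.symm ⟨g, hg⟩ ∈ K := by
  constructor
  · rintro ⟨A, hA, rfl⟩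
    refine ⟨(spEquiv A).2, ?_⟩
    have : (⟨(phi F m) A, (spEquiv A).2⟩ : isomGroup (sympBilin m F)) = spEquiv A := rfl
    rw [this, MulEquiv.symm_apply_apply]
    exact hA
  · rintro ⟨hg, hK⟩
    refine ⟨_, hK, ?_⟩
    show ((spEquiv (spEquiv.symm ⟨g, hg⟩) : isomGroup (sympBilin m F)) : VV ≃ₗ[F] VV) = g
    rw [MulEquiv.apply_symm_apply]

/-- Elements of the stabilizing subgroup, transported. -/
theorem mem_map_stabilizing {S : Set VV} {g : VV ≃ₗ[F] VV} :
    g ∈ (Cfsg.stabilizing (Cfsg.spToMat m F) S).map (phi F m) ↔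
      g ∈ isomGroup (sympBilin m F) ∧ ∀ v, v ∈ S ↔ g v ∈ S := by
  rw [mem_map_phi]
  constructor
  · rintro ⟨hg, hK⟩
    refine ⟨hg, fun v => ?_⟩
    have h1 := hK v
    have h2 : ((spEquiv.symm ⟨g, hg⟩ : Matrix.symplecticGroup (Fin m) F) : Matrix _ _ F) *ᵥ v = g v :=
      spEquiv_symm_mulVec _ _
    rw [← h2]
    exact h1
  · rintro ⟨hg, hS⟩
    refine ⟨hg, fun v => ?_⟩
    have h2 : ((spEquiv.symm ⟨g, hg⟩ : Matrix.symplecticGroup (Fin m) F) : Matrix _ _ F) *ᵥ v = g v :=
      spEquiv_symm_mulVec _ _
    show v ∈ S ↔ ((spEquiv.symm ⟨g, hg⟩ : Matrix.symplecticGroup (Fin m) F) : Matrix _ _ F) *ᵥ v ∈ S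
    rw [h2]
    exact hS v

theorem mem_map_iInf_stabilizing {ι : Type*} {S : ι → Set VV} {g : VV ≃ₗ[F] VV} :
    g ∈ (⨅ k, Cfsg.stabilizing (Cfsg.spToMat m F) (S k)).map (phi F m) ↔
      g ∈ isomGroup (sympBilin m F) ∧ ∀ k v, v ∈ S k ↔ g v ∈ S k := by
  rw [mem_map_phi]
  simp only [Subgroup.mem_iInf]
  constructor
  · rintro ⟨hg, hK⟩
    refine ⟨hg, fun k v => ?_⟩
    have h1 := hK k v
    have h2 : ((spEquiv.symm ⟨g, hg⟩ : Matrix.symplecticGroup (Fin m) F) : Matrix _ _ F) *ᵥ v = g v :=
      spEquiv_symm_mulVec _ _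
    rw [← h2]
    exact h1
  · rintro ⟨hg, hS⟩
    refine ⟨hg, fun k v => ?_⟩
    have h2 : ((spEquiv.symm ⟨g, hg⟩ : Matrix.symplecticGroup (Fin m) F) : Matrix _ _ F) *ᵥ v = g v :=
      spEquiv_symm_mulVec _ _
    show v ∈ S k ↔ ((spEquiv.symm ⟨g, hg⟩ : Matrix.symplecticGroup (Fin m) F) : Matrix _ _ F) *ᵥ v ∈ S k
    rw [h2]
    exact hS k v

theorem finrank_VV : finrank F VV = 2 * m := by
  rw [Module.finrank_fintype_fun_eq_card, Fintype.card_sum, Fintype.card_fin, two_mul]

theorem card_isom {q : ℕ} (hq : Nat.card F = q) :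
    Nat.card (isomGroup (sympBilin m F)) =
      q ^ (m ^ 2) * ∏ i ∈ Finset.range m, (q ^ (2 * (i + 1)) - 1) := by
  rw [← Nat.card_congr (spEquiv (m := m) (F := F)).toEquiv, card_symplecticGroup hq]

/-- A subspace mapped into itself is mapped onto itself. -/
theorem mem_of_map_mem {W : Submodule F VV} {g : VV ≃ₗ[F] VV} (h : ∀ x ∈ W, g x ∈ W) {x : VV}
    (hx : g x ∈ W) : x ∈ W := by
  have h1 : W.map (g : VV →ₗ[F] VV) ≤ W := by
    rintro _ ⟨y, hy, rfl⟩
    exact h y hy
  have h2 : W.map (g : VV →ₗ[F] VV) = W := Submodule.eq_of_le_of_finrank_eq h1 (LinearEquiv.finrank_map_eq g W)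
  rw [← h2] at hx
  obtain ⟨y, hy, hyx⟩ := hx
  have : y = x := g.injective hyx
  rwa [← this]

/-- **Order of the stabilizer of a totally isotropic subspace**. -/
theorem card_stab_ti {q : ℕ} (hq : Nat.card F = q) (k : ℕ) (hk : k ≤ m) (W : Submodule F VV)
    (hWk : finrank F W = k) (hW : ∀ u ∈ W, ∀ v ∈ W, Cfsg.sympForm m F u v = 0) :
    Nat.card ↥(Cfsg.stabilizing (Cfsg.spToMat m F) (W : Set VV)) =
      q ^ (k * (k + 1) / 2 + 2 * k * (m - k)) * (q ^ ((m - k) ^ 2) *
        ∏ i ∈ Finset.range (m - k), (q ^ (2 * (i + 1)) - 1)) * ∏ i : Fin k, (q ^ k - q ^ (i : ℕ)) := by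
  classical
  have hB := sympBilin_isAlt (m := m) (F := F)
  have hN := sympBilin_nondegenerate (m := m) (F := F)
  haveI : Fintype F := Fintype.ofFinite F
  have hq' : Fintype.card F = q := by rw [← hq, Nat.card_eq_fintype_card]
  have hq1 : 2 ≤ q := by
    rw [← hq']
    exact Fintype.one_lt_card
  let b := Module.finBasisOfFinrankEq F W hWk
  let u : Fin k → VV := fun i => (b i : VV)
  have hu : u ∈ TIF (sympBilin m F) k :=
    ⟨b.linearIndependent.map' W.subtype (Submodule.ker_subtype W), fun i j => hW _ (b i).2 _ (b j).2⟩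
  set H := (Cfsg.stabilizing (Cfsg.spToMat m F) (W : Set VV)).map (phi F m) with hH
  have hmemH : ∀ g, g ∈ H ↔ g ∈ isomGroup (sympBilin m F) ∧ ∀ v, v ∈ W ↔ g v ∈ W := fun g =>
    mem_map_stabilizing m
  have hHG : H ≤ isomGroup (sympBilin m F) := fun g hg => ((hmemH g).1 hg).1
  have hexp : ∀ x ∈ W, ∃ c : Fin k → F, x = ∑ i, c i • u i := by
    intro x hx
    refine ⟨fun i => b.repr ⟨x, hx⟩ i, ?_⟩
    have h1 := b.sum_repr ⟨x, hx⟩
    have h2 := congrArg Subtype.val h1
    simp only [AddSubmonoidClass.coe_finsetSum, SetLike.val_smul] at h2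
    exact h2.symm
  have hSH : ∀ g ∈ isomGroup (sympBilin m F), (∀ i, g (u i) = u i) → g ∈ H := by
    intro g hg hgu
    have h1 : ∀ x ∈ W, g x = x := by
      intro x hx
      obtain ⟨c, rfl⟩ := hexp x hx
      simp only [map_sum, map_smul, hgu]
    rw [hmemH]
    refine ⟨hg, fun v => ⟨fun hv => by rw [h1 v hv]; exact hv, fun hv => ?_⟩⟩
    have h2 := h1 _ hv
    have h3 : g v = v := g.injective h2
    rwa [h3] at hv
  let A : Set (Fin k → VV) := {v | LinearIndependent F v ∧ ∀ i, v i ∈ W}
  have hA : ∀ v, v ∈ A ↔ ∃ g ∈ H, ∀ i, g (u i) = v i := by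
    intro v
    constructor
    · rintro ⟨hv1, hv2⟩
      obtain ⟨g, hg, hgv⟩ := witt_family hN hB u v hu.1 hv1 (fun i j => by
        rw [hu.2]
        exact (hW _ (hv2 i) _ (hv2 j)).symm)
      refine ⟨g, ?_, hgv⟩
      rw [hmemH]
      have h1 : ∀ x ∈ W, g x ∈ W := by
        intro x hx
        obtain ⟨c, rfl⟩ := hexp x hx
        simp only [map_sum, map_smul, hgv]
        exact Submodule.sum_mem _ (fun i _ => Submodule.smul_mem _ _ (hv2 i))
      exact ⟨tGroup_le_isomGroup hB hg, fun v => ⟨h1 v, mem_of_map_mem m h1⟩⟩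
    · rintro ⟨g, hg, hgv⟩
      have hg' := (hmemH g).1 hg
      have e : v = fun i => g (u i) := by
        funext i
        exact (hgv i).symm
      rw [e]
      exact ⟨hu.1.map' (g : VV →ₗ[F] VV) (LinearMap.ker_eq_bot.2 g.injective),
        fun i => (hg'.2 _).1 (b i).2⟩
  have hrel := card_relation hB hN hu H hHG hSH A hA
  have hAc : Nat.card A = ∏ i : Fin k, (q ^ k - q ^ (i : ℕ)) := by
    have e : A ≃ {g : Fin k → W // LinearIndependent F g} :=
      { toFun := fun f => ⟨fun i => ⟨f.1 i, f.2.2 i⟩, by
          apply LinearIndependent.of_comp W.subtype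
          exact f.2.1⟩
        invFun := fun g => ⟨fun i => (g.1 i : VV), g.2.map' W.subtype (Submodule.ker_subtype _),
            fun i => (g.1 i).2⟩
        left_inv := fun f => rfl
        right_inv := fun g => rfl }
    rw [Nat.card_congr e, card_linearIndependent (by rw [hWk]), hWk, hq']
  have hF := card_TIF hB hN hq (finrank_VV m) k
  rw [prod_frames q m k (by omega) hk] at hF
  rw [card_isom m hq, prod_split q m k hk, hF, hAc, card_map_phi] at hrel
  set R := ∏ i ∈ Finset.range k, (q ^ (2 * (m - i)) - 1) with hR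
  set T := ∏ i ∈ Finset.range (m - k), (q ^ (2 * (i + 1)) - 1) with hT
  set GLk := ∏ i : Fin k, (q ^ k - q ^ (i : ℕ)) with hGL
  have hRpos : 0 < R := by
    apply Finset.prod_pos
    intro i hi
    have hi' := Finset.mem_range.1 hi
    have h1 : 2 ≤ q ^ (2 * (m - i)) := by
      calc 2 ≤ q := hq1
        _ = q ^ 1 := (pow_one q).symm
        _ ≤ q ^ (2 * (m - i)) := Nat.pow_le_pow_right (by omega) (by omega)
    omega
  have hexpq : q ^ (m ^ 2) = q ^ (k * (k - 1) / 2) * (q ^ (k * (k + 1) / 2 + 2 * k * (m - k)) * q ^ ((m - k) ^ 2)) := by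
    obtain ⟨l, rfl⟩ : ∃ l, m = k + l := ⟨m - k, by omega⟩
    rw [Nat.add_sub_cancel_left, ← pow_add, ← pow_add, exp_identity k l]
    ring_nf
  rw [hexpq] at hrel
  have hpos : 0 < q ^ (k * (k - 1) / 2) * R := Nat.mul_pos (pow_pos (by omega) _) hRpos
  apply Nat.eq_of_mul_eq_mul_right hpos
  rw [hrel]
  ring

/-- The flag subspaces: coordinates on `inl i`, `i < j`. -/
def flagSub (j : ℕ) : Submodule F VV where
  carrier := {v | (∀ i : Fin m, j ≤ (i : ℕ) → v (Sum.inl i) = 0) ∧ ∀ i : Fin m, v (Sum.inr i) = 0}
  add_mem' := by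
    rintro a b ⟨h1, h2⟩ ⟨h3, h4⟩
    exact ⟨fun i hi => by simp [h1 i hi, h3 i hi], fun i => by simp [h2 i, h4 i]⟩
  zero_mem' := ⟨fun _ _ => rfl, fun _ => rfl⟩
  smul_mem' := by
    rintro c a ⟨h1, h2⟩
    exact ⟨fun i hi => by simp [h1 i hi], fun i => by simp [h2 i]⟩

theorem mem_flagSub {j : ℕ} {v : VV} : v ∈ flagSub m j ↔
    (∀ i : Fin m, j ≤ (i : ℕ) → v (Sum.inl i) = 0) ∧ ∀ i : Fin m, v (Sum.inr i) = 0 := Iff.rfl

theorem flagSub_mono {j j' : ℕ} (h : j ≤ j') : flagSub (F := F) m j ≤ flagSub m j' :=
  fun _ hv => ⟨fun i hi => hv.1 i (h.trans hi), hv.2⟩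

theorem flagSub_zero : flagSub (F := F) m 0 = ⊥ := by
  rw [eq_bot_iff]
  intro v hv
  rw [Submodule.mem_bot]
  funext s
  rcases s with i | i
  · exact hv.1 i (Nat.zero_le _)
  · exact hv.2 i

/-- The standard vectors. -/
def eV (i : Fin m) : VV := Pi.single (Sum.inl i) 1

theorem eV_mem (i : Fin m) : eV (F := F) m i ∈ flagSub m (i + 1) := by
  constructor
  · intro j hj
    have : (Sum.inl j : Fin m ⊕ Fin m) ≠ Sum.inl i := by
      intro h
      have := Sum.inl.inj h
      subst this
      omega
    simp [eV, Pi.single_apply, this]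
  · intro j
    simp [eV, Pi.single_apply]

theorem eV_self (i : Fin m) : eV (F := F) m i (Sum.inl i) = 1 := by
  simp [eV]

theorem expand {x : VV} (hx : ∀ i : Fin m, x (Sum.inr i) = 0) : x = ∑ j, x (Sum.inl j) • eV m j := by
  funext s
  rw [Finset.sum_apply]
  rcases s with i | i
  · simp [eV, Pi.single_apply]
  · simp [eV, Pi.single_apply, hx]

/-- Adapted frames. -/
def adapted : Set (Fin m → VV) :=
  {v | ∀ i : Fin m, v i ∈ flagSub m ((i : ℕ) + 1) ∧ v i (Sum.inl i) ≠ 0}

theorem adapted_TIF {v : Fin m → VV} (hv : v ∈ adapted m) : v ∈ TIF (sympBilin m F) m := by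
  constructor
  · rw [Fintype.linearIndependent_iff]
    intro c hc
    have key : ∀ n : ℕ, ∀ i : Fin m, m ≤ (i : ℕ) + n → c i = 0 := by
      intro n
      induction n with
      | zero =>
        intro i hi
        have := i.2
        omega
      | succ n ih =>
        intro i hi
        have h1 := congrFun hc (Sum.inl i)
        simp only [Finset.sum_apply, Pi.smul_apply, smul_eq_mul, Pi.zero_apply] at h1
        rw [Finset.sum_eq_single i] at h1
        · exact (mul_eq_zero.1 h1).resolve_right (hv i).2
        · intro j _ hj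
          by_cases hji : (j : ℕ) < i
          · rw [(hv j).1.1 i (by omega), mul_zero]
          · have : (i : ℕ) < j := by
              have : (j : ℕ) ≠ i := fun h => hj (Fin.ext h)
              omega
            rw [ih j (by omega), zero_mul]
        · simp
    intro i
    exact key m i (by omega)
  · intro i j
    rw [sympBilin_apply, sympForm_eq_sum]
    refine Finset.sum_eq_zero fun k _ => ?_
    rw [(hv i).1.2 k, (hv j).1.2 k]
    ring

/-- The counting of adapted vectors. -/
theorem prod_ite_range (q i : ℕ) : ∀ n : ℕ, i < n →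
    (∏ j ∈ Finset.range n, (if j < i then q else if j = i then q - 1 else 1)) = q ^ i * (q - 1) := by
  intro n hn
  induction n with
  | zero => omega
  | succ n ih =>
    rw [Finset.prod_range_succ]
    by_cases h : i = n
    · subst h
      have : ∀ j ∈ Finset.range i, (if j < i then q else if j = i then q - 1 else 1) = q := by
        intro j hj
        simp [Finset.mem_range.1 hj]
      rw [Finset.prod_congr rfl this, Finset.prod_const, Finset.card_range]
      simp
    · rw [ih (by omega)]
      have h1 : ¬ n < i := by omega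
      have h2 : n ≠ i := fun h3 => h h3.symm
      simp [h1, h2]

theorem card_adapted_vec {q : ℕ} (hq : Nat.card F = q) (i : Fin m) :
    Nat.card {w : VV // w ∈ flagSub m ((i : ℕ) + 1) ∧ w (Sum.inl i) ≠ 0} = q ^ (i : ℕ) * (q - 1) := by
  classical
  haveI : Fintype F := Fintype.ofFinite F
  let P : Fin m ⊕ Fin m → F → Prop := fun s x => match s with
    | Sum.inl j => if (j : ℕ) < i then True else if j = i then x ≠ 0 else x = 0
    | Sum.inr _ => x = 0
  have e : {w : VV // w ∈ flagSub m ((i : ℕ) + 1) ∧ w (Sum.inl i) ≠ 0} ≃ {w : VV // ∀ s, P s (w s)} := by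
    apply Equiv.subtypeEquivRight
    intro w
    constructor
    · rintro ⟨⟨h1, h2⟩, h3⟩ s
      rcases s with j | j
      · show if (j : ℕ) < i then True else if j = i then w (Sum.inl j) ≠ 0 else w (Sum.inl j) = 0
        by_cases hj : (j : ℕ) < i
        · simp [hj]
        · by_cases hji : j = i
          · subst hji
            simpa using h3
          · have : (i : ℕ) + 1 ≤ j := by
              have : (j : ℕ) ≠ i := fun h => hji (Fin.ext h)
              omega
            simp [hj, hji, h1 j this]
      · exact h2 j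
    · intro h
      refine ⟨⟨fun j hj => ?_, fun j => h (Sum.inr j)⟩, ?_⟩
      · have h1 : if (j : ℕ) < i then True else if j = i then w (Sum.inl j) ≠ 0 else w (Sum.inl j) = 0 :=
          h (Sum.inl j)
        have h2 : ¬ (j : ℕ) < i := by omega
        have h3 : j ≠ i := by
          rintro rfl
          omega
        simpa [h2, h3] using h1
      · have h1 : if (i : ℕ) < i then True else if i = i then w (Sum.inl i) ≠ 0 else w (Sum.inl i) = 0 :=
          h (Sum.inl i)
        simpa using h1
  rw [Nat.card_congr e, Nat.card_congr (Equiv.subtypePiEquivPi (p := P)), Nat.card_pi,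
    Fintype.prod_sum_type]
  have h1 : ∀ j : Fin m, Nat.card {x // P (Sum.inr j) x} = 1 := by
    intro j
    have : Unique {x // P (Sum.inr j) x} := ⟨⟨⟨0, rfl⟩⟩, fun y => Subtype.ext y.2⟩
    exact Nat.card_unique
  have h2 : ∀ j : Fin m, Nat.card {x // P (Sum.inl j) x} =
      if (j : ℕ) < i then q else if (j : ℕ) = i then q - 1 else 1 := by
    intro j
    by_cases hj : (j : ℕ) < i
    · simp only [hj, if_true]
      have e2 : {x // P (Sum.inl j) x} ≃ F :=
        { toFun := fun x => x.1
          invFun := fun x => ⟨x, by show if (j : ℕ) < i then True else _; simp [hj]⟩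
          left_inv := fun x => rfl
          right_inv := fun x => rfl }
      rw [Nat.card_congr e2, hq]
    · by_cases hji : j = i
      · subst hji
        simp only [lt_self_iff_false, if_false, if_true]
        have e2 : {x // P (Sum.inl j) x} ≃ Fˣ :=
          { toFun := fun x => Units.mk0 x.1 (by
              have h3 : if (j : ℕ) < j then True else if j = j then x.1 ≠ 0 else x.1 = 0 := x.2
              simpa using h3)
            invFun := fun x => ⟨x, by
              show if (j : ℕ) < j then True else if j = j then (x : F) ≠ 0 else (x : F) = 0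
              simp⟩
            left_inv := fun x => by
              apply Subtype.ext
              rfl
            right_inv := fun x => by
              apply Units.ext
              rfl }
        rw [Nat.card_congr e2, Nat.card_eq_fintype_card, Fintype.card_units, ← Nat.card_eq_fintype_card, hq]
      · have hji' : (j : ℕ) ≠ i := fun h => hji (Fin.ext h)
        simp only [hj, hji', if_false]
        have : Unique {x // P (Sum.inl j) x} := ⟨⟨⟨0, by
            show if (j : ℕ) < i then True else if j = i then (0 : F) ≠ 0 else (0 : F) = 0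
            simp [hj, hji]⟩⟩, fun y => by
            apply Subtype.ext
            have h3 : if (j : ℕ) < i then True else if j = i then y.1 ≠ 0 else y.1 = 0 := y.2
            simpa [hj, hji] using h3⟩
        exact Nat.card_unique
  simp only [h1, h2, Finset.prod_const_one, mul_one]
  rw [Fin.prod_univ_eq_prod_range (fun j => if j < (i : ℕ) then q else if j = (i : ℕ) then q - 1 else 1) m]
  exact prod_ite_range q i m i.2

theorem card_adapted {q : ℕ} (hq : Nat.card F = q) :
    Nat.card (adapted (F := F) m) = q ^ (m * (m - 1) / 2) * (q - 1) ^ m := by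
  classical
  have e : adapted (F := F) m ≃ ∀ i : Fin m,
      {w : VV // w ∈ flagSub m ((i : ℕ) + 1) ∧ w (Sum.inl i) ≠ 0} :=
    (Equiv.subtypeEquivRight (fun v => Iff.rfl)).trans
      (Equiv.subtypePiEquivPi (p := fun (i : Fin m) (w : VV) => w ∈ flagSub m ((i : ℕ) + 1) ∧ w (Sum.inl i) ≠ 0))
  rw [Nat.card_congr e, Nat.card_pi]
  simp only [card_adapted_vec m hq]
  rw [Finset.prod_mul_distrib, Finset.prod_const, Finset.card_univ, Fintype.card_fin,
    Fin.prod_univ_eq_prod_range (fun j => q ^ j) m, Finset.prod_pow_eq_pow_sum, Finset.sum_range_id]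

/-- **Order of the Borel subgroup**. -/
theorem card_borel {q : ℕ} (hq : Nat.card F = q) :
    Nat.card ↥(⨅ k : Fin m, Cfsg.stabilizing (Cfsg.spToMat m F)
      {v : VV | (∀ i : Fin m, (k : ℕ) < (i : ℕ) → v (Sum.inl i) = 0) ∧ ∀ i : Fin m, v (Sum.inr i) = 0}) =
      q ^ (m ^ 2) * (q - 1) ^ m := by
  classical
  have hB := sympBilin_isAlt (m := m) (F := F)
  have hN := sympBilin_nondegenerate (m := m) (F := F)
  haveI : Fintype F := Fintype.ofFinite F
  have hq' : Fintype.card F = q := by rw [← hq, Nat.card_eq_fintype_card]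
  have hq1 : 2 ≤ q := by
    rw [← hq']
    exact Fintype.one_lt_card
  set K := ⨅ k : Fin m, Cfsg.stabilizing (Cfsg.spToMat m F)
      {v : VV | (∀ i : Fin m, (k : ℕ) < (i : ℕ) → v (Sum.inl i) = 0) ∧ ∀ i : Fin m, v (Sum.inr i) = 0} with hK
  set H := K.map (phi F m) with hH
  have hmemH : ∀ g, g ∈ H ↔ g ∈ isomGroup (sympBilin m F) ∧
      ∀ (k : Fin m) (v : VV), v ∈ flagSub m ((k : ℕ) + 1) ↔ g v ∈ flagSub m ((k : ℕ) + 1) := fun g =>
    mem_map_iInf_stabilizing m (S := fun k : Fin m =>
      {v : VV | (∀ i : Fin m, (k : ℕ) < (i : ℕ) → v (Sum.inl i) = 0) ∧ ∀ i : Fin m, v (Sum.inr i) = 0})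
  have hHG : H ≤ isomGroup (sympBilin m F) := fun g hg => ((hmemH g).1 hg).1
  have huA : (fun i => eV (F := F) m i) ∈ adapted (F := F) m := fun i =>
    ⟨eV_mem m i, by
      show eV (F := F) m i (Sum.inl i) ≠ 0
      rw [eV_self]
      exact one_ne_zero⟩
  have hu := adapted_TIF m huA
  have hSH : ∀ g ∈ isomGroup (sympBilin m F), (∀ i, g (eV m i) = eV m i) → g ∈ H := by
    intro g hg hgu
    have h1 : ∀ x : VV, (∀ i : Fin m, x (Sum.inr i) = 0) → g x = x := by
      intro x hx
      conv_lhs => rw [expand m hx]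
      simp only [map_sum, map_smul, hgu]
      exact (expand m hx).symm
    rw [hmemH]
    refine ⟨hg, fun k v => ⟨fun hv => by rw [h1 v hv.2]; exact hv, fun hv => ?_⟩⟩
    have h2 := h1 _ hv.2
    have h3 : g v = v := g.injective h2
    rwa [h3] at hv
  have hA : ∀ v, v ∈ adapted (F := F) m ↔ ∃ g ∈ H, ∀ i, g (eV m i) = v i := by
    intro v
    constructor
    · intro hv
      have hvT := adapted_TIF m hv
      obtain ⟨g, hg, hgv⟩ := witt_family hN hB (fun i => eV (F := F) m i) v hu.1 hvT.1
        (fun i j => by rw [hu.2, hvT.2])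
      refine ⟨g, ?_, hgv⟩
      rw [hmemH]
      have h1 : ∀ k : Fin m, ∀ x ∈ flagSub (F := F) m ((k : ℕ) + 1), g x ∈ flagSub (F := F) m ((k : ℕ) + 1) := by
        intro k x hx
        rw [expand m hx.2]
        simp only [map_sum, map_smul, hgv]
        refine Submodule.sum_mem _ (fun j _ => ?_)
        by_cases hj : (k : ℕ) + 1 ≤ j
        · rw [hx.1 j hj, zero_smul]
          exact Submodule.zero_mem _
        · exact Submodule.smul_mem _ _ (flagSub_mono m (by omega) (hv j).1)
      exact ⟨tGroup_le_isomGroup hB hg, fun k x => ⟨h1 k x, mem_of_map_mem m (h1 k)⟩⟩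
    · rintro ⟨g, hg, hgv⟩
      have hg' := (hmemH g).1 hg
      intro i
      rw [← hgv i]
      refine ⟨(hg'.2 i _).1 (eV_mem m i), fun h0 => ?_⟩
      -- the vector lies in a smaller flag subspace
      have h1 : g (eV m i) ∈ flagSub (F := F) m (i : ℕ) := by
        refine ⟨fun j hj => ?_, ((hg'.2 i _).1 (eV_mem m i)).2⟩
        by_cases hji : j = i
        · subst hji
          exact h0
        · have : (j : ℕ) ≠ i := fun h => hji (Fin.ext h)
          exact ((hg'.2 i _).1 (eV_mem m i)).1 j (by omega)
      have h2 : eV (F := F) m i ∈ flagSub (F := F) m (i : ℕ) := by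
        by_cases hi : (i : ℕ) = 0
        · rw [hi, flagSub_zero, Submodule.mem_bot] at h1 ⊢
          exact (map_eq_zero_iff g g.injective).1 h1
        · obtain ⟨l, hl⟩ : ∃ l : ℕ, (i : ℕ) = l + 1 := ⟨i - 1, by omega⟩
          let l' : Fin m := ⟨l, by have := i.2; omega⟩
          have hl' : (l' : ℕ) + 1 = i := hl.symm
          rw [← hl'] at h1 ⊢
          exact (hg'.2 l' _).2 h1
      have h3 := h2.1 i le_rfl
      rw [eV_self] at h3
      exact one_ne_zero h3
  have hrel := card_relation hB hN hu H hHG hSH (adapted (F := F) m) hA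
  have hF := card_TIF hB hN hq (finrank_VV m) m
  rw [prod_frames q m m (by omega) le_rfl] at hF
  have hsplit := prod_split q m m le_rfl
  simp only [Nat.sub_self, Finset.range_zero, Finset.prod_empty, one_mul] at hsplit
  rw [card_isom m hq, hsplit, hF, card_adapted m hq, card_map_phi] at hrel
  set R := ∏ i ∈ Finset.range m, (q ^ (2 * (m - i)) - 1) with hR
  have hRpos : 0 < R := by
    apply Finset.prod_pos
    intro i hi
    have hi' := Finset.mem_range.1 hi
    have h1 : 2 ≤ q ^ (2 * (m - i)) := by
      calc 2 ≤ q := hq1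
        _ = q ^ 1 := (pow_one q).symm
        _ ≤ q ^ (2 * (m - i)) := Nat.pow_le_pow_right (by omega) (by omega)
    omega
  have hpos : 0 < q ^ (m * (m - 1) / 2) * R := Nat.mul_pos (pow_pos (by omega) _) hRpos
  apply Nat.eq_of_mul_eq_mul_right hpos
  rw [hrel]
  ring

end sp

end Cfsg.Agent.Lib.Classical.SympParabolic
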