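import Cfsg.Agent.Lib.Classical.TransvSL

/-!
In characteristic two the transvections of `SL_{n+3}(F)` form a class of root involutions.
-/

set_option autoImplicit false
set_option linter.unusedSectionVars false
set_option linter.unusedSimpArgs false
set_option linter.style.haveILetI false
set_option linter.unusedVariables false

open scoped MatrixGroups commutatorElement
open Matrix Cfsg

namespace Cfsg.Agent.Lib.Classical.TransvInv

open Cfsg.Agent.Lib.Classical.TransvRoot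
open Cfsg.Agent.Lib.Classical.TransvSL
open Cfsg.Agent.Lib.Classical.StSL2 (Xm Ym mul_entry sl_ext)

section Hom

variable {G : Type*} [Group G] {n : Type*} [Fintype n] [DecidableEq n] {k : Type*} [Field k]
variable {ρ : G →* Matrix n n k} (hρ : Function.Injective ρ)
variable {c φ c' φ' : n → k}

include hρ in
/-- A pair with both numbers non-zero is the image of the elementary matrices of `SL₂`. -/
theorem psl2_hom (h : φ ⬝ᵥ c = 0) (h' : φ' ⬝ᵥ c' = 0) (hα : φ ⬝ᵥ c' ≠ 0) (hβ : φ' ⬝ᵥ c ≠ 0)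
    (hc : Full ρ c φ) (hc' : Full ρ c' φ') :
    ∃ ψ : SL(2, k) →* G, (∀ t, ρ (ψ (Xm t)) = 1 + t • E c φ) ∧
      ∀ t, ρ (ψ (Ym t)) = 1 + (t * ((φ ⬝ᵥ c')⁻¹ * (φ' ⬝ᵥ c)⁻¹)) • E c' φ' := by
  set α := φ ⬝ᵥ c' with hαd
  set β := φ' ⬝ᵥ c with hβd
  set d : n → k := α⁻¹ • c' with hd
  set a : n → k := β⁻¹ • φ' with ha
  set U := colsM c d with hU
  set W := rowsM a φ with hW
  have hWU : W * U = 1 := by
    rw [hW, hU, rows_cols]
    have e1 : a ⬝ᵥ c = 1 := by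
      rw [ha, smul_dotProduct, smul_eq_mul, ← hβd, inv_mul_cancel₀ hβ]
    have e2 : a ⬝ᵥ d = 0 := by
      rw [ha, hd, smul_dotProduct, dotProduct_smul, h']
      simp
    have e3 : φ ⬝ᵥ c = 0 := h
    have e4 : φ ⬝ᵥ d = 1 := by
      rw [hd, dotProduct_smul, smul_eq_mul, ← hαd, inv_mul_cancel₀ hα]
    rw [e1, e2, e3, e4]
    exact Matrix.one_fin_two.symm
  have hY : ∀ t, Psi U W (Ym t).1 = 1 + (t * (α⁻¹ * β⁻¹)) • E c' φ' := by
    intro t
    rw [hU, hW, Psi_Ym, hd, ha, E_smul_smul, smul_smul]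
  have hX : ∀ t, Psi U W (Xm t).1 = 1 + t • E c φ := fun t => Psi_Xm _ _ _ _ _
  have hlift : ∀ M : SL(2, k), ∃ g : G, ρ g = Psi U W M.1 := by
    intro M
    refine sl2_induction (fun M => ∃ g : G, ρ g = Psi U W M.1) M ?_ ?_ ?_
    · intro t
      obtain ⟨g, hg⟩ := hc t
      exact ⟨g, by rw [hg, hX]⟩
    · intro t
      obtain ⟨g, hg⟩ := hc' (t * (α⁻¹ * β⁻¹))
      exact ⟨g, by rw [hg, hY]⟩
    · rintro A B ⟨g, hg⟩ ⟨g', hg'⟩
      exact ⟨g * g', by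
        rw [map_mul, hg, hg', ← Psi_mul hWU]
        rfl⟩
  choose f hf using hlift
  have hfmul : ∀ A B : SL(2, k), f (A * B) = f A * f B := by
    intro A B
    apply hρ
    rw [map_mul, hf, hf, hf, ← Psi_mul hWU]
    rfl
  refine ⟨MonoidHom.mk' f hfmul, fun t => ?_, fun t => ?_⟩
  · change ρ (f _) = _
    rw [hf, hX]
  · change ρ (f _) = _
    rw [hf, hY]

end Hom

section Odd

variable {F : Type*} [Field F] [CharP F 2]

lemma cayley (M : Matrix (Fin 2) (Fin 2) F) (hM : M.det = 1) :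
    M * M = (M 0 0 + M 1 1) • M - 1 := by
  rw [Matrix.det_fin_two] at hM
  ext i j
  fin_cases i <;> fin_cases j <;>
    simp [Matrix.mul_apply, Fin.sum_univ_two, Matrix.smul_apply, Matrix.sub_apply] <;>
    first
      | ring1
      | linear_combination -hM
      | linear_combination hM

lemma pow_form (M : Matrix (Fin 2) (Fin 2) F) (hM : M.det = 1) (j : ℕ) :
    ∃ a b : F, M ^ j = a • 1 + b • M := by
  induction j with
  | zero => exact ⟨1, 0, by simp⟩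
  | succ j ih =>
    obtain ⟨a, b, hab⟩ := ih
    refine ⟨-b, a + b * (M 0 0 + M 1 1), ?_⟩
    rw [pow_succ, hab, add_mul, smul_mul_assoc, smul_mul_assoc, one_mul, cayley M hM, smul_sub,
      smul_smul, add_smul, neg_smul]
    abel

lemma trace_form (M : Matrix (Fin 2) (Fin 2) F) (a b : F) :
    ((a • 1 + b • M : Matrix (Fin 2) (Fin 2) F) - 1).trace = b * (M 0 0 + M 1 1) := by
  have h2 : (2 : F) = 0 := CharTwo.two_eq_zero
  simp only [Matrix.trace_fin_two, Matrix.sub_apply, Matrix.add_apply, Matrix.smul_apply,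
    Matrix.one_apply_eq, smul_eq_mul, mul_one]
  linear_combination (a - 1) * h2

/-- An element of `F[M]` whose order is a power of two is trivial when `M` has non-zero trace. -/
lemma eq_one_of_two_power (M : Matrix (Fin 2) (Fin 2) F) (hτ : M 0 0 + M 1 1 ≠ 0) {a b : F} {e : ℕ}
    (hx : (a • 1 + b • M : Matrix (Fin 2) (Fin 2) F) ^ 2 ^ e = 1) :
    (a • 1 + b • M : Matrix (Fin 2) (Fin 2) F) = 1 := by
  haveI : Fact (Nat.Prime 2) := ⟨Nat.prime_two⟩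
  set x : Matrix (Fin 2) (Fin 2) F := a • 1 + b • M with hxd
  have h1 : (x - 1) ^ 2 ^ e = 0 := by
    rw [sub_pow_char_pow_of_commute 2 e (Commute.one_right x), hx, one_pow, sub_self]
  have h2 : IsNilpotent (x - 1) := ⟨_, h1⟩
  have h3 : IsNilpotent (x - 1).trace := Matrix.isNilpotent_trace_of_isNilpotent h2
  have h4 : (x - 1).trace = 0 := h3.eq_zero
  rw [hxd, trace_form] at h4
  have hb : b = 0 := (mul_eq_zero.1 h4).resolve_right hτ
  have e1 : x - 1 = (a - 1) • (1 : Matrix (Fin 2) (Fin 2) F) := by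
    rw [hxd, hb, zero_smul, add_zero, sub_smul, one_smul]
  rw [e1, smul_pow, one_pow] at h1
  have h5 : (a - 1) ^ 2 ^ e = 0 := by
    have h6 := congrFun (congrFun h1 0) 0
    simpa using h6
  have h6 : a = 1 := sub_eq_zero.1 (pow_eq_zero_iff (by positivity) |>.1 h5)
  rw [hxd, hb, h6]
  simp

/-- A matrix of `SL₂` with non-zero trace has odd order, when the field is finite of characteristic
two. -/
theorem odd_order [Finite F] (M : SL(2, F)) (hτ : M.1 0 0 + M.1 1 1 ≠ 0) : Odd (orderOf M) := by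
  have h0 : orderOf M ≠ 0 := (orderOf_pos M).ne'
  obtain ⟨e, m, hm, he⟩ := Nat.exists_eq_two_pow_mul_odd h0
  obtain ⟨a, b, hab⟩ := pow_form M.1 M.2 m
  have h1 : (M ^ m).1 = M.1 ^ m := rfl
  have h2 : (a • 1 + b • M.1 : Matrix (Fin 2) (Fin 2) F) ^ 2 ^ e = 1 := by
    rw [← hab, ← pow_mul, mul_comm, ← he]
    have h3 : (M ^ orderOf M).1 = M.1 ^ orderOf M := rfl
    rw [← h3, pow_orderOf_eq_one]
    rfl
  have h4 := eq_one_of_two_power M.1 hτ h2
  have h5 : M ^ m = 1 := by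
    apply Subtype.ext
    rw [h1, hab, h4]
    rfl
  have h6 : orderOf M ∣ m := orderOf_dvd_of_pow_eq_one h5
  rw [he] at h6
  have h7 : 2 ^ e * m ∣ 1 * m := by simpa using h6
  have h8 : 2 ^ e ∣ 1 := Nat.dvd_of_mul_dvd_mul_right hm.pos h7
  have h9 : 2 ^ e = 1 := Nat.dvd_one.1 h8
  rw [he, h9, one_mul]
  exact hm

end Odd

section Root

variable {F : Type*} [Field F] {N : ℕ}

lemma tv_ext {x y : SpecialLinearGroup (Fin N) F} (h : x.1 = y.1) : x = y := Subtype.ext h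

lemma tv_coe {c φ : Fin N → F} {h : φ ⬝ᵥ c = 0} (t : F) :
    (tv c φ h t).1 = 1 + t • E c φ := rfl

lemma tv_congr {c φ c₁ φ₁ : Fin N → F} {h : φ ⬝ᵥ c = 0} {h₁ : φ₁ ⬝ᵥ c₁ = 0} {t t₁ : F}
    (e : t • E c φ = t₁ • E c₁ φ₁) : tv c φ h t = tv c₁ φ₁ h₁ t₁ := by
  apply tv_ext
  rw [tv_coe, tv_coe, e]

lemma conj_tv (g : SpecialLinearGroup (Fin N) F) {c φ : Fin N → F} {h : φ ⬝ᵥ c = 0} (t : F)
    (h' : (φ ᵥ* (g⁻¹).1) ⬝ᵥ (g.1 *ᵥ c) = 0) :
    g * tv c φ h t * g⁻¹ = tv (g.1 *ᵥ c) (φ ᵥ* (g⁻¹).1) h' t := by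
  apply tv_ext
  change g.1 * (1 + t • E c φ) * (g⁻¹).1 = 1 + t • E (g.1 *ᵥ c) (φ ᵥ* (g⁻¹).1)
  rw [mul_add, add_mul, mul_one, sl_mul_inv_coe, mul_smul_comm, smul_mul_assoc, mat_mul_E, E_mul_mat]

lemma conj_self_dot (g : SpecialLinearGroup (Fin N) F) {c φ : Fin N → F} (h : φ ⬝ᵥ c = 0) :
    (φ ᵥ* (g⁻¹).1) ⬝ᵥ (g.1 *ᵥ c) = 0 := by
  rw [← dotProduct_mulVec, mulVec_mulVec, sl_inv_mul_coe, one_mulVec]
  exact h

variable {n : ℕ}

/-- The set of the statement. -/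
def invSet (n : ℕ) (F : Type*) [Field F] : Set (SpecialLinearGroup (Fin (n + 3)) F) :=
  {t | ∃ c : F, c ≠ 0 ∧ ∃ g : SpecialLinearGroup (Fin (n + 3)) F,
    ((g⁻¹ * t * g : SpecialLinearGroup (Fin (n + 3)) F) : Matrix (Fin (n + 3)) (Fin (n + 3)) F) =
      Matrix.transvection 0 1 c}

lemma base_coe (s : F) : tv (e (0 : Fin (n + 3))) (e 1) (e_dot_e h10) s =
    (⟨Matrix.transvection 0 1 s, Matrix.det_transvection_of_ne _ _ h01 _⟩ :
      SpecialLinearGroup (Fin (n + 3)) F) := by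
  apply tv_ext
  change 1 + s • E (e 0) (e 1) = Matrix.transvection 0 1 s
  rw [E_single, Matrix.transvection]

lemma mem_invSet_tv {c φ : Fin (n + 3) → F} (h : φ ⬝ᵥ c = 0) (hc : c ≠ 0) (hφ : φ ≠ 0) {s : F}
    (hs : s ≠ 0) : tv c φ h s ∈ invSet n F := by
  obtain ⟨x, l, m, hl, hm, e1, e2⟩ := exists_move (h01 (n := n)) hc hφ h
  have hlm : l * m ≠ 0 := mul_ne_zero hl hm
  refine ⟨s * (l * m)⁻¹, mul_ne_zero hs (inv_ne_zero hlm), x, ?_⟩
  have h1 : tv c φ h s = x * tv (e 0) (e 1) (e_dot_e h10) (s * (l * m)⁻¹) * x⁻¹ := by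
    rw [conj_tv x _ (conj_self_dot x (e_dot_e h10))]
    apply tv_congr
    rw [e1, e2, E_smul_smul, smul_smul, mul_assoc, inv_mul_cancel₀ hlm, mul_one]
  rw [h1]
  have h2 : x⁻¹ * (x * tv (e 0) (e 1) (e_dot_e h10) (s * (l * m)⁻¹) * x⁻¹) * x =
      tv (e 0) (e 1) (e_dot_e h10) (s * (l * m)⁻¹) := by group
  rw [h2, base_coe]

lemma mem_invSet {t : SpecialLinearGroup (Fin (n + 3)) F} :
    t ∈ invSet n F ↔ ∃ (c φ : Fin (n + 3) → F) (h : φ ⬝ᵥ c = 0), c ≠ 0 ∧ φ ≠ 0 ∧ t = tv c φ h 1 := by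
  constructor
  · rintro ⟨s, hs, g, hg⟩
    have h1 : g⁻¹ * t * g = tv (e 0) (e 1) (e_dot_e h10) s := by
      rw [base_coe]
      exact tv_ext hg
    have h2 : t = g * tv (e 0) (e 1) (e_dot_e h10) s * g⁻¹ := by
      rw [← h1]
      group
    rw [conj_tv g _ (conj_self_dot g (e_dot_e h10))] at h2
    have hdot : (e (k := F) (1 : Fin (n + 3)) ᵥ* (g⁻¹).1) ⬝ᵥ (s • (g.1 *ᵥ e 0)) = 0 := by
      rw [dotProduct_smul, conj_self_dot g (e_dot_e h10), smul_zero]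
    refine ⟨s • (g.1 *ᵥ e 0), _, hdot, ?_, vecMul_ne_zero _ (e_ne_zero 1), ?_⟩
    · intro h3
      exact mulVec_ne_zero g (e_ne_zero 0) ((smul_eq_zero.1 h3).resolve_left hs)
    · rw [h2]
      apply tv_congr
      rw [← one_smul F (e (k := F) (1 : Fin (n + 3)) ᵥ* (g⁻¹).1), E_smul_smul, one_smul, mul_one]
      simp
  · rintro ⟨c, φ, h, hc, hφ, rfl⟩
    exact mem_invSet_tv h hc hφ one_ne_zero

variable [CharP F 2]

lemma tv_sq {c φ : Fin N → F} (h : φ ⬝ᵥ c = 0) (s : F) : tv c φ h s * tv c φ h s = 1 := by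
  apply tv_ext
  change (1 + s • E c φ) * (1 + s • E c φ) = 1
  rw [one_add_mul_same h, CharTwo.add_self_eq_zero, zero_smul, add_zero]

lemma tv_ne_one {c φ : Fin N → F} (h : φ ⬝ᵥ c = 0) (hc : c ≠ 0) (hφ : φ ≠ 0) {s : F} (hs : s ≠ 0) :
    tv c φ h s ≠ 1 := by
  intro h1
  have h2 : (1 : Matrix (Fin N) (Fin N) F) + s • E c φ = 1 := congrArg Subtype.val h1
  have h3 : s • E c φ = 0 := by simpa using h2
  exact E_ne_zero hc hφ ((smul_eq_zero.1 h3).resolve_left hs)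

lemma tv_inv {c φ : Fin N → F} (h : φ ⬝ᵥ c = 0) (s : F) : (tv c φ h s)⁻¹ = tv c φ h s :=
  inv_eq_of_mul_eq_one_left (tv_sq h s)

/-- The case `β = 0`, `α ≠ 0`. -/
lemma order_four {c φ c' φ' : Fin (n + 3) → F} {h : φ ⬝ᵥ c = 0} {h' : φ' ⬝ᵥ c' = 0} (hc : c ≠ 0)
    (hφ' : φ' ≠ 0) (hβ : φ' ⬝ᵥ c = 0) (hα : φ ⬝ᵥ c' ≠ 0) :
    orderOf (tv c φ h 1 * tv c' φ' h' 1) = 4 ∧ (tv c φ h 1 * tv c' φ' h' 1) ^ 2 ∈ invSet n F := by
  haveI : Fact (Nat.Prime 2) := ⟨Nat.prime_two⟩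
  set a := tv c φ h 1 with ha
  set b := tv c' φ' h' 1 with hb
  have h1 : (a * b) ^ 2 = tv c φ' hβ (φ ⬝ᵥ c') := by
    have h2 : (a * b) ^ 2 = a * b * a⁻¹ * b⁻¹ := by
      rw [ha, hb, tv_inv, tv_inv, pow_two]
      group
    rw [h2]
    apply tv_ext
    have h3 := comm_val (ρ := slHom) (c := c) (φ := φ) (c' := c') (φ' := φ') (a := a) (b := b) (t := 1)
      (s := 1) (h' := h') hβ rfl rfl
    rw [one_mul, one_mul] at h3
    exact h3
  refine ⟨?_, ?_⟩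
  · have h4 : orderOf (a * b) = 2 ^ (1 + 1) := by
      refine orderOf_eq_prime_pow (p := 2) (n := 1) ?_ ?_
      · rw [pow_one, h1]
        exact tv_ne_one hβ hc hφ' hα
      · rw [show (2 : ℕ) ^ (1 + 1) = 2 * 2 from rfl, pow_mul, h1, pow_two, tv_sq]
    rw [h4]
    rfl
  · rw [h1]
    exact mem_invSet_tv hβ hc hφ' hα

/-- The three cases for a pair of transvections. -/
theorem pair_cases {c φ c' φ' : Fin (n + 3) → F} {h : φ ⬝ᵥ c = 0} {h' : φ' ⬝ᵥ c' = 0} (hc : c ≠ 0)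
    (hφ : φ ≠ 0) (hc' : c' ≠ 0) (hφ' : φ' ≠ 0) :
    tv c φ h 1 * tv c' φ' h' 1 = tv c' φ' h' 1 * tv c φ h 1 ∨
    (orderOf (tv c φ h 1 * tv c' φ' h' 1) = 4 ∧ (tv c φ h 1 * tv c' φ' h' 1) ^ 2 ∈ invSet n F) ∨
    ∃ (ψ : SL(2, F) →* SpecialLinearGroup (Fin (n + 3)) F) (t : F), t ≠ 0 ∧
      tv c φ h 1 * tv c' φ' h' 1 = ψ (Xm 1 * Ym t) := by
  by_cases hα : φ ⬝ᵥ c' = 0 <;> by_cases hβ : φ' ⬝ᵥ c = 0
  · exact Or.inl (commute_of_zero (h := h) (h' := h') slHom_inj hα hβ ⟨1, rfl⟩ ⟨1, rfl⟩)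
  · refine Or.inr (Or.inl ?_)
    obtain ⟨h1, h2⟩ := order_four (h := h') (h' := h) hc' hφ hα hβ
    have h3 : tv c φ h 1 * tv c' φ' h' 1 = (tv c' φ' h' 1 * tv c φ h 1)⁻¹ := by
      rw [_root_.mul_inv_rev, tv_inv, tv_inv]
    rw [h3, orderOf_inv, inv_pow, h1]
    refine ⟨rfl, ?_⟩
    obtain ⟨c₁, φ₁, h₁, hc₁, hφ₁, e1⟩ := mem_invSet.1 h2
    rw [e1, tv_inv]
    exact mem_invSet.2 ⟨c₁, φ₁, h₁, hc₁, hφ₁, rfl⟩
  · exact Or.inr (Or.inl (order_four hc hφ' hβ hα))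
  · refine Or.inr (Or.inr ?_)
    obtain ⟨ψ, h1, h2⟩ := psl2_hom slHom_inj h h' hα hβ (full _ _ h) (full _ _ h')
    refine ⟨ψ, (φ ⬝ᵥ c') * (φ' ⬝ᵥ c), mul_ne_zero hα hβ, ?_⟩
    rw [map_mul]
    congr 1
    · apply slHom_inj
      rw [h1]
      rfl
    · apply slHom_inj
      rw [h2]
      have h3 : (φ ⬝ᵥ c') * (φ' ⬝ᵥ c) * ((φ ⬝ᵥ c')⁻¹ * (φ' ⬝ᵥ c)⁻¹) = 1 := by
        field_simp
      rw [h3]
      rfl

variable [Finite F]

lemma odd_case (t : F) (ht : t ≠ 0) : Odd (orderOf (Xm 1 * Ym t : SL(2, F))) := by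
  refine odd_order _ ?_
  have h1 : (Xm 1 * Ym t : SL(2, F)).1 0 0 + (Xm 1 * Ym t : SL(2, F)).1 1 1 = t := by
    have e1 := mul_entry (Xm (1 : F)) (Ym t) 0 0
    have e2 := mul_entry (Xm (1 : F)) (Ym t) 1 1
    have h2 : (2 : F) = 0 := CharTwo.two_eq_zero
    change (Xm 1 * Ym t : SL(2, F)) 0 0 + (Xm 1 * Ym t : SL(2, F)) 1 1 = t
    rw [e1, e2]
    simp only [StSL2.Xm_00, StSL2.Xm_01, StSL2.Xm_10, StSL2.Xm_11, StSL2.Ym_00, StSL2.Ym_01,
      StSL2.Ym_10, StSL2.Ym_11]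
    linear_combination h2
  rw [h1]
  exact ht

theorem isRootInvolutionSet : IsRootInvolutionSet (invSet n F) where
  orderOf_eq := by
    intro d hd
    haveI : Fact (Nat.Prime 2) := ⟨Nat.prime_two⟩
    obtain ⟨c, φ, h, hc, hφ, rfl⟩ := mem_invSet.1 hd
    exact orderOf_eq_prime (by rw [pow_two, tv_sq]) (tv_ne_one h hc hφ one_ne_zero)
  generates := by
    rw [eq_top_iff, ← Cfsg.Agent.Lib.Classical.Transvections.closure_transvections_eq_top,
      Subgroup.closure_le]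
    rintro _ ⟨i, j, hij, a, rfl⟩
    by_cases ha : a = 0
    · have : SpecialLinearGroup.transvection hij a = 1 := by
        apply tv_ext
        subst ha
        change Matrix.transvection i j 0 = 1
        rw [Matrix.transvection]
        simp
      rw [this]
      exact one_mem _
    · have hji : e (k := F) j ⬝ᵥ e i = 0 := e_dot_e hij.symm
      have h2 : SpecialLinearGroup.transvection hij a = tv (e i) (e j) hji a := by
        apply tv_ext
        change Matrix.transvection i j a = 1 + a • E (e i) (e j)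
        rw [E_single, Matrix.transvection]
      rw [h2]
      exact Subgroup.subset_closure (mem_invSet_tv hji (e_ne_zero i) (e_ne_zero j) ha)
  conj_mem := by
    intro d hd g
    obtain ⟨c, φ, h, hc, hφ, rfl⟩ := mem_invSet.1 hd
    rw [conj_tv g _ (conj_self_dot g h)]
    exact mem_invSet_tv _ (mulVec_ne_zero g hc) (vecMul_ne_zero _ hφ) one_ne_zero
  pair := by
    intro a ha b hb
    obtain ⟨c, φ, h, hc, hφ, rfl⟩ := mem_invSet.1 ha
    obtain ⟨c', φ', h', hc', hφ', rfl⟩ := mem_invSet.1 hb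
    rcases pair_cases (h := h) (h' := h') hc hφ hc' hφ' with h1 | h1 | ⟨ψ, t, ht, h1⟩
    · exact Or.inl h1
    · exact Or.inr (Or.inr h1)
    · refine Or.inr (Or.inl ?_)
      rw [h1]
      exact Odd.of_dvd_nat (odd_case t ht) (orderOf_map_dvd ψ _)

/-- The transvections of the base form are conjugate. -/
lemma base_conj {s s' : F} (hs : s ≠ 0) (hs' : s' ≠ 0) :
    ∃ d : SpecialLinearGroup (Fin (n + 3)) F,
      d * tv (e (0 : Fin (n + 3))) (e 1) (e_dot_e h10) s * d⁻¹ = tv (e 0) (e 1) (e_dot_e h10) s' := by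
  have hr : s' * s⁻¹ ≠ 0 := mul_ne_zero hs' (inv_ne_zero hs)
  set d : SpecialLinearGroup (Fin (n + 3)) F :=
    SpecialLinearGroup.diag2n (h20 (n := n)).symm (s' * s⁻¹) hr with hd
  refine ⟨d, ?_⟩
  rw [conj_tv d _ (conj_self_dot d (e_dot_e h10))]
  apply tv_congr
  have e1 : d.1 *ᵥ e 0 = (s' * s⁻¹) • e 0 := by
    rw [hd, SpecialLinearGroup.diag2n_coe]
    ext k
    rw [Matrix.mulVec_diagonal]
    by_cases hk : k = 0
    · subst hk
      simp
    · simp [e, hk]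
  have e2 : e (k := F) (1 : Fin (n + 3)) ᵥ* d.1 = e 1 := by
    rw [hd, SpecialLinearGroup.diag2n_coe]
    ext k
    rw [Matrix.vecMul_diagonal]
    by_cases hk : k = 1
    · subst hk
      simp [h10, h21.symm, e]
    · simp [e, hk]
  have e3 : e (k := F) (1 : Fin (n + 3)) ᵥ* (d⁻¹).1 = e 1 := by
    have h4 := congrArg (fun v => v ᵥ* (d⁻¹).1) e2
    simp only [vecMul_vecMul, sl_mul_inv_coe, vecMul_one] at h4
    exact h4.symm
  rw [e1, e3]
  have e4 : (1 : F) • e (k := F) (1 : Fin (n + 3)) = e 1 := one_smul _ _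
  rw [← e4, E_smul_smul, one_smul, mul_one, smul_smul]
  congr 1
  field_simp

theorem isClass : IsRootInvolutionClass (invSet n F) := by
  refine ⟨isRootInvolutionSet, ⟨tv (e 0) (e 1) (e_dot_e h10) 1, mem_invSet_tv _ (e_ne_zero _)
    (e_ne_zero _) one_ne_zero⟩, ?_⟩
  rintro a ⟨s, hs, g, hg⟩ b ⟨s', hs', g', hg'⟩
  obtain ⟨d, hd⟩ := base_conj (n := n) hs hs'
  have h1 : g⁻¹ * a * g = tv (e 0) (e 1) (e_dot_e h10) s := by
    rw [base_coe]
    exact tv_ext hg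
  have h2 : g'⁻¹ * b * g' = tv (e 0) (e 1) (e_dot_e h10) s' := by
    rw [base_coe]
    exact tv_ext hg'
  refine ⟨g' * d * g⁻¹, ?_⟩
  have h3 : b = g' * (d * (g⁻¹ * a * g) * d⁻¹) * g'⁻¹ := by
    rw [h1, hd, ← h2]
    group
  rw [h3]
  group

/-- Over the field of two elements. -/
theorem threeFour (h2 : Nat.card F = 2) : IsThreeFourPlusTranspositionSet (invSet n F) := by
  refine ⟨isRootInvolutionSet, ?_⟩
  intro a ha b hb hodd
  obtain ⟨c, φ, h, hc, hφ, rfl⟩ := mem_invSet.1 ha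
  obtain ⟨c', φ', h', hc', hφ', rfl⟩ := mem_invSet.1 hb
  rcases pair_cases (h := h) (h' := h') hc hφ hc' hφ' with h1 | ⟨h1, -⟩ | ⟨ψ, t, ht, h1⟩
  · left
    have h3 : (tv c φ h 1 * tv c' φ' h' 1) ^ 2 = 1 := by
      rw [pow_two]
      calc tv c φ h 1 * tv c' φ' h' 1 * (tv c φ h 1 * tv c' φ' h' 1)
          = tv c φ h 1 * (tv c' φ' h' 1 * tv c φ h 1) * tv c' φ' h' 1 := by group
        _ = tv c φ h 1 * (tv c φ h 1 * tv c' φ' h' 1) * tv c' φ' h' 1 := by rw [h1]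
        _ = (tv c φ h 1 * tv c φ h 1) * (tv c' φ' h' 1 * tv c' φ' h' 1) := by group
        _ = 1 := by rw [tv_sq, tv_sq, one_mul]
    have h4 := orderOf_dvd_of_pow_eq_one h3
    rcases (Nat.dvd_prime Nat.prime_two).1 h4 with h5 | h5
    · exact h5
    · rw [h5] at hodd
      exact absurd hodd (by decide)
  · rw [h1] at hodd
    exact absurd hodd (by decide)
  · have ht1 : t = 1 := by
      haveI := Fintype.ofFinite F
      have h3 := FiniteField.pow_card_sub_one_eq_one t ht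
      rw [← Nat.card_eq_fintype_card, h2] at h3
      simpa using h3
    have h3 : (Xm (1 : F) * Ym 1 : SL(2, F)) ^ 3 = 1 := by
      have h22 : (1 : F) + 1 = 0 := CharTwo.add_self_eq_zero 1
      rw [pow_succ, pow_two]
      apply sl_ext <;> simp only [mul_entry, StSL2.Xm_00, StSL2.Xm_01, StSL2.Xm_10, StSL2.Xm_11,
        StSL2.Ym_00, StSL2.Ym_01, StSL2.Ym_10, StSL2.Ym_11, h22, mul_one, one_mul, zero_mul, mul_zero,
        add_zero, zero_add] <;> simp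
    have h4 : (tv c φ h 1 * tv c' φ' h' 1) ^ 3 = 1 := by
      rw [h1, ht1, ← map_pow, h3, map_one]
    have h5 := orderOf_dvd_of_pow_eq_one h4
    exact (Nat.dvd_prime Nat.prime_three).1 h5

end Root

end Cfsg.Agent.Lib.Classical.TransvInv
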