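import Cfsg.Prelude.Def_RootSubgroups
import Cfsg.Agent.Lib.RootSubgroups.Abstract
import Cfsg.Agent.Lib.Classical.StSL2

/-!
Rank one transvection groups `1 + t c ⊗ φ` in a group of matrices, and their pairs: the three cases of
abstract root subgroups.
-/

set_option autoImplicit false
set_option linter.unusedSectionVars false
set_option linter.unusedSimpArgs false
set_option linter.style.haveILetI false
set_option linter.unusedVariables false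

open scoped MatrixGroups commutatorElement
open Matrix Cfsg

namespace Cfsg.Agent.Lib.Classical.TransvRoot

open Cfsg.Agent.Lib.Classical.StSL2 (Xm Ym)

variable {G : Type*} [Group G] {n : Type*} [Fintype n] [DecidableEq n] {k : Type*} [Field k]

/-- The rank one matrix. -/
abbrev E (c φ : n → k) : Matrix n n k := vecMulVec c φ

lemma E_mul_E (c φ c' φ' : n → k) : E c φ * E c' φ' = (φ ⬝ᵥ c') • E c φ' := by
  ext i j
  simp only [Matrix.mul_apply, vecMulVec_apply, Matrix.smul_apply, smul_eq_mul, dotProduct,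
    Finset.sum_mul, Finset.mul_sum]
  refine Finset.sum_congr rfl fun x _ => ?_
  ring

lemma mat_mul_E (M : Matrix n n k) (c φ : n → k) : M * E c φ = E (M *ᵥ c) φ := by
  ext i j
  simp only [Matrix.mul_apply, vecMulVec_apply, mulVec, dotProduct, Finset.sum_mul]
  refine Finset.sum_congr rfl fun x _ => ?_
  ring

lemma E_mul_mat (M : Matrix n n k) (c φ : n → k) : E c φ * M = E c (φ ᵥ* M) := by
  ext i j
  simp only [Matrix.mul_apply, vecMulVec_apply, vecMul, dotProduct, Finset.mul_sum]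
  refine Finset.sum_congr rfl fun x _ => ?_
  ring

lemma E_smul_smul (x y : k) (c φ : n → k) : E (x • c) (y • φ) = (x * y) • E c φ := by
  ext i j
  simp only [vecMulVec_apply, Matrix.smul_apply, smul_eq_mul, Pi.smul_apply]
  ring

lemma one_add_mul_same {c φ : n → k} (h : φ ⬝ᵥ c = 0) (t s : k) :
    (1 + t • E c φ) * (1 + s • E c φ) = 1 + (t + s) • E c φ := by
  rw [mul_add, add_mul, add_mul, one_mul, one_mul, mul_one, add_smul, smul_mul_smul_comm, E_mul_E, h,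
    zero_smul, smul_zero, add_zero, add_assoc]

variable (ρ : G →* Matrix n n k)

/-- The group of elements acting as `1 + t c ⊗ φ`. -/
def Tc (c φ : n → k) (h : φ ⬝ᵥ c = 0) : Subgroup G where
  carrier := {g | ∃ t : k, ρ g = 1 + t • E c φ}
  mul_mem' := by
    rintro a b ⟨t, ht⟩ ⟨s, hs⟩
    exact ⟨t + s, by rw [map_mul, ht, hs, one_add_mul_same h]⟩
  one_mem' := ⟨0, by simp⟩
  inv_mem' := by
    rintro a ⟨t, ht⟩
    refine ⟨-t, ?_⟩
    have h1 : ρ a⁻¹ * ρ a = 1 := by rw [← map_mul, inv_mul_cancel, map_one]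
    have h2 : (1 + t • E c φ) * (1 + (-t) • E c φ) = 1 := by
      rw [one_add_mul_same h, add_neg_cancel, zero_smul, add_zero]
    calc ρ a⁻¹ = ρ a⁻¹ * ((1 + t • E c φ) * (1 + (-t) • E c φ)) := by rw [h2, mul_one]
      _ = (ρ a⁻¹ * ρ a) * (1 + (-t) • E c φ) := by rw [ht, mul_assoc]
      _ = _ := by rw [h1, one_mul]

lemma mem_Tc {c φ : n → k} {h : φ ⬝ᵥ c = 0} {g : G} :
    g ∈ Tc ρ c φ h ↔ ∃ t : k, ρ g = 1 + t • E c φ := Iff.rfl

variable {ρ} (hρ : Function.Injective ρ)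

/-- The group contains all the elements `1 + t c ⊗ φ`. -/
def Full (ρ : G →* Matrix n n k) (c φ : n → k) : Prop := ∀ t : k, ∃ g : G, ρ g = 1 + t • E c φ

lemma ρ_unit (g : G) : ρ g * ρ g⁻¹ = 1 := by rw [← map_mul, mul_inv_cancel, map_one]

lemma ρ_unit' (g : G) : ρ g⁻¹ * ρ g = 1 := by rw [← map_mul, inv_mul_cancel, map_one]

include hρ in
lemma Tc_comm {c φ : n → k} {h : φ ⬝ᵥ c = 0} {a b : G} (ha : a ∈ Tc ρ c φ h) (hb : b ∈ Tc ρ c φ h) :
    a * b = b * a := by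
  obtain ⟨t, ht⟩ := ha
  obtain ⟨s, hs⟩ := hb
  apply hρ
  rw [map_mul, map_mul, ht, hs, one_add_mul_same h, one_add_mul_same h, add_comm t s]

include hρ in
lemma Tc_isMulComm {c φ : n → k} {h : φ ⬝ᵥ c = 0} : IsMulCommutative (Tc ρ c φ h) :=
  ⟨⟨fun a b => Subtype.ext (Tc_comm hρ a.2 b.2)⟩⟩

include hρ in
lemma Tc_nilpotent {c φ : n → k} {h : φ ⬝ᵥ c = 0} : Group.IsNilpotent (Tc ρ c φ h) := by
  letI : CommGroup (Tc ρ c φ h) :=
    { (inferInstance : Group (Tc ρ c φ h)) with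
      mul_comm := fun a b => Subtype.ext (Tc_comm hρ a.2 b.2) }
  exact CommGroup.isNilpotent

/-- The effect of conjugating. -/
lemma conjBy_Tc {c φ : n → k} {h : φ ⬝ᵥ c = 0} (g : G) (h' : (φ ᵥ* ρ g⁻¹) ⬝ᵥ (ρ g *ᵥ c) = 0) :
    conjBy (Tc ρ c φ h) g = Tc ρ (ρ g *ᵥ c) (φ ᵥ* ρ g⁻¹) h' := by
  ext x
  constructor
  · rintro ⟨y, ⟨t, ht⟩, rfl⟩
    refine ⟨t, ?_⟩
    change ρ (g * y * g⁻¹) = _
    rw [map_mul, map_mul, ht, mul_add, add_mul, mul_one, ρ_unit, mul_smul_comm, smul_mul_assoc,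
      mat_mul_E, E_mul_mat]
  · rintro ⟨t, ht⟩
    refine ⟨g⁻¹ * x * g, ⟨t, ?_⟩, by change g * (g⁻¹ * x * g) * g⁻¹ = x; group⟩
    rw [map_mul, map_mul, ht, mul_add, add_mul, mul_one, ρ_unit', mul_smul_comm, smul_mul_assoc,
      mat_mul_E, E_mul_mat, mulVec_mulVec, ρ_unit', one_mulVec, vecMul_vecMul, ρ_unit', vecMul_one]

/-- Scaling does not change the group. -/
lemma Tc_smul {c φ : n → k} {h : φ ⬝ᵥ c = 0} {x y : k} (hx : x ≠ 0) (hy : y ≠ 0)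
    (h' : (y • φ) ⬝ᵥ (x • c) = 0) : Tc ρ (x • c) (y • φ) h' = Tc ρ c φ h := by
  ext g
  constructor
  · rintro ⟨t, ht⟩
    refine ⟨t * (x * y), ?_⟩
    rw [ht, E_smul_smul, smul_smul]
  · rintro ⟨t, ht⟩
    refine ⟨t * (x * y)⁻¹, ?_⟩
    rw [ht, E_smul_smul, smul_smul, mul_assoc, inv_mul_cancel₀ (mul_ne_zero hx hy), mul_one]

lemma dot_smul_left (x : k) (φ c : n → k) : (x • φ) ⬝ᵥ c = x * (φ ⬝ᵥ c) := by
  rw [smul_dotProduct, smul_eq_mul]

lemma dot_smul_right (x : k) (φ c : n → k) : φ ⬝ᵥ (x • c) = x * (φ ⬝ᵥ c) := by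
  rw [dotProduct_smul, smul_eq_mul]

section Pair

variable {c φ c' φ' : n → k} {h : φ ⬝ᵥ c = 0} {h' : φ' ⬝ᵥ c' = 0}

/-- The matrix identity for a pair of elements. -/
lemma pair_mul (t s : k) : (1 + t • E c φ) * (1 + s • E c' φ') =
    1 + t • E c φ + s • E c' φ' + (t * s * (φ ⬝ᵥ c')) • E c φ' := by
  rw [mul_add, add_mul, add_mul, one_mul, one_mul, mul_one, smul_mul_smul_comm, E_mul_E, smul_smul]
  abel

include hρ in
/-- Both numbers zero: the groups commute. -/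
lemma commute_of_zero (hα : φ ⬝ᵥ c' = 0) (hβ : φ' ⬝ᵥ c = 0) {a b : G} (ha : a ∈ Tc ρ c φ h)
    (hb : b ∈ Tc ρ c' φ' h') : a * b = b * a := by
  obtain ⟨t, ht⟩ := ha
  obtain ⟨s, hs⟩ := hb
  apply hρ
  rw [map_mul, map_mul, ht, hs, pair_mul, pair_mul, hα, hβ, mul_zero, mul_zero, zero_smul, zero_smul,
    add_zero, add_zero, add_right_comm]

include hρ in
lemma comm_bot (hα : φ ⬝ᵥ c' = 0) (hβ : φ' ⬝ᵥ c = 0) : ⁅Tc ρ c φ h, Tc ρ c' φ' h'⁆ = ⊥ :=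
  Cfsg.Agent.Lib.RootSubgroups.Abstract.bot_of_commute fun _ ha _ hb =>
    commute_of_zero hρ hα hβ ha hb

include h' in
/-- The commutator in the case `β = 0`. -/
lemma comm_val (hβ : φ' ⬝ᵥ c = 0) {a b : G} {t s : k} (ht : ρ a = 1 + t • E c φ)
    (hs : ρ b = 1 + s • E c' φ') :
    ρ (a * b * a⁻¹ * b⁻¹) = 1 + (t * s * (φ ⬝ᵥ c')) • E c φ' := by
  have h1 : ρ (b * a) = 1 + s • E c' φ' + t • E c φ := by
    rw [map_mul, ht, hs, pair_mul, hβ, mul_zero, zero_smul, add_zero]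
  have h2 : (1 + (t * s * (φ ⬝ᵥ c')) • E c φ') * ρ (b * a) = ρ (a * b) := by
    rw [h1, map_mul, ht, hs, pair_mul]
    simp only [mul_add, add_mul, mul_one, one_mul, smul_mul_smul_comm, E_mul_E, hβ, h', zero_smul,
      smul_zero, add_zero]
    abel
  have h3 : a * b * a⁻¹ * b⁻¹ = (a * b) * (b * a)⁻¹ := by group
  rw [h3, map_mul, ← h2, mul_assoc, ρ_unit, mul_one]

include hρ in
/-- The commutator case. -/
lemma commutator_case {S : Set (Subgroup G)} (hβ : φ' ⬝ᵥ c = 0) (hα : φ ⬝ᵥ c' ≠ 0)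
    (hc : Full ρ c φ) (hc' : Full ρ c' φ') (hD : Full ρ c φ') (hS : Tc ρ c φ' hβ ∈ S) :
    RootCommutatorCase S (Tc ρ c φ h) (Tc ρ c' φ' h') := by
  have hle : ⁅Tc ρ c φ h, Tc ρ c' φ' h'⁆ ≤ Tc ρ c φ' hβ := by
    rw [Subgroup.commutator_le]
    rintro a ⟨t, ht⟩ b ⟨s, hs⟩
    rw [commutatorElement_def]
    exact ⟨_, comm_val (h' := h') hβ ht hs⟩
  have hval : ∀ {t : k}, t ≠ 0 → ∀ {a : G}, ρ a = 1 + t • E c φ → ∀ {d : G},
      d ∈ Tc ρ c φ' hβ → ∃ b ∈ Tc ρ c' φ' h', a * b * a⁻¹ * b⁻¹ = d := by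
    rintro t ht0 a ha d ⟨κ, hd⟩
    obtain ⟨b, hb⟩ := hc' (κ * (t * (φ ⬝ᵥ c'))⁻¹)
    refine ⟨b, ⟨_, hb⟩, hρ ?_⟩
    rw [comm_val (h' := h') hβ ha hb, hd]
    congr 2
    field_simp
  have hval' : ∀ {s : k}, s ≠ 0 → ∀ {b : G}, ρ b = 1 + s • E c' φ' → ∀ {d : G},
      d ∈ Tc ρ c φ' hβ → ∃ a ∈ Tc ρ c φ h, a * b * a⁻¹ * b⁻¹ = d := by
    rintro s hs0 b hb d ⟨κ, hd⟩
    obtain ⟨a, ha⟩ := hc (κ * (s * (φ ⬝ᵥ c'))⁻¹)
    refine ⟨a, ⟨_, ha⟩, hρ ?_⟩
    rw [comm_val (h' := h') hβ ha hb, hd]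
    congr 2
    field_simp
  have hge : Tc ρ c φ' hβ ≤ ⁅Tc ρ c φ h, Tc ρ c' φ' h'⁆ := by
    intro d hd
    obtain ⟨a, ha⟩ := hc 1
    obtain ⟨b, hb, rfl⟩ := hval one_ne_zero ha hd
    exact Cfsg.Agent.Lib.RootSubgroups.Abstract.comm_mem ⟨_, ha⟩ hb
  have heq := le_antisymm hle hge
  refine ⟨by rw [heq]; exact hS, ?_, ?_, ?_⟩
  · -- central
    intro d hd y hy
    rw [heq] at hd
    obtain ⟨κ, hκ⟩ := hd
    have hle2 : Tc ρ c φ h ⊔ Tc ρ c' φ' h' ≤ Subgroup.centralizer {d} := by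
      rw [sup_le_iff]
      constructor
      · rintro a ⟨t, ht⟩
        rw [Subgroup.mem_centralizer_singleton_iff]
        apply hρ
        rw [map_mul, map_mul, ht, hκ]
        simp only [mul_add, add_mul, mul_one, one_mul, smul_mul_smul_comm, E_mul_E, hβ, h, zero_smul,
          smul_zero, add_zero]
        abel
      · rintro b ⟨s, hs⟩
        rw [Subgroup.mem_centralizer_singleton_iff]
        apply hρ
        rw [map_mul, map_mul, hs, hκ]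
        simp only [mul_add, add_mul, mul_one, one_mul, smul_mul_smul_comm, E_mul_E, hβ, h', zero_smul,
          smul_zero, add_zero]
        abel
    have h5 := hle2 hy
    rw [Subgroup.mem_centralizer_singleton_iff] at h5
    exact h5.symm
  · intro a ha ha1
    rw [heq]
    apply le_antisymm
    · rw [Subgroup.closure_le]
      rintro _ ⟨b, hb, rfl⟩
      obtain ⟨t, ht⟩ := ha
      obtain ⟨s, hs⟩ := hb
      exact ⟨_, comm_val (h' := h') hβ ht hs⟩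
    · intro d hd
      obtain ⟨t, ht⟩ := ha
      have ht0 : t ≠ 0 := by
        rintro rfl
        apply ha1
        apply hρ
        rw [ht, map_one]
        simp
      obtain ⟨b, hb, rfl⟩ := hval ht0 ht hd
      exact Subgroup.subset_closure ⟨b, hb, rfl⟩
  · intro b hb hb1
    rw [heq]
    apply le_antisymm
    · rw [Subgroup.closure_le]
      rintro _ ⟨a, ha, rfl⟩
      obtain ⟨t, ht⟩ := ha
      obtain ⟨s, hs⟩ := hb
      exact ⟨_, comm_val (h' := h') hβ ht hs⟩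
    · intro d hd
      obtain ⟨s, hs⟩ := hb
      have hs0 : s ≠ 0 := by
        rintro rfl
        apply hb1
        apply hρ
        rw [hs, map_one]
        simp
      obtain ⟨a, ha, rfl⟩ := hval' hs0 hs hd
      exact Subgroup.subset_closure ⟨a, ha, rfl⟩

lemma E_mulVec (c φ v : n → k) : E c φ *ᵥ v = (φ ⬝ᵥ v) • c := by
  ext i
  simp only [mulVec, dotProduct, vecMulVec_apply, Pi.smul_apply, smul_eq_mul, Finset.sum_mul,
    Finset.mul_sum]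
  refine Finset.sum_congr rfl fun x _ => ?_
  ring

lemma vec_E (c φ v : n → k) : v ᵥ* E c φ = (v ⬝ᵥ c) • φ := by
  ext i
  simp only [vecMul, dotProduct, vecMulVec_apply, Pi.smul_apply, smul_eq_mul, Finset.sum_mul]
  refine Finset.sum_congr rfl fun x _ => ?_
  ring

lemma trace_E (c φ : n → k) : (E c φ).trace = φ ⬝ᵥ c := by
  simp only [Matrix.trace, Matrix.diag, vecMulVec_apply, dotProduct]
  refine Finset.sum_congr rfl fun x _ => ?_
  ring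

lemma E_ne_zero {c φ : n → k} (hc : c ≠ 0) (hφ : φ ≠ 0) : E c φ ≠ 0 :=
  vecMulVec_ne_zero hc hφ

lemma ρ_inv {c φ : n → k} (h : φ ⬝ᵥ c = 0) {g : G} {s : k} (hs : ρ g = 1 + s • E c φ) :
    ρ g⁻¹ = 1 + (-s) • E c φ := by
  have h2 : (1 + s • E c φ) * (1 + (-s) • E c φ) = 1 := by
    rw [one_add_mul_same h, add_neg_cancel, zero_smul, add_zero]
  calc ρ g⁻¹ = ρ g⁻¹ * ((1 + s • E c φ) * (1 + (-s) • E c φ)) := by rw [h2, mul_one]
    _ = (ρ g⁻¹ * ρ g) * (1 + (-s) • E c φ) := by rw [hs, mul_assoc]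
    _ = _ := by rw [ρ_unit', one_mul]

lemma Tc_congr {c φ c₁ φ₁ : n → k} (e : c = c₁) (e' : φ = φ₁) (h : φ ⬝ᵥ c = 0) (h₁ : φ₁ ⬝ᵥ c₁ = 0) :
    Tc ρ c φ h = Tc ρ c₁ φ₁ h₁ := by
  subst e
  subst e'
  rfl

include h' in
/-- The conjugate by the inverse of an element of the other group. -/
lemma conjBy_inv_other {b : G} {s : k} (hs : ρ b = 1 + s • E c' φ') :
    ∃ h₁ : (φ + (s * (φ ⬝ᵥ c')) • φ') ⬝ᵥ (c + (-(s * (φ' ⬝ᵥ c))) • c') = 0,
      conjBy (Tc ρ c φ h) b⁻¹ = Tc ρ (c + (-(s * (φ' ⬝ᵥ c))) • c') (φ + (s * (φ ⬝ᵥ c')) • φ') h₁ := by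
  have e1 : ρ b⁻¹ *ᵥ c = c + (-(s * (φ' ⬝ᵥ c))) • c' := by
    rw [ρ_inv h' hs, add_mulVec, one_mulVec, smul_mulVec, E_mulVec, smul_smul]
    congr 2
    ring
  have e2 : φ ᵥ* ρ b⁻¹⁻¹ = φ + (s * (φ ⬝ᵥ c')) • φ' := by
    rw [inv_inv, hs, vecMul_add, vecMul_one, vecMul_smul, vec_E, smul_smul]
  have h₂ : (φ ᵥ* ρ b⁻¹⁻¹) ⬝ᵥ (ρ b⁻¹ *ᵥ c) = 0 := by
    rw [← dotProduct_mulVec, mulVec_mulVec, inv_inv, ρ_unit, one_mulVec]
    exact h
  refine ⟨by rw [← e1, ← e2]; exact h₂, ?_⟩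
  rw [conjBy_Tc (h := h) b⁻¹ h₂]
  exact Tc_congr e1 e2 _ _

include hρ in
/-- The rank one condition. -/
lemma rankOne_cond (hα : φ ⬝ᵥ c' ≠ 0) (hβ : φ' ⬝ᵥ c ≠ 0) (hc' : Full ρ c' φ') :
    RankOneCondition (Tc ρ c φ h) (Tc ρ c' φ' h') := by
  have hE' : E c' φ' ≠ 0 := by
    refine E_ne_zero ?_ ?_
    · rintro rfl
      exact hα (dotProduct_zero _)
    · rintro rfl
      exact hβ (zero_dotProduct _)
  rintro a ⟨t, ht⟩ ha1
  have ht0 : t ≠ 0 := by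
    rintro rfl
    apply ha1
    apply hρ
    rw [ht, map_one]
    simp
  obtain ⟨b, hb⟩ := hc' ((t * (φ ⬝ᵥ c') * (φ' ⬝ᵥ c))⁻¹)
  have hs0 : (t * (φ ⬝ᵥ c') * (φ' ⬝ᵥ c))⁻¹ ≠ 0 := inv_ne_zero (mul_ne_zero (mul_ne_zero ht0 hα) hβ)
  refine ⟨b, ⟨_, hb⟩, ?_, ?_⟩
  · rintro rfl
    rw [map_one] at hb
    have h1 : (t * (φ ⬝ᵥ c') * (φ' ⬝ᵥ c))⁻¹ • E c' φ' = 0 := by
      have h2 := congrArg (fun X => X - 1) hb
      simpa using h2.symm
    exact hE' ((smul_eq_zero.1 h1).resolve_left hs0)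
  · obtain ⟨h₁, e₁⟩ := conjBy_inv_other (c := c) (φ := φ) (h := h) (h' := h') hb
    obtain ⟨h₂, e₂⟩ := conjBy_inv_other (c := c') (φ := φ') (h := h') (h' := h) ht
    rw [e₁, e₂]
    have hx : -(t * (φ ⬝ᵥ c'))⁻¹ ≠ 0 := neg_ne_zero.2 (inv_ne_zero (mul_ne_zero ht0 hα))
    have hy : (t * (φ' ⬝ᵥ c))⁻¹ ≠ 0 := inv_ne_zero (mul_ne_zero ht0 hβ)
    have e3 : c + (-((t * (φ ⬝ᵥ c') * (φ' ⬝ᵥ c))⁻¹ * (φ' ⬝ᵥ c))) • c' =
        (-(t * (φ ⬝ᵥ c'))⁻¹) • (c' + (-(t * (φ ⬝ᵥ c'))) • c) := by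
      have e4 : (t * (φ ⬝ᵥ c') * (φ' ⬝ᵥ c))⁻¹ * (φ' ⬝ᵥ c) = (t * (φ ⬝ᵥ c'))⁻¹ := by
        field_simp
      have e5 : (-(t * (φ ⬝ᵥ c'))⁻¹) * (-(t * (φ ⬝ᵥ c'))) = 1 := by
        field_simp
      rw [e4, smul_add, smul_smul, e5, one_smul, add_comm]
    have e6 : φ + ((t * (φ ⬝ᵥ c') * (φ' ⬝ᵥ c))⁻¹ * (φ ⬝ᵥ c')) • φ' =
        ((t * (φ' ⬝ᵥ c))⁻¹) • (φ' + (t * (φ' ⬝ᵥ c)) • φ) := by
      have e4 : (t * (φ ⬝ᵥ c') * (φ' ⬝ᵥ c))⁻¹ * (φ ⬝ᵥ c') = (t * (φ' ⬝ᵥ c))⁻¹ := by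
        field_simp
      have e5 : (t * (φ' ⬝ᵥ c))⁻¹ * (t * (φ' ⬝ᵥ c)) = 1 := by
        field_simp
      rw [e4, smul_add, smul_smul, e5, one_smul, add_comm]
    rw [Tc_congr e3 e6 h₁ (by rw [← e3, ← e6]; exact h₁)]
    exact Tc_smul hx hy _

include hρ in
/-- Rank one pairs. -/
theorem rankOne (hα : φ ⬝ᵥ c' ≠ 0) (hβ : φ' ⬝ᵥ c ≠ 0) (hc : Full ρ c φ) (hc' : Full ρ c' φ') :
    IsRankOnePair (Tc ρ c φ h) (Tc ρ c' φ' h') := by
  refine ⟨?_, Tc_nilpotent hρ, Tc_nilpotent hρ, rankOne_cond hρ hα hβ hc',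
    rankOne_cond hρ hβ hα hc⟩
  intro e
  obtain ⟨b, hb⟩ := hc' 1
  have h1 : b ∈ Tc ρ c φ h := by
    rw [e]
    exact ⟨1, hb⟩
  obtain ⟨t, ht⟩ := h1
  have h2 : E c' φ' = t • E c φ := by
    have h3 := hb.symm.trans ht
    simpa using h3
  have h4 : E c φ * E c' φ' = (φ ⬝ᵥ c') • E c φ' := E_mul_E _ _ _ _
  rw [h2, mul_smul_comm, E_mul_E, h, zero_smul, smul_zero] at h4
  have h5 : E c φ' = 0 := (smul_eq_zero.1 h4.symm).resolve_left hα
  have h6 := trace_E c φ'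
  rw [h5, Matrix.trace_zero] at h6
  exact hβ h6.symm

include hρ in
/-- In a rank one pair the number `β` does not vanish. -/
theorem beta_ne (hcn : c ≠ 0) (hφn : φ ≠ 0) (hcn' : c' ≠ 0) (hφn' : φ' ≠ 0) (hc : Full ρ c φ)
    (hr : IsRankOnePair (Tc ρ c φ h) (Tc ρ c' φ' h')) : φ' ⬝ᵥ c ≠ 0 := by
  intro hβ
  obtain ⟨a, ha⟩ := hc 1
  have ha1 : a ≠ 1 := by
    rintro rfl
    rw [map_one] at ha
    have h1 : E c φ = 0 := by simpa using ha.symm
    exact E_ne_zero hcn hφn h1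
  obtain ⟨b, ⟨s, hs⟩, hb1, e⟩ := hr.cond_left a ⟨1, ha⟩ ha1
  have hs0 : s ≠ 0 := by
    rintro rfl
    apply hb1
    apply hρ
    rw [hs, map_one]
    simp
  obtain ⟨h₁, e₁⟩ := conjBy_inv_other (c := c) (φ := φ) (h := h) (h' := h') hs
  obtain ⟨h₂, e₂⟩ := conjBy_inv_other (c := c') (φ := φ') (h := h') (h' := h) ha
  by_cases hα : φ ⬝ᵥ c' = 0
  · -- the two groups would be equal
    rw [e₁, e₂] at e
    apply hr.ne
    have e3 : c + (-(s * (φ' ⬝ᵥ c))) • c' = c := by simp [hβ]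
    have e4 : φ + (s * (φ ⬝ᵥ c')) • φ' = φ := by simp [hα]
    have e5 : c' + (-((1 : k) * (φ ⬝ᵥ c'))) • c = c' := by simp [hα]
    have e6 : φ' + ((1 : k) * (φ' ⬝ᵥ c)) • φ = φ' := by simp [hβ]
    rw [Tc_congr e3 e4 h₁ h, Tc_congr e5 e6 h₂ h'] at e
    exact e
  · -- a contradiction in the matrices
    have e0 : c + (-(s * (φ' ⬝ᵥ c))) • c' = c := by simp [hβ]
    have e0' : φ' + ((1 : k) * (φ' ⬝ᵥ c)) • φ = φ' := by simp [hβ]
    have hx : b⁻¹ * a * b⁻¹⁻¹ ∈ conjBy (Tc ρ c φ h) b⁻¹ := ⟨a, ⟨1, ha⟩, rfl⟩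
    rw [e, e₂] at hx
    obtain ⟨κ, hκ⟩ := hx
    have hval : ρ (b⁻¹ * a * b⁻¹⁻¹) = 1 + (1 : k) • E (c + (-(s * (φ' ⬝ᵥ c))) • c')
        (φ + (s * (φ ⬝ᵥ c')) • φ') := by
      have h9 : b⁻¹ * a * b⁻¹⁻¹ ∈ conjBy (Tc ρ c φ h) b⁻¹ := ⟨a, ⟨1, ha⟩, rfl⟩
      have h10 : ρ (b⁻¹ * a * b⁻¹⁻¹) = ρ b⁻¹ * (1 + (1 : k) • E c φ) * ρ b⁻¹⁻¹ := by
        rw [map_mul, map_mul, ha]
      rw [h10, mul_add, add_mul, mul_one, ρ_unit, mul_smul_comm, smul_mul_assoc, mat_mul_E, E_mul_mat]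
      congr 3
      · rw [ρ_inv h' hs, add_mulVec, one_mulVec, smul_mulVec, E_mulVec, smul_smul]
        congr 2
        ring
      · rw [inv_inv, hs, vecMul_add, vecMul_one, vecMul_smul, vec_E, smul_smul]
    have h11 : E (c + (-(s * (φ' ⬝ᵥ c))) • c') (φ + (s * (φ ⬝ᵥ c')) • φ') =
        κ • E (c' + (-((1 : k) * (φ ⬝ᵥ c'))) • c) (φ' + ((1 : k) * (φ' ⬝ᵥ c)) • φ) := by
      have h12 := hval.symm.trans hκ
      simpa using h12
    rw [e0, e0'] at h11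
    have h13 := congrArg (fun X => E c φ * X) h11
    simp only [mul_smul_comm, E_mul_E, h, zero_smul] at h13
    have h14 : φ ⬝ᵥ (c' + (-((1 : k) * (φ ⬝ᵥ c'))) • c) = φ ⬝ᵥ c' := by
      rw [dotProduct_add, dotProduct_smul, h]
      simp
    rw [h14, smul_smul] at h13
    have h15 : κ * (φ ⬝ᵥ c') = 0 := (smul_eq_zero.1 h13.symm).resolve_right (E_ne_zero hcn hφn')
    have h16 : κ = 0 := (mul_eq_zero.1 h15).resolve_right hα
    rw [h16, zero_smul] at h11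
    have h17 : φ + (s * (φ ⬝ᵥ c')) • φ' = 0 := by
      by_contra h18
      exact E_ne_zero hcn h18 h11
    have h19 : (φ + (s * (φ ⬝ᵥ c')) • φ') ⬝ᵥ c' = φ ⬝ᵥ c' := by
      rw [add_dotProduct, smul_dotProduct, h']
      simp
    rw [h17, zero_dotProduct] at h19
    exact hα h19.symm

include hρ in
/-- In a rank one pair the number `α` does not vanish. -/
theorem alpha_ne (hcn : c ≠ 0) (hφn : φ ≠ 0) (hcn' : c' ≠ 0) (hφn' : φ' ≠ 0) (hc' : Full ρ c' φ')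
    (hr : IsRankOnePair (Tc ρ c φ h) (Tc ρ c' φ' h')) : φ ⬝ᵥ c' ≠ 0 :=
  beta_ne hρ hcn' hφn' hcn hφn hc' (RankOnePair_symm hr)

end Pair

/-! ### The image of `SL₂` -/

/-- Induction along the elementary matrices of `SL₂`. -/
lemma sl2_induction (P : SL(2, k) → Prop) (M : SL(2, k)) (hx : ∀ t, P (Xm t)) (hy : ∀ t, P (Ym t))
    (hmul : ∀ a b, P a → P b → P (a * b)) : P M := by
  refine Cfsg.Agent.Lib.Classical.Transvections.transvection_induction P M ?_ hmul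
  intro p q hpq t
  fin_cases p <;> fin_cases q
  · exact absurd rfl hpq
  · have e : Matrix.SpecialLinearGroup.transvection hpq t = Xm t := by
      apply Subtype.ext
      ext p q
      fin_cases p <;> fin_cases q <;>
        simp [Xm, Matrix.SpecialLinearGroup.transvection, Matrix.transvection, Matrix.single]
    rw [e]
    exact hx t
  · have e : Matrix.SpecialLinearGroup.transvection hpq t = Ym t := by
      apply Subtype.ext
      ext p q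
      fin_cases p <;> fin_cases q <;>
        simp [Ym, Matrix.SpecialLinearGroup.transvection, Matrix.transvection, Matrix.single]
    rw [e]
    exact hy t
  · exact absurd rfl hpq

/-- The matrix of columns. -/
def colsM (c d : n → k) : Matrix n (Fin 2) k := Matrix.of fun i j => if j = 0 then c i else d i

/-- The matrix of rows. -/
def rowsM (a b : n → k) : Matrix (Fin 2) n k := Matrix.of fun j i => if j = 0 then a i else b i

lemma rows_cols (a b c d : n → k) : rowsM a b * colsM c d = !![a ⬝ᵥ c, a ⬝ᵥ d; b ⬝ᵥ c, b ⬝ᵥ d] := by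
  ext i j
  fin_cases i <;> fin_cases j <;> simp [Matrix.mul_apply, rowsM, colsM, dotProduct]

/-- The embedding at the level of matrices. -/
def Psi (U : Matrix n (Fin 2) k) (W : Matrix (Fin 2) n k) (M : Matrix (Fin 2) (Fin 2) k) :
    Matrix n n k := 1 + U * (M - 1) * W

lemma Psi_mul {U : Matrix n (Fin 2) k} {W : Matrix (Fin 2) n k} (hWU : W * U = 1)
    (M N : Matrix (Fin 2) (Fin 2) k) : Psi U W (M * N) = Psi U W M * Psi U W N := by
  unfold Psi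
  have h1 : (U * (M - 1) * W) * (U * (N - 1) * W) = U * ((M - 1) * (N - 1)) * W := by
    simp only [Matrix.mul_assoc]
    rw [← Matrix.mul_assoc W U, hWU, Matrix.one_mul]
  have h2 : M * N - 1 = (M - 1) * (N - 1) + (M - 1) + (N - 1) := by noncomm_ring
  rw [mul_add, add_mul, add_mul, one_mul, one_mul, mul_one, h1, h2, Matrix.mul_add, Matrix.mul_add,
    Matrix.add_mul, Matrix.add_mul]
  abel

lemma Psi_sandwich {U : Matrix n (Fin 2) k} {W : Matrix (Fin 2) n k} (hWU : W * U = 1)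
    (M : Matrix (Fin 2) (Fin 2) k) : W * (Psi U W M - 1) * U = M - 1 := by
  unfold Psi
  rw [add_sub_cancel_left]
  simp only [← Matrix.mul_assoc]
  rw [hWU, Matrix.one_mul, Matrix.mul_assoc, hWU, Matrix.mul_one]

section PairTwo

variable {c φ c' φ' : n → k} {h : φ ⬝ᵥ c = 0} {h' : φ' ⬝ᵥ c' = 0}

lemma Psi_Xm (c d a φ : n → k) (t : k) :
    Psi (colsM c d) (rowsM a φ) (Xm t).1 = 1 + t • E c φ := by
  unfold Psi
  congr 1
  ext i j
  simp only [Matrix.mul_apply, Fin.sum_univ_two, Matrix.sub_apply, vecMulVec_apply, Matrix.smul_apply,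
    smul_eq_mul, colsM, rowsM, Matrix.of_apply]
  have e1 : (Xm t).1 0 0 = 1 := rfl
  have e2 : (Xm t).1 0 1 = t := rfl
  have e3 : (Xm t).1 1 0 = 0 := rfl
  have e4 : (Xm t).1 1 1 = 1 := rfl
  simp [e1, e2, e3, e4]
  ring

lemma Psi_Ym (c d a φ : n → k) (t : k) :
    Psi (colsM c d) (rowsM a φ) (Ym t).1 = 1 + t • E d a := by
  unfold Psi
  congr 1
  ext i j
  simp only [Matrix.mul_apply, Fin.sum_univ_two, Matrix.sub_apply, vecMulVec_apply, Matrix.smul_apply,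
    smul_eq_mul, colsM, rowsM, Matrix.of_apply]
  have e1 : (Ym t).1 0 0 = 1 := rfl
  have e2 : (Ym t).1 0 1 = 0 := rfl
  have e3 : (Ym t).1 1 0 = t := rfl
  have e4 : (Ym t).1 1 1 = 1 := rfl
  simp [e1, e2, e3, e4]
  ring

lemma Xm_inj {s t : k} (hst : Xm s = Xm t) : s = t := by
  have := congrArg (fun M : SL(2, k) => M.1 0 1) hst
  exact this

lemma upper_eq : upperUnipotentSL2 k = (Subgroup.closure (Set.range (Xm (K := k)))) := by
  unfold upperUnipotentSL2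
  congr 1
  ext g
  constructor
  · rintro ⟨h1, h2, h3⟩
    refine ⟨g.1 0 1, ?_⟩
    apply Subtype.ext
    ext i j
    fin_cases i <;> fin_cases j
    · exact h2.symm
    · rfl
    · exact h1.symm
    · exact h3.symm
  · rintro ⟨t, rfl⟩
    exact ⟨rfl, rfl, rfl⟩

lemma lower_eq : lowerUnipotentSL2 k = (Subgroup.closure (Set.range (Ym (K := k)))) := by
  unfold lowerUnipotentSL2
  congr 1
  ext g
  constructor
  · rintro ⟨h1, h2, h3⟩
    refine ⟨g.1 1 0, ?_⟩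
    apply Subtype.ext
    ext i j
    fin_cases i <;> fin_cases j
    · exact h2.symm
    · exact h1.symm
    · rfl
    · exact h3.symm
  · rintro ⟨t, rfl⟩
    exact ⟨rfl, rfl, rfl⟩

include hρ in
/-- A rank one pair generates an image of `SL₂(k)`. -/
theorem psl2_pair (hα : φ ⬝ᵥ c' ≠ 0) (hβ : φ' ⬝ᵥ c ≠ 0) (hc : Full ρ c φ) (hc' : Full ρ c' φ') :
    IsPSL2PairOver k (Tc ρ c φ h) (Tc ρ c' φ' h') := by
  set α := φ ⬝ᵥ c' with hαd
  set β := φ' ⬝ᵥ c with hβd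
  set d : n → k := α⁻¹ • c' with hd
  set a : n → k := β⁻¹ • φ' with ha
  set U := colsM c d with hU
  set W := rowsM a φ with hW
  have hWU : W * U = 1 := by
    rw [hW, hU, rows_cols]
    have e1 : a ⬝ᵥ c = 1 := by
      rw [ha, smul_dotProduct, smul_eq_mul, ← hβd, inv_mul_cancel₀ hβ]
    have e2 : a ⬝ᵥ d = 0 := by
      rw [ha, hd, smul_dotProduct, dotProduct_smul, h']
      simp
    have e3 : φ ⬝ᵥ c = 0 := h
    have e4 : φ ⬝ᵥ d = 1 := by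
      rw [hd, dotProduct_smul, smul_eq_mul, ← hαd, inv_mul_cancel₀ hα]
    rw [e1, e2, e3, e4]
    exact Matrix.one_fin_two.symm
  have hY : ∀ t, Psi U W (Ym t).1 = 1 + (t * (α⁻¹ * β⁻¹)) • E c' φ' := by
    intro t
    rw [hU, hW, Psi_Ym, hd, ha, E_smul_smul, smul_smul]
  have hX : ∀ t, Psi U W (Xm t).1 = 1 + t • E c φ := fun t => Psi_Xm _ _ _ _ _
  have hlift : ∀ M : SL(2, k), ∃ g : G, ρ g = Psi U W M.1 := by
    intro M
    refine sl2_induction (fun M => ∃ g : G, ρ g = Psi U W M.1) M ?_ ?_ ?_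
    · intro t
      obtain ⟨g, hg⟩ := hc t
      exact ⟨g, by rw [hg, hX]⟩
    · intro t
      obtain ⟨g, hg⟩ := hc' (t * (α⁻¹ * β⁻¹))
      exact ⟨g, by rw [hg, hY]⟩
    · rintro A B ⟨g, hg⟩ ⟨g', hg'⟩
      exact ⟨g * g', by
        rw [map_mul, hg, hg', ← Psi_mul hWU]
        rfl⟩
  choose f hf using hlift
  have hfmul : ∀ A B : SL(2, k), f (A * B) = f A * f B := by
    intro A B
    apply hρ
    rw [map_mul, hf, hf, hf, ← Psi_mul hWU]
    rfl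
  let ψ : SL(2, k) →* G := MonoidHom.mk' f hfmul
  have hψ : ∀ M, ρ (ψ M) = Psi U W M.1 := hf
  have hψX : ∀ t, ρ (ψ (Xm t)) = 1 + t • E c φ := fun t => by rw [hψ, hX]
  have hψY : ∀ t, ρ (ψ (Ym t)) = 1 + (t * (α⁻¹ * β⁻¹)) • E c' φ' := fun t => by rw [hψ, hY]
  have hAB : (α⁻¹ * β⁻¹) ≠ 0 := mul_ne_zero (inv_ne_zero hα) (inv_ne_zero hβ)
  have hA : Set.range (fun t => ψ (Xm t)) = (Tc ρ c φ h : Set G) := by
    ext x
    constructor
    · rintro ⟨t, rfl⟩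
      exact ⟨t, hψX t⟩
    · rintro ⟨t, ht⟩
      exact ⟨t, hρ (by rw [hψX, ht])⟩
  have hB : Set.range (fun t => ψ (Ym t)) = (Tc ρ c' φ' h' : Set G) := by
    ext x
    constructor
    · rintro ⟨t, rfl⟩
      exact ⟨_, hψY t⟩
    · rintro ⟨t, ht⟩
      refine ⟨t * (α⁻¹ * β⁻¹)⁻¹, hρ ?_⟩
      rw [hψY, ht, mul_assoc, inv_mul_cancel₀ hAB, mul_one]
  have hmapU : (upperUnipotentSL2 k).map ψ = Tc ρ c φ h := by
    rw [upper_eq, MonoidHom.map_closure, ← Set.range_comp]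
    have : Set.range (ψ ∘ Xm (K := k)) = (Tc ρ c φ h : Set G) := hA
    rw [this, Subgroup.closure_eq]
  have hmapL : (lowerUnipotentSL2 k).map ψ = Tc ρ c' φ' h' := by
    rw [lower_eq, MonoidHom.map_closure, ← Set.range_comp]
    have : Set.range (ψ ∘ Ym (K := k)) = (Tc ρ c' φ' h' : Set G) := hB
    rw [this, Subgroup.closure_eq]
  refine ⟨ψ, ?_, ?_, hmapU, hmapL⟩
  · apply le_antisymm
    · rintro _ ⟨M, rfl⟩
      refine sl2_induction (fun M => ψ M ∈ Tc ρ c φ h ⊔ Tc ρ c' φ' h') M ?_ ?_ ?_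
      · intro t
        exact Subgroup.mem_sup_left ⟨t, hψX t⟩
      · intro t
        exact Subgroup.mem_sup_right ⟨_, hψY t⟩
      · intro A B hA hB
        rw [map_mul]
        exact mul_mem hA hB
    · rw [← hmapU, ← hmapL, sup_le_iff]
      exact ⟨Subgroup.map_le_range _ _, Subgroup.map_le_range _ _⟩
  · intro M hM
    have h1 : M = 1 := by
      have h2 := Psi_sandwich hWU M.1
      rw [← hψ M, (MonoidHom.mem_ker.1 hM), map_one, sub_self, Matrix.mul_zero, Matrix.zero_mul] at h2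
      apply Subtype.ext
      exact (sub_eq_zero.1 h2.symm)
    rw [h1]
    exact one_mem _

end PairTwo

end Cfsg.Agent.Lib.Classical.TransvRoot
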