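import Cfsg.Agent.Lib.Classical.TransvRoot
import Cfsg.Agent.Lib.Classical.ProdClass
import Cfsg.Agent.Lib.RootSubgroups.RankOne

/-!
The transvection groups of `SL_{n+3}(k)` as a class of abstract root subgroups.
-/

set_option autoImplicit false
set_option linter.unusedSectionVars false
set_option linter.unusedSimpArgs false
set_option linter.style.haveILetI false
set_option linter.unusedVariables false

open scoped MatrixGroups commutatorElement
open Matrix Cfsg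

namespace Cfsg.Agent.Lib.Classical.TransvSL

open Cfsg.Agent.Lib.Classical.TransvRoot
open Cfsg.Agent.Lib.RootSubgroups.Abstract (commutatorCase_symm)
open Cfsg.Agent.Lib.RootSubgroups

variable {k : Type*} [Field k] {N : ℕ}

/-- The inclusion into matrices. -/
def slHom : SpecialLinearGroup (Fin N) k →* Matrix (Fin N) (Fin N) k where
  toFun g := g.1
  map_one' := rfl
  map_mul' _ _ := rfl

@[simp] lemma slHom_apply (g : SpecialLinearGroup (Fin N) k) : slHom g = g.1 := rfl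

lemma slHom_inj : Function.Injective (slHom (k := k) (N := N)) := Subtype.val_injective

lemma det_one_add_E {c φ : Fin N → k} (h : φ ⬝ᵥ c = 0) (t : k) : (1 + t • E c φ).det = 1 := by
  have e : t • E c φ = replicateCol Unit (t • c) * replicateRow Unit φ := by
    rw [← vecMulVec_eq]
    ext i j
    simp [vecMulVec_apply, mul_assoc]
  rw [e, det_one_add_replicateCol_mul_replicateRow, dotProduct_smul, h]
  simp

/-- The element `1 + t c ⊗ φ`. -/
def tv (c φ : Fin N → k) (h : φ ⬝ᵥ c = 0) (t : k) : SpecialLinearGroup (Fin N) k :=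
  ⟨1 + t • E c φ, det_one_add_E h t⟩

lemma full (c φ : Fin N → k) (h : φ ⬝ᵥ c = 0) : Full (slHom (k := k) (N := N)) c φ :=
  fun t => ⟨tv c φ h t, rfl⟩

/-- The standard basis vectors. -/
abbrev e (i : Fin N) : Fin N → k := Pi.single i 1

lemma e_dot (i : Fin N) (v : Fin N → k) : e i ⬝ᵥ v = v i := by
  simp [e, single_dotProduct]

lemma dot_e (i : Fin N) (v : Fin N → k) : v ⬝ᵥ e i = v i := by
  simp [e, dotProduct_single]

lemma e_ne_zero (i : Fin N) : e (k := k) i ≠ 0 := by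
  intro h
  have := congrFun h i
  simp [e] at this

lemma e_dot_e {i j : Fin N} (h : i ≠ j) : e (k := k) i ⬝ᵥ e j = 0 := by
  rw [e_dot]
  simp [e, h]

lemma e_dot_e_self (i : Fin N) : e (k := k) i ⬝ᵥ e i = 1 := by
  rw [e_dot]
  simp [e]

lemma tv_mulVec {c φ : Fin N → k} {h : φ ⬝ᵥ c = 0} (w : Fin N → k) :
    (tv c φ h 1).1 *ᵥ w = w + (φ ⬝ᵥ w) • c := by
  change (1 + (1 : k) • E c φ) *ᵥ w = _
  rw [one_smul, add_mulVec, one_mulVec, E_mulVec]

lemma vecMul_tv {c φ : Fin N → k} {h : φ ⬝ᵥ c = 0} (ψ : Fin N → k) :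
    ψ ᵥ* (tv c φ h 1).1 = ψ + (ψ ⬝ᵥ c) • φ := by
  change ψ ᵥ* (1 + (1 : k) • E c φ) = _
  rw [one_smul, vecMul_add, vecMul_one, vec_E]

lemma exists_move_vec {c : Fin N → k} (hc : c ≠ 0) (a : Fin N) :
    ∃ (x : SpecialLinearGroup (Fin N) k) (l : k), l ≠ 0 ∧ x.1 *ᵥ e a = l • c := by
  obtain ⟨x, l, hl, h0, -⟩ := ProdClass.exists_SL_map (F := k) (d := N) (m := 1) (by norm_num)
    (p := fun _ => e a) (t := fun _ => c)
    (LinearIndependent.of_subsingleton (R := k) 0 (e_ne_zero a))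
    (LinearIndependent.of_subsingleton (R := k) 0 hc)
  exact ⟨x, l, hl, h0⟩

/-- A covector vanishing at `e a` and not at `e b` is moved to a multiple of `e b`. -/
lemma move_cov₁ {a b : Fin N} (hab : a ≠ b) {ψ : Fin N → k} (h0 : ψ a = 0) (h1 : ψ b ≠ 0) :
    ∃ x : SpecialLinearGroup (Fin N) k, x.1 *ᵥ e a = e a ∧ ψ ᵥ* x.1 = (ψ b) • e b := by
  set u : Fin N → k := (ψ b)⁻¹ • e b with hu
  set v : Fin N → k := -ψ + (ψ b) • e b with hv
  have hvu : v ⬝ᵥ u = 0 := by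
    rw [hu, hv, dotProduct_smul, add_dotProduct, neg_dotProduct, smul_dotProduct, dot_e, e_dot_e_self]
    simp
  refine ⟨tv u v hvu 1, ?_, ?_⟩
  · rw [tv_mulVec]
    have : v ⬝ᵥ e a = 0 := by
      rw [hv, add_dotProduct, neg_dotProduct, smul_dotProduct, dot_e, e_dot_e hab.symm, h0]
      simp
    rw [this, zero_smul, add_zero]
  · rw [vecMul_tv]
    have : ψ ⬝ᵥ u = 1 := by
      rw [hu, dotProduct_smul, dot_e, smul_eq_mul, inv_mul_cancel₀ h1]
    rw [this, one_smul, hv]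
    abel

/-- The reduction for covectors. -/
lemma move_cov {a b : Fin N} (hab : a ≠ b) {ψ : Fin N → k} (h0 : ψ a = 0) (hψ : ψ ≠ 0) :
    ∃ (x : SpecialLinearGroup (Fin N) k) (l : k), l ≠ 0 ∧ x.1 *ᵥ e a = e a ∧ ψ ᵥ* x.1 = l • e b := by
  by_cases h1 : ψ b = 0
  · obtain ⟨j, hj⟩ : ∃ j, ψ j ≠ 0 := by
      by_contra h2
      push Not at h2
      exact hψ (funext h2)
    have hjb : b ≠ j := by
      rintro rfl
      exact hj h1
    have hvu : e b ⬝ᵥ e (k := k) j = 0 := e_dot_e hjb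
    set x₃ := tv (e j) (e b) hvu 1 with hx₃
    have h2 : (ψ ᵥ* x₃.1) = ψ + (ψ j) • e b := by
      rw [hx₃, vecMul_tv, dot_e]
    have h3 : (ψ ᵥ* x₃.1) a = 0 := by
      rw [h2]
      simp [h0, e, hab]
    have h4 : (ψ ᵥ* x₃.1) b ≠ 0 := by
      rw [h2]
      simpa [h1, e] using hj
    obtain ⟨x, hx, hx'⟩ := move_cov₁ hab h3 h4
    refine ⟨x₃ * x, _, h4, ?_, ?_⟩
    · have e1 : (x₃ * x).1 = x₃.1 * x.1 := rfl
      rw [e1, ← mulVec_mulVec, hx, hx₃, tv_mulVec, e_dot_e hab.symm, zero_smul, add_zero]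
    · have e1 : (x₃ * x).1 = x₃.1 * x.1 := rfl
      rw [e1, ← vecMul_vecMul, hx']
  · obtain ⟨x, hx, hx'⟩ := move_cov₁ hab h0 h1
    exact ⟨x, _, h1, hx, hx'⟩

lemma sl_mul_inv_coe (x : SpecialLinearGroup (Fin N) k) : x.1 * (x⁻¹).1 = 1 :=
  congrArg Subtype.val (mul_inv_cancel x)

lemma sl_inv_mul_coe (x : SpecialLinearGroup (Fin N) k) : (x⁻¹).1 * x.1 = 1 :=
  congrArg Subtype.val (inv_mul_cancel x)

/-- Transitivity on incident pairs. -/
lemma exists_move {a b : Fin N} (hab : a ≠ b) {c φ : Fin N → k} (hc : c ≠ 0) (hφ : φ ≠ 0)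
    (h : φ ⬝ᵥ c = 0) :
    ∃ (x : SpecialLinearGroup (Fin N) k) (l m : k), l ≠ 0 ∧ m ≠ 0 ∧ x.1 *ᵥ e a = l • c ∧
      e b ᵥ* (x⁻¹).1 = m • φ := by
  obtain ⟨x₁, l, hl, h1⟩ := exists_move_vec hc a
  have h2 : (φ ᵥ* x₁.1) a = 0 := by
    have h9 := dot_e a (φ ᵥ* x₁.1)
    rw [← h9, ← dotProduct_mulVec, h1, dotProduct_smul, h]
    simp
  have h3 : φ ᵥ* x₁.1 ≠ 0 := by
    intro h4
    apply hφ
    have h5 := congrArg (fun w => w ᵥ* (x₁⁻¹).1) h4
    simp only [vecMul_vecMul, sl_mul_inv_coe, vecMul_one, zero_vecMul] at h5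
    exact h5
  obtain ⟨x₂, m, hm, h4, h5⟩ := move_cov hab h2 h3
  refine ⟨x₁ * x₂, l, m⁻¹, hl, inv_ne_zero hm, ?_, ?_⟩
  · have e1 : (x₁ * x₂).1 = x₁.1 * x₂.1 := rfl
    rw [e1, ← mulVec_mulVec, h4, h1]
  · have e1 : φ ᵥ* (x₁ * x₂).1 = m • e b := by
      have e2 : (x₁ * x₂).1 = x₁.1 * x₂.1 := rfl
      rw [e2, ← vecMul_vecMul, h5]
    have e3 : (m⁻¹ • φ) ᵥ* (x₁ * x₂).1 = e b := by
      rw [smul_vecMul, e1, smul_smul, inv_mul_cancel₀ hm, one_smul]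
    rw [← e3, vecMul_vecMul, sl_mul_inv_coe, vecMul_one]

section Root

variable {n : ℕ}

lemma h10 : (1 : Fin (n + 3)) ≠ 0 := by simp [Fin.ext_iff]
lemma h01 : (0 : Fin (n + 3)) ≠ 1 := h10.symm
lemma h20 : (2 : Fin (n + 3)) ≠ 0 := by
  intro h
  have := congrArg Fin.val h
  rw [Fin.val_two] at this
  simp at this
lemma h21 : (2 : Fin (n + 3)) ≠ 1 := by
  intro h
  have := congrArg Fin.val h
  rw [Fin.val_two] at this
  simp at this

/-- The root group attached to a pair. -/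
abbrev T (c φ : Fin N → k) (h : φ ⬝ᵥ c = 0) : Subgroup (SpecialLinearGroup (Fin N) k) :=
  Tc slHom c φ h

lemma E_single (a b : Fin N) (t : k) : t • E (e a) (e b) = Matrix.single a b t := by
  ext i j
  simp only [Matrix.smul_apply, vecMulVec_apply, smul_eq_mul, Matrix.single_apply, Pi.single_apply]
  by_cases h1 : a = i <;> by_cases h2 : b = j
  · simp [h1, h2]
  · have : ¬ j = b := fun h => h2 h.symm
    simp [h1, h2, this]
  · have : ¬ i = a := fun h => h1 h.symm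
    simp [h1, this]
  · have : ¬ i = a := fun h => h1 h.symm
    simp [h1, this]

/-- The base group. -/
def A0 (n : ℕ) (k : Type*) [Field k] : Subgroup (SpecialLinearGroup (Fin (n + 3)) k) :=
  Subgroup.closure {t : Matrix.SpecialLinearGroup (Fin (n + 3)) k |
    ∃ c : k, (t : Matrix (Fin (n + 3)) (Fin (n + 3)) k) = Matrix.transvection 0 1 c}

lemma A0_eq : A0 n k = T (e 0) (e 1) (e_dot_e h10) := by
  unfold A0
  have : {t : Matrix.SpecialLinearGroup (Fin (n + 3)) k |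
      ∃ c : k, (t : Matrix (Fin (n + 3)) (Fin (n + 3)) k) = Matrix.transvection 0 1 c} =
      ((T (e 0) (e 1) (e_dot_e h10) : Subgroup (SpecialLinearGroup (Fin (n + 3)) k)) :
        Set (SpecialLinearGroup (Fin (n + 3)) k)) := by
    ext t
    constructor
    · rintro ⟨c, hc⟩
      exact ⟨c, by rw [E_single, slHom_apply, hc, Matrix.transvection]⟩
    · rintro ⟨c, hc⟩
      refine ⟨c, ?_⟩
      rw [E_single, slHom_apply] at hc
      rw [hc, Matrix.transvection]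
  rw [this, Subgroup.closure_eq]

/-- The set of the statement. -/
def rootSet (n : ℕ) (k : Type*) [Field k] : Set (Subgroup (SpecialLinearGroup (Fin (n + 3)) k)) :=
  {A | ∃ g : SpecialLinearGroup (Fin (n + 3)) k, A = conjBy (A0 n k) g}

lemma conj_T {c φ : Fin N → k} {h : φ ⬝ᵥ c = 0} (g : SpecialLinearGroup (Fin N) k) :
    ∃ h' : (φ ᵥ* (g⁻¹).1) ⬝ᵥ (g.1 *ᵥ c) = 0,
      conjBy (T c φ h) g = T (g.1 *ᵥ c) (φ ᵥ* (g⁻¹).1) h' := by
  have h' : (φ ᵥ* (g⁻¹).1) ⬝ᵥ (g.1 *ᵥ c) = 0 := by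
    rw [← dotProduct_mulVec, mulVec_mulVec, sl_inv_mul_coe, one_mulVec]
    exact h
  have h'' : (φ ᵥ* slHom g⁻¹) ⬝ᵥ (slHom g *ᵥ c) = 0 := h'
  exact ⟨h', (conjBy_Tc (ρ := slHom) (h := h) g h'').trans (Tc_congr (slHom_apply g ▸ rfl)
    (slHom_apply g⁻¹ ▸ rfl) _ _)⟩

lemma mulVec_ne_zero (g : SpecialLinearGroup (Fin N) k) {c : Fin N → k} (hc : c ≠ 0) :
    g.1 *ᵥ c ≠ 0 := by
  intro h
  apply hc
  have h1 := congrArg (fun v => (g⁻¹).1 *ᵥ v) h
  simpa only [mulVec_mulVec, sl_inv_mul_coe, one_mulVec, mulVec_zero] using h1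

lemma vecMul_ne_zero (g : SpecialLinearGroup (Fin N) k) {c : Fin N → k} (hc : c ≠ 0) :
    c ᵥ* g.1 ≠ 0 := by
  intro h
  apply hc
  have h1 := congrArg (fun v => v ᵥ* (g⁻¹).1) h
  simpa only [vecMul_vecMul, sl_mul_inv_coe, vecMul_one, zero_vecMul] using h1

lemma mem_rootSet {A : Subgroup (SpecialLinearGroup (Fin (n + 3)) k)} :
    A ∈ rootSet n k ↔ ∃ (c φ : Fin (n + 3) → k) (h : φ ⬝ᵥ c = 0), c ≠ 0 ∧ φ ≠ 0 ∧ A = T c φ h := by
  constructor
  · rintro ⟨g, rfl⟩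
    rw [A0_eq]
    obtain ⟨h', e1⟩ := conj_T (c := e 0) (φ := e 1) (h := e_dot_e h10) g
    exact ⟨_, _, h', mulVec_ne_zero g (e_ne_zero 0), vecMul_ne_zero _ (e_ne_zero 1), e1⟩
  · rintro ⟨c, φ, h, hc, hφ, rfl⟩
    obtain ⟨x, l, m, hl, hm, e1, e2⟩ := exists_move h01 hc hφ h
    refine ⟨x, ?_⟩
    rw [A0_eq]
    obtain ⟨h', e3⟩ := conj_T (c := e 0) (φ := e 1) (h := e_dot_e h10) x
    have e4 : T (x.1 *ᵥ e 0) (e 1 ᵥ* (x⁻¹).1) h' = T (l • c) (m • φ) (by rw [← e1, ← e2]; exact h') :=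
      Tc_congr e1 e2 _ _
    exact (Tc_smul hl hm _).symm.trans (e4.symm.trans e3.symm)

lemma T_mem_rootSet {c φ : Fin (n + 3) → k} (h : φ ⬝ᵥ c = 0) (hc : c ≠ 0) (hφ : φ ≠ 0) :
    T c φ h ∈ rootSet n k :=
  mem_rootSet.2 ⟨c, φ, h, hc, hφ, rfl⟩

lemma T_ne_bot {c φ : Fin N → k} {h : φ ⬝ᵥ c = 0} (hc : c ≠ 0) (hφ : φ ≠ 0) : T c φ h ≠ ⊥ := by
  intro e1
  have h1 : tv c φ h 1 ∈ T c φ h := ⟨1, rfl⟩
  rw [e1, Subgroup.mem_bot] at h1
  have h2 := congrArg Subtype.val h1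
  have h3 : (1 : Matrix (Fin N) (Fin N) k) + (1 : k) • E c φ = 1 := h2
  have h4 : E c φ = 0 := by simpa using h3
  exact E_ne_zero hc hφ h4

/-- The case distinction for a pair. -/
lemma pair_cases {c φ c' φ' : Fin (n + 3) → k} {h : φ ⬝ᵥ c = 0} {h' : φ' ⬝ᵥ c' = 0} (hc : c ≠ 0)
    (hφ : φ ≠ 0) (hc' : c' ≠ 0) (hφ' : φ' ≠ 0) :
    ⁅T c φ h, T c' φ' h'⁆ = ⊥ ∨ IsRankOnePair (T c φ h) (T c' φ' h') ∨
      RootCommutatorCase (rootSet n k) (T c φ h) (T c' φ' h') := by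
  by_cases hα : φ ⬝ᵥ c' = 0 <;> by_cases hβ : φ' ⬝ᵥ c = 0
  · exact Or.inl (comm_bot slHom_inj hα hβ)
  · refine Or.inr (Or.inr (commutatorCase_symm ?_))
    exact commutator_case slHom_inj hα hβ (full _ _ h') (full _ _ h) (full _ _ hα)
      (T_mem_rootSet hα hc' hφ)
  · refine Or.inr (Or.inr ?_)
    exact commutator_case slHom_inj hβ hα (full _ _ h) (full _ _ h') (full _ _ hβ)
      (T_mem_rootSet hβ hc hφ')
  · exact Or.inr (Or.inl (rankOne slHom_inj hα hβ (full _ _ h) (full _ _ h')))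

theorem isRootSet : IsRootSubgroupSet (rootSet n k) where
  commutative := by
    intro A hA
    obtain ⟨c, φ, h, -, -, rfl⟩ := mem_rootSet.1 hA
    exact Tc_isMulComm slHom_inj
  ne_bot := by
    intro A hA
    obtain ⟨c, φ, h, hc, hφ, rfl⟩ := mem_rootSet.1 hA
    exact T_ne_bot hc hφ
  generates := by
    rw [eq_top_iff, ← Cfsg.Agent.Lib.Classical.Transvections.closure_transvections_eq_top,
      Subgroup.closure_le]
    rintro _ ⟨i, j, hij, a, rfl⟩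
    have hji : e (k := k) j ⬝ᵥ e i = 0 := e_dot_e hij.symm
    have h1 : T (e i) (e j) hji ∈ rootSet n k := T_mem_rootSet hji (e_ne_zero i) (e_ne_zero j)
    have h2 : SpecialLinearGroup.transvection hij a ∈ T (e i) (e j) hji :=
      ⟨a, by rw [E_single]; rfl⟩
    exact (le_iSup₂_of_le (f := fun (A : Subgroup _) (_ : A ∈ rootSet n k) => A) _ h1 le_rfl) h2
  conj_mem := by
    rintro A ⟨g, rfl⟩ g'
    exact ⟨g' * g, RankOne.conjBy_conjBy _ _ _⟩
  pair := by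
    intro A hA B hB
    obtain ⟨c, φ, h, hc, hφ, rfl⟩ := mem_rootSet.1 hA
    obtain ⟨c', φ', h', hc', hφ', rfl⟩ := mem_rootSet.1 hB
    exact pair_cases hc hφ hc' hφ'

theorem isClass : IsRootSubgroupClass (rootSet n k) := by
  refine ⟨isRootSet, ⟨_, 1, rfl⟩, ?_⟩
  rintro _ ⟨g, rfl⟩ _ ⟨g', rfl⟩
  refine ⟨g' * g⁻¹, ?_⟩
  rw [RankOne.conjBy_conjBy, inv_mul_cancel_right]

lemma T_ne {c φ c' φ' : Fin N → k} {h : φ ⬝ᵥ c = 0} {h' : φ' ⬝ᵥ c' = 0} (hc : c ≠ 0) (hφ : φ ≠ 0)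
    {i j : Fin N} (hi : c' i ≠ 0) (hj : φ' j ≠ 0) (h0 : c i = 0 ∨ φ j = 0) : T c φ h ≠ T c' φ' h' := by
  intro e1
  have h1 : tv c' φ' h' 1 ∈ T c φ h := by
    rw [e1]
    exact ⟨1, rfl⟩
  obtain ⟨t, ht⟩ := h1
  have h2 : (1 : Matrix (Fin N) (Fin N) k) + (1 : k) • E c' φ' = 1 + t • E c φ := ht
  have h3 : (1 : k) • E c' φ' = t • E c φ := add_left_cancel h2
  have h4 := congrFun (congrFun h3 i) j
  simp only [Matrix.smul_apply, vecMulVec_apply, smul_eq_mul, one_mul] at h4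
  rcases h0 with h0 | h0
  · rw [h0] at h4
    simp only [zero_mul, mul_zero] at h4
    exact (mul_ne_zero hi hj) h4
  · rw [h0] at h4
    simp only [mul_zero] at h4
    exact (mul_ne_zero hi hj) h4

theorem nondegenerate : IsNondegenerateRootSet (rootSet n k) := by
  have m1 : T (e 0) (e 1) (e_dot_e (k := k) (h10 (n := n))) ∈ rootSet n k :=
    T_mem_rootSet _ (e_ne_zero _) (e_ne_zero _)
  have m2 : T (e 0) (e 2) (e_dot_e (k := k) (h20 (n := n))) ∈ rootSet n k :=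
    T_mem_rootSet _ (e_ne_zero _) (e_ne_zero _)
  have m3 : T (e 1) (e 0) (e_dot_e (k := k) (h01 (n := n))) ∈ rootSet n k :=
    T_mem_rootSet _ (e_ne_zero _) (e_ne_zero _)
  have m4 : T (e 1) (e 2) (e_dot_e (k := k) (h21 (n := n))) ∈ rootSet n k :=
    T_mem_rootSet _ (e_ne_zero _) (e_ne_zero _)
  refine ⟨⟨_, m1, _, m2, ?_, ?_⟩, ⟨_, m1, _, m3, ?_⟩, ⟨_, m1, _, m4, ?_⟩⟩
  · refine T_ne (e_ne_zero _) (e_ne_zero _) (i := 0) (j := 2) (by simp [e]) (by simp [e]) (Or.inr ?_)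
    simp [e, h21.symm]
  · exact comm_bot slHom_inj (e_dot_e h10) (e_dot_e h20)
  · refine rankOne slHom_inj ?_ ?_ (full _ _ (e_dot_e h10)) (full _ _ (e_dot_e h01))
    · rw [e_dot_e_self]; exact one_ne_zero
    · rw [e_dot_e_self]; exact one_ne_zero
  · exact commutator_case slHom_inj (e_dot_e h20) (by rw [e_dot_e_self]; exact one_ne_zero)
      (full _ _ (e_dot_e h10)) (full _ _ (e_dot_e h21)) (full _ _ (e_dot_e h20))
      (T_mem_rootSet _ (e_ne_zero _) (e_ne_zero _))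

theorem isKRoot : IsKRootSubgroupSet k (rootSet n k) := by
  refine ⟨isRootSet, ?_⟩
  intro A hA B hB hr
  obtain ⟨c, φ, h, hc, hφ, rfl⟩ := mem_rootSet.1 hA
  obtain ⟨c', φ', h', hc', hφ', rfl⟩ := mem_rootSet.1 hB
  exact psl2_pair slHom_inj (alpha_ne slHom_inj hc hφ hc' hφ' (full _ _ h') hr)
    (beta_ne slHom_inj hc hφ hc' hφ' (full _ _ h) hr) (full _ _ h) (full _ _ h')

/-- A vector off two hyperplanes. -/
lemma exists_off_two {φ φ' : Fin N → k} (hφ : φ ≠ 0) (hφ' : φ' ≠ 0) :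
    ∃ v : Fin N → k, φ ⬝ᵥ v ≠ 0 ∧ φ' ⬝ᵥ v ≠ 0 := by
  obtain ⟨i, hi⟩ : ∃ i, φ i ≠ 0 := by
    by_contra h2
    push Not at h2
    exact hφ (funext h2)
  obtain ⟨j, hj⟩ : ∃ i, φ' i ≠ 0 := by
    by_contra h2
    push Not at h2
    exact hφ' (funext h2)
  by_cases h1 : φ' i = 0
  · by_cases h2 : φ j = 0
    · refine ⟨e i + e j, ?_, ?_⟩
      · rw [dotProduct_add, dot_e, dot_e, h2, add_zero]
        exact hi
      · rw [dotProduct_add, dot_e, dot_e, h1, zero_add]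
        exact hj
    · exact ⟨e j, by rwa [dot_e], by rwa [dot_e]⟩
  · exact ⟨e i, by rwa [dot_e], by rwa [dot_e]⟩

/-- A covector vanishing at `v`, not at `c`, when `c` is not a multiple of `v`. -/
lemma exists_cov_sep {v c : Fin N → k} (hv : v ≠ 0) (hc : ∀ t : k, c ≠ t • v) :
    ∃ ψ : Fin N → k, ψ ⬝ᵥ v = 0 ∧ ψ ⬝ᵥ c ≠ 0 := by
  obtain ⟨a, ha⟩ : ∃ i, v i ≠ 0 := by
    by_contra h2
    push Not at h2
    exact hv (funext h2)
  obtain ⟨b, hb⟩ : ∃ b, c b ≠ (c a / v a) * v b := by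
    by_contra h2
    push Not at h2
    exact hc (c a / v a) (funext fun i => by simpa using h2 i)
  refine ⟨v a • e b - v b • e a, ?_, ?_⟩
  · rw [sub_dotProduct, smul_dotProduct, smul_dotProduct, e_dot, e_dot]
    simp only [smul_eq_mul]
    ring
  · rw [sub_dotProduct, smul_dotProduct, smul_dotProduct, e_dot, e_dot]
    simp only [smul_eq_mul]
    intro h1
    apply hb
    field_simp
    linear_combination h1

/-- A covector vanishing at `v` and not at `c`, `c'`. -/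
lemma exists_cov_sep₂ {v c c' : Fin N → k} (hv : v ≠ 0) (hc : ∀ t : k, c ≠ t • v)
    (hc' : ∀ t : k, c' ≠ t • v) :
    ∃ ψ : Fin N → k, ψ ⬝ᵥ v = 0 ∧ ψ ⬝ᵥ c ≠ 0 ∧ ψ ⬝ᵥ c' ≠ 0 := by
  obtain ⟨u, hu, hu1⟩ := exists_cov_sep hv hc
  obtain ⟨w, hw, hw1⟩ := exists_cov_sep hv hc'
  by_cases h1 : u ⬝ᵥ c' = 0
  · by_cases h2 : w ⬝ᵥ c = 0
    · refine ⟨u + w, ?_, ?_, ?_⟩
      · rw [add_dotProduct, hu, hw, add_zero]
      · rw [add_dotProduct, h2, add_zero]
        exact hu1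
      · rw [add_dotProduct, h1, zero_add]
        exact hw1
    · exact ⟨w, hw, h2, hw1⟩
  · exact ⟨u, hu, hu1, h1⟩

theorem connected : IsConnectedFamily (FAdj (rootSet n k)) (rootSet n k) := by
  intro A hA B hB
  obtain ⟨c, φ, h, hc, hφ, rfl⟩ := mem_rootSet.1 hA
  obtain ⟨c', φ', h', hc', hφ', rfl⟩ := mem_rootSet.1 hB
  obtain ⟨v, hv, hv'⟩ := exists_off_two hφ hφ'
  have hv0 : v ≠ 0 := by
    rintro rfl
    exact hv (dotProduct_zero _)
  obtain ⟨ψ, hψ, hψ1, hψ2⟩ := exists_cov_sep₂ (v := v) (c := c) (c' := c') hv0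
    (fun t e1 => by
      have : φ ⬝ᵥ c = t * (φ ⬝ᵥ v) := by rw [e1, dotProduct_smul, smul_eq_mul]
      rw [h] at this
      have h2 : c = 0 := by
        rw [e1]
        have : t = 0 := (mul_eq_zero.1 this.symm).resolve_right hv
        rw [this, zero_smul]
      exact hc h2)
    (fun t e1 => by
      have : φ' ⬝ᵥ c' = t * (φ' ⬝ᵥ v) := by rw [e1, dotProduct_smul, smul_eq_mul]
      rw [h'] at this
      have h2 : c' = 0 := by
        rw [e1]
        have : t = 0 := (mul_eq_zero.1 this.symm).resolve_right hv'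
        rw [this, zero_smul]
      exact hc' h2)
  have hψ0 : ψ ≠ 0 := by
    rintro rfl
    exact hψ1 (zero_dotProduct _)
  have hC := T_mem_rootSet hψ hv0 hψ0
  refine Relation.ReflTransGen.tail (Relation.ReflTransGen.single
    (b := T v ψ hψ) ⟨hA, hC, ?_⟩) ⟨hC, hB, ?_⟩
  · exact rankOne slHom_inj hv hψ1 (full _ _ h) (full _ _ hψ)
  · exact rankOne slHom_inj hψ2 hv' (full _ _ hψ) (full _ _ h')

end Root

end Cfsg.Agent.Lib.Classical.TransvSL
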